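import Cfsg.Agent.O5.G2

/-!
A socle of order sixty does not give a maximal subgroup; neither does a simplex in
characteristic seven.
-/

set_option autoImplicit false
set_option linter.unusedSectionVars false

namespace Cfsg.Agent.O5

open Module Matrix H1.Spin5 Equiv

variable {F : Type*} [Field F] {Γ : Type*} [Group Γ]

theorem simple60 [Finite Γ] [IsSimpleGroup Γ] (h : Nat.card Γ = 60) :
    Nonempty (Γ ≃* alternatingGroup (Fin 5)) := by
  have : Fact (Nat.Prime 2) := ⟨Nat.prime_two⟩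
  obtain ⟨P⟩ : Nonempty (Sylow 2 Γ) := inferInstance
  have hP : Nat.card P = 2 ^ 2 := H6.SmallId.card_sylow_of (n := 15) P h (by norm_num)
  have h1 : Subgroup.normalizer (P : Set Γ) ≠ ⊤ := fun e => by
    rcases (Subgroup.normalizer_eq_top_iff.1 e).eq_bot_or_eq_top with e | e <;>
      simp [e, h] at hP
  have h2 := card_dvd_fact h1
  have h3 : (Subgroup.normalizer (P : Set Γ)).index ∣ 15 :=
    index_dvd (hP ▸ Subgroup.card_dvd_of_le Subgroup.le_normalizer) h
  refine H6.MG.iso_alt (Subgroup.normalizer (P : Set Γ)) ?_ (by norm_num) (by rw [h]; rfl)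
  by_contra c
  have h4 : (Subgroup.normalizer (P : Set Γ)).index = 15 := by
    have := Nat.le_of_dvd (by norm_num) h3
    rw [h] at h2
    generalize (Subgroup.normalizer (P : Set Γ)).index = n at *
    interval_cases n <;> simp_all [Nat.factorial]
  have h5 := (Subgroup.normalizer (P : Set Γ)).card_mul_index
  rw [h4, h] at h5
  have h6 : P.1 = Subgroup.normalizer (P : Set Γ) :=
    Subgroup.eq_of_le_of_card_ge Subgroup.le_normalizer (by
      rw [hP]; exact Nat.le_of_mul_le_mul_right h5.le (by norm_num))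
  refine H6.MG.burnside (H6.MG.not_comm_of_card (by rw [h]; norm_num)) P (by rw [h]; norm_num)
    (h6 ▸ fun a ha b hb => congrArg Subtype.val
      ((IsPGroup.isMulCommutative_of_card_eq_prime_sq hP).is_comm.comm ⟨b, hb⟩ ⟨a, ha⟩))

/-- a product of two transpositions -/
def al {n : ℕ} (a b c d : Fin n) (h : a ≠ b := by decide) (h' : c ≠ d := by decide) :
    alternatingGroup (Fin n) := ⟨swap a b * swap c d, by simp [Perm.mem_alternatingGroup, h, h']⟩

/-- `n` permutes the vectors `y i` as `σ` -/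
def Pm {I : Type*} (y : I → W F) (n : GW F) (σ : Perm I) : Prop := ∀ i, n (y i) = y (σ i)

theorem Pm.mul {I : Type*} {y : I → W F} {n n' : GW F} {σ σ' : Perm I} (h : Pm y n σ)
    (h' : Pm y n' σ') : Pm y (n * n') (σ * σ') := fun i => by
  rw [LinearEquiv.mul_apply, h', h]; rfl

theorem Pm.inv {I : Type*} {y : I → W F} {n : GW F} {σ : Perm I} (h : Pm y n σ) :
    Pm y n⁻¹ σ⁻¹ := fun i => n.injective (by rw [h]; simp)

theorem Pm.pow {I : Type*} {y : I → W F} {n : GW F} {σ : Perm I} (h : Pm y n σ) (k : ℕ) :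
    Pm y (n ^ k) (σ ^ k) := by
  induction k with
  | zero => exact fun _ => rfl
  | succ k ih => rw [pow_succ, pow_succ]; exact ih.mul h

/-- the stabiliser of a vector -/
def stb (ρ : Γ →* GW F) (x : W F) : Subgroup Γ := (MulAction.stabilizer (GW F) x).comap ρ

theorem mem_stb {ρ : Γ →* GW F} {x : W F} {g : Γ} : g ∈ stb ρ x ↔ ρ g x = x := Iff.rfl

theorem sub_of_pm {I : Type*} {y : I → W F} {n : GW F} {ε : F} (e : ε * ε = 1)
    (h : ∀ i, ∃ j, n (y i) = ε • y j) (i j : I) : ∃ k l, n (y i - y j) = y k - y l := by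
  obtain ⟨k, a⟩ := h i
  obtain ⟨l, b⟩ := h j
  rcases mul_self_eq_one_iff.1 e with rfl | rfl
  · exact ⟨k, l, by simp [a, b]⟩
  · exact ⟨l, k, by simp [a, b, neg_add_eq_sub]⟩

variable {p : ℕ} {ρ : Γ →* GW F} {N : Subgroup (GW F)}

namespace Cx

variable (h : Cx p ρ N)
include h

theorem p_le [Fintype F] : p ≤ Fintype.card F := by
  have := h.char
  obtain ⟨n, -, hn⟩ := FiniteField.card F p
  rw [hn]; exact Nat.le_self_pow n.ne_zero p

theorem five_le (h3 : (3 : F) ≠ 0) : 5 ≤ p := by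
  have := h.char
  refine h.prime.five_le_of_ne_two_of_ne_three h.ne2 ?_
  rintro rfl
  exact h3 (by exact_mod_cast CharP.cast_eq_zero F 3)

theorem stb_ne {x : W F} (h0 : x ≠ 0) : stb ρ x ≠ ⊤ := fun e =>
  h0 (h.fix_zero fun g => e.ge (Subgroup.mem_top g))

theorem no_d10 [Fintype F] [Finite Γ] [IsSimpleGroup Γ] (hc : Nat.card Γ = 60) {g t t' : Γ}
    (g5 : g ^ 5 = 1) (g1 : g ≠ 1) (t2 : t ^ 2 = 1) (t1 : t ≠ 1) (ht : t * g * t⁻¹ = g⁻¹)
    (u2 : t' * t' = 1) (u1 : t' ≠ 1) (v3 : (t' * g) ^ 3 = 1) (v1 : t' * g ≠ 1) : False := by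
  obtain ⟨A, a, a5⟩ := h.odd_lift (by decide) g5
  have m1 : t' ∈ Subgroup.closure {t', g} := Subgroup.subset_closure (by simp)
  have m2 : g ∈ Subgroup.closure {t', g} := Subgroup.subset_closure (by simp)
  have x0 := h.wp_ne (top_of (d := 3 * 5) (m := 4) (Nat.Coprime.mul_dvd_of_dvd_of_dvd (by norm_num)
    (prime_dvd (mul_mem m1 m2) (by norm_num) v3 v1) (prime_dvd m2 (by norm_num) g5 g1)) hc
    (by decide)) u2 u1 a
  have gK : g ∈ stb ρ (wp A) := a.fix_wp h.two
  have i6 := index_dvd (d := 2 * 5) (m := 6) (Nat.Coprime.mul_dvd_of_dvd_of_dvd (by norm_num)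
    (prime_dvd (K := stb ρ (wp A)) (h.fix_wp_odd (by decide) a a5 ht) (by norm_num) t2 t1)
    (prime_dvd gK (by norm_num) g5 g1)) hc
  have i7 := Nat.le_of_dvd (by norm_num) i6
  have cK : Nat.card (stb ρ (wp A)) = 10 := by
    have a := card_dvd_fact (h.stb_ne x0)
    have b := (stb ρ (wp A)).card_mul_index
    rw [hc] at a b
    generalize (stb ρ (wp A)).index = n at *
    interval_cases n <;> simp_all [Nat.factorial]
    omega
  obtain ⟨y, c, c0, h3, y0, G1, G2, gy, inj, sum, hN⟩ := h.simplex x0 (fun _ a => a) i7 gK g5 g1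
    (by rw [hc]; decide)
  have h6 : (6 : F) ≠ 0 := by
    rw [show (6 : F) = 2 * 3 by norm_num]; exact mul_ne_zero h.two h3
  obtain ⟨n, hn, e⟩ := h.eq3 y (mul_ne_zero h6 c0)
    (fun i j a => Q_sub_of h.two (G1 i) (G1 j) (G2 i j a) (by ring))
    (lt_of_lt_of_le (by decide) (Nat.pow_le_pow_left ((h.five_le h3).trans h.p_le) 3))
    (fun n hn => let ⟨_, a, b⟩ := hN n hn; sub_of_pm a b) (a := 1) (b := 2) (d := 3)
    (by decide) (by decide)
  have pn : Pm y n (swap 1 2 * swap 2 3) := fun i => smul_right_injective _ h6 (by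
    have := Finset.sum_congr (s₁ := Finset.univ) rfl fun j _ => e i j
    rw [← map_sum, Finset.sum_sub_distrib, Finset.sum_sub_distrib, sum,
      Equiv.sum_comp (swap 2 3) fun j => y (swap 1 2 j), Equiv.sum_comp (swap 1 2) y, sum] at this
    simpa [← Nat.cast_smul_eq_nsmul F] using this)
  have pg : Pm y (ρ g) (swap 1 2 * swap 2 3 * swap 3 4 * swap 4 5) := fun i => by
    rw [gy]; congr 1; revert i; decide
  obtain ⟨g', hg'⟩ := h.norm n hn g
  have pm := ((pn.mul pg).mul pn.inv).mul pg.inv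
  rw [← hg', ← map_inv, ← map_mul] at pm
  have mK : g' * g⁻¹ ∈ stb ρ (wp A) := by rw [mem_stb, ← y0, pm]; congr 1
  have := pm.pow 10 1
  rw [← map_pow, show (g' * g⁻¹) ^ 10 = 1 from cK ▸ congrArg Subtype.val
    (pow_card_eq_one' (x := (⟨_, mK⟩ : stb ρ (wp A)))), map_one] at this
  exact absurd (inj this) (by decide +kernel)

theorem no60 [Fintype F] [Finite Γ] [IsSimpleGroup Γ] (hc : Nat.card Γ = 60) : False := by
  obtain ⟨e⟩ := simple60 hc
  have := e.symm.isSimpleGroup
  exact (h.comp e).no_d10 (by rw [← hc, Nat.card_congr e.toEquiv])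
    (g := al 0 1 1 2 * al 2 3 3 4) (t := al 1 4 2 3) (t' := al 0 1 2 3)
    (by decide +kernel) (by decide +kernel) (by decide +kernel) (by decide +kernel)
    (by decide +kernel) (by decide +kernel) (by decide +kernel) (by decide +kernel)
    (by decide +kernel)

/-- no simplex in characteristic seven -/
theorem no_simplex7 [Fintype F] [Finite Γ] (h7 : p = 7) {x : W F} (h0 : x ≠ 0)
    (hi : (stb ρ x).index ≤ 6) {g : Γ} (hg : g ∈ stb ρ x) (g5 : g ^ 5 = 1) (g1 : g ≠ 1)
    (h25 : ¬ 5 ^ 2 ∣ Nat.card Γ) : False := by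
  obtain ⟨y, c, c0, -, -, G1, G2, -, -, -, hN⟩ := h.simplex h0 (fun _ a => a) hi hg g5 g1 h25
  have := h.char
  have z7 : (7 : F) = 0 := by subst h7; exact_mod_cast CharP.cast_eq_zero F 7
  obtain ⟨n, hn, e⟩ := h.eq3 (fun i : Option (Fin 6) => i.elim 0 y) (neg_ne_zero.2 c0) (by
      rintro (_ | i) (_ | j) a
      · exact absurd rfl a
      · exact Q_sub_of h.two (map_zero _) (G1 j) (c := 0) (by simp) (by linear_combination c * z7)
      · exact Q_sub_of h.two (G1 i) (map_zero _) (map_zero _) (by linear_combination c * z7)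
      · exact Q_sub_of h.two (G1 i) (G1 j) (G2 i j fun e => a (e ▸ rfl))
          (by linear_combination 2 * c * z7))
    (lt_of_lt_of_le (by decide) (Nat.pow_le_pow_left (h7.ge.trans h.p_le) 3))
    (fun n hn => let ⟨_, a, b⟩ := hN n hn; sub_of_pm a (by
      rintro (_ | i)
      · exact ⟨none, by simp⟩
      · exact (b i).elim fun j e => ⟨some j, e⟩)) (a := none) (b := some 0) (d := some 1)
    (by decide) (by decide)
  obtain ⟨ε, e1, e2⟩ := hN n hn
  obtain ⟨j, hj⟩ := e2 2
  have k : n (y 2 - 0) = y 2 - y 0 := e (some 2) none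
  obtain ⟨l, l0, l2, lj⟩ : ∃ l, 0 ≠ l ∧ 2 ≠ l ∧ j ≠ l := by clear hj; revert j; decide
  have := congrArg (B · (y l)) (hj.symm.trans (by simpa using k))
  simp [G2 _ _ l0, G2 _ _ l2, G2 _ _ lj, c0] at this
  simp [this] at e1

end Cx

end Cfsg.Agent.O5
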