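import Cfsg.Agent.O5.Pi
import Cfsg.Agent.H6.MI1

/-!
Case B: definitions (rotations, frames) and the standing hypothesis for an abstract group.
-/

set_option autoImplicit false
set_option linter.unusedSectionVars false

namespace Cfsg.Agent.O5

open Module Subgroup Cfsg.Agent.H4.CABasic

variable {k : Type*} [Field k]

/-- hyperbolic pair -/
structure HP (e f : W k) : Prop where
  qe : Q e = 0
  qf : Q f = 0
  b : B e f = 1

/-- the plane spanned by a pair -/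
def Pl (e f : W k) : Submodule k (W k) := Submodule.span k {e, f}

theorem mem_Pl {e f v : W k} : v ∈ Pl e f ↔ ∃ a b : k, a • e + b • f = v := Submodule.mem_span_pair

theorem left_mem_Pl (e f : W k) : e ∈ Pl e f := mem_Pl.2 ⟨1, 0, by simp⟩

theorem right_mem_Pl (e f : W k) : f ∈ Pl e f := mem_Pl.2 ⟨0, 1, by simp⟩

theorem Pl_comm (e f : W k) : Pl e f = Pl f e := by rw [Pl, Pl, Set.pair_comm]

namespace HP

variable {e f : W k}

theorem symm (h : HP e f) : HP f e := ⟨h.qf, h.qe, by rw [B_comm, h.b]⟩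

theorem ee (h : HP e f) : B e e = 0 := by rw [B_self, h.qe, mul_zero]

theorem ff (h : HP e f) : B f f = 0 := h.symm.ee

theorem fe (h : HP e f) : B f e = 1 := h.symm.b

theorem ne (h : HP e f) : e ≠ 0 := fun c => by have := h.b; simp [c] at this

theorem map (h2 : (2 : k) ≠ 0) (h : HP e f) {g : GW k} (hg : Iso g) : HP (g e) (g f) :=
  ⟨by rw [hg.Q_eq h2, h.qe], by rw [hg.Q_eq h2, h.qf], by rw [hg, h.b]⟩

theorem smul (h : HP e f) {c : k} (hc : c ≠ 0) : HP (c • e) (c⁻¹ • f) :=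
  ⟨by rw [Q_smul, h.qe, mul_zero], by rw [Q_smul, h.qf, mul_zero], by simp [h.b, hc]⟩

/-- the component orthogonal to the plane -/
theorem perp (h : HP e f) (v : W k) : B (v - B v f • e - B v e • f) e = 0 ∧
    B (v - B v f • e - B v e • f) f = 0 := by
  simp [h.ee, h.ff, h.b, h.fe]

theorem eq_of_mem (h : HP e f) {v : W k} (hv : v ∈ Pl e f) : v = B v f • e + B v e • f := by
  obtain ⟨a, b, rfl⟩ := mem_Pl.1 hv
  simp [h.ee, h.ff, h.b, h.fe]

theorem eq_zero (h : HP e f) {v : W k} (hv : v ∈ Pl e f) (h1 : B v e = 0) (h2 : B v f = 0) :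
    v = 0 := by rw [h.eq_of_mem hv, h1, h2]; simp

theorem mem_of_perp (h2 : (2 : k) ≠ 0) (h : HP e f) {v : W k}
    (hv : ∀ y, B y e = 0 → B y f = 0 → B v y = 0) : v ∈ Pl e f := by
  refine mem_Pl.2 ⟨B v f, B v e, (sub_eq_zero.1 (B_nd h2 fun y => ?_)).symm⟩
  have h3 := h.perp v
  have h4 := h.perp y
  have h5 := hv _ h4.1 h4.2
  have : y = (y - B y f • e - B y e • f) + B y f • e + B y e • f := by abel
  rw [this, map_add, map_add, map_smul, map_smul, ← sub_sub, h3.1, h3.2]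
  simp only [map_sub, map_smul, LinearMap.sub_apply, LinearMap.smul_apply, smul_eq_mul, h.ee, h.ff,
    h.b, h.fe, B_comm e y, B_comm f y] at h5 ⊢
  linear_combination h5

theorem Q_comb (h : HP e f) (a b : k) : Q (a • e + b • f) = a * b := by
  rw [Q_add, Q_smul, Q_smul, h.qe, h.qf]; simp [h.b]; ring

theorem sing (h : HP e f) {v : W k} (hv : v ∈ Pl e f) (hq : Q v = 0) :
    (∃ c : k, v = c • e) ∨ ∃ c : k, v = c • f := by
  obtain ⟨a, b, rfl⟩ := mem_Pl.1 hv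
  rw [h.Q_comb] at hq
  rcases mul_eq_zero.1 hq with rfl | rfl
  · exact Or.inr ⟨b, by simp⟩
  · exact Or.inl ⟨a, by simp⟩

theorem li (h : HP e f) : LinearIndependent k ![e, f] := by
  rw [LinearIndependent.pair_iff]
  intro s t hst
  have h1 := congrArg (fun v => B v e) hst
  have h2 := congrArg (fun v => B v f) hst
  simp [h.ee, h.ff, h.b, h.fe] at h1 h2
  exact ⟨h2, h1⟩

theorem finrank_Pl (h : HP e f) : finrank k (Pl e f) = 2 := by
  have := finrank_span_eq_card h.li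
  rwa [Matrix.range_cons_cons_empty] at this

/-- a hyperbolic pair inside a plane is, up to scaling and order, the given one -/
theorem pair_cases (h : HP e f) {e' f' : W k} (h' : HP e' f') (h1 : e' ∈ Pl e f) (h2 : f' ∈ Pl e f) :
    ∃ c : k, c ≠ 0 ∧ ((e' = c • e ∧ f' = c⁻¹ • f) ∨ (e' = c • f ∧ f' = c⁻¹ • e)) := by
  have hb := h'.b
  rcases h.sing h1 h'.qe with ⟨c, rfl⟩ | ⟨c, rfl⟩ <;> rcases h.sing h2 h'.qf with ⟨d, rfl⟩ | ⟨d, rfl⟩ <;>
    simp [h.ee, h.ff, h.b, h.fe] at hb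
  · exact ⟨c, right_ne_zero_of_mul_eq_one hb, Or.inl ⟨rfl, by rw [eq_inv_of_mul_eq_one_left hb]⟩⟩
  · exact ⟨c, right_ne_zero_of_mul_eq_one hb, Or.inr ⟨rfl, by rw [eq_inv_of_mul_eq_one_left hb]⟩⟩

theorem Pl_eq (h : HP e f) {e' f' : W k} (h' : HP e' f') (h1 : e' ∈ Pl e f) (h2 : f' ∈ Pl e f) :
    Pl e' f' = Pl e f :=
  Submodule.eq_of_le_of_finrank_eq (Submodule.span_le.2 (by
    rintro _ (rfl | rfl) <;> assumption)) (by rw [h.finrank_Pl, h'.finrank_Pl])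

theorem plane3 (h : HP e f) {e' f' v : W k} (h' : HP e' f') (h1 : e' ∈ Pl e f) (h2 : f' ∈ Pl e f)
    (h3 : v ∈ Pl e f) (h4 : B v e' = 0) (h5 : B v f' = 0) : v = 0 :=
  h'.eq_zero (by rwa [h.Pl_eq h' h1 h2]) h4 h5

end HP

/-- `g` acts diagonally on the pair -/
def Dl (e f : W k) (g : GW k) (c : k) : Prop := c ≠ 0 ∧ g e = c • e ∧ g f = c⁻¹ • f

/-- `g` swaps the two singular points of the plane -/
def Sw (e f : W k) (g : GW k) (c : k) : Prop := c ≠ 0 ∧ g e = c • f ∧ g f = c⁻¹ • e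

section DlSw

variable {e f : W k} {g g' : GW k} {c c' : k}

theorem Dl.one : Dl e f 1 1 := ⟨one_ne_zero, by simp, by simp⟩

theorem Dl.mul (h : Dl e f g c) (h' : Dl e f g' c') : Dl e f (g * g') (c * c') :=
  ⟨mul_ne_zero h.1 h'.1, by simp [h.2.1, h'.2.1, smul_smul, mul_comm],
    by simp [h.2.2, h'.2.2, smul_smul, mul_comm]⟩

theorem Dl.inv (h : Dl e f g c) : Dl e f g⁻¹ c⁻¹ :=
  ⟨inv_ne_zero h.1, g.injective (by simp [h.2.1, smul_smul, h.1]),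
    g.injective (by simp [h.2.2, smul_smul, h.1])⟩

theorem Dl.pow (h : Dl e f g c) (n : ℕ) : Dl e f (g ^ n) (c ^ n) := by
  induction n with
  | zero => simpa using Dl.one
  | succ n ih => rw [pow_succ, pow_succ]; exact ih.mul h

theorem Dl.symm (h : Dl e f g c) : Dl f e g c⁻¹ := ⟨inv_ne_zero h.1, h.2.2, by simp [h.2.1]⟩

theorem Dl.uniq (he : e ≠ 0) (h : Dl e f g c) (h' : Dl e f g c') : c = c' :=
  smul_left_injective k he (h.2.1.symm.trans h'.2.1)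

theorem Dl.mul_sw (h : Dl e f g c) (h' : Sw e f g' c') : Sw e f (g * g') (c⁻¹ * c') :=
  ⟨mul_ne_zero (inv_ne_zero h.1) h'.1, by simp [h.2.2, h'.2.1, smul_smul, mul_comm],
    by simp [h.2.1, h'.2.2, smul_smul, mul_comm]⟩

theorem Sw.mul_dl (h : Sw e f g c) (h' : Dl e f g' c') : Sw e f (g * g') (c * c') :=
  ⟨mul_ne_zero h.1 h'.1, by simp [h.2.1, h'.2.1, smul_smul, mul_comm],
    by simp [h.2.2, h'.2.2, smul_smul, mul_comm]⟩

theorem Sw.mul (h : Sw e f g c) (h' : Sw e f g' c') : Dl e f (g * g') (c⁻¹ * c') :=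
  ⟨mul_ne_zero (inv_ne_zero h.1) h'.1, by simp [h.2.2, h'.2.1, smul_smul, mul_comm],
    by simp [h.2.1, h'.2.2, smul_smul, mul_comm]⟩

theorem Sw.inv (h : Sw e f g c) : Sw e f g⁻¹ c :=
  ⟨h.1, g.injective (by simp [h.2.2, smul_smul, h.1]),
    g.injective (by simp [h.2.1, smul_smul, h.1])⟩

theorem Dl.not_sw (hp : HP e f) (h : Dl e f g c) (h' : Sw e f g c') : False := by
  have := congrArg (fun v => B v f) (h.2.1.symm.trans h'.2.1)
  simp [hp.b, hp.ff] at this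
  exact h.1 this

theorem Dl.conj (h : Dl e f g c) (γ : GW k) : Dl (γ e) (γ f) (γ * g * γ⁻¹) c :=
  ⟨h.1, by simp [h.2.1], by simp [h.2.2]⟩

theorem dl_or_sw (h2 : (2 : k) ≠ 0) (hp : HP e f) (hg : Iso g) (h1 : g e ∈ Pl e f)
    (h3 : g f ∈ Pl e f) : ∃ c, Dl e f g c ∨ Sw e f g c := by
  obtain ⟨c, hc, h | h⟩ := hp.pair_cases (hp.map h2 hg) h1 h3
  exacts [⟨c, Or.inl ⟨hc, h⟩⟩, ⟨c, Or.inr ⟨hc, h⟩⟩]

theorem Dl.perp (hg : Iso g) (h : Dl e f g c) {y : W k} (h1 : B y e = 0) (h2 : B y f = 0) :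
    B (g y) e = 0 ∧ B (g y) f = 0 := by
  rw [hg.swap, hg.swap, h.inv.2.1, h.inv.2.2]; simp [h1, h2]

theorem Sw.perp (hg : Iso g) (h : Sw e f g c) {y : W k} (h1 : B y e = 0) (h2 : B y f = 0) :
    B (g y) e = 0 ∧ B (g y) f = 0 := by
  rw [hg.swap, hg.swap, h.inv.2.1, h.inv.2.2]; simp [h1, h2]

end DlSw

/-- `g` is the rotation with eigenvalue `a` of the plane of the hyperbolic pair `e, f` -/
structure RT (e f : W k) (a : k) (g : GW k) : Prop where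
  hp : HP e f
  dl : Dl e f g a
  fix : ∀ y, B y e = 0 → B y f = 0 → g y = y

namespace RT

variable {e f : W k} {a a' : k} {g g' : GW k}

theorem apply (h : RT e f a g) (v : W k) :
    g v = v + ((a - 1) * B v f) • e + ((a⁻¹ - 1) * B v e) • f := by
  have h1 := h.fix _ (h.hp.perp v).1 (h.hp.perp v).2
  rw [map_sub, map_sub, map_smul, map_smul, h.dl.2.1, h.dl.2.2] at h1
  linear_combination (norm := module) h1

theorem sub_mem (h : RT e f a g) (v : W k) : g v - v ∈ Pl e f :=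
  mem_Pl.2 ⟨_, _, by rw [h.apply v]; abel⟩

theorem eig_mem (h : RT e f a g) {v : W k} {c : k} (hc : c ≠ 1) (hv : g v = c • v) : v ∈ Pl e f := by
  have := h.sub_mem v
  rw [hv, ← one_smul k v, smul_smul, ← sub_smul, mul_one] at this
  exact (Submodule.smul_mem_iff _ (sub_ne_zero.2 hc)).1 this

theorem fix_iff (h : RT e f a g) (ha : a ≠ 1) {v : W k} : g v = v ↔ B v e = 0 ∧ B v f = 0 := by
  refine ⟨fun hv => ?_, fun hv => h.fix v hv.1 hv.2⟩
  have h0 := h.apply v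
  rw [hv, add_assoc, left_eq_add] at h0
  have h1 := congrArg (fun w => B w e) h0
  have h2 := congrArg (fun w => B w f) h0
  simp [h.hp.ee, h.hp.ff, h.hp.b, h.hp.fe, sub_eq_zero, ha] at h1 h2
  exact ⟨h1, h2⟩

theorem ext (h : RT e f a g) (h' : RT e f a g') : g = g' :=
  LinearEquiv.ext fun v => by rw [h.apply, h'.apply]

theorem one (h : HP e f) : RT e f 1 1 := ⟨h, Dl.one, fun _ _ _ => rfl⟩

theorem eq_one_iff (h : RT e f a g) : g = 1 ↔ a = 1 :=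
  ⟨fun c => h.dl.uniq h.hp.ne (c ▸ Dl.one), fun c => h.ext (c ▸ one h.hp)⟩

theorem mul (h : RT e f a g) (h' : RT e f a' g') : RT e f (a * a') (g * g') :=
  ⟨h.hp, h.dl.mul h'.dl, fun y h1 h2 => by
    rw [LinearEquiv.mul_apply, h'.fix y h1 h2, h.fix y h1 h2]⟩

theorem inv (h : RT e f a g) : RT e f a⁻¹ g⁻¹ :=
  ⟨h.hp, h.dl.inv, fun y h1 h2 => g.injective (by simp [h.fix y h1 h2])⟩

theorem pow (h : RT e f a g) (n : ℕ) : RT e f (a ^ n) (g ^ n) := by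
  induction n with
  | zero => simpa using one h.hp
  | succ n ih => rw [pow_succ, pow_succ]; exact ih.mul h

theorem symm (h : RT e f a g) : RT f e a⁻¹ g := ⟨h.hp.symm, h.dl.symm, fun y h1 h2 => h.fix y h2 h1⟩

theorem conj (h2 : (2 : k) ≠ 0) (h : RT e f a g) {γ : GW k} (hγ : Iso γ) :
    RT (γ e) (γ f) a (γ * g * γ⁻¹) :=
  ⟨h.hp.map h2 hγ, h.dl.conj γ, fun y h1 h3 => by
    rw [LinearEquiv.mul_apply, LinearEquiv.mul_apply, h.fix]
    · simp
    · rw [hγ.inv.swap, inv_inv, h1]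
    · rw [hγ.inv.swap, inv_inv, h3]⟩

/-- elements conjugating the rotation into a rotation of the same plane stabilise the plane -/
theorem stab (h2 : (2 : k) ≠ 0) (h : RT e f a g) (ha : a ≠ 1) {γ : GW k} (hγ : Iso γ)
    (h' : RT e f a' (γ * g * γ⁻¹)) : ∃ c, Dl e f γ c ∨ Sw e f γ c := by
  have h3 := h.conj h2 hγ
  exact dl_or_sw h2 h.hp hγ (h'.eig_mem ha h3.dl.2.1)
    (h'.eig_mem (inv_ne_one.2 ha) h3.dl.2.2)

/-- a rotation acting non-trivially on a hyperbolic pair is a rotation of its plane -/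
theorem of_dl (h : RT e f a g) {e' f' : W k} (hp : HP e' f') (h' : Dl e' f' g a') (ha : a' ≠ 1) :
    RT e' f' a' g := by
  refine ⟨hp, h', fun y h1 h2 => ?_⟩
  obtain ⟨c, hc, ⟨h3, h4⟩ | ⟨h3, h4⟩⟩ := h.hp.pair_cases hp (h.eig_mem ha h'.2.1)
    (h.eig_mem (inv_ne_one.2 ha) h'.2.2) <;> rw [h3] at h1 <;> rw [h4] at h2 <;>
    simp [hc] at h1 h2
  exacts [h.fix y h1 h2, h.fix y h2 h1]

end RT

/-- being a non-trivial rotation -/
def IsR (g : GW k) : Prop := ∃ e f a, a ≠ 1 ∧ RT e f a g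

theorem IsR.conj (h2 : (2 : k) ≠ 0) {g γ : GW k} (h : IsR g) (hγ : Iso γ) : IsR (γ * g * γ⁻¹) :=
  let ⟨_, _, a, h1, h⟩ := h; ⟨_, _, a, h1, h.conj h2 hγ⟩

theorem IsR.inv {g : GW k} (h : IsR g) : IsR g⁻¹ :=
  let ⟨_, _, _, h1, h⟩ := h; ⟨_, _, _, inv_ne_one.2 h1, h.inv⟩

/-- a frame: two orthogonal hyperbolic pairs and a unit vector -/
structure Fr (k : Type*) [Field k] where
  (e1 f1 e2 f2 e0 : W k)
  h1 : HP e1 f1
  h2 : HP e2 f2
  ee : B e2 e1 = 0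
  ef : B e2 f1 = 0
  fe : B f2 e1 = 0
  ff : B f2 f1 = 0
  q0 : Q e0 = 1
  a1 : B e0 e1 = 0
  b1 : B e0 f1 = 0
  a2 : B e0 e2 = 0
  b2 : B e0 f2 = 0

namespace Fr

variable (F : Fr k)

/-- exchange the two pairs -/
def swap : Fr k :=
  ⟨F.e2, F.f2, F.e1, F.f1, F.e0, F.h2, F.h1, by rw [B_comm, F.ee], by rw [B_comm, F.fe],
    by rw [B_comm, F.ef], by rw [B_comm, F.ff], F.q0, F.a2, F.b2, F.a1, F.b1⟩

/-- flip the second pair -/
def flip : Fr k :=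
  ⟨F.e1, F.f1, F.f2, F.e2, F.e0, F.h1, F.h2.symm, F.fe, F.ff, F.ee, F.ef, F.q0, F.a1, F.b1, F.b2,
    F.a2⟩

theorem b0 : B F.e0 F.e0 = 2 := by rw [B_self, F.q0, mul_one]

theorem eq_zero (h2 : (2 : k) ≠ 0) {v : W k} (a1 : B v F.e1 = 0) (b1 : B v F.f1 = 0)
    (a2 : B v F.e2 = 0) (b2 : B v F.f2 = 0) (a0 : B v F.e0 = 0) : v = 0 := by
  have li : LinearIndependent k ![F.e1, F.f1, F.e2, F.f2, F.e0] := by
    rw [Fintype.linearIndependent_iff]
    intro c hc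
    simp only [Fin.sum_univ_five, Matrix.cons_val] at hc
    have k1 := congrArg (fun v => B v F.e1) hc
    have k2 := congrArg (fun v => B v F.f1) hc
    have k3 := congrArg (fun v => B v F.e2) hc
    have k4 := congrArg (fun v => B v F.f2) hc
    have k5 := congrArg (fun v => B v F.e0) hc
    simp [F.h1.ee, F.h1.ff, F.h1.b, F.h1.fe, F.h2.ee, F.h2.ff, F.h2.b, F.h2.fe, F.ee, F.ef, F.fe,
      F.ff, F.a1, F.b1, F.a2, F.b2, B_comm _ F.e0, B_comm F.e1 F.e2, B_comm F.e1 F.f2,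
      B_comm F.f1 F.e2, B_comm F.f1 F.f2, F.b0, h2] at k1 k2 k3 k4 k5
    intro i; fin_cases i <;> simp [*]
  have sp := li.span_eq_top_of_card_eq_finrank' (by simp)
  refine B_nd h2 fun y => ?_
  have hy : y ∈ Submodule.span k (Set.range ![F.e1, F.f1, F.e2, F.f2, F.e0]) := by rw [sp]; trivial
  induction hy using Submodule.span_induction with
  | mem y hy => obtain ⟨i, rfl⟩ := hy; fin_cases i <;> assumption
  | zero => simp
  | add y z _ _ hy hz => rw [map_add, hy, hz, add_zero]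
  | smul c y _ hy => rw [map_smul, hy, smul_zero]

theorem dec (h2 : (2 : k) ≠ 0) (v : W k) : v = B v F.f1 • F.e1 + B v F.e1 • F.f1 + B v F.f2 • F.e2 +
    B v F.e2 • F.f2 + (B v F.e0 / 2) • F.e0 := by
  refine sub_eq_zero.1 (F.eq_zero h2 ?_ ?_ ?_ ?_ ?_) <;>
    simp [F.h1.ee, F.h1.ff, F.h1.b, F.h1.fe, F.h2.ee, F.h2.ff, F.h2.b, F.h2.fe, F.ee, F.ef, F.fe,
      F.ff, F.a1, F.b1, F.a2, F.b2, B_comm _ F.e0, B_comm F.e1 F.e2, B_comm F.e1 F.f2,
      B_comm F.f1 F.e2, B_comm F.f1 F.f2, F.b0, h2]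

end Fr

/-- `g` is diagonal in the frame -/
structure Dg (F : Fr k) (g : GW k) (a b : k) : Prop where
  d1 : Dl F.e1 F.f1 g a
  d2 : Dl F.e2 F.f2 g b
  d0 : g F.e0 = F.e0

namespace Dg

variable {F : Fr k} {g g' : GW k} {a b a' b' : k}

theorem one : Dg F 1 1 1 := ⟨Dl.one, Dl.one, rfl⟩

theorem mul (h : Dg F g a b) (h' : Dg F g' a' b') : Dg F (g * g') (a * a') (b * b') :=
  ⟨h.d1.mul h'.d1, h.d2.mul h'.d2, by rw [LinearEquiv.mul_apply, h'.d0, h.d0]⟩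

theorem inv (h : Dg F g a b) : Dg F g⁻¹ a⁻¹ b⁻¹ :=
  ⟨h.d1.inv, h.d2.inv, g.injective (by simp [h.d0])⟩

theorem pow (h : Dg F g a b) (n : ℕ) : Dg F (g ^ n) (a ^ n) (b ^ n) := by
  induction n with
  | zero => simpa using one
  | succ n ih => rw [pow_succ, pow_succ, pow_succ]; exact ih.mul h

theorem swap (h : Dg F g a b) : Dg F.swap g b a := ⟨h.d2, h.d1, h.d0⟩

theorem flip (h : Dg F g a b) : Dg F.flip g a b⁻¹ := ⟨h.d1, h.d2.symm, h.d0⟩

theorem uniq (h : Dg F g a b) (h' : Dg F g a' b') : a = a' ∧ b = b' :=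
  ⟨h.d1.uniq F.h1.ne h'.d1, h.d2.uniq F.h2.ne h'.d2⟩

theorem apply (h2 : (2 : k) ≠ 0) (h : Dg F g a b) (v : W k) :
    g v = (a * B v F.f1) • F.e1 + (a⁻¹ * B v F.e1) • F.f1 + (b * B v F.f2) • F.e2 +
      (b⁻¹ * B v F.e2) • F.f2 + (B v F.e0 / 2) • F.e0 := by
  conv_lhs => rw [F.dec h2 v]
  simp only [map_add, map_smul, h.d1.2.1, h.d1.2.2, h.d2.2.1, h.d2.2.2, h.d0]
  module

theorem ext (h2 : (2 : k) ≠ 0) (h : Dg F g a b) (h' : Dg F g' a b) : g = g' :=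
  LinearEquiv.ext fun v => by rw [h.apply h2, h'.apply h2]

theorem comm (h2 : (2 : k) ≠ 0) (h : Dg F g a b) (h' : Dg F g' a' b') : g * g' = g' * g :=
  (h.mul h').ext h2 (by rw [mul_comm a, mul_comm b]; exact h'.mul h)

theorem eq_one_iff (h2 : (2 : k) ≠ 0) (h : Dg F g a b) : g = 1 ↔ a = 1 ∧ b = 1 :=
  ⟨fun c => h.uniq (c ▸ one), fun ⟨c1, c2⟩ => h.ext h2 (by rw [c1, c2]; exact one)⟩

theorem rt (h2 : (2 : k) ≠ 0) (h : Dg F g a 1) : RT F.e1 F.f1 a g :=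
  ⟨F.h1, h.d1, fun y h1 h3 => by
    conv_rhs => rw [F.dec h2 y]
    rw [h.apply h2, h1, h3]; simp⟩

theorem not_isR (h : Dg F g a b) (ha : a ≠ 1) (hb : b ≠ 1) : ¬ IsR g := by
  rintro ⟨e, f, c, -, hr⟩
  exact F.h2.ne (hr.hp.plane3 F.h1 (hr.eig_mem ha h.d1.2.1) (hr.eig_mem (inv_ne_one.2 ha) h.d1.2.2)
    (hr.eig_mem hb h.d2.2.1) F.ee F.ef)

theorem isR_iff (h2 : (2 : k) ≠ 0) (h : Dg F g a b) (h1 : g ≠ 1) : IsR g ↔ a = 1 ∨ b = 1 := by
  refine ⟨fun hr => by_contra fun c => h.not_isR (fun e => c (Or.inl e)) (fun e => c (Or.inr e)) hr,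
    ?_⟩
  rintro (rfl | rfl)
  · exact ⟨_, _, b, fun e => h1 ((h.eq_one_iff h2).2 ⟨rfl, e⟩), h.swap.rt h2⟩
  · exact ⟨_, _, a, fun e => h1 ((h.eq_one_iff h2).2 ⟨e, rfl⟩), h.rt h2⟩

/-- coordinates of an eigenvector -/
theorem eig (hg : Iso g) (h : Dg F g a b) {v : W k} {c : k} (hv : g v = c • v) :
    (c - a) * B v F.f1 = 0 ∧ (c - a⁻¹) * B v F.e1 = 0 ∧ (c - b) * B v F.f2 = 0 ∧
      (c - b⁻¹) * B v F.e2 = 0 ∧ (c - 1) * B v F.e0 = 0 := by
  have key : ∀ (w : W k) (d : k), g⁻¹ w = d • w → (c - d) * B v w = 0 := fun w d hw => by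
    have := hg.swap v w
    rw [hv, hw] at this
    simp only [map_smul, LinearMap.smul_apply, smul_eq_mul] at this
    linear_combination this
  exact ⟨key _ _ (by simpa using h.inv.d1.2.2), key _ _ h.inv.d1.2.1,
    key _ _ (by simpa using h.inv.d2.2.2), key _ _ h.inv.d2.2.1, key _ _ (by simpa using h.inv.d0)⟩

end Dg

variable {Γ : Type*} [Group Γ]

/-- The standing hypothesis of case B. -/
structure HB (p : ℕ) (ρ : Γ →* GW k) : Prop where
  prime : p.Prime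
  ne2 : p ≠ 2
  char : CharP k p
  inj : Function.Injective ρ
  om : ∀ g, ρ g ∈ Om k
  nab : ¬ ∀ x y : Γ, x * y = y * x
  irr : ∀ U : Submodule k (W k), (∀ g, ∀ x ∈ U, ρ g x ∈ U) → U = ⊥ ∨ U = ⊤
  noA : ∀ g v, ¬ IsT v (ρ g)
  noL : ∀ g s m, IsE s m (ρ g) → Q m = 0 → g = 1
  sh : ∀ g s m, s ≠ 0 → IsE s m (ρ g) → Q m ≠ 0 → p = 3 ∧ ¬ 9 ∣ Nat.card Γ

/-- The structure of a Sylow `p`-subgroup of regular unipotent elements. -/
structure Reg (p : ℕ) (ρ : Γ →* GW k) (U : Subgroup Γ) (s s1 : W k) (α : Γ → k) : Prop where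
  five : 5 ≤ p
  ca : IsCA U
  pw : ∀ u ∈ U, u ^ p = 1
  syl : ∀ u : Γ, u ^ p = 1 → ∃ g, g * u * g⁻¹ ∈ U
  s0 : s ≠ 0
  qs : Q s = 0
  qs1 : Q s1 = 0
  ss1 : B s1 s = 0
  ind : ∀ c : k, s1 ≠ c • s
  fix : ∀ u ∈ U, u ≠ 1 → ∀ v, ρ u v = v → ∃ c : k, v = c • s
  ne0 : ∀ n ∈ normalizer (U : Set Γ), α n ≠ 0
  al : ∀ n ∈ normalizer (U : Set Γ), ρ n s = α n ^ 2 • s
  al1 : ∀ n ∈ normalizer (U : Set Γ), ∃ c : k, ρ n s1 = α n • s1 + c • s
  mul : ∀ n ∈ normalizer (U : Set Γ), ∀ n' ∈ normalizer (U : Set Γ), α (n * n') = α n * α n'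
  ker : ∀ n ∈ normalizer (U : Set Γ), α n = 1 ↔ n ∈ U
  eig : ∀ n ∈ normalizer (U : Set Γ), ∀ (v : W k) (c : k), v ≠ 0 → ρ n v = c • v →
    c = α n ^ 2 ∨ c = α n ∨ c = 1 ∨ c * α n = 1 ∨ c * α n ^ 2 = 1
  cent : ∀ n ∈ normalizer (U : Set Γ), α n ^ 3 ≠ 1 → α n ^ 4 ≠ 1 → ∀ c : Γ, c * n = n * c →
    c ∈ normalizer (U : Set Γ)

namespace HB

variable {p : ℕ} {ρ : Γ →* GW k}

theorem st [Finite Γ] [IsSimpleGroup Γ] (h : HB p ρ) : St p ρ.range where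
  prime := h.prime
  ne2 := h.ne2
  char := h.char
  fin := Finite.of_equiv Γ (MonoidHom.ofInjective h.inj).toEquiv
  simple := (MonoidHom.ofInjective h.inj).symm.isSimpleGroup
  nonab := by
    have := h.nab
    push Not at this
    obtain ⟨x, y, e⟩ := this
    exact ⟨_, ⟨x, rfl⟩, _, ⟨y, rfl⟩, fun c => e (h.inj (by rw [map_mul, map_mul, c]))⟩
  le := by rintro _ ⟨g, rfl⟩; exact h.om g
  irr U hU := h.irr U fun g => hU _ ⟨g, rfl⟩

theorem two (h : HB p ρ) : (2 : k) ≠ 0 := fun e => by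
  have := h.char
  have : ((2 : ℕ) : k) = 0 := by exact_mod_cast e
  exact h.ne2 ((Nat.prime_dvd_prime_iff_eq h.prime Nat.prime_two).1
    ((CharP.cast_eq_zero_iff k p 2).1 this))

theorem iso (h : HB p ρ) (g : Γ) : Iso (ρ g) := Om_iso (h.om g)

theorem eq_one (h : HB p ρ) {g : Γ} : ρ g = 1 ↔ g = 1 := map_eq_one_iff ρ h.inj

/-- involutions are half-turns -/
theorem inv_rt [IsAlgClosed k] (h : HB p ρ) {t : Γ} (h1 : t * t = 1) (h2 : t ≠ 1) :
    ∃ e f, RT e f (-1) (ρ t) := by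
  obtain ⟨v, -, hv⟩ | ⟨w, u, hw, hu, hwu, ht⟩ := inv_type h.two (h.om t) (by rw [← map_mul, h1, map_one])
    (fun c => h2 (h.eq_one.1 c))
  · exact (h.noA t v hv).elim
  obtain ⟨i, hi⟩ := IsAlgClosed.exists_eq_mul_self (-1 : k)
  have h4 : (4 : k) ≠ 0 := by rw [show (4 : k) = 2 * 2 by norm_num]; exact mul_ne_zero h.two h.two
  have ww : B w w = 2 := by rw [B_self, hw, mul_one]
  have uu : B u u = 2 := by rw [B_self, hu, mul_one]
  have uw : B u w = 0 := by rw [B_comm, hwu]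
  refine ⟨w + i • u, (4 : k)⁻¹ • (w - i • u), ⟨?_, ?_, ?_⟩, ⟨by simp, ?_, ?_⟩, fun y h3 h5 => ?_⟩
  · rw [Q_add, Q_smul, hw, hu]; simp [hwu]; linear_combination -hi
  · rw [Q_smul, Q_sub, Q_smul, hw, hu]; simp [hwu]; exact Or.inr (by linear_combination -hi)
  · simp [ww, uu, uw, hwu]; field_simp; linear_combination 2 * hi
  · rw [ht]; simp [ww, uu, uw, hwu]; module
  · rw [ht]; simp [ww, uu, uw, hwu]; module
  · simp [h4] at h3 h5
    have k1 : B y w = 0 := mul_left_cancel₀ h.two (by linear_combination h3 + h5)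
    have k2 : B y u = 0 := by
      rw [k1, zero_add] at h3
      refine (mul_eq_zero.1 h3).resolve_left ?_
      rintro rfl; simp at hi
    rw [ht, k1, k2]; simp

end HB

/-- from the subgroup setting to the abstract one -/
theorem St.hb {p : ℕ} {G : Subgroup (GW k)} (h : St p G) (hL : ¬ HasLong G)
    (hs : HasShort G → p = 3 ∧ ¬ 9 ∣ Nat.card G) (hA : ¬ HasA G) : HB p G.subtype where
  prime := h.prime
  ne2 := h.ne2
  char := h.char
  inj := G.subtype_injective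
  om g := h.le g.2
  nab c := by
    obtain ⟨a, ha, b, hb, e⟩ := h.nonab
    exact e (congrArg Subtype.val (c ⟨a, ha⟩ ⟨b, hb⟩))
  irr U hU := h.irr U fun g hg => hU ⟨g, hg⟩
  noA g v hv := hA ⟨g, g.2, v, hv⟩
  noL g s m h1 h2 := by_contra fun c => hL ⟨g, g.2, fun e => c (Subtype.ext e), s, m, h1, h2⟩
  sh g s m h1 h2 h3 := hs ⟨g, g.2, s, m, h1, h2, h3⟩

end Cfsg.Agent.O5
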