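import Cfsg.Agent.O5.B0

/-!
Case B: stabilisers of planes, involutions.
-/

set_option autoImplicit false
set_option linter.unusedSectionVars false

namespace Cfsg.Agent.O5

open Module Subgroup Cfsg.Agent.H6.MG

variable {k : Type*} [Field k] {Γ : Type*} [Group Γ]

/-- the stabiliser of both singular points -/
def C0 (ρ : Γ →* GW k) (e f : W k) : Subgroup Γ where
  carrier := {g | ∃ c, Dl e f (ρ g) c}
  one_mem' := ⟨1, by rw [map_one]; exact Dl.one⟩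
  mul_mem' := fun ⟨_, h⟩ ⟨_, h'⟩ => ⟨_, by rw [map_mul]; exact h.mul h'⟩
  inv_mem' := fun ⟨_, h⟩ => ⟨_, by rw [map_inv]; exact h.inv⟩

/-- the stabiliser of the plane -/
def C1 (ρ : Γ →* GW k) (e f : W k) : Subgroup Γ where
  carrier := {g | ∃ c, Dl e f (ρ g) c ∨ Sw e f (ρ g) c}
  one_mem' := ⟨1, Or.inl (by rw [map_one]; exact Dl.one)⟩
  mul_mem' := by
    rintro a b ⟨_, h | h⟩ ⟨_, h' | h'⟩
    · exact ⟨_, Or.inl (by rw [map_mul]; exact h.mul h')⟩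
    · exact ⟨_, Or.inr (by rw [map_mul]; exact h.mul_sw h')⟩
    · exact ⟨_, Or.inr (by rw [map_mul]; exact h.mul_dl h')⟩
    · exact ⟨_, Or.inl (by rw [map_mul]; exact h.mul h')⟩
  inv_mem' := by
    rintro a ⟨_, h | h⟩
    · exact ⟨_, Or.inl (by rw [map_inv]; exact h.inv)⟩
    · exact ⟨_, Or.inr (by rw [map_inv]; exact h.inv)⟩

/-- the pointwise stabiliser of the plane -/
def C00 (ρ : Γ →* GW k) (e f : W k) : Subgroup Γ where
  carrier := {g | Dl e f (ρ g) 1}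
  one_mem' := by rw [Set.mem_ofPred_eq, map_one]; exact Dl.one
  mul_mem' h h' := by rw [Set.mem_ofPred_eq, map_mul]; simpa using Dl.mul h h'
  inv_mem' h := by rw [Set.mem_ofPred_eq, map_inv]; simpa using Dl.inv h

variable {ρ : Γ →* GW k} {e f : W k} {p : ℕ} {a c c' : k} {g g' x t s : Γ}

theorem mem_C0 : g ∈ C0 ρ e f ↔ ∃ c, Dl e f (ρ g) c := Iff.rfl
theorem mem_C1 : g ∈ C1 ρ e f ↔ ∃ c, Dl e f (ρ g) c ∨ Sw e f (ρ g) c := Iff.rfl
theorem mem_C00 : g ∈ C00 ρ e f ↔ Dl e f (ρ g) 1 := Iff.rfl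
theorem C00_le : C00 ρ e f ≤ C0 ρ e f := fun _ h => ⟨1, h⟩
theorem C0_le : C0 ρ e f ≤ C1 ρ e f := fun _ ⟨c, h⟩ => ⟨c, Or.inl h⟩

theorem Dl.mul' (h : Dl e f (ρ g) c) (h' : Dl e f (ρ g') c') : Dl e f (ρ (g * g')) (c * c') := by
  rw [map_mul]; exact h.mul h'

theorem Dl.inv' (h : Dl e f (ρ g) c) : Dl e f (ρ g⁻¹) c⁻¹ := by rw [map_inv]; exact h.inv

theorem Dl.pow' (h : Dl e f (ρ g) c) (n : ℕ) : Dl e f (ρ (g ^ n)) (c ^ n) := by
  rw [map_pow]; exact h.pow n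

theorem Dl.pow_eq_one (he : e ≠ 0) (h : Dl e f (ρ g) c) {n : ℕ} (hn : g ^ n = 1) : c ^ n = 1 :=
  (h.pow' n).uniq he (by rw [hn, map_one]; exact Dl.one)

theorem sw_of (h : g ∈ C1 ρ e f) (h' : g ∉ C0 ρ e f) : ∃ c, Sw e f (ρ g) c := by
  obtain ⟨c, h | h⟩ := h
  exacts [(h' ⟨c, h⟩).elim, ⟨c, h⟩]

theorem out_mul (h : g ∈ C1 ρ e f) (h' : g ∉ C0 ρ e f) (k1 : g' ∈ C1 ρ e f) (k2 : g' ∉ C0 ρ e f) :
    g * g' ∈ C0 ρ e f := by
  obtain ⟨c, h⟩ := sw_of h h'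
  obtain ⟨c', h'⟩ := sw_of k1 k2
  exact ⟨_, by rw [map_mul]; exact h.mul h'⟩

theorem out_sq (h : g ∈ C1 ρ e f) (h' : g ∉ C0 ρ e f) : g * g ∈ C00 ρ e f := by
  obtain ⟨c, h⟩ := sw_of h h'
  have := h.mul h
  rwa [inv_mul_cancel₀ h.1, ← map_mul] at this

/-- conjugation by a swapping element inverts the eigenvalue -/
theorem Dl.conj_out (h : Dl e f (ρ g) c) (h1 : s ∈ C1 ρ e f) (h2 : s ∉ C0 ρ e f) :
    Dl e f (ρ (s * g * s⁻¹)) c⁻¹ := by
  obtain ⟨d, h1⟩ := sw_of h1 h2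
  have := (h1.mul_dl h).mul h1.inv
  rwa [mul_inv_rev, inv_mul_cancel_right₀ h1.1, ← map_inv, ← map_mul, ← map_mul] at this

theorem Dl.conj_in (h : Dl e f (ρ g) c) (h1 : s ∈ C0 ρ e f) : Dl e f (ρ (s * g * s⁻¹)) c := by
  obtain ⟨d, h1⟩ := h1
  have := (h1.mul' h).mul' h1.inv'
  rwa [mul_comm d, mul_inv_cancel_right₀ h1.1] at this

theorem conj_mem_C00 (h : g ∈ C00 ρ e f) (h1 : s ∈ C1 ρ e f) : s * g * s⁻¹ ∈ C00 ρ e f := by
  by_cases h2 : s ∈ C0 ρ e f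
  · exact Dl.conj_in h h2
  · have := Dl.conj_out h h1 h2
    rwa [inv_one] at this

theorem conj_mem_C0 (h : g ∈ C0 ρ e f) (h1 : s ∈ C1 ρ e f) : s * g * s⁻¹ ∈ C0 ρ e f := by
  obtain ⟨c, h⟩ := h
  by_cases h2 : s ∈ C0 ρ e f
  · exact ⟨_, h.conj_in h2⟩
  · exact ⟨_, h.conj_out h1 h2⟩

theorem mem_C0_of_odd [Finite Γ] (h : g ∈ C1 ρ e f) {n : ℕ} (hn : Odd n) (h1 : g ^ n = 1) :
    g ∈ C0 ρ e f := by
  by_contra hc
  obtain ⟨m, rfl⟩ := hn
  have := pow_mem (C00_le (out_sq h hc)) m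
  rw [← pow_two, ← pow_mul, eq_inv_of_mul_eq_one_left ((pow_succ g _).symm.trans h1)] at this
  exact hc (inv_mem_iff.1 this)

/-- the eigenvalue character -/
noncomputable def dlt (he : e ≠ 0) : C0 ρ e f →* kˣ where
  toFun g := Units.mk0 g.2.choose g.2.choose_spec.1
  map_one' := Units.ext ((1 : C0 ρ e f).2.choose_spec.uniq he (by simpa using Dl.one))
  map_mul' a b := Units.ext ((a * b).2.choose_spec.uniq he (a.2.choose_spec.mul' b.2.choose_spec))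

theorem dlt_spec (he : e ≠ 0) (g : C0 ρ e f) : Dl e f (ρ g) (dlt he g) := g.2.choose_spec

theorem exists_gen [Finite Γ] (he : e ≠ 0) (X : Subgroup Γ) (hX : X ≤ C0 ρ e f) :
    ∃ y ∈ X, ∀ g ∈ X, ∃ n : ℕ, (y ^ n)⁻¹ * g ∈ C00 ρ e f := by
  set φ := (dlt (ρ := ρ) (f := f) he).comp (inclusion hX)
  have : Finite φ.range := Finite.of_surjective _ φ.rangeRestrict_surjective
  obtain ⟨⟨_, y, rfl⟩, hy⟩ := IsCyclic.exists_monoid_generator (α := φ.range)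
  refine ⟨y, y.2, fun g hg => ?_⟩
  obtain ⟨n, hn⟩ := hy ⟨_, ⟨g, hg⟩, rfl⟩
  have h1 : (φ y : k) ^ n = φ ⟨g, hg⟩ := by
    simpa using congrArg (fun u : φ.range => ((u : kˣ) : k)) hn
  have h2 := ((dlt_spec he (inclusion hX y)).pow' n).inv'.mul' (dlt_spec he (inclusion hX ⟨g, hg⟩))
  refine ⟨n, ?_⟩
  change Dl e f _ (((φ y : k) ^ n)⁻¹ * (φ ⟨g, hg⟩ : k)) at h2
  rwa [h1, inv_mul_cancel₀ (Units.ne_zero _)] at h2

theorem comm_of_central [Finite Γ] (he : e ≠ 0) {X : Subgroup Γ} (hX : X ≤ C0 ρ e f)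
    (h : ∀ g ∈ X, ∀ z ∈ X, z ∈ C00 ρ e f → g * z = z * g) : ∀ g ∈ X, ∀ g' ∈ X, g * g' = g' * g := by
  obtain ⟨y, hy, H⟩ := exists_gen he X hX
  intro g hg g' hg'
  obtain ⟨n, hn⟩ := H g hg
  obtain ⟨m, hm⟩ := H g' hg'
  have k1 : Commute y ((y ^ n)⁻¹ * g) := h y hy _ (mul_mem (inv_mem (pow_mem hy n)) hg) hn
  have k2 : Commute y ((y ^ m)⁻¹ * g') := h y hy _ (mul_mem (inv_mem (pow_mem hy m)) hg') hm
  have k3 : Commute g ((y ^ m)⁻¹ * g') := h g hg _ (mul_mem (inv_mem (pow_mem hy m)) hg') hm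
  have k4 : Commute y g := by
    simpa using ((Commute.refl y).pow_right n).mul_right k1
  simpa using ((k4.symm.pow_right m).mul_right k3).eq

namespace HB

variable (h : HB p ρ)
include h

theorem rt_conj (hx : RT e f a (ρ x)) (g : Γ) : RT (ρ g e) (ρ g f) a (ρ (g * x * g⁻¹)) := by
  rw [map_mul, map_mul, map_inv]; exact hx.conj h.two (h.iso g)

theorem isR_conj (hx : IsR (ρ x)) (g : Γ) : IsR (ρ (g * x * g⁻¹)) := by
  rw [map_mul, map_mul, map_inv]; exact hx.conj h.two (h.iso g)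

theorem rt_ext {x' : Γ} (hx : RT e f a (ρ x)) (hx' : RT e f a (ρ x')) : x = x' := h.inj (hx.ext hx')

theorem conj_of_C0 (hx : RT e f a (ρ x)) (hg : g ∈ C0 ρ e f) : g * x * g⁻¹ = x := by
  refine h.rt_ext ⟨hx.hp, hx.dl.conj_in hg, fun y h1 h2 => ?_⟩ hx
  obtain ⟨c, hg⟩ := hg
  refine (h.rt_conj hx g).fix y ?_ ?_ <;> simp [hg.2.1, hg.2.2, h1, h2]

theorem comm_of_C0 (hx : RT e f a (ρ x)) (hg : g ∈ C0 ρ e f) : g * x = x * g :=
  mul_inv_eq_iff_eq_mul.1 (h.conj_of_C0 hx hg)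

theorem conj_of_out (hx : RT e f a (ρ x)) (hg : g ∈ C1 ρ e f) (hg' : g ∉ C0 ρ e f) :
    g * x * g⁻¹ = x⁻¹ := by
  refine h.rt_ext ⟨hx.hp, hx.dl.conj_out hg hg', fun y h1 h2 => ?_⟩ (by rw [map_inv]; exact hx.inv)
  obtain ⟨c, hg⟩ := sw_of hg hg'
  refine (h.rt_conj hx g).fix y ?_ ?_ <;> simp [hg.2.1, hg.2.2, h1, h2]

theorem mem_C1_of_conj (hx : RT e f a (ρ x)) (ha : a ≠ 1) {a' : k}
    (hg : RT e f a' (ρ (g * x * g⁻¹))) : g ∈ C1 ρ e f :=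
  hx.stab h.two ha (h.iso g) (by rwa [map_mul, map_mul, map_inv] at hg)

theorem mem_C1_of_comm (hx : RT e f a (ρ x)) (ha : a ≠ 1) (hg : g * x = x * g) : g ∈ C1 ρ e f :=
  h.mem_C1_of_conj hx ha (by rwa [hg, mul_inv_cancel_right])

theorem mem_C1_of_inv (hx : RT e f a (ρ x)) (ha : a ≠ 1) (hg : g * x * g⁻¹ = x⁻¹) : g ∈ C1 ρ e f :=
  h.mem_C1_of_conj hx ha (by rw [hg, map_inv]; exact hx.inv)

theorem mem_C0_of_comm (hx : RT e f a (ρ x)) (ha : a ^ 2 ≠ 1) (hg : g * x = x * g) :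
    g ∈ C0 ρ e f := by
  have h1 := h.mem_C1_of_comm hx (fun c => ha (by simp [c])) hg
  by_contra h2
  have h3 := h.conj_of_out hx h1 h2
  rw [hg, mul_inv_cancel_right] at h3
  exact ha (hx.dl.pow_eq_one hx.hp.ne (by rw [pow_two]; exact mul_eq_one_iff_eq_inv.2 h3))

theorem neg_ne : (-1 : k) ≠ 1 := fun c => h.two (by linear_combination -c)

theorem sq_of_rt (ht : RT e f (-1) (ρ t)) : t * t = 1 := by
  have := ht.mul ht
  rw [← map_mul, neg_mul_neg, one_mul] at this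
  exact h.eq_one.1 (this.eq_one_iff.2 rfl)

theorem ne_of_rt (hx : RT e f a (ρ x)) (ha : a ≠ 1) : x ≠ 1 := fun c =>
  ha (hx.eq_one_iff.1 (h.eq_one.2 c))

theorem mem_C1_iff (ht : RT e f (-1) (ρ t)) : g ∈ C1 ρ e f ↔ g * t = t * g := by
  refine ⟨fun hg => ?_, h.mem_C1_of_comm ht h.neg_ne⟩
  by_cases h1 : g ∈ C0 ρ e f
  · exact h.comm_of_C0 ht h1
  · have := h.conj_of_out ht hg h1
    rwa [inv_eq_of_mul_eq_one_right (h.sq_of_rt ht), mul_inv_eq_iff_eq_mul] at this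

theorem cent_eq (ht : RT e f (-1) (ρ t)) : centralizer {t} = C1 ρ e f := by
  ext g; rw [mem_centralizer_singleton_iff, h.mem_C1_iff ht]

variable [IsAlgClosed k]

theorem rt_of_dl (hp : HP e f) (h1 : s * s = 1) (hs : Dl e f (ρ s) (-1)) : RT e f (-1) (ρ s) := by
  obtain ⟨e', f', h'⟩ := h.inv_rt h1 (fun c => h.neg_ne (hs.uniq hp.ne (by
    rw [c, map_one]; exact Dl.one)))
  exact h'.of_dl hp hs h.neg_ne

/-- the half-turn is the only involution fixing both singular points of its plane -/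
theorem inv_uniq (ht : RT e f (-1) (ρ t)) (hs : s ∈ C0 ρ e f) (h1 : s * s = 1) : s = 1 ∨ s = t := by
  have h2 := h.comm_of_C0 ht hs
  obtain ⟨c, hc⟩ := hs
  rcases sq_eq_one_iff.1 (hc.pow_eq_one ht.hp.ne (by rw [pow_two, h1])) with rfl | rfl
  · left
    have h3 := hc.mul' ht.dl
    rw [one_mul] at h3
    have := h.rt_ext (h.rt_of_dl ht.hp (by
      rw [mul_assoc, ← mul_assoc t, ← h2, mul_assoc, h.sq_of_rt ht, mul_one, h1]) h3) ht
    simpa using this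
  · exact Or.inr (h.rt_ext (h.rt_of_dl ht.hp h1 hc) ht)

theorem eq_one_of_C00 (ht : RT e f (-1) (ρ t)) (hs : s ∈ C00 ρ e f) (h1 : s * s = 1) : s = 1 :=
  (h.inv_uniq ht (C00_le hs) h1).resolve_right fun c =>
    h.neg_ne (ht.dl.uniq ht.hp.ne (c ▸ hs))

theorem odd_C00 [Finite Γ] (ht : RT e f (-1) (ρ t)) : Odd (Nat.card (C00 ρ e f)) := by
  by_contra hc
  obtain ⟨s, h1, h2, h3⟩ := H4.Basic.exists_involution_of_even _ (Nat.not_odd_iff_even.1 hc)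
  exact h3 (h.eq_one_of_C00 ht h1 h2)

theorem eq_one_of_two [Finite Γ] (ht : RT e f (-1) (ρ t)) (hs : s ∈ C00 ρ e f) {n : ℕ}
    (h1 : s ^ 2 ^ n = 1) : s = 1 := by
  induction n generalizing s with
  | zero => simpa using h1
  | succ n ih =>
    exact h.eq_one_of_C00 ht hs (by
      rw [← pow_two]; exact ih (pow_mem hs 2) (by rw [← pow_mul, ← pow_succ', h1]))

variable [Finite Γ] [IsSimpleGroup Γ]

/-- there is one class of involutions -/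
theorem one_class (h1 : t * t = 1) (h2 : t ≠ 1) (h3 : s * s = 1) (h4 : s ≠ 1) : IsConj t s := by
  classical
  obtain ⟨z, z1, z2, z3⟩ := exists_central (G := Γ) (even_iff_two_dvd.2 (by
    rw [← orderOf_eq_prime (p := 2) (by rw [pow_two, h1]) h2]; exact orderOf_dvd_natCard t))
  obtain ⟨e, f, hz⟩ := h.inv_rt z1 z2
  rw [h.cent_eq hz] at z3
  let φ : C1 ρ e f →* ℤˣ := MonoidHom.mk' (fun g => if (g : Γ) ∈ C0 ρ e f then 1 else -1) (by
    intro a b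
    by_cases ha : (a : Γ) ∈ C0 ρ e f <;> by_cases hb : (b : Γ) ∈ C0 ρ e f
    · simp [ha, hb, mul_mem ha hb]
    · simp [ha, hb, mul_mem_cancel_left ha]
    · simp [ha, hb, mul_mem_cancel_right hb]
    · simp [ha, hb, out_mul a.2 ha b.2 hb])
  have key : ∀ y : Γ, y * y = 1 → y ≠ 1 → IsConj z y := fun y y1 y2 => by
    by_contra hc
    refine tt h.nab _ z3 φ (z := -1) (by decide) (by simp) y fun x n hx => ?_
    rcases n.even_or_odd' with ⟨m, rfl | rfl⟩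
    · simp [φ, pow_mul, pow_two, y1, one_mem]
    · have e1 : y ^ (2 * m + 1) = y := by simp [pow_succ, pow_mul, y1]
      have : x⁻¹ * y ^ (2 * m + 1) * x ∉ C0 ρ e f := fun c => by
        rw [e1] at c
        rcases h.inv_uniq hz c (by simp [mul_assoc, ← mul_assoc y, y1]) with c | c
        · exact y2 (by simpa [mul_assoc, inv_mul_eq_iff_eq_mul] using c)
        · exact hc (isConj_iff.2 ⟨x, by rw [← c]; group⟩)
      simp only [φ, MonoidHom.mk'_apply, if_neg this]; simp [pow_succ, pow_mul]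
  exact (key t h1 h2).symm.trans (key s h3 h4)

/-- every involution lies in a four-group -/
theorem exists_four (h1 : t * t = 1) (h2 : t ≠ 1) :
    ∃ s, s * s = 1 ∧ s ≠ 1 ∧ s ≠ t ∧ s * t = t * s := by
  have h0 : 2 ∣ Nat.card Γ := by
    rw [← orderOf_eq_prime (p := 2) (by rw [pow_two, h1]) h2]; exact orderOf_dvd_natCard t
  obtain ⟨S⟩ : Nonempty (Sylow 2 Γ) := inferInstance
  have : Nontrivial S := (Subgroup.nontrivial_iff_ne_bot _).2 (S.ne_bot_of_dvd_card h0)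
  have := S.isPGroup'.center_nontrivial
  obtain ⟨n, hn, en⟩ := (S.isPGroup'.to_subgroup (center S)).nontrivial_iff_card.1 inferInstance
  obtain ⟨z, hz⟩ := exists_prime_orderOf_dvd_card' (G := center S) 2 (en ▸ dvd_pow_self 2 hn.ne')
  rw [← Subgroup.orderOf_coe, ← Subgroup.orderOf_coe, H4.Basic.orderOf_eq_two_iff] at hz
  obtain ⟨e, f, hr⟩ := h.inv_rt hz.1 hz.2
  have hS : ∀ g ∈ (S : Subgroup Γ), g ∈ C1 ρ e f := fun g hg =>
    (h.mem_C1_iff hr).2 (congrArg Subtype.val (mem_center_iff.1 z.2 ⟨g, hg⟩))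
  have hS2 : ∀ g ∈ (S : Subgroup Γ), g ∈ C00 ρ e f → g = 1 := fun g hg h0 => by
    obtain ⟨n, hn⟩ := S.isPGroup' ⟨g, hg⟩
    exact h.eq_one_of_two hr h0 (congrArg Subtype.val hn)
  obtain ⟨s, s1, s2⟩ : ∃ s ∈ (S : Subgroup Γ), s ∉ C0 ρ e f := by
    by_contra hc
    push Not at hc
    obtain ⟨y, hy, H⟩ := exists_gen hr.hp.ne (S : Subgroup Γ) hc
    have : IsCyclic S := ⟨⟨y, hy⟩, fun g => by
      obtain ⟨n, hn⟩ := H g g.2
      exact ⟨n, Subtype.ext (by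
        simpa [inv_mul_eq_one] using hS2 _ (mul_mem (inv_mem (pow_mem hy n)) g.2) hn)⟩⟩
    exact burnside h.nab S h0 (this.normalizer_le_centralizer ((Nat.minFac_eq_two_iff _).2 h0))
  obtain ⟨g, hg⟩ := isConj_iff.1 (h.one_class hz.1 hz.2 h1 h2)
  refine ⟨g * s * g⁻¹, ?_, ?_, ?_, ?_⟩
  · simp [hS2 _ (mul_mem s1 s1) (out_sq (hS s s1) s2)]
  · exact fun c => s2 (by rw [show s = 1 by simpa using c]; exact one_mem _)
  · exact fun c => s2 (by rw [← hg] at c; rw [show s = z by simpa using c]; exact ⟨_, hr.dl⟩)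
  · rw [← hg, conj_mul, conj_mul, (h.mem_C1_iff hr).1 (hS s s1)]

theorem exists_out (ht : RT e f (-1) (ρ t)) : ∃ s, s * s = 1 ∧ s ∈ C1 ρ e f ∧ s ∉ C0 ρ e f := by
  obtain ⟨s, h1, h2, h3, h4⟩ := h.exists_four (h.sq_of_rt ht) (h.ne_of_rt ht h.neg_ne)
  exact ⟨s, h1, (h.mem_C1_iff ht).2 h4, fun c => (h.inv_uniq ht c h1).elim h2 h3⟩

end HB

end Cfsg.Agent.O5
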