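import Cfsg.Agent.O5.B1
import Cfsg.Agent.H6.M1
import Cfsg.Agent.H6.Pg3

/-!
Case B: corollaries of Dickson's theorem.
-/

set_option autoImplicit false
set_option linter.unusedSectionVars false

namespace Cfsg.Agent.O5

open Subgroup MulAction Matrix Cfsg.Agent.H6 Cfsg.Agent.H6.Pg
open scoped MatrixGroups

/-- the `p`-part of `n` is trivial, or `p = 3` and it is at most three -/
def Sm (p n : ℕ) : Prop := ¬ p ∣ n ∨ (p = 3 ∧ ¬ 9 ∣ n)

theorem Sm.of_dvd {p n m : ℕ} (h : Sm p n) (hm : m ∣ n) : Sm p m :=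
  h.imp (fun h c => h (c.trans hm)) fun h => ⟨h.1, fun c => h.2 (c.trans hm)⟩

section Mob

variable {p : ℕ} {G X : Type*} [Group G] [MulAction G X] [Finite G]

theorem card_P (m : Mob p G X) (hs : Sm p (Nat.card G)) {y : X} (hy : m.P y ≠ ⊥) :
    p = 3 ∧ Nat.card (m.P y) = 3 := by
  have := Fact.mk m.prime
  obtain ⟨n, hn⟩ := IsPGroup.iff_card.1 (show IsPGroup p (m.P y) from fun g =>
    ⟨1, Subtype.ext (by simpa using g.2.2)⟩)
  have h0 : n ≠ 0 := by rintro rfl; exact hy (card_eq_one.1 (by simpa using hn))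
  have hd := card_subgroup_dvd_card (m.P y)
  rw [hn] at hd ⊢
  rcases hs with h | ⟨rfl, h⟩
  · exact (h ((dvd_pow_self p h0).trans hd)).elim
  · obtain rfl : n = 1 := by
      by_contra c
      exact h ((pow_dvd_pow 3 (show 2 ≤ n by omega)).trans hd)
    exact ⟨rfl, rfl⟩

theorem comm_of_two (m : Mob p G X) {y y' : X} (hy : y ≠ y') {g g' : G} (h1 : g • y = y)
    (h2 : g • y' = y') (h3 : g' • y = y) (h4 : g' • y' = y') : g * g' = g' * g := by
  have := m.cyc y y' hy (stabilizer G y ⊓ stabilizer G y') inferInstance inf_le_left inf_le_right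
  let _ : CommGroup (stabilizer G y ⊓ stabilizer G y' : Subgroup G) := IsCyclic.commGroup
  exact congrArg Subtype.val (mul_comm (⟨g, h1, h2⟩ : (stabilizer G y ⊓ stabilizer G y' : Subgroup G))
    ⟨g', h3, h4⟩)

theorem comm_of_pt (m : Mob p G X) (hs : Sm p (Nat.card G)) {y : X} {g g' : G} (h1 : g • y = y)
    (h3 : g' • y = y) (g2 : g ^ 2 ≠ 1) (g3 : g ^ 3 ≠ 1) : g * g' = g' * g := by
  by_cases hy : m.P y = ⊥
  · obtain ⟨y', e1, e2⟩ := m.exists_second hy (fun c => g2 (by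
      have : g ∈ stabilizer G y := h1
      rw [c, mem_bot] at this; simp [this]))
    exact comm_of_two m e1 h1 (e2 h1) h3 (e2 h3)
  · obtain ⟨rfl, h4⟩ := card_P m hs hy
    have h5 := m.card_stab_le hy
    have h6 := card_dvd_of_le (m.P_le y)
    have h7 := Mob.orderOf_dvd_stab h1
    have h8 : 0 < Nat.card (stabilizer G y) := Nat.card_pos
    rw [h4] at h5 h6
    have h9 : g ^ 6 = 1 := orderOf_dvd_iff_pow_eq_one.1 (h7.trans (by
      rcases (show Nat.card (stabilizer G y) = 3 ∨ Nat.card (stabilizer G y) = 6 by omega) with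
        c | c <;> rw [c] <;> decide))
    exact (g3 (m.pow_of_commute g2 (by rw [← pow_mul, h9]) (by group))).elim

theorem fix_of_pair (m : Mob p G X) {y y' : X} (hy : y ≠ y') {g : G} (h : g ∈ Mob.pair G y y')
    (g2 : g ^ 2 ≠ 1) : g • y = y ∧ g • y' = y' :=
  h.resolve_right fun h => g2 (by rw [pow_two, m.sq_of_swap hy h.1 h.2])

theorem dk (m : Mob p G X) (hs : Sm p (Nat.card G)) {g g' : G} (g2 : g ^ 2 ≠ 1) (g3 : g ^ 3 ≠ 1)
    (g2' : g' ^ 2 ≠ 1) : g * g' = g' * g ∨ (∃ j : G →* Equiv.Perm (Fin 4), Function.Injective j) ∨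
      Nonempty (G ≃* alternatingGroup (Fin 5)) := by
  classical
  rcases m.dickson with ⟨y, h⟩ | ⟨y, y', hy, h⟩ | ⟨-, ⟨e⟩⟩ | ⟨-, ⟨e⟩⟩ | ⟨-, -, h⟩ | ⟨y, b⟩
  · exact Or.inl (comm_of_pt m hs (h.ge (mem_top g)) (h.ge (mem_top g')) g2 g3)
  · obtain ⟨a1, a2⟩ := fix_of_pair m hy (h.ge (mem_top g)) g2
    obtain ⟨a3, a4⟩ := fix_of_pair m hy (h.ge (mem_top g')) g2'
    exact Or.inl (comm_of_two m hy a1 a2 a3 a4)
  · exact Or.inr (Or.inl ⟨(alternatingGroup _).subtype.comp e.toMonoidHom,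
      (subtype_injective _).comp e.injective⟩)
  · exact Or.inr (Or.inl ⟨e.toMonoidHom, e.injective⟩)
  · exact Or.inr (Or.inr h)
  · obtain ⟨-, h4⟩ := card_P m hs b.P_ne
    have hc : Nat.card (orbit G y) = 4 := by
      rw [Nat.card_coe_set_eq, ← index_stabilizer, b.index, h4]
    have : Finite (orbit G y) := Nat.finite_of_card_ne_zero (by omega)
    let ε := Finite.equivFinOfCardEq hc
    refine Or.inr (Or.inl ⟨ε.permCongrHom.toMonoidHom.comp (toPermHom G (orbit G y)),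
      ε.permCongrHom.injective.comp ((injective_iff_map_eq_one _).2 fun u hu => ?_)⟩)
    have key : ∀ i, u • (ε.symm i : X) = ε.symm i := fun i =>
      congrArg Subtype.val (Equiv.congr_fun hu (ε.symm i))
    have ne : ∀ i j, i ≠ j → (ε.symm i : X) ≠ ε.symm j := fun i j hij c =>
      hij (ε.symm.injective (Subtype.ext c))
    exact m.three u _ _ _ (ne 0 1 (by decide)) (ne 0 2 (by decide)) (ne 1 2 (by decide)) (key _)
      (key _) (key _)

theorem comm_of_odd (m : Mob p G X) (hp : ¬ p ∣ Nat.card G) (ho : Odd (Nat.card G)) (g g' : G) :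
    g * g' = g' * g := by
  have h0 : ∀ y, m.P y = ⊥ := fun y => by_contra fun c => hp (by
    obtain ⟨rfl, h⟩ := card_P m (Or.inl hp) c
    exact h ▸ card_subgroup_dvd_card _)
  rcases m.regular h0 with ⟨y, h⟩ | ⟨y, h⟩ | ⟨h, -⟩
  · by_cases hb : stabilizer G y = ⊥
    · have : g ∈ stabilizer G y := h.ge (mem_top g)
      rw [hb, mem_bot] at this; simp [this]
    · obtain ⟨y', e1, e2⟩ := m.exists_second (h0 y) hb
      exact comm_of_two m e1 (h.ge (mem_top g)) (e2 (h.ge (mem_top g))) (h.ge (mem_top g'))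
        (e2 (h.ge (mem_top g')))
  · exact absurd (h ▸ index_dvd_card _) (Nat.two_dvd_ne_zero.2 (Nat.odd_iff.1 ho))
  · rw [Nat.odd_iff] at ho; omega

end Mob

theorem s4_ker : ∀ a k : Equiv.Perm (Fin 4), a ^ 2 ≠ 1 → a ^ 3 ≠ 1 → k ^ 2 = 1 ∨
    (k ^ 2 ≠ 1 ∧ (k ^ 2) ^ 2 = 1) ∨ (k * a ^ 2 * k⁻¹ * (a ^ 2)⁻¹ ≠ 1 ∧
      (k * a ^ 2 * k⁻¹ * (a ^ 2)⁻¹) ^ 2 = 1) := by decide +kernel

theorem s4_sq : ∀ a b : Equiv.Perm (Fin 4), a ^ 2 ≠ 1 → a ^ 3 ≠ 1 → b ^ 2 ≠ 1 → b ^ 3 ≠ 1 →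
    a * b ≠ b * a → a ^ 2 * a ^ 2 = 1 ∧ a ^ 2 * b * (a ^ 2 * b) = 1 ∧ a ^ 2 * b ≠ 1 ∧
      ∀ c, c * c ≠ a ^ 2 * b := by decide +kernel

theorem a5_ord : ∀ y : alternatingGroup (Fin 5), y ^ 2 = 1 ∨ y ^ 3 = 1 ∨ y ^ 5 = 1 := by
  decide +kernel

theorem a5_inv : ∃ y : alternatingGroup (Fin 5), y ≠ 1 ∧ y ^ 2 = 1 := by decide +kernel

theorem conj_of_prime {X : Type*} [Group X] [Finite X] {q : ℕ} (hq : q.Prime)
    (h : ¬ q ^ 2 ∣ Nat.card X) {a y : X} (ha : a ^ q = 1) (h1 : a ≠ 1) (hy : y ^ q = 1) :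
    ∃ (g : X) (i : ℕ), y = g * a ^ i * g⁻¹ := by
  have := Fact.mk hq
  have pg : ∀ {z : X}, z ^ q = 1 → IsPGroup q (zpowers z) := fun {z} hz =>
    IsPGroup.of_card_dvd_pow (n := 1) (by
      rw [Nat.card_zpowers, pow_one]; exact orderOf_dvd_of_pow_eq_one hz)
  obtain ⟨S, hS⟩ := (pg ha).exists_le_sylow
  obtain ⟨T, hT⟩ := (pg hy).exists_le_sylow
  obtain ⟨g, rfl⟩ := exists_smul_eq X S T
  obtain ⟨n, hn⟩ := IsPGroup.iff_card.1 S.isPGroup'
  have e : zpowers a = S := eq_of_le_of_card_ge hS (by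
    rw [Nat.card_zpowers, orderOf_eq_prime ha h1, hn]
    have : n ≤ 1 := by
      by_contra c
      exact h ((pow_dvd_pow q (by omega)).trans (hn ▸ card_subgroup_dvd_card _))
    simpa using Nat.pow_le_pow_right hq.pos this)
  obtain ⟨z, hz, e2⟩ := hT (mem_zpowers y)
  rw [← e, SetLike.mem_coe, ← mem_powers_iff_mem_zpowers] at hz
  obtain ⟨i, rfl⟩ := hz
  exact ⟨g, i, e2.symm⟩

variable {k : Type*} [Field k] [IsAlgClosed k] {p : ℕ} [Fact p.Prime] [CharP k p]
  {X : Type*} [Group X] [Finite X]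

instance finite_range (π : X →* PGL(2, k)) : Finite π.range :=
  Finite.of_surjective _ π.rangeRestrict_surjective

theorem sm_range (π : X →* PGL(2, k)) (hs : Sm p (Nat.card X)) : Sm p (Nat.card π.range) :=
  hs.of_dvd (card_range_dvd π)

theorem dk_pi (π : X →* PGL(2, k)) (hs : Sm p (Nat.card X)) {x x' : X} (g2 : π x ^ 2 ≠ 1)
    (g3 : π x ^ 3 ≠ 1) (g2' : π x' ^ 2 ≠ 1) : π x * π x' = π x' * π x ∨
      (∃ j : π.range →* Equiv.Perm (Fin 4), Function.Injective j) ∨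
      Nonempty (π.range ≃* alternatingGroup (Fin 5)) :=
  (dk ((mob p).subgroup π.range) (sm_range π hs) (g := π.rangeRestrict x) (g' := π.rangeRestrict x')
    (fun c => g2 (congrArg Subtype.val c)) (fun c => g3 (congrArg Subtype.val c))
    (fun c => g2' (congrArg Subtype.val c))).imp_left (congrArg Subtype.val)

theorem pt_pi (π : X →* PGL(2, k)) (hs : Sm p (Nat.card X)) {x x' : X} (g2 : π x ^ 2 ≠ 1)
    (g3 : π x ^ 3 ≠ 1) {y : OnePoint k} (h1 : π x • y = y) (h2 : π x' • y = y) :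
    π x * π x' = π x' * π x :=
  congrArg Subtype.val (comm_of_pt ((mob p).subgroup π.range) (sm_range π hs)
    (g := π.rangeRestrict x) (g' := π.rangeRestrict x') h1 h2
    (fun c => g2 (congrArg Subtype.val c)) (fun c => g3 (congrArg Subtype.val c)))

theorem odd_pi (π : X →* PGL(2, k)) (hp : ¬ p ∣ Nat.card X) (ho : Odd (Nat.card X)) (x x' : X) :
    π x * π x' = π x' * π x :=
  congrArg Subtype.val (comm_of_odd ((mob p).subgroup π.range)
    (fun c => hp (c.trans (card_range_dvd π))) (ho.of_dvd_nat (card_range_dvd π))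
    (π.rangeRestrict x) (π.rangeRestrict x'))

theorem half (π π' : X →* PGL(2, k)) (hs : Sm p (Nat.card X))
    (k1 : ∀ g, π' g = 1 → π g ^ 2 = 1 → g = 1) {x x' : X} (g2 : π x ^ 2 ≠ 1)
    (g3 : π x ^ 3 ≠ 1) (g2' : π x' ^ 2 ≠ 1) (hc : π x * π x' ≠ π x' * π x) :
    Function.Injective π' := by
  refine (injective_iff_map_eq_one _).2 fun g hg => ?_
  obtain ⟨j, hj⟩ | ⟨⟨e⟩⟩ := (dk_pi π hs g2 g3 g2').resolve_left hc
  · have key : ∀ (y : X) (n : ℕ), j (π.rangeRestrict y) ^ n = 1 ↔ π y ^ n = 1 := fun y n => by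
      rw [← map_pow, map_eq_one_iff j hj]; exact Subtype.ext_iff
    rcases s4_ker (j (π.rangeRestrict x)) (j (π.rangeRestrict g)) ((key _ _).not.2 g2)
      ((key _ _).not.2 g3) with h | ⟨h, h'⟩ | ⟨h, h'⟩
    · exact k1 g hg ((key _ _).1 h)
    · have h'' : j (π.rangeRestrict (g ^ 2)) ^ 2 = 1 := by simpa using h'
      rw [← map_pow, ← map_pow, k1 (g ^ 2) (by simp [hg]) ((key _ _).1 h'')] at h
      simp at h
    · simp only [← map_pow j, ← map_pow π.rangeRestrict, ← map_inv, ← map_mul] at h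
      have h'' : j (π.rangeRestrict (g * x ^ 2 * g⁻¹ * (x ^ 2)⁻¹)) ^ 2 = 1 := by simpa using h'
      rw [k1 _ (by simp [hg]) ((key _ _).1 h'')] at h
      simp at h
  · let ψ := e.toMonoidHom.comp π.rangeRestrict
    have hψ : Function.Surjective ψ := e.surjective.comp π.rangeRestrict_surjective
    have key : ∀ (y : X) (n : ℕ), ψ y ^ n = 1 ↔ π y ^ n = 1 := fun y n => by
      simp only [ψ, MonoidHom.comp_apply, MulEquiv.coe_toMonoidHom]
      rw [← map_pow, map_eq_one_iff e e.injective]; exact Subtype.ext_iff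
    rcases (Normal.map inferInstance ψ hψ : (π'.ker.map ψ).Normal).eq_bot_or_eq_top with h | h
    · have : ψ g ∈ π'.ker.map ψ := ⟨g, hg, rfl⟩
      rw [h, mem_bot] at this
      exact k1 g hg ((key _ _).1 (by simp [this]))
    · obtain ⟨y, y1, y2⟩ := a5_inv
      obtain ⟨z, hz, rfl⟩ := h.ge (mem_top y)
      exact (y1 (by rw [k1 z hz ((key _ _).1 y2), map_one])).elim

theorem pair_abs (π π' : X →* PGL(2, k)) (hs : Sm p (Nat.card X))
    (k1 : ∀ g, π' g = 1 → π g ^ 2 = 1 → g = 1) (k2 : ∀ g, π g = 1 → π' g ^ 2 = 1 → g = 1) {x x' : X}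
    (g2 : π x ^ 2 ≠ 1) (g3 : π x ^ 3 ≠ 1) (g2' : π x' ^ 2 ≠ 1) (e2 : π' x ^ 2 ≠ 1)
    (e3 : π' x ^ 3 ≠ 1) (e2' : π' x' ^ 2 ≠ 1) (hc : x * x' ≠ x' * x) :
    Function.Injective π ∧ Function.Injective π' ∧
      ((∃ j : X →* Equiv.Perm (Fin 4), Function.Injective j) ∨
        Nonempty (X ≃* alternatingGroup (Fin 5))) := by
  have key : ∀ {π : X →* PGL(2, k)}, Function.Injective π → π x * π x' ≠ π x' * π x :=
    fun hπ c => hc (hπ (by rw [map_mul, map_mul, c]))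
  have h : Function.Injective π ∧ Function.Injective π' := by
    by_cases c : π x * π x' = π x' * π x
    · have h1 := half π' π hs k2 e2 e3 e2' fun c' => hc (by
        rw [← mul_inv_eq_one]
        exact k1 _ (by rw [map_mul, map_inv, map_mul, map_mul, c', mul_inv_cancel])
          (by rw [map_mul, map_inv, map_mul, map_mul, c, mul_inv_cancel, one_pow]))
      exact (key h1 c).elim
    · have h1 := half π π' hs k1 g2 g3 g2' c
      exact ⟨half π' π hs k2 e2 e3 e2' (key h1), h1⟩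
  refine ⟨h.1, h.2, ((dk_pi π hs g2 g3 g2').resolve_left (key h.1)).imp ?_ ?_⟩
  · rintro ⟨j, hj⟩
    exact ⟨j.comp π.rangeRestrict, hj.comp (π.rangeRestrict_injective_iff.2 h.1)⟩
  · rintro ⟨e⟩
    exact ⟨(MonoidHom.ofInjective h.1).trans e⟩

theorem tau_pair (π π' : X →* PGL(2, k)) (h : Function.Injective π) (h' : Function.Injective π')
    (e : X ≃* alternatingGroup (Fin 5)) {x : X} (x2 : x ^ 2 ≠ 1) (x3 : x ^ 3 ≠ 1) (hx : π x = π' x)
    (y : X) : tau (π y) = tau (π' y) := by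
  have key : ∀ (y : X) (n : ℕ), e y ^ n = 1 → y ^ n = 1 := fun y n c => by
    rwa [← map_pow, map_eq_one_iff e e.injective] at c
  by_cases y1 : y = 1
  · simp [y1]
  have n1 : π y ≠ 1 := fun c => y1 ((map_eq_one_iff π h).1 c)
  have n2 : π' y ≠ 1 := fun c => y1 ((map_eq_one_iff π' h').1 c)
  rcases a5_ord (e y) with c | c | c <;> have c := key _ _ c
  · rw [(pow_two_iff n1).1 (by rw [← map_pow, c, map_one]),
      (pow_two_iff n2).1 (by rw [← map_pow, c, map_one])]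
  · rw [(pow_three_iff n1).1 (by rw [← map_pow, c, map_one]),
      (pow_three_iff n2).1 (by rw [← map_pow, c, map_one])]
  · have x5 := key _ _ (((a5_ord (e x)).resolve_left fun c => x2 (key _ _ c)).resolve_left
      fun c => x3 (key _ _ c))
    obtain ⟨g, i, rfl⟩ := conj_of_prime (q := 5) (by norm_num) (by
      rw [Nat.card_congr e.toEquiv, nat_card_alternatingGroup, Nat.card_fin]; decide) x5
      (fun c => x2 (by simp [c])) c
    simp only [map_mul, map_inv, map_pow, tau_conj, hx]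

end Cfsg.Agent.O5
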