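import Cfsg.Agent.O5.BU
import Cfsg.Agent.H6.MobB

/-!
Case B: two rotations fix a common non-singular vector.
-/

set_option autoImplicit false
set_option linter.unusedSectionVars false

namespace Cfsg.Agent.O5

open Module Subgroup Matrix MulAction Cfsg.Agent.H4.CABasic H6 H6.Pg
open scoped MatrixGroups

variable {k : Type*} [Field k]

/-- averaging over cosets -/
theorem avg {X M : Type*} [Group X] [Finite X] [AddCommGroup M] [Module k M] (ρ : X →* (M ≃ₗ[k] M))
    (K : Subgroup X) {v : M} (hv : ∀ g ∈ K, ρ g v = v) : ∃ v', (∀ g, ρ g v' = v') ∧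
      ∀ l : M →ₗ[k] k, (∀ g x, l (ρ g x) = l x) → l v' = K.index * l v := by
  have := Fintype.ofFinite (X ⧸ K)
  let Φ : X ⧸ K → M := Quotient.lift (fun g => ρ g v) fun a b hab => by
    have := hv _ (QuotientGroup.leftRel_apply.1 hab)
    rw [map_mul, map_inv, LinearEquiv.mul_apply] at this
    conv_lhs => rw [← this]
    simp
  refine ⟨∑ c, Φ c, fun g => ?_, fun l hl => ?_⟩
  · rw [map_sum]
    refine Fintype.sum_equiv (MulAction.toPerm g) _ _ fun c => ?_
    obtain ⟨c, rfl⟩ := QuotientGroup.mk_surjective c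
    change ρ g (ρ c v) = ρ (g * c) v
    rw [map_mul]; rfl
  · rw [map_sum, Finset.sum_congr rfl (g := fun _ => l v) fun c _ => by
      obtain ⟨c, rfl⟩ := QuotientGroup.mk_surjective c
      exact hl c v]
    simp [Subgroup.index, Nat.card_eq_fintype_card]

/-- the stabiliser of a singular vector acts on a projective line -/
theorem exists_sing_hom [IsAlgClosed k] (h2 : (2 : k) ≠ 0) {s : W k} (hs : Q s = 0) (h0 : s ≠ 0) :
    ∃ π : stW s →* PGL(2, k), ∀ g, π g = 1 → ∃ m, IsE s m (g : GW k) := by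
  obtain ⟨t, ht, hst⟩ := exists_hyp' h2 hs h0
  have hp : HP s t := ⟨hs, ht, hst⟩
  obtain ⟨i, hi⟩ := IsAlgClosed.exists_eq_mul_self (-1 : k)
  have i0 : i ≠ 0 := by rintro rfl; simp at hi
  obtain ⟨φ, h, h1⟩ := exists_m4_one h2 (w := s + t) (u := i • (s - t))
    (by simp [Q_add, hs, ht, hst]) (by simp [Q_smul, Q_sub, hs, ht, hst, sq, ← hi])
    (by simp [hp.ee, hp.ff, hp.b, hp.fe])
  have pp : ∀ X : M2 k, X.trace = 0 → B (φ X) s = 0 ∧ B (φ X) t = 0 := fun X hX => by
    have a1 := h.perp X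
    have a2 := h.B_one X
    simp [h1, hX, i0] at a1 a2
    exact ⟨mul_left_cancel₀ h2 (by linear_combination a1 + a2),
      mul_left_cancel₀ h2 (by linear_combination a1 - a2)⟩
  let R : GW k → M2 k → Prop := fun g A => A.det = 1 ∧ ∀ X : M2 k, X.trace = 0 →
    ∃ c : k, g (φ X) = φ (A * X * A.adjugate) + c • s
  have ex : ∀ g : stW s, ∃ A, R g A := fun ⟨g, hg, es⟩ => by
    have a1 : B (g t) s = 1 := by rw [← es, Om_iso hg, hp.fe]
    have hm : B (g t - t - B (g t) t • s) s = 0 := by simp [a1, hp.fe, hp.ee]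
    have E := sgE_isE hs hm
    have e1 : sgE hs hm t = g t := by
      simp only [sgE_apply, sg, map_sub, map_smul, smul_eq_mul, Q_sub, Q_smul, hs, Om_Q hg, ht,
        LinearMap.sub_apply, a1, hp.fe, hp.ff, B_comm t (g t)]
      module
    have e2 : ((sgE hs hm)⁻¹ * g) s = s := by
      rw [LinearEquiv.mul_apply, es]; exact E.inv.fix_s
    have e3 : ((sgE hs hm)⁻¹ * g) t = t := by
      rw [LinearEquiv.mul_apply]; exact (sgE hs hm).symm_apply_eq.2 e1.symm
    obtain ⟨A, D, a⟩ := h.act _ (mul_mem (inv_mem (E.mem_Om h2)) hg) (by rw [map_add, e2, e3])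
    obtain rfl := h.ac_fix a (by rw [h1, map_smul, map_sub, e2, e3])
    refine ⟨D, a.1, fun X hX => ?_⟩
    have := congrArg (sgE hs hm) (a.2.2 X)
    simp only [LinearEquiv.mul_apply, LinearEquiv.coe_inv, LinearEquiv.apply_symm_apply] at this
    rw [sgE_apply, sg, (pp _ (by rw [trace_conj a.1, hX])).1, zero_smul, add_zero,
      sub_eq_add_neg, ← neg_smul] at this
    exact ⟨_, this⟩
  have uq : ∀ g A A', R g A → R g A' → pg A' = pg A := fun g A A' r r' => by
    obtain ⟨γ, -, -, a⟩ := h.ex A A r.1 r.1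
    have b1 : Ac3 φ γ A 1 := ⟨r.1, Or.inl rfl, fun X _ => by rw [a.2.2, one_smul]⟩
    have b2 : Ac3 φ γ A' 1 := ⟨r'.1, Or.inl rfl, fun X hX => by
      obtain ⟨c, e⟩ := r.2 X hX
      obtain ⟨c', e'⟩ := r'.2 X hX
      have e1 := e.symm.trans e'
      have e2 := congrArg (fun y => B y t) e1
      simp [(pp _ (by rw [trace_conj r.1, hX])).2, (pp _ (by rw [trace_conj r'.1, hX])).2, hst] at e2
      rw [a.2.2, one_smul]
      exact add_right_cancel (e1.trans (by rw [e2]))⟩
    rcases (h.ac3_unique b1 b2).1 with rfl | rfl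
    · rfl
    · exact pg_neg _
  choose A hA using ex
  refine ⟨MonoidHom.mk' (fun g => pg (A g)) fun a b => ?_, fun g e => ?_⟩
  · rw [pg_mul (by simp [(hA a).1]) (by simp [(hA b).1])]
    refine uq _ _ _ ⟨by rw [det_mul, (hA a).1, (hA b).1, one_mul], fun X hX => ?_⟩ (hA (a * b))
    obtain ⟨c, e⟩ := (hA b).2 X hX
    obtain ⟨c', e'⟩ := (hA a).2 _ (by rw [trace_conj (hA b).1, hX])
    refine ⟨c' + c, ?_⟩
    rw [Subgroup.coe_mul, LinearEquiv.mul_apply, e, map_add, e', map_smul, a.2.2, adjugate_mul_distrib,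
      add_smul, add_assoc]
    simp only [mul_assoc]
  · refine isE_of_triv h2 hs h0 (Om_iso g.2.1) (fun x hx => ?_) g.2.2
    obtain ⟨X, hX, e1⟩ := h.surj3 (y := x - B x t • s) (by simp [hx, hp.ee, hst])
      (by simp [h1, hx, hp.ee, hst])
    obtain ⟨c, e2⟩ := (hA g).2 X hX
    have e3 : A g * X * (A g).adjugate = X := by
      rcases (pg_eq_one_of_det (hA g).1).1 e with e | e <;> simp [e, adj_neg]
    rw [e3, e1, map_sub, map_smul, g.2.2] at e2
    exact ⟨c, by linear_combination (norm := module) e2⟩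

theorem RT.pow_eq_one {e f : W k} {a : k} {g : GW k} (h : RT e f a g) {n : ℕ} (hn : g ^ n = 1) :
    a ^ n = 1 := (h.pow n).eq_one_iff.1 hn

variable {Γ : Type*} [Group Γ] {p : ℕ} {ρ : Γ →* GW k}

namespace HB

variable [IsAlgClosed k] [Finite Γ]

/-- a stabiliser of a singular vector of order divisible by `p ≠ 3` has small `p'`-elements -/
theorem sing_stab (h : HB p ρ) (h3 : p ≠ 3) {s : W k} (hs : Q s = 0) (h0 : s ≠ 0) {u x : Γ}
    (hu : orderOf u = p) (us : ρ u s = s) (xs : ρ x s = s) : x ^ (2 * p) = 1 ∨ x ^ 3 = 1 := by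
  have := h.char
  have := Fact.mk h.prime
  obtain ⟨U, s0, s1, α, r⟩ := h.reg h3 (hu ▸ orderOf_dvd_natCard u)
  obtain ⟨π, hπ⟩ := exists_sing_hom h.two hs h0
  let X : Subgroup Γ := (stW s).comap ρ
  let π' : X →* PGL(2, k) := π.comp (ρ.subgroupComap (stW s))
  have inj : Function.Injective π' := (injective_iff_map_eq_one _).2 fun g e => by
    obtain ⟨m, hm⟩ := hπ _ e
    exact Subtype.ext (h.eq_one.1 ((h.nr h3).eq_one ⟨g, rfl⟩ h0 hm))
  letI : MulAction X (OnePoint k) := MulAction.compHom _ π'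
  have mb : Mob p X (OnePoint k) := (mob p).of_injective π' inj fun _ _ => rfl
  let u' : X := ⟨u, h.om u, us⟩
  let x' : X := ⟨x, h.om x, xs⟩
  have ou : orderOf u' = p := by rw [← hu]; exact (Subgroup.orderOf_coe u').symm
  have pu : u' ^ p = 1 := ou ▸ pow_orderOf_eq_one u'
  have u1 : u' ≠ 1 := by
    rintro e; rw [e, orderOf_one] at ou; exact h.prime.one_lt.ne ou
  have five := r.five
  have F1 : ∀ y, mb.P y ≠ ⊥ → ∃ φ : X → k, (∀ n ∈ stabilizer X y, φ n = 1 ∨ φ n = -1) ∧
      (∀ n ∈ stabilizer X y, ∀ n' ∈ stabilizer X y, φ (n * n') = φ n * φ n') ∧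
      ∀ n ∈ stabilizer X y, φ n = 1 → n ^ p = 1 := fun y hy => by
    obtain ⟨v, hv, v1⟩ := (Subgroup.bot_or_exists_ne_one _).resolve_left hy
    obtain ⟨g, hg⟩ := r.syl v (congrArg Subtype.val hv.2)
    have g1 : g * v * g⁻¹ ≠ 1 := by simpa using v1
    obtain ⟨c, hc⟩ := r.fix _ hg g1 (ρ g s) (by simp [v.2.2])
    have c0 : c ≠ 0 := by rintro rfl; exact h0 (by simpa using hc)
    have nm : ∀ n ∈ stabilizer X y, g * n * g⁻¹ ∈ normalizer (U : Set Γ) := fun n hn => by
      refine r.ca.mem_norm hg g1 ((r.ca.cent _ hg g1 _).1 ?_)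
      have := congrArg Subtype.val (mb.pcomm (n * v * n⁻¹) v y
        (mul_mem (mul_mem hn (mb.P_le y hv)) (inv_mem hn) :) hv.1 (by rw [conj_pow, hv.2]; simp) hv.2)
      simp only [Subgroup.coe_mul, Subgroup.coe_inv] at this
      calc _ = g * (n * v * (n : Γ)⁻¹ * v) * g⁻¹ := by group
        _ = _ := by rw [this]; group
    refine ⟨fun n => α (g * n * g⁻¹), fun n hn => ?_, fun n hn n' hn' => ?_, fun n hn e => ?_⟩
    · have := congrArg (c • ·) (r.al _ (nm n hn))
      simp only [← map_smul, smul_comm c, ← hc] at this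
      simp [n.2.2] at this
      rw [hc, smul_smul] at this
      have := smul_left_injective k r.s0 this
      exact mul_self_eq_one_iff.1 (mul_right_cancel₀ c0 (by rw [one_mul, ← sq]; exact this.symm))
    · rw [← r.mul _ (nm n hn) _ (nm n' hn')]; simp [mul_assoc]
    · have := r.pw _ ((r.ker _ (nm n hn)).1 e)
      rw [conj_pow] at this
      exact Subtype.ext (by simpa using this)
  have F2 : ∀ y, mb.P y ≠ ⊥ → ∀ n ∈ stabilizer X y, n ^ (2 * p) = 1 := fun y hy n hn => by
    obtain ⟨φ, a1, a2, a3⟩ := F1 y hy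
    rw [pow_mul, sq]
    refine a3 _ (mul_mem hn hn) ?_
    rw [a2 n hn n hn]
    rcases a1 n hn with e | e <;> simp [e]
  have dv : p ∣ Nat.card X := ou ▸ orderOf_dvd_natCard u'
  have small : ∀ n : ℕ, n ∣ 120 → p ≠ 5 → Nat.card X ≠ n := fun n hn h5 e => by
    have : p ∣ 2 ^ 3 * 3 * 5 := (e ▸ dv).trans hn
    rcases (Nat.Prime.dvd_mul h.prime).1 this with e | e
    · rcases (Nat.Prime.dvd_mul h.prime).1 e with e | e
      · have := Nat.le_of_dvd two_pos (h.prime.dvd_of_dvd_pow e); omega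
      · have := Nat.le_of_dvd three_pos e; omega
    · exact h5 ((Nat.prime_dvd_prime_iff_eq h.prime Nat.prime_five).1 e)
  rcases mb.dickson with ⟨y, e⟩ | ⟨y, y', hy, e⟩ | ⟨-, ⟨e⟩⟩ | ⟨-, ⟨e⟩⟩ | ⟨-, h5, ⟨e⟩⟩ | ⟨y, b⟩
  · have hm : ∀ n : X, n ∈ stabilizer X y := fun n => e ▸ mem_top n
    exact Or.inl (congrArg Subtype.val (F2 y (fun c => u1 (by
      have : u' ∈ mb.P y := ⟨hm u', pu⟩
      rwa [c, mem_bot] at this)) x' (hm x')))
  · rcases Mob.mem_pair.1 (e ▸ mem_top u' : u' ∈ Mob.pair X y y') with ⟨a1, a2⟩ | ⟨a1, a2⟩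
    · exact absurd (mb.pelt u' y y' pu hy a1 a2) u1
    · have := orderOf_dvd_of_pow_eq_one (n := 2) (x := u') (by rw [sq]; exact mb.sq_of_swap hy a1 a2)
      have := Nat.le_of_dvd two_pos this
      omega
  · have e1 : Nat.card X = 12 := by
      rw [Nat.card_congr e.toEquiv, nat_card_alternatingGroup]; simp [Nat.factorial]
    by_cases h5 : p = 5
    · rw [e1, h5] at dv; omega
    exact absurd e1 (small 12 (by norm_num) h5)
  · have e1 : Nat.card X = 24 := by
      rw [Nat.card_congr e.toEquiv, Nat.card_perm]; simp [Nat.factorial]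
    by_cases h5 : p = 5
    · rw [e1, h5] at dv; omega
    exact absurd e1 (small 24 (by norm_num) h5)
  · have e1 : Nat.card X = 60 := by
      rw [Nat.card_congr e.toEquiv, nat_card_alternatingGroup]; simp [Nat.factorial]
    exact absurd e1 (small 60 (by norm_num) h5)
  · classical
    obtain ⟨φ, a1, a2, a3⟩ := F1 y b.P_ne
    have c1 := Mob.card_le_of_fibers (stabilizer X y) (mb.P y) φ {1, -1}
      (fun g hg => by simpa using a1 g hg) fun g hg g' hg' e => by
        have m := mul_mem (inv_mem hg) hg'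
        refine ⟨m, a3 _ m ?_⟩
        have := a2 g hg _ m
        rw [mul_inv_cancel_left, ← e] at this
        rcases a1 g hg with e | e <;> simpa [e] using this.symm
    have c2 : ({1, -1} : Finset k).card ≤ 2 := Finset.card_le_two
    obtain ⟨v, hv, v1⟩ := (Subgroup.bot_or_exists_ne_one _).resolve_left b.P_ne
    have c3 : p ∣ Nat.card (mb.P y) :=
      (orderOf_eq_prime hv.2 v1).symm.dvd.trans (Subgroup.orderOf_dvd_natCard _ hv)
    have c4 := Nat.le_of_dvd Nat.card_pos c3
    have c5 : Nat.card (stabilizer X y) ≤ Nat.card (mb.P y) * 2 := c1.trans (by gcongr)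
    have c6 : Nat.card (mb.P y) = 5 ∧ Nat.card (stabilizer X y) = 10 := by
      obtain ⟨q, hq⟩ : ∃ q, Nat.card (mb.P y) = q + 1 := ⟨Nat.card (mb.P y) - 1, by omega⟩
      have e := b.card
      rw [hq] at c4 c5 e ⊢
      rw [Nat.add_sub_cancel] at e
      have q4 : 4 ≤ q := by omega
      rcases e with e | e
      · nlinarith
      · have : q ≤ 4 := by nlinarith
        obtain rfl : q = 4 := by omega
        omega
    obtain ⟨y', hy'⟩ := mb.fix x'
    have od := Mob.orderOf_dvd_stab hy'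
    by_cases hO : y' ∈ Mob.O X y
    · obtain ⟨g, rfl⟩ := Mob.mem_O.1 hO
      rw [Mob.card_stab_smul, c6.2] at od
      left
      have := congrArg Subtype.val (orderOf_dvd_iff_pow_eq_one.1 od)
      rwa [show 2 * p = 10 by omega]
    · by_cases x1 : x' = 1
      · right; rw [show x = 1 from congrArg Subtype.val x1, one_pow]
      obtain ⟨-, -, -, -, -, e⟩ := b.out hO fun c => x1 (by
        have : x' ∈ stabilizer X y' := hy'
        rwa [c, mem_bot] at this)
      rw [c6.1, c6.2] at e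
      rw [show Nat.card (stabilizer X y') = 3 by omega] at od
      exact Or.inr (congrArg Subtype.val (orderOf_dvd_iff_pow_eq_one.1 od))

omit [IsAlgClosed k] in
theorem fix_of_short (h : HB p ρ) (h9 : ¬ 9 ∣ Nat.card Γ) {u x : Γ} {s m e f : W k} {a : k}
    (hu : orderOf u = 3) (h0 : s ≠ 0) (E : IsE s m (ρ u)) (hm : Q m ≠ 0) (hx : RT e f a (ρ x))
    (h2 : a ^ 2 ≠ 1) (xs : ρ x s = s) : ρ x m = m := by
  have : Fact (Nat.Prime 3) := ⟨Nat.prime_three⟩
  have E' := E.conj h.two (h.iso x)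
  rw [xs, ← map_inv, ← map_mul, ← map_mul] at E'
  have a1 : a ≠ 1 := by rintro rfl; simp at h2
  obtain ⟨se, sf⟩ := (hx.fix_iff a1).1 xs
  have cm : Commute u (x * u * x⁻¹) := h.inj (by
    rw [map_mul ρ u, map_mul ρ _ u]
    exact LinearEquiv.ext fun y => by rw [(E.mul E').2.2, (E'.mul E).2.2, add_comm])
  have key : ∀ {m' : W k} {g : GW k}, IsE s m' g → IsE s (ρ x m) g → ∃ c : k, ρ x m = m' + c • s :=
    fun {m' g} e1 e2 => by
      obtain ⟨t, -, ht⟩ := exists_hyp' h.two E.1 h0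
      have := (e1.2.2 t).symm.trans (e2.2.2 t)
      simp only [sg, B_comm t s, ht] at this
      exact ⟨B t (ρ x m) + Q (ρ x m) - B t m' - Q m', by linear_combination (norm := module) -this⟩
  have mem : x * u * x⁻¹ ∈ zpowers u := by
    by_contra hc
    have o2 : orderOf (x * u * x⁻¹) = 3 := by rw [← hu]; exact (MulAut.conj x).orderOf_eq u
    have := card_dvd_of_injective
      ((zpowers u).subtype.noncommCoprod (zpowers (x * u * x⁻¹)).subtype fun a b => by
        obtain ⟨_, i, rfl⟩ := a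
        obtain ⟨_, j, rfl⟩ := b
        exact cm.zpow_zpow i j) ((injective_iff_map_eq_one _).2 fun ⟨a, b⟩ hab => by
      have hab : (a : Γ) * b = 1 := hab
      have hb : (b : Γ) ∈ zpowers u := by
        rw [eq_inv_of_mul_eq_one_right hab]; exact inv_mem a.2
      have b1 : b = 1 := by
        by_contra b1
        have : zpowers (b : Γ) = zpowers (x * u * x⁻¹) := by
          refine Subgroup.eq_of_le_of_card_ge (zpowers_le.2 b.2) ?_
          rw [Nat.card_zpowers, Nat.card_zpowers, o2, orderOf_eq_prime (p := 3) (x := (b : Γ)) ?_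
            (fun e => b1 (Subtype.ext e))]
          rw [← orderOf_dvd_iff_pow_eq_one, ← o2]
          exact orderOf_dvd_of_mem_zpowers b.2
        exact hc (zpowers_le.2 hb (this.ge (mem_zpowers _)))
      rw [b1] at hab
      exact Prod.ext (Subtype.ext (by simpa using hab)) b1)
    rw [Nat.card_prod, Nat.card_zpowers, Nat.card_zpowers, hu, o2] at this
    exact h9 this
  classical
  rw [mem_zpowers_iff_mem_range_orderOf, hu] at mem
  obtain ⟨i, hi, e⟩ := Finset.mem_image.1 mem
  have hi := Finset.mem_range.1 hi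
  have E2 := E.pow i
  rw [← map_pow, e] at E2
  obtain ⟨c, hc⟩ := key E2 E'
  have q := (h.iso x).Q_eq h.two m
  interval_cases i
  · simp [hc, Q_smul, E.1] at q; exact absurd q.symm hm
  · have := hx.sub_mem m
    rw [Nat.cast_one, one_smul] at hc
    rw [hc, add_sub_cancel_left] at this
    rw [hc, hx.hp.eq_zero this (by simp [se]) (by simp [sf]), add_zero]
  · have h3 : (3 : k) = 0 := by
      simp [hc, Q_add, Q_smul, E.1, E.2.1] at q
      exact mul_right_cancel₀ hm (by linear_combination q)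
    have e1 : ρ x (m + c • s) = (-1 : k) • (m + c • s) := by
      rw [map_add, map_smul, xs, hc]
      linear_combination (norm := module) h3 • (m + c • s)
    obtain ⟨α, β, e2⟩ := mem_Pl.1 (hx.eig_mem (fun e => h.two (by linear_combination -e)) e1)
    have q2 : Q (m + c • s) = Q m := by simp [Q_add, Q_smul, E.1, E.2.1]
    rw [← e2, hx.hp.Q_comb] at q2
    rw [← e2] at e1
    have := congrArg (fun y => B y f) e1
    simp [hx.dl.2.1, hx.dl.2.2, hx.hp.b, hx.hp.ff] at this
    have hα : α ≠ 0 := by rintro rfl; simp at q2; exact hm q2.symm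
    exact absurd (by rw [show a = -1 from mul_left_cancel₀ hα (by linear_combination this)]; simp) h2

theorem no_sing (h : HB p ρ) {x x' : Γ} {e f e' f' : W k} {a a' : k} (hx : RT e f a (ρ x))
    (hx' : RT e' f' a' (ρ x')) (h2 : a ^ 2 ≠ 1) (h3 : a ^ 3 ≠ 1) (h2' : a' ^ 2 ≠ 1) :
    ∃ w, Q w ≠ 0 ∧ ρ x w = w ∧ ρ x' w = w := by
  have := h.char
  have := Fact.mk h.prime
  by_contra hc
  push Not at hc
  have hc : ∀ w, ρ x w = w → ρ x' w = w → Q w = 0 := fun w a b => by_contra fun c => hc w c a b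
  obtain ⟨s, h0, s1, s2⟩ : ∃ s, s ≠ 0 ∧ ρ x s = s ∧ ρ x' s = s := by
    have a1 := finrank_orth h.two (Pl e f ⊔ Pl e' f')
    have a2 := Submodule.finrank_add_le_finrank_add_finrank (Pl e f) (Pl e' f')
    rw [hx.hp.finrank_Pl, hx'.hp.finrank_Pl] at a2
    obtain ⟨s, hs, h0⟩ := Submodule.exists_mem_ne_zero_of_ne_bot
      (p := B.orthogonal (Pl e f ⊔ Pl e' f')) (fun c => by rw [c, finrank_bot] at a1; omega)
    refine ⟨s, h0, hx.fix s ?_ ?_, hx'.fix s ?_ ?_⟩ <;> rw [B_comm] <;> apply hs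
    exacts [Submodule.mem_sup_left (left_mem_Pl e f), Submodule.mem_sup_left (right_mem_Pl e f),
      Submodule.mem_sup_right (left_mem_Pl e' f'), Submodule.mem_sup_right (right_mem_Pl e' f')]
  have hs := hc s s1 s2
  let X : Subgroup Γ := (stW s).comap ρ
  have av : ∀ (K : Subgroup X) (v : W k), (∀ g ∈ K, ρ g v = v) → B s v = 1 → p ∣ K.index :=
    fun K v hv e => by
      obtain ⟨v', a1, a2⟩ := avg (ρ.comp X.subtype) K hv
      have a3 := a2 (B s) fun g y => by
        conv_lhs => rw [← show ρ g s = s from g.2.2]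
        exact h.iso g s y
      have a4 : ρ x v' = v' := a1 ⟨x, h.om x, s1⟩
      have a5 : ρ x' v' = v' := a1 ⟨x', h.om x', s2⟩
      have a6 := hc (s + v') (by rw [map_add, s1, a4]) (by rw [map_add, s2, a5])
      rw [Q_add, hs, hc v' a4 a5, a3, e] at a6
      exact (CharP.cast_eq_zero_iff k p _).1 (by simpa using a6)
  obtain ⟨t, -, ht⟩ := exists_hyp' h.two hs h0
  have dv := av ⊥ t (fun g hg => by simp [mem_bot.1 hg]) ht
  rw [index_bot] at dv
  obtain ⟨u, hu⟩ := exists_prime_orderOf_dvd_card' p dv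
  have hu' : orderOf (u : Γ) = p := by rw [Subgroup.orderOf_coe, hu]
  by_cases p3 : p = 3
  swap
  · rcases h.sing_stab p3 hs h0 hu' u.2.2 s1 with c | c
    · have := hx.pow_eq_one (n := 2 * p) (by rw [← map_pow, c, map_one])
      rw [pow_mul, ← sub_eq_zero, ← one_pow p, ← sub_pow_char, pow_eq_zero_iff h.prime.ne_zero,
        sub_eq_zero] at this
      exact h2 this
    · exact h3 (hx.pow_eq_one (by rw [← map_pow, c, map_one]))
  subst p3
  obtain ⟨h9, sh⟩ := h.u3 rfl
  obtain ⟨s', m, a1, a2, a3⟩ := sh u (hu' ▸ pow_orderOf_eq_one (u : Γ))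
    (fun c => by rw [c, orderOf_one] at hu'; omega)
  by_cases hm : s ∈ Pl s' m
  · obtain ⟨α, β, c⟩ := mem_Pl.1 hm
    have : β = 0 := by simpa [← c, Q_add, Q_smul, a2.1, B_comm s' m, a2.2.1, a3] using hs
    rw [this, zero_smul, add_zero] at c
    have hα : α ≠ 0 := by rintro rfl; exact h0 (by simp [← c])
    have fx : ∀ g : GW k, g s = s → g s' = s' := fun g hg => by
      rw [← c, map_smul] at hg; exact smul_right_injective _ hα hg
    exact a3 (hc m (h.fix_of_short h9 hu' a1 a2 a3 hx h2 (fx _ s1))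
      (h.fix_of_short h9 hu' a1 a2 a3 hx' h2' (fx _ s2)))
  · obtain ⟨v, b1, b2⟩ := exists_sep h.two hm 1
    have b3 : ρ u v = v := a2.fix (by rw [B_comm]; exact b1 _ (left_mem_Pl _ _))
      (by rw [B_comm]; exact b1 _ (right_mem_Pl _ _))
    have := av (zpowers u) v (fun g hg => by
      have : zpowers u ≤ ((stW v).comap ρ).comap X.subtype := zpowers_le.2 ⟨h.om _, b3⟩
      exact (this hg).2) b2
    refine h9 (Dvd.dvd.trans ?_ (card_subgroup_dvd_card X))
    rw [← (zpowers u).card_mul_index, Nat.card_zpowers, hu]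
    exact mul_dvd_mul_left 3 this

end HB

end Cfsg.Agent.O5
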