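import Cfsg.Agent.O5.B2
import Cfsg.Agent.O5.BS

/-!
Case B: pairs of rotations.
-/

set_option autoImplicit false
set_option linter.unusedSectionVars false

namespace Cfsg.Agent.O5

open Subgroup Matrix Module Cfsg.Agent.H6 Cfsg.Agent.H6.Pg
open scoped MatrixGroups OnePoint

variable {k : Type*} [Field k] [IsAlgClosed k]

theorem exists_model (h2 : (2 : k) ≠ 0) {w e f : W k} (hw : Q w = 1) (hp : HP e f) (h3 : B w e = 0)
    (h4 : B w f = 0) : ∃ φ, M4 w φ ∧ φ !![0, 1; 0, 0] = e ∧ φ !![0, 0; -1, 0] = f := by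
  have li : ∀ {w e f : W k}, Q w = 1 → HP e f → B w e = 0 → B w f = 0 →
      LinearIndependent k ![w, e, f] := fun {w e f} hw hp h3 h4 => by
    rw [Fintype.linearIndependent_iff]
    intro c hc
    simp only [Fin.sum_univ_three, Matrix.cons_val] at hc
    have k1 := congrArg (fun v => B v w) hc
    have k2 := congrArg (fun v => B v e) hc
    have k3 := congrArg (fun v => B v f) hc
    simp [hp.ee, hp.ff, hp.b, hp.fe, h3, h4, B_comm _ w, B_self w, hw, h2] at k1 k2 k3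
    intro i; fin_cases i <;> simp [*]
  have hp0 : HP (φ0 !![0, 1; 0, 0] : W k) (φ0 !![0, 0; -1, 0]) := by
    constructor <;> simp [Q_apply, B_apply, φ0_def]
  obtain ⟨g, hg, e1⟩ := witt_fam h2 (li (w := Pi.single 0 1) (by simp [Q_apply]) hp0
    (by simp [B_apply, φ0_def]) (by simp [B_apply, φ0_def])) (li hw hp h3 h4) (by
      intro i j
      fin_cases i <;> fin_cases j <;>
        simp [hp.ee, hp.ff, hp.b, hp.fe, h3, h4, B_comm _ w, B_self w, hw] <;>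
        simp [B_apply, φ0_def])
  obtain ⟨γ, hγ, e2⟩ := Op_adjust hg (z := φ0 1) (by simp [Q_apply, φ0_def])
  refine ⟨γ.toLinearMap ∘ₗ φ0, ?_, ?_, ?_⟩
  · have := (m4_zero h2).map hγ
    rwa [e2 _ (by simp [B_apply, φ0_def]), show g (Pi.single 0 1) = w from e1 0] at this
  · exact (e2 _ (by simp [B_apply, φ0_def])).trans (e1 1)
  · exact (e2 _ (by simp [B_apply, φ0_def])).trans (e1 2)

theorem ac_diag {w e f : W k} {φ : M2 k →ₗ[k] W k} (m : M4 w φ) (h1 : φ !![0, 1; 0, 0] = e)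
    (h2 : φ !![0, 0; -1, 0] = f) {α : k} (hα : α ≠ 0) {g : GW k} (hg : RT e f (α * α) g) :
    Ac φ g !![α, 0; 0, α⁻¹] !![α, 0; 0, α⁻¹] := by
  refine ⟨by simp [hα], by simp [hα], fun X => ?_⟩
  rw [hg.apply, ← h1, ← h2, m.B_eq, m.B_eq, ← φ.map_smul, ← φ.map_smul, ← φ.map_add,
    ← φ.map_add]
  congr 1
  ext i j
  fin_cases i <;> fin_cases j <;>
    simp [adjugate_fin_two, trace_fin_two, mul_apply, Fin.sum_univ_two, vecMul, dotProduct] <;>
    field_simp <;> ring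

theorem exists_ns (h2 : (2 : k) ≠ 0) {w e f : W k} (hw : Q w ≠ 0) (hp : HP e f) (h3 : B w e = 0)
    (h4 : B w f = 0) : ∃ z, Q z = 1 ∧ B z w = 0 ∧ B z e = 0 ∧ B z f = 0 := by
  obtain ⟨c, hc, h5⟩ := exists_unit hw
  obtain ⟨φ, m, rfl, rfl⟩ := exists_model h2 h5 hp (by simp [h3]) (by simp [h4])
  refine ⟨φ 1, by simp [m.Q_eq], ?_, ?_, ?_⟩
  · simpa [hc] using m.perp 1
  · rw [B_comm, m.B_one]; simp
  · rw [B_comm, m.B_one]; simp

variable {Γ : Type*} [Group Γ] [Finite Γ] [IsSimpleGroup Γ] {ρ : Γ →* GW k} {p : ℕ}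

/-- the stabiliser of a vector -/
def Xw (ρ : Γ →* GW k) (w : W k) : Subgroup Γ := (stW w).comap ρ

/-- its inclusion into the stabiliser in the orthogonal group -/
def ιw (ρ : Γ →* GW k) (w : W k) : Xw ρ w →* stW w := ρ.subgroupComap (stW w)

namespace HB

variable (h : HB p ρ)
include h

theorem mem_Xw {w : W k} {g : Γ} : g ∈ Xw ρ w ↔ ρ g w = w := ⟨fun c => c.2, fun c => ⟨h.om g, c⟩⟩

theorem sm_Xw {w : W k} (hw : Q w ≠ 0) : Sm p (Nat.card (Xw ρ w)) := by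
  by_cases h3 : p = 3
  · exact Or.inr ⟨h3, fun c => (h.u3 h3).1 (c.trans (card_subgroup_dvd_card _))⟩
  refine Or.inl fun c => ?_
  have := Fact.mk h.prime
  obtain ⟨U, s, s1, α, r⟩ := h.reg h3 (c.trans (card_subgroup_dvd_card _))
  obtain ⟨u, hu⟩ := exists_prime_orderOf_dvd_card' p c
  rw [← orderOf_coe] at hu
  obtain ⟨g, hg⟩ := r.syl u (hu ▸ pow_orderOf_eq_one _)
  obtain ⟨d, hd⟩ := r.fix _ hg (fun c => h.prime.ne_one (by
    rw [← hu, show (u : Γ) = 1 by simpa using c, orderOf_one])) (ρ g w)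
    (by simp [h.mem_Xw.1 u.2])
  have := (h.iso g).Q_eq h.two w
  rw [hd, Q_smul, r.qs, mul_zero] at this
  exact hw this.symm

theorem ker_two {w : W k} {φ : M2 k →ₗ[k] W k} (m : M4 w φ) {g : Xw ρ w}
    (h1 : m.π₁ (ιw ρ w g) = 1) (h2 : m.π₂ (ιw ρ w g) = 1) : g = 1 :=
  Subtype.ext (h.eq_one.1 ((m.ker_pi h1 h2).resolve_right (h.noA _ _)))

theorem sq_cases {A : M2 k} (hA : A.det = 1) (h1 : pg A ^ 2 = 1) : pg A = 1 ∨ A * A = -1 := by
  by_cases c : pg A = 1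
  · exact Or.inl c
  have := (pow_two_iff c).1 h1
  rw [tau_pg (by simp [hA]), hA, div_one, sq_eq_zero_iff] at this
  right; rw [← pow_two, sq_eq, this, hA]; simp

theorem k1 {w : W k} {φ : M2 k →ₗ[k] W k} (m : M4 w φ) (g : Xw ρ w)
    (h1 : m.π₂ (ιw ρ w g) = 1) (h2 : m.π₁ (ιw ρ w g) ^ 2 = 1) : g = 1 := by
  obtain ⟨A, hA⟩ := m.π₂_eq_one.1 h1
  rw [m.π₁_eq hA] at h2
  rcases h.sq_cases hA.1 h2 with c | c
  · exact h.ker_two m (by rw [m.π₁_eq hA, c]) h1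
  · have := (hA.mul hA).neg
    rw [c, neg_neg, mul_one] at this
    exact (h.noA (g * g) w (by
      rw [map_mul]; exact m.isT_of_ac (by simp [h.mem_Xw.1 g.2]) this)).elim

theorem k2 {w : W k} {φ : M2 k →ₗ[k] W k} (m : M4 w φ) (g : Xw ρ w)
    (h1 : m.π₁ (ιw ρ w g) = 1) (h2 : m.π₂ (ιw ρ w g) ^ 2 = 1) : g = 1 := by
  obtain ⟨A, hA⟩ := m.π₁_eq_one.1 h1
  rw [m.π₂_eq hA] at h2
  rcases h.sq_cases hA.2.1 h2 with c | c
  · exact h.ker_two m h1 (by rw [m.π₂_eq hA, c])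
  · have := hA.mul hA
    rw [c, mul_one] at this
    exact (h.noA (g * g) w (by
      rw [map_mul]; exact m.isT_of_ac (by simp [h.mem_Xw.1 g.2]) this)).elim

/-- the two components of a rotation are conjugate -/
theorem rt_ac {w e f : W k} {φ : M2 k →ₗ[k] W k} (m : M4 w φ) {a : k} {x : Γ} (ha : a ≠ 1)
    (hx : RT e f a (ρ x)) (hw : ρ x w = w) {A D : M2 k} (hA : Ac φ (ρ x) A D) :
    ∃ Z : M2 k, Z.det = 1 ∧ A * Z = Z * D := by
  obtain ⟨h1, h2⟩ := (hx.fix_iff ha).1 hw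
  obtain ⟨z, z1, z2, z3, z4⟩ := exists_ns h.two m.hw hx.hp h1 h2
  obtain ⟨Z, rfl⟩ := m.surj z z2
  have := m.inj ((hA.2.2 Z).symm.trans (hx.fix _ z3 z4))
  refine ⟨Z, by rw [← m.Q_eq, z1], ?_⟩
  conv_rhs => rw [← this, mul_assoc, adj_mul hA.2.1, mul_one]

theorem rt_pi {w e f : W k} {φ : M2 k →ₗ[k] W k} (m : M4 w φ) {a : k} {x : Xw ρ w} (ha : a ≠ 1)
    (hx : RT e f a (ρ x)) {n : ℕ} (hn : a ^ n ≠ 1) :
    m.π₁ (ιw ρ w x) ^ n ≠ 1 ∧ m.π₂ (ιw ρ w x) ^ n ≠ 1 := by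
  obtain ⟨A, D, hA⟩ := m.act' (ιw ρ w x)
  obtain ⟨Z, z1, z2⟩ := h.rt_ac m ha hx (h.mem_Xw.1 x.2) hA
  have e1 : m.π₁ (ιw ρ w x) = pg Z * m.π₂ (ιw ρ w x) * (pg Z)⁻¹ := by
    rw [m.π₁_eq hA, m.π₂_eq hA, eq_mul_inv_iff_mul_eq, pg_mul (by simp [hA.1]) (by simp [z1]),
      pg_mul (by simp [z1]) (by simp [hA.2.1]), z2]
  have e2 : m.π₁ (ιw ρ w x) ^ n = 1 ↔ m.π₂ (ιw ρ w x) ^ n = 1 := by rw [e1, conj_pow]; simp
  have : ¬ m.π₂ (ιw ρ w x) ^ n = 1 := fun c => hn (hx.dl.pow_eq_one hx.hp.ne (congrArg Subtype.val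
    (h.ker_two m (g := x ^ n) (by rw [map_pow, map_pow, e2.2 c]) (by rw [map_pow, map_pow, c]))))
  exact ⟨e2.not.2 this, this⟩

theorem pair {e f e' f' : W k} {a : k} {x x' : Γ} (hx : RT e f a (ρ x)) (hx' : RT e' f' a (ρ x'))
    (a2 : a ^ 2 ≠ 1) (a3 : a ^ 3 ≠ 1) (hc : x' ∉ C1 ρ e f) :
    a ^ 5 = 1 ∧ ∃ l ∈ Pl e f, l ∈ Pl e' f' ∧ Q l ≠ 0 := by
  have := Fact.mk h.prime
  have := h.char
  have a1 : a ≠ 1 := fun c => a2 (by simp [c])
  obtain ⟨w, hw, w1, w2⟩ : ∃ w, Q w = 1 ∧ ρ x w = w ∧ ρ x' w = w := by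
    obtain ⟨w, hw, w1, w2⟩ := h.no_sing hx hx' a2 a3 a2
    obtain ⟨c, -, hc⟩ := exists_unit hw
    exact ⟨c • w, hc, by simp [w1], by simp [w2]⟩
  obtain ⟨φ, m, e1, e2⟩ := exists_model h.two hw hx.hp ((hx.fix_iff a1).1 w1).1
    ((hx.fix_iff a1).1 w1).2
  obtain ⟨α, rfl⟩ := IsAlgClosed.exists_eq_mul_self a
  have hα : α ≠ 0 := left_ne_zero_of_mul hx.dl.1
  have hA := ac_diag m e1 e2 hα hx
  let y : Xw ρ w := ⟨x, h.mem_Xw.2 w1⟩
  let y' : Xw ρ w := ⟨x', h.mem_Xw.2 w2⟩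
  have nc : y * y' ≠ y' * y := fun c => hc (h.mem_C1_of_comm hx a1 (congrArg Subtype.val c).symm)
  have hs := h.sm_Xw m.hw
  have p2 := h.rt_pi m (x := y) a1 hx a2
  have p3 := h.rt_pi m (x := y) a1 hx a3
  have p2' := h.rt_pi m (x := y') a1 hx' a2
  have ne : ∀ {z : Xw ρ w} {e f : W k}, RT e f (α * α) (ρ z) → ∀ {n : ℕ}, z ^ n = 1 →
      (α * α) ^ n = 1 := fun hz n c => hz.dl.pow_eq_one hz.hp.ne (congrArg Subtype.val c)
  obtain ⟨i1, i2, ⟨j, hj⟩ | ⟨⟨ε⟩⟩⟩ := pair_abs (p := p) (m.π₁.comp (ιw ρ w)) (m.π₂.comp (ιw ρ w)) hs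
    (h.k1 m) (h.k2 m) p2.1 p3.1 p2'.1 p2.2 p3.2 p2'.2 nc
  · have key : ∀ (z : Xw ρ w) (n : ℕ), j z ^ n = 1 → z ^ n = 1 := fun z n c => by
      rwa [← map_pow, map_eq_one_iff j hj] at c
    obtain ⟨s1, s2, s3, s4⟩ := s4_sq (j y) (j y') (fun c => a2 (ne (z := y) hx (key _ _ c)))
      (fun c => a3 (ne (z := y) hx (key _ _ c))) (fun c => a2 (ne (z := y') hx' (key _ _ c)))
      (fun c => a3 (ne (z := y') hx' (key _ _ c))) fun c => nc (hj (by rw [map_mul, map_mul, c]))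
    simp only [← map_pow, ← map_mul, ne_eq, map_eq_one_iff j hj] at s1 s2 s3 s4
    obtain ⟨g, hg⟩ := isConj_iff.1 (h.one_class (t := x ^ 2) (s := x ^ 2 * x')
      (congrArg Subtype.val s1) (fun c => a2 (hx.dl.pow_eq_one hx.hp.ne c)) (congrArg Subtype.val s2)
      fun c => s3 (Subtype.ext c))
    have r1 := h.rt_conj hx g
    have r2 := r1.pow 2
    rw [← map_pow, conj_pow, hg] at r2
    obtain ⟨b1, b2⟩ := (r2.fix_iff a2).1 (h.mem_Xw.1 (y ^ 2 * y').2)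
    refine (s4 (j ⟨_, h.mem_Xw.2 (r1.fix w b1 b2)⟩) ?_).elim
    rw [← map_mul]
    exact congrArg j (Subtype.ext (by simpa [y, y', pow_two] using hg))
  have key : ∀ (z : Xw ρ w) (n : ℕ), ε z ^ n = 1 → z ^ n = 1 := fun z n c => by
    rwa [← map_pow, map_eq_one_iff ε ε.injective] at c
  refine ⟨ne (z := y) hx (key _ _ (((a5_ord (ε y)).resolve_left fun c =>
    a2 (ne (z := y) hx (key _ _ c))).resolve_left fun c => a3 (ne (z := y) hx (key _ _ c)))), ?_⟩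
  obtain ⟨A, D, hA'⟩ := m.act _ (h.om x') w2
  have tp := tau_pair _ _ i1 i2 ε (x := y) (fun c => a2 (ne (z := y) hx c))
    (fun c => a3 (ne (z := y) hx c)) ((m.π₁_eq (g := ιw ρ w y) hA).trans (m.π₂_eq hA).symm)
  have tr : ∀ (z : Xw ρ w) {A D : M2 k}, Ac φ (ρ z) A D → A.trace ^ 2 = D.trace ^ 2 :=
    fun z A D c => by
      have := tp z
      rwa [MonoidHom.comp_apply, MonoidHom.comp_apply, m.π₁_eq (g := ιw ρ w z) c,
        m.π₂_eq (g := ιw ρ w z) c, tau_pg (by simp [c.1]), tau_pg (by simp [c.2.1]), c.1, c.2.1,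
        div_one, div_one] at this
  have t1 := tr (y * y') (by simpa [y, y'] using hA.mul hA')
  have t2 := tr (y * y'⁻¹) (by simpa [y, y'] using hA.mul hA'.inv)
  have t3 : A.trace = D.trace := by
    obtain ⟨Z, z1, z2⟩ := h.rt_ac m a1 hx' w2 hA'
    rw [← mul_one A, ← mul_adj z1, ← mul_assoc, z2, trace_mul_comm, adj_mul' z1]
  have t4 : A.trace ≠ 0 := fun c => p2'.1 (by
    rw [m.π₁_eq (g := ιw ρ w y') hA', pg_pow (by simp [hA'.1]), sq_eq, c, hA'.1]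
    simp [pg_neg, pg_one])
  have fx : ∀ pt : OnePoint k, pg !![α, 0; 0, α⁻¹] • pt = pt → pg A • pt ≠ pt := fun pt c1 c2 =>
    nc (i1 (by
      rw [map_mul, map_mul]
      exact pt_pi (p := p) _ hs p2.1 p3.1 (y := pt) ((m.π₁_eq (g := ιw ρ w y) hA).symm ▸ c1)
        ((m.π₁_eq (g := ιw ρ w y') hA').symm ▸ c2)))
  have n1 : A 1 0 ≠ 0 := fun c => fx ∞ (by rw [pg_infty (by simp [hα])]; simp)
    (by rw [pg_infty (by simp [hA'.1])]; simp [c])
  have d1 := hA'.1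
  have d2 := hA'.2.1
  rw [det_fin_two] at d1 d2
  have n2 : A 0 1 ≠ 0 := fun c => fx (0 : k) (by rw [pg_some (by simp [hα])]; simp [hα])
    (by
      have : A 1 1 ≠ 0 := fun c' => by simp [c, c'] at d1
      rw [pg_some (by simp [hA'.1])]; simp [c, this])
  simp [trace_fin_two, adjugate_fin_two, vecMul, dotProduct, Fin.sum_univ_two] at t1 t2 t3 t4
  have hb : α * α⁻¹ = 1 := mul_inv_cancel₀ hα
  generalize α⁻¹ = β at *
  have u1 : α + β ≠ 0 := fun c => a2 (by linear_combination (α ^ 3 - β * α * α) * c + (α * β + 1) * hb)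
  have u2 : α - β ≠ 0 := fun c => a1 (by linear_combination α * c + hb)
  have q1 : A 0 0 = D 0 0 := by
    refine sub_eq_zero.1 (mul_left_cancel₀ (mul_ne_zero (mul_ne_zero h.two (mul_ne_zero u1 u2)) t4) ?_)
    have : D 1 1 = A 0 0 + A 1 1 - D 0 0 := by linear_combination -t3
    rw [this] at t1 t2
    linear_combination t1 - t2
  have q2 : A 1 1 = D 1 1 := by linear_combination t3 - q1
  have q3 : A 0 1 * A 1 0 = D 0 1 * D 1 0 := by rw [← q1, ← q2] at d2; linear_combination d2 - d1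
  have f1 : ρ x (φ !![A 0 1, 0; 0, D 0 1]) = φ !![A 0 1, 0; 0, D 0 1] := hx.fix _
    (by rw [← e1, m.B_eq]; simp [adjugate_fin_two, trace_fin_two])
    (by rw [← e2, m.B_eq]; simp [adjugate_fin_two, trace_fin_two])
  have f2 : ρ x' (φ !![A 0 1, 0; 0, D 0 1]) = φ !![A 0 1, 0; 0, D 0 1] := by
    rw [hA'.2.2]; congr 1
    ext i j
    fin_cases i <;> fin_cases j <;>
      simp [adjugate_fin_two, mul_apply, Fin.sum_univ_two, vecMul, dotProduct] <;> grind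
  set Z := φ !![A 0 1, 0; 0, D 0 1]
  have hZ : Z ≠ 0 := fun c => n2 (by
    simpa using congrFun (congrFun (m.inj (c.trans (map_zero φ).symm)) 0) 0)
  have li : LinearIndependent k ![w, Z] := by
    rw [LinearIndependent.pair_iff]
    intro s t hst
    have k1 := congrArg (fun v => B v w) hst
    simp [Z, m.perp, B_self, hw, h.two] at k1
    simpa [k1, hZ] using hst
  have r2 : finrank k (Pl w Z) = 2 := by
    have := finrank_span_eq_card li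
    rwa [Matrix.range_cons_cons_empty] at this
  have r3 := finrank_orth h.two (Pl w Z)
  have le : ∀ {e f : W k} {g : GW k}, RT e f (α * α) g → g w = w → g Z = Z →
      Pl e f ≤ B.orthogonal (Pl w Z) := fun {e f g} r c1 c2 v hv => mem_orth.2 fun u hu => by
    obtain ⟨s, t, rfl⟩ := mem_Pl.1 hv
    obtain ⟨s', t', rfl⟩ := mem_Pl.1 hu
    simp [(r.fix_iff a1).1 c1, (r.fix_iff a1).1 c2]
  have r4 := Submodule.finrank_mono (sup_le (le hx w1 f1) (le hx' w2 f2))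
  have r5 := Submodule.finrank_sup_add_finrank_inf_eq (Pl e f) (Pl e' f')
  rw [hx.hp.finrank_Pl, hx'.hp.finrank_Pl] at r5
  obtain ⟨l, ⟨l1, l2⟩, l3⟩ := Submodule.exists_mem_ne_zero_of_ne_bot (p := Pl e f ⊓ Pl e' f')
    (fun c => by rw [c, finrank_bot] at r5; omega)
  refine ⟨l, l1, l2, fun c => ?_⟩
  obtain ⟨d, hd⟩ : ∃ d : k, ρ x' l = d • l := by
    rcases hx'.hp.sing l2 c with ⟨d, rfl⟩ | ⟨d, rfl⟩
    · exact ⟨_, by rw [map_smul, hx'.dl.2.1, smul_comm]⟩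
    · exact ⟨_, by rw [map_smul, hx'.dl.2.2, smul_comm]⟩
  rcases hx.hp.sing l1 c with ⟨c, rfl⟩ | ⟨c, rfl⟩
  · rw [map_smul, smul_comm, smul_right_inj (left_ne_zero_of_smul l3), ← e1, hA'.2.2,
      ← map_smul] at hd
    have k1 := congrFun (congrFun (m.inj hd) 1) 0
    have k2 := congrFun (congrFun (m.inj hd) 1) 1
    simp [adjugate_fin_two, mul_apply, Fin.sum_univ_two, n1] at k1 k2
    simp [k1, k2] at d2
  · rw [map_smul, smul_comm, smul_right_inj (left_ne_zero_of_smul l3), ← e2, hA'.2.2,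
      ← map_smul] at hd
    have k1 := congrFun (congrFun (m.inj hd) 0) 0
    have k2 := congrFun (congrFun (m.inj hd) 0) 1
    simp [adjugate_fin_two, mul_apply, Fin.sum_univ_two, n2] at k1 k2
    simp [k1, k2] at d2

end HB

/-- orthogonal subspaces -/
def Pp (M M' : Submodule k (W k)) : Prop := ∀ u ∈ M, ∀ v ∈ M', B u v = 0

theorem Pp.symm {M M' : Submodule k (W k)} (h : Pp M M') : Pp M' M := fun u hu v hv => by
  rw [B_comm, h v hv u hu]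

theorem Pp.sup {M M' N : Submodule k (W k)} (h : Pp M N) (h' : Pp M' N) : Pp (M ⊔ M') N :=
  fun u hu v hv => by
    obtain ⟨a, ha, b, hb, rfl⟩ := Submodule.mem_sup.1 hu
    simp [h a ha v hv, h' b hb v hv]

theorem Pl_le {e f : W k} {M : Submodule k (W k)} : Pl e f ≤ M ↔ e ∈ M ∧ f ∈ M := by
  simp [Pl, Submodule.span_le, Set.insert_subset_iff]

theorem pp_Pl {e f e' f' : W k} (h1 : B e e' = 0) (h2 : B e f' = 0) (h3 : B f e' = 0)
    (h4 : B f f' = 0) : Pp (Pl e f) (Pl e' f') := fun u hu v hv => by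
  obtain ⟨a, b, rfl⟩ := mem_Pl.1 hu
  obtain ⟨c, d, rfl⟩ := mem_Pl.1 hv
  simp [h1, h2, h3, h4]

theorem pp_Pl_aux {e f l v : W k} (h1 : B l e = 0) (h2 : B l f = 0) (h : v ∈ Pl e f) : B l v = 0 := by
  obtain ⟨a, b, rfl⟩ := mem_Pl.1 h
  simp [h1, h2]

theorem map_mem_Pl {e f v : W k} (g : GW k) (h : v ∈ Pl e f) : g v ∈ Pl (g e) (g f) := by
  obtain ⟨a, b, rfl⟩ := mem_Pl.1 h
  exact mem_Pl.2 ⟨a, b, by simp⟩

namespace HB

variable (h : HB p ρ) {e f : W k} {a : k} {x : Γ} (hx : RT e f a (ρ x)) (a2 : a ^ 2 ≠ 1)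
  (a5 : a ^ 5 = 1)
include h hx a2 a5

theorem five_stab {e' f' : W k} (hp : HP e' f') (hc : x ∈ C1 ρ e' f') :
    Pl e' f' = Pl e f ∨ Pp (Pl e' f') (Pl e f) := by
  have a1 : a ≠ 1 := fun c => a2 (by simp [c])
  have x5 := hx.pow 5
  rw [← map_pow, a5] at x5
  obtain ⟨c, hc⟩ := mem_C0_of_odd hc (by decide : Odd 5) (h.eq_one.1 (x5.eq_one_iff.2 rfl))
  by_cases c1 : c = 1
  · subst c1
    have k1 := (hx.fix_iff a1).1 (hc.2.1.trans (one_smul _ _))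
    have k2 := (hx.fix_iff a1).1 (hc.2.2.trans (by simp))
    exact Or.inr (pp_Pl k1.1 k1.2 k2.1 k2.2)
  · exact Or.inl (hx.hp.Pl_eq hp (hx.eig_mem c1 hc.2.1) (hx.eig_mem (inv_ne_one.2 c1) hc.2.2))

theorem five_tri {e' f' : W k} {x' : Γ} (hx' : RT e' f' a (ρ x')) :
    Pl e' f' = Pl e f ∨ Pp (Pl e' f') (Pl e f) ∨ ∃ l ∈ Pl e' f', l ∈ Pl e f ∧ Q l ≠ 0 := by
  by_cases hc : x ∈ C1 ρ e' f'
  · exact (h.five_stab hx a2 a5 hx'.hp hc).imp_right Or.inl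
  · refine Or.inr (Or.inr (h.pair hx' hx a2 (fun c => a2 ?_) hc).2)
    linear_combination a5 - a ^ 2 * c

/-- moving a plane of the class inside a three-dimensional space -/
theorem five_move {e' f' : W k} (hp : HP e' f') {T : Submodule k (W k)} (hT : finrank k T = 3)
    (h1 : Pl e f ≤ T) (h2 : Pl e' f' ≤ T) (hne : Pl e' f' ≠ Pl e f) :
    Pl (ρ x e') (ρ x f') ≤ T ∧ Pl (ρ x e') (ρ x f') ≠ Pl e f ∧ Pl (ρ x e') (ρ x f') ≠ Pl e' f' := by
  have mv : ∀ v ∈ T, ρ x v ∈ T := fun v hv => by simpa using add_mem (h1 (hx.sub_mem v)) hv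
  refine ⟨Pl_le.2 ⟨mv _ (h2 (left_mem_Pl _ _)), mv _ (h2 (right_mem_Pl _ _))⟩, fun c => hne ?_,
    fun c => ?_⟩
  · have bk : ∀ v, ρ x v ∈ Pl e f → v ∈ Pl e f := fun v hv => by
      simpa using sub_mem hv (hx.sub_mem v)
    exact hx.hp.Pl_eq hp (bk _ (c ▸ left_mem_Pl _ _)) (bk _ (c ▸ right_mem_Pl _ _))
  · rcases h.five_stab hx a2 a5 hp (dl_or_sw h.two hp (h.iso x) (c ▸ left_mem_Pl _ _)
      (c ▸ right_mem_Pl _ _)) with c | c
    · exact hne c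
    have r4 := Submodule.finrank_mono (sup_le h1 h2)
    have r5 := Submodule.finrank_sup_add_finrank_inf_eq (Pl e f) (Pl e' f')
    rw [hx.hp.finrank_Pl, hp.finrank_Pl] at r5
    obtain ⟨l, ⟨l1, l2⟩, l3⟩ := Submodule.exists_mem_ne_zero_of_ne_bot (p := Pl e f ⊓ Pl e' f')
      (fun c => by rw [c, finrank_bot] at r5; omega)
    exact l3 (hx.hp.eq_zero l1 (c l l2 _ (left_mem_Pl _ _)) (c l l2 _ (right_mem_Pl _ _)))

theorem five_key {e' f' : W k} {x' : Γ} (hx' : RT e' f' a (ρ x')) {T : Submodule k (W k)}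
    (hT : finrank k T = 3) (h1 : Pl e f ≤ T) (h2 : Pl e' f' ≤ T) (hne : Pl e' f' ≠ Pl e f) {l : W k}
    (hl : Q l ≠ 0) (l1 : l ∈ Pl e' f')
    (H : ∀ g : Γ, Pl (ρ g e) (ρ g f) ≤ T → Pl (ρ g e) (ρ g f) ≠ Pl e f → l ∈ Pl (ρ g e) (ρ g f))
    (H' : ∀ g : Γ, Pl (ρ g e') (ρ g f') ≤ T → Pl (ρ g e') (ρ g f') ≠ Pl e f →
      l ∈ Pl (ρ g e') (ρ g f')) : False := by
  have a1 : a ≠ 1 := fun c => a2 (by simp [c])
  have a0 := hx.dl.1
  have inv : ∀ {e f : W k} {x : Γ}, RT e f a (ρ x) → RT f e a (ρ x⁻¹) := fun hx => by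
    have := hx.inv.symm
    rwa [inv_inv, ← map_inv] at this
  have bk : ∀ {e f : W k} (g : Γ), l ∈ Pl (ρ g⁻¹ e) (ρ g⁻¹ f) → ρ g l ∈ Pl e f := fun g c => by
    simpa using map_mem_Pl (ρ g) c
  obtain ⟨m1, m2, m3⟩ := h.five_move hx a2 a5 hx'.hp hT h1 h2 hne
  obtain ⟨m4, m5, -⟩ := h.five_move (inv hx) a2 a5 hx'.hp hT (Pl_comm e f ▸ h1) h2
    (Pl_comm e f ▸ hne)
  have k1 := H' x m1 m2
  have k2 := bk x (H' x⁻¹ m4 (Pl_comm e f ▸ m5))
  have k3 := map_mem_Pl (ρ x) l1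
  have l0 : l ≠ 0 := by rintro rfl; simp at hl
  obtain ⟨c, hc⟩ : ∃ c : k, c • l = ρ x l := by
    have r5 := Submodule.finrank_sup_add_finrank_inf_eq (Pl (ρ x e') (ρ x f')) (Pl e' f')
    have r3 := (hx'.hp.map h.two (h.iso x)).finrank_Pl
    have r4 := Submodule.finrank_lt_finrank_of_lt (lt_of_le_of_ne
      (inf_le_left : Pl (ρ x e') (ρ x f') ⊓ Pl e' f' ≤ _) fun c => m3
        (Submodule.eq_of_le_of_finrank_eq (inf_eq_left.1 c) (by rw [r3, hx'.hp.finrank_Pl])))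
    have r6 : (k ∙ l) = Pl (ρ x e') (ρ x f') ⊓ Pl e' f' := Submodule.eq_of_le_of_finrank_le
      ((Submodule.span_singleton_le_iff_mem _ _).2 ⟨k1, l1⟩) (by
        rw [finrank_span_singleton l0]; omega)
    exact Submodule.mem_span_singleton.1 (r6.ge ⟨k3, k2⟩)
  have c1 : c = 1 := by
    by_contra c1
    obtain ⟨s, t, rfl⟩ := mem_Pl.1 (hx.eig_mem c1 hc.symm)
    rw [hx.hp.Q_comb] at hl
    have j1 := congrArg (fun v => B v e) hc
    have j2 := congrArg (fun v => B v f) hc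
    simp [hx.dl.2.1, hx.dl.2.2, hx.hp.ee, hx.hp.ff, hx.hp.b, hx.hp.fe, mul_comm c,
      left_ne_zero_of_mul hl, right_ne_zero_of_mul hl] at j1 j2
    exact a2 (by rw [pow_two, ← mul_inv_cancel₀ a0, ← j1, j2])
  rw [c1, one_smul] at hc
  obtain ⟨b1, b2⟩ := (hx.fix_iff a1).1 hc.symm
  obtain ⟨m4, -, m5⟩ := h.five_move (inv hx') a2 a5 hx.hp hT (Pl_comm e' f' ▸ h2) h1
    (Pl_comm e' f' ▸ hne.symm)
  have k4 := pp_Pl_aux b1 b2 (bk x' (H x'⁻¹ m4 m5))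
  obtain ⟨s, t, rfl⟩ := mem_Pl.1 l1
  rw [hx'.hp.Q_comb] at hl
  simp [hx'.dl.2.1, hx'.dl.2.2, hx'.hp.ee, hx'.hp.ff, hx'.hp.b, hx'.hp.fe] at k4
  have k5 : a * a + 1 = 0 := by
    refine mul_left_cancel₀ hl ?_
    field_simp at k4
    linear_combination k4
  exact a1 (by linear_combination a5 - (a ^ 3 - a) * k5)

theorem five_A {e' f' : W k} {g' : Γ} (he : e' = ρ g' e) (hf : f' = ρ g' f) {T : Submodule k (W k)}
    (hT : finrank k T = 3) (h1 : Pl e f ≤ T) (h2 : Pl e' f' ≤ T) (hne : Pl e' f' ≠ Pl e f) (g : Γ) :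
    Pl (ρ g e) (ρ g f) ≤ T ∨ Pp T (Pl (ρ g e) (ρ g f)) := by
  by_contra hc
  push Not at hc
  set N := Pl (ρ g e) (ρ g f)
  have rN : finrank k N = 2 := (h.rt_conj hx g).hp.finrank_Pl
  have main : ∀ g0 g1 : Γ, Pl (ρ g0 e) (ρ g0 f) ≤ T → Pl (ρ g1 e) (ρ g1 f) ≤ T →
      Pl (ρ g1 e) (ρ g1 f) ≠ Pl (ρ g0 e) (ρ g0 f) → (∀ g2 : Γ, Pl (ρ g2 e) (ρ g2 f) ≤ T →
        Pl (ρ g2 e) (ρ g2 f) ≠ Pl (ρ g0 e) (ρ g0 f) → ¬ Pp (Pl (ρ g2 e) (ρ g2 f)) N) → False := by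
    intro g0 g1 b0 b1 b2 H
    have ex : ∀ g2 : Γ, Pl (ρ g2 e) (ρ g2 f) ≤ T → Pl (ρ g2 e) (ρ g2 f) ≠ Pl (ρ g0 e) (ρ g0 f) →
        ∃ l ∈ Pl (ρ g2 e) (ρ g2 f), l ∈ N ∧ Q l ≠ 0 := fun g2 c1 c2 =>
      ((h.five_tri (h.rt_conj hx g) a2 a5 (h.rt_conj hx g2)).resolve_left
        fun c => hc.1 (c.ge.trans c1)).resolve_left (H g2 c1 c2)
    obtain ⟨l, l1, l2, l3⟩ := ex g1 b1 b2
    have all : ∀ g2 : Γ, Pl (ρ g2 e) (ρ g2 f) ≤ T → Pl (ρ g2 e) (ρ g2 f) ≠ Pl (ρ g0 e) (ρ g0 f) →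
        l ∈ Pl (ρ g2 e) (ρ g2 f) := fun g2 c1 c2 => by
      obtain ⟨l', j1, j2, j3⟩ := ex g2 c1 c2
      have l0 : l' ≠ 0 := by rintro rfl; simp at j3
      have r4 := Submodule.finrank_lt_finrank_of_lt (lt_of_le_of_ne
        (inf_le_left : N ⊓ T ≤ _) fun c => hc.1 (inf_eq_left.1 c))
      have r6 : (k ∙ l') = N ⊓ T := Submodule.eq_of_le_of_finrank_le
        ((Submodule.span_singleton_le_iff_mem _ _).2 ⟨j2, c1 j1⟩) (by
          rw [finrank_span_singleton l0]; omega)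
      exact (Submodule.span_singleton_le_iff_mem _ _).2 j1 (r6.ge ⟨l2, b1 l1⟩)
    exact h.five_key (h.rt_conj hx g0) a2 a5 (h.rt_conj hx g1) hT b0 b1 b2 l3 l1
      (fun g2 => by simpa using all (g2 * g0)) (fun g2 => by simpa using all (g2 * g1))
  subst he hf
  by_cases c : ∃ g0 : Γ, Pl (ρ g0 e) (ρ g0 f) ≤ T ∧ Pp (Pl (ρ g0 e) (ρ g0 f)) N
  · obtain ⟨g0, c1, c2⟩ := c
    have H : ∀ g2 : Γ, Pl (ρ g2 e) (ρ g2 f) ≤ T → Pl (ρ g2 e) (ρ g2 f) ≠ Pl (ρ g0 e) (ρ g0 f) →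
        ¬ Pp (Pl (ρ g2 e) (ρ g2 f)) N := fun g2 c3 c4 c5 => hc.2 (by
      have r1 := (h.rt_conj hx g0).hp.finrank_Pl
      have r2 := (h.rt_conj hx g2).hp.finrank_Pl
      have r3 := Submodule.finrank_lt_finrank_of_lt (lt_of_le_of_ne
        (le_sup_left : _ ≤ Pl (ρ g0 e) (ρ g0 f) ⊔ Pl (ρ g2 e) (ρ g2 f)) fun c => c4
          (Submodule.eq_of_le_of_finrank_eq (left_eq_sup.1 c) (by rw [r1, r2])))
      rw [← Submodule.eq_of_le_of_finrank_le (sup_le c1 c3) (by omega)]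
      exact c2.sup c5)
    by_cases c6 : Pl e f = Pl (ρ g0 e) (ρ g0 f)
    · exact main g0 g' c1 h2 (c6 ▸ hne) H
    · exact main g0 1 c1 (by simpa using h1) (by simpa using c6) H
  · push Not at c
    exact main 1 g' (by simpa using h1) h2 (by simpa using hne) fun g2 c1 _ => c g2 c1

omit a5 in
theorem exists_not_C1 : ∃ g : Γ, g * x * g⁻¹ ∉ C1 ρ e f := by
  by_contra hc
  push Not at hc
  have hn : normalClosure {x} ≤ C1 ρ e f := by
    refine (closure_le _).2 fun y hy => ?_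
    obtain ⟨z, rfl, hz⟩ := Group.mem_conjugatesOfSet_iff.1 hy
    obtain ⟨g, rfl⟩ := isConj_iff.1 hz
    exact hc g
  rcases (normalClosure_normal (s := {x})).eq_bot_or_eq_top with c | c
  · have : x ∈ normalClosure {x} := subset_normalClosure rfl
    rw [c, mem_bot] at this
    exact h.ne_of_rt hx (fun c => a2 (by simp [c])) this
  · have r := hx.hp.finrank_Pl
    rcases h.irr (Pl e f) (fun g v hv => by
      obtain ⟨s, t, rfl⟩ := mem_Pl.1 hv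
      obtain ⟨d, c | c⟩ := hn (c.ge (mem_top g)) <;> simp only [map_add, map_smul, c.2.1, c.2.2] <;>
        apply add_mem <;> refine Submodule.smul_mem _ _ (Submodule.smul_mem _ _ ?_) <;>
        first | exact left_mem_Pl _ _ | exact right_mem_Pl _ _) with c | c <;> rw [c] at r
    · simp at r
    · rw [finrank_top, finrank_W] at r; omega

end HB

/-- rotations have order at most three -/
theorem HB.r1 (h : HB p ρ) {e f : W k} {a : k} {x : Γ} (hx : RT e f a (ρ x)) :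
    a ^ 2 = 1 ∨ a ^ 3 = 1 := by
  by_contra hc
  push Not at hc
  obtain ⟨g', hg⟩ := h.exists_not_C1 hx hc.1
  have hx' := h.rt_conj hx g'
  obtain ⟨a5, l, l1, l2, l3⟩ := h.pair hx hx' hc.1 hc.2 hg
  have hne : Pl (ρ g' e) (ρ g' f) ≠ Pl e f := fun c => hg (by
    have mv : ∀ v ∈ Pl e f, ρ (g' * x * g'⁻¹) v ∈ Pl e f := fun v hv => by
      have := add_mem (c.le (hx'.sub_mem v)) hv
      rwa [sub_add_cancel] at this
    exact dl_or_sw h.two hx.hp (h.iso _) (mv _ (left_mem_Pl _ _)) (mv _ (right_mem_Pl _ _)))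
  have l0 : l ≠ 0 := by rintro rfl; simp at l3
  have r1 := hx.hp.finrank_Pl
  have r2 := hx'.hp.finrank_Pl
  have rk : ∀ {M M' : Submodule k (W k)} {l : W k}, finrank k M = 2 → finrank k M' = 2 → M' ≠ M →
      l ≠ 0 → l ∈ M → l ∈ M' → finrank k (M ⊔ M' : Submodule k (W k)) = 3 := by
    intro M M' l r1 r2 hne l0 l1 l2
    have r3 := Submodule.finrank_lt_finrank_of_lt (lt_of_le_of_ne
      (le_sup_left : _ ≤ M ⊔ M') fun c => hne
        (Submodule.eq_of_le_of_finrank_eq (left_eq_sup.1 c) (by rw [r1, r2])))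
    have r4 := Submodule.finrank_sup_add_finrank_inf_eq M M'
    have r5 := Submodule.finrank_mono ((Submodule.span_singleton_le_iff_mem l (M ⊓ M')).2 ⟨l1, l2⟩)
    rw [finrank_span_singleton l0] at r5
    omega
  have hT := rk r1 r2 hne l0 l1 l2
  set T := Pl e f ⊔ Pl (ρ g' e) (ρ g' f)
  have A := h.five_A hx hc.1 a5 rfl rfl hT le_sup_left le_sup_right hne
  rcases h.irr T (fun g v hv => by
    have j1 := map_mem_Pl (ρ g) l1
    have j2 := map_mem_Pl (ρ g) l2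
    have j3 : B (ρ g l) (ρ g l) ≠ 0 := by rw [h.iso, B_self]; exact mul_ne_zero h.two l3
    have A' := A (g * g')
    simp only [map_mul, LinearEquiv.mul_apply] at A'
    obtain ⟨u, hu, u', hu', rfl⟩ := Submodule.mem_sup.1 hv
    rcases A g with c | c <;> rcases A' with c' | c'
    · rw [map_add]; exact add_mem (c (map_mem_Pl _ hu)) (c' (map_mem_Pl _ hu'))
    · exact (j3 (c' _ (c j1) _ j2)).elim
    · exact (j3 (c _ (c' j2) _ j1)).elim
    · exfalso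
      have r3 := rk (hx.hp.map h.two (h.iso g)).finrank_Pl (hx'.hp.map h.two (h.iso g)).finrank_Pl
        (fun c => hne (hx.hp.Pl_eq hx'.hp
          (by simpa using map_mem_Pl (ρ g)⁻¹ (c.le (left_mem_Pl _ _)))
          (by simpa using map_mem_Pl (ρ g)⁻¹ (c.le (right_mem_Pl _ _)))))
        (fun c => j3 (by simp [c])) j1 j2
      have r4 := Submodule.finrank_mono (show _ ≤ B.orthogonal T from fun w hw =>
        mem_orth.2 fun y hy => (c.symm.sup c'.symm).symm y hy w hw)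
      have r5 := finrank_orth h.two T
      omega) with c | c <;> rw [c] at hT
  · simp at hT
  · rw [finrank_top, finrank_W] at hT; omega

end Cfsg.Agent.O5
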