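import Cfsg.Agent.H6.MI1

/-!
Case B: the purely group-theoretic hypotheses of the two counting arguments.
-/

set_option autoImplicit false

namespace Cfsg.Agent.O5

open Subgroup Cfsg.Agent.H4.CABasic

variable {Γ : Type*} [Group Γ]

/-- the order of the automiser -/
noncomputable def ww (B : Subgroup Γ) : ℕ := B.relIndex (normalizer (B : Set Γ))

/-- the Sylow `p`-subgroup in the regular case -/
structure Sp (p : ℕ) (U : Subgroup Γ) (δ : Γ) : Prop where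
  prime : p.Prime
  five : 5 ≤ p
  ca : IsCA U
  pw : ∀ u ∈ U, u ^ p = 1
  mem : δ ∈ normalizer (U : Set Γ)
  ord : orderOf δ = ww U
  gen : ∀ n ∈ normalizer (U : Set Γ), ∃ i : ℕ, (δ ^ i)⁻¹ * n ∈ U
  cent : 5 ≤ ww U → centralizer {δ} = zpowers δ
  four : 5 ≤ ww U → IsCA (zpowers δ) → Odd (ww U) → ww (zpowers δ) = 4 → ww U = 5

/-- hypotheses common to both cases -/
structure Cm (p : ℕ) (U : Subgroup Γ) (δ t : Γ) : Prop where
  nab : ¬ ∀ x y : Γ, x * y = y * x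
  t1 : t * t = 1
  t2 : t ≠ 1
  cls : ∀ s, s * s = 1 → s ≠ 1 → IsConj t s
  sp : U = ⊥ ∨ Sp p U δ
  ab : ∀ y, y ≠ 1 → (∀ s, s * s = 1 → s * y = y * s → s = 1) → (∀ g, g * y * g⁻¹ ∉ U) →
    ∀ a ∈ centralizer {y}, ∀ b ∈ centralizer {y}, a * b = b * a
  aut : ∀ B : Subgroup Γ, IsCA B → Odd (Nat.card B) → (∀ y ∈ B, ∀ g, g * y * g⁻¹ ∈ U → y = 1) →
    ww B = 2 ∨ ww B = 4

/-- the case of a (generalised) dihedral involution centraliser -/
structure CI (p : ℕ) (U : Subgroup Γ) (δ t : Γ) (A : Subgroup Γ) : Prop extends Cm p U δ t where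
  tA : t ∈ A
  comm : ∀ a ∈ A, ∀ b ∈ A, a * b = b * a
  idx : A.relIndex (centralizer {t}) = 2
  out : ∀ s, s * t = t * s → s ∉ A → s * s = 1
  uniq : ∀ s ∈ A, s * s = 1 → s = 1 ∨ s = t
  cent : ∀ y ∈ A, y * y ≠ 1 → centralizer {y} = A

/-- the case of an involution centraliser of order 24 -/
structure CII (p : ℕ) (U : Subgroup Γ) (δ t x : Γ) : Prop extends Cm p U δ t where
  ct : Nat.card (centralizer {t}) = 24
  ev : {y : Γ | ∃ n : ℕ, y ^ n = t}.ncard = 9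
  ex : ∀ y, y * t = t * y → y ^ 4 = 1 ∨ y ^ 6 = 1
  x1 : x ≠ 1
  x3 : x ^ 3 = 1
  xt : x * t = t * x
  three : ∀ y, y * t = t * y → y ^ 3 = 1 → y = 1 ∨ y = x ∨ y = x⁻¹
  real : IsConj x x⁻¹
  cx : Nat.card (centralizer {x}) = 36
  syl : ∀ S : Subgroup Γ, IsPGroup 3 S → ∀ a ∈ S, ∀ b ∈ S, a * b = b * a
  other : ∃ y, y ≠ 1 ∧ y ^ 9 = 1 ∧ ¬ IsConj x y
  nU : ∀ n ∈ normalizer (U : Set Γ), U ≠ ⊥ → ¬ IsConj x n

end Cfsg.Agent.O5
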