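import Cfsg.Agent.O5.B3
import Cfsg.Agent.O5.BC0

/-!
Case B: subgroups of odd order prime to the characteristic.
-/

set_option autoImplicit false
set_option linter.unusedSectionVars false

namespace Cfsg.Agent.O5

open Subgroup Module Cfsg.Agent.H6.MG Cfsg.Agent.H4.CABasic

variable {k : Type*} [Field k] [IsAlgClosed k]

/-- the standard frame -/
def Fr0 : Fr k := by
  refine ⟨![0, 0, 0, 1, 0], ![0, 0, 0, 0, -1], ![0, 1, 0, 0, 0], ![0, 0, 1, 0, 0], ![1, 0, 0, 0, 0],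
    ⟨?_, ?_, ?_⟩, ⟨?_, ?_, ?_⟩, ?_, ?_, ?_, ?_, ?_, ?_, ?_, ?_, ?_⟩ <;> simp [Q_apply, B_apply]

/-- the image of a frame -/
def Fr.map (h2 : (2 : k) ≠ 0) (F : Fr k) {g : GW k} (hg : Iso g) : Fr k :=
  ⟨g F.e1, g F.f1, g F.e2, g F.f2, g F.e0, F.h1.map h2 hg, F.h2.map h2 hg, by rw [hg, F.ee],
    by rw [hg, F.ef], by rw [hg, F.fe], by rw [hg, F.ff], by rw [hg.Q_eq h2, F.q0], by rw [hg, F.a1],
    by rw [hg, F.b1], by rw [hg, F.a2], by rw [hg, F.b2]⟩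

theorem exists_fr1 (h2 : (2 : k) ≠ 0) {e f : W k} (h : HP e f) : ∃ F : Fr k, F.e1 = e ∧ F.f1 = f := by
  obtain ⟨g, hg, e1⟩ := witt_fam h2 (Fr0 (k := k)).h1.li h.li (by
    intro i j
    fin_cases i <;> fin_cases j <;>
      simp [h.ee, h.ff, h.b, h.fe, Fr0.h1.ee, Fr0.h1.ff, Fr0.h1.b, Fr0.h1.fe])
  exact ⟨Fr0.map h2 (Op_iso hg), e1 0, e1 1⟩

theorem exists_fr2 (h2 : (2 : k) ≠ 0) {e f e' f' : W k} (h : HP e f) (h' : HP e' f')
    (ee : B e' e = 0) (ef : B e' f = 0) (fe : B f' e = 0) (ff : B f' f = 0) :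
    ∃ F : Fr k, F.e1 = e ∧ F.f1 = f ∧ F.e2 = e' ∧ F.f2 = f' := by
  have li : ∀ {e f e' f' : W k}, HP e f → HP e' f' → B e' e = 0 → B e' f = 0 → B f' e = 0 →
      B f' f = 0 → LinearIndependent k ![e, f, e', f'] := fun {e f e' f'} h h' ee ef fe ff => by
    rw [Fintype.linearIndependent_iff]
    intro c hc
    simp only [Fin.sum_univ_four, Matrix.cons_val] at hc
    have k1 := congrArg (fun v => B v e) hc
    have k2 := congrArg (fun v => B v f) hc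
    have k3 := congrArg (fun v => B v e') hc
    have k4 := congrArg (fun v => B v f') hc
    simp [h.ee, h.ff, h.b, h.fe, h'.ee, h'.ff, h'.b, h'.fe, ee, ef, fe, ff, B_comm e e', B_comm e f',
      B_comm f e', B_comm f f'] at k1 k2 k3 k4
    intro i; fin_cases i <;> simp [*]
  let F : Fr k := Fr0
  obtain ⟨g, hg, e1⟩ := witt_fam h2 (li F.h1 F.h2 F.ee F.ef F.fe F.ff) (li h h' ee ef fe ff) (by
    intro i j
    fin_cases i <;> fin_cases j <;>
      simp [h.ee, h.ff, h.b, h.fe, h'.ee, h'.ff, h'.b, h'.fe, ee, ef, fe, ff, B_comm e e', B_comm e f',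
        B_comm f e', B_comm f f', F.h1.ee, F.h1.ff, F.h1.b, F.h1.fe, F.h2.ee, F.h2.ff, F.h2.b,
        F.h2.fe, F.ee, F.ef, F.fe, F.ff, B_comm F.e1 F.e2, B_comm F.e1 F.f2, B_comm F.f1 F.e2,
        B_comm F.f1 F.f2])
  exact ⟨F.map h2 (Op_iso hg), e1 0, e1 1, e1 2, e1 3⟩

theorem eq_one_of_odd {M : Type*} [Monoid M] {c : M} {n : ℕ} (hn : Odd n) (h1 : c ^ n = 1)
    (h2 : c ^ 2 = 1) : c = 1 := by
  obtain ⟨m, rfl⟩ := hn
  rwa [pow_succ, pow_mul, h2, one_pow, one_mul] at h1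

theorem cube_cases {c d : k} (hc : c ^ 3 = 1) (c1 : c ≠ 1) (hd : d ^ 3 = 1) :
    d = 1 ∨ d = c ∨ d = c⁻¹ := by
  have c0 : c ≠ 0 := by rintro rfl; simp at hc
  have h1 : c ^ 2 + c + 1 = 0 := mul_left_cancel₀ (sub_ne_zero.2 c1) (by linear_combination hc)
  have h2 : (d - 1) * ((d - c) * (d * c - 1)) = 0 := by
    linear_combination c * hd - (d - 1) * d * h1
  rcases mul_eq_zero.1 h2 with h | h
  · exact Or.inl (sub_eq_zero.1 h)
  · exact Or.inr ((mul_eq_zero.1 h).imp sub_eq_zero.1 fun h =>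
      eq_inv_of_mul_eq_one_left (sub_eq_zero.1 h))

variable {Γ : Type*} [Group Γ] {ρ : Γ →* GW k} {p : ℕ}

theorem eig_pow {g : Γ} {v : W k} {c : k} (hv : v ≠ 0) (h : ρ g v = c • v) {n : ℕ}
    (hn : g ^ n = 1) : c ^ n = 1 := by
  have : ∀ n : ℕ, ρ (g ^ n) v = c ^ n • v := fun n => by
    induction n with
    | zero => simp
    | succ n ih => rw [pow_succ, map_mul, LinearEquiv.mul_apply, h, map_smul, ih, smul_smul, pow_succ']
  exact smul_left_injective k hv (by simpa [hn] using (this n).symm)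

theorem exists_eigvec {O : Subgroup Γ} (hO : ∀ g ∈ O, ∀ g' ∈ O, g * g' = g' * g)
    (U : Submodule k (W k)) (hU : ∀ g ∈ O, ∀ v ∈ U, ρ g v ∈ U) (h0 : U ≠ ⊥) :
    ∃ v ∈ U, v ≠ 0 ∧ ∀ g ∈ O, ∃ c : k, ρ g v = c • v := by
  induction hn : finrank k U using Nat.strong_induction_on generalizing U with
  | _ n ih =>
  by_cases hc : ∀ g ∈ O, ∃ c : k, ∀ v ∈ U, ρ g v = c • v
  · obtain ⟨v, hv, h1⟩ := Submodule.exists_mem_ne_zero_of_ne_bot h0
    exact ⟨v, hv, h1, fun g hg => (hc g hg).imp fun c h => h v hv⟩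
  push Not at hc
  obtain ⟨g, hg, hc⟩ := hc
  have : Nontrivial U := Submodule.nontrivial_iff_ne_bot.2 h0
  obtain ⟨c, h1⟩ := End.exists_eigenvalue ((ρ g).toLinearMap.restrict (hU g hg))
  obtain ⟨⟨v, hv⟩, h2⟩ := h1.exists_hasEigenvector
  obtain ⟨w, hw, h3⟩ := hc c
  obtain ⟨u, hu, h4⟩ := ih _ (hn ▸ Submodule.finrank_lt_finrank_of_lt (lt_of_le_of_ne
    (inf_le_left : U ⊓ End.eigenspace (ρ g).toLinearMap c ≤ U) fun e =>
      h3 (End.mem_eigenspace_iff.1 (e.ge hw).2))) (U ⊓ End.eigenspace (ρ g).toLinearMap c)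
    (fun g' hg' u hu => ⟨hU g' hg' u hu.1, End.mem_eigenspace_iff.2 (by
      have h5 : ρ g u = c • u := End.mem_eigenspace_iff.1 hu.2
      change ρ g (ρ g' u) = _
      rw [← LinearEquiv.mul_apply, ← map_mul, hO g hg g' hg', map_mul, LinearEquiv.mul_apply, h5,
        map_smul])⟩)
    ((Submodule.ne_bot_iff _).2 ⟨v, ⟨hv, End.mem_eigenspace_iff.2
      (congrArg Subtype.val h2.apply_eq_smul)⟩, fun e => h2.2 (Subtype.ext e)⟩) rfl
  exact ⟨u, hu.1, h4⟩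

/-- the five weights -/
def Wt {X : Type*} (a b χ : X → k) : Prop := χ = a ∨ χ = a⁻¹ ∨ χ = b ∨ χ = b⁻¹ ∨ χ = 1

theorem orb4 {X : Type*} {c : X → X} (hc : Function.Surjective c) {a b : X → k}
    (h1 : Wt a b (a ∘ c)) (h2 : Wt a b (a ∘ c ∘ c)) (x : X) : a (c (c (c (c x)))) = a x := by
  have k1 : a ∘ c = a → a (c (c (c (c x)))) = a x := fun h => by
    have := congrFun h; simp only [Function.comp] at this; simp only [this]
  have k2 : a ∘ c = a⁻¹ → a (c (c (c (c x)))) = a x := fun h => by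
    have := congrFun h; simp only [Function.comp, Pi.inv_apply] at this; simp only [this, inv_inv]
  have k3 : a ∘ c ∘ c = a → a (c (c (c (c x)))) = a x := fun h => by
    have := congrFun h; simp only [Function.comp] at this; simp only [this]
  have k4 : a ∘ c ∘ c = a⁻¹ → a (c (c (c (c x)))) = a x := fun h => by
    have := congrFun h; simp only [Function.comp, Pi.inv_apply] at this; simp only [this, inv_inv]
  have k5 : a ∘ c = 1 → a (c (c (c (c x)))) = a x := fun h => by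
    obtain ⟨y, rfl⟩ := hc x
    exact (congrFun h (c (c (c (c y))))).trans (congrFun h y).symm
  have k6 : a ∘ c ∘ c = a ∘ c → a (c (c (c (c x)))) = a x := fun h =>
    k1 (hc.injective_comp_right h)
  have k7 : a ∘ c ∘ c = (a ∘ c)⁻¹ → a (c (c (c (c x)))) = a x := fun h =>
    k2 (hc.injective_comp_right h)
  have k8 : a ∘ c ∘ c = 1 → a (c (c (c (c x)))) = a x := fun h =>
    k5 (hc.injective_comp_right h)
  rcases h1 with h1 | h1 | h1 | h1 | h1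
  · exact k1 h1
  · exact k2 h1
  rotate_right
  · exact k5 h1
  · rcases h2 with h2 | h2 | h2 | h2 | h2
    exacts [k3 h2, k4 h2, k6 (h2.trans h1.symm), k7 (h2.trans (h1 ▸ rfl)), k8 h2]
  · rcases h2 with h2 | h2 | h2 | h2 | h2
    exacts [k3 h2, k4 h2, k7 (h2.trans (by rw [h1, inv_inv])), k6 (h2.trans h1.symm), k8 h2]

/-- conjugation on a subgroup -/
def cn {O : Subgroup Γ} {n : Γ} (hn : n ∈ normalizer (O : Set Γ)) (g : O) : O :=
  ⟨n * g * n⁻¹, (mem_normalizer_iff.1 hn g).1 g.2⟩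

theorem cn_surj {O : Subgroup Γ} {n : Γ} (hn : n ∈ normalizer (O : Set Γ)) :
    Function.Surjective (cn hn) := fun g =>
  ⟨cn (inv_mem hn) g, Subtype.ext (by simp [cn, mul_assoc])⟩

/-- odd order prime to `p` -/
structure OP (p : ℕ) (O : Subgroup Γ) : Prop where
  odd : Odd (Nat.card O)
  pp : ¬ p ∣ Nat.card O

theorem OP.le {O O' : Subgroup Γ} (h : OP p O) (h' : O' ≤ O) : OP p O' :=
  ⟨h.odd.of_dvd_nat (card_dvd_of_le h'), fun c => h.pp (c.trans (card_dvd_of_le h'))⟩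

theorem pow_card {O : Subgroup Γ} {g : Γ} (hg : g ∈ O) : g ^ Nat.card O = 1 :=
  congrArg Subtype.val (pow_card_eq_one' (x := (⟨g, hg⟩ : O)))

theorem OP.eq_one {O : Subgroup Γ} (h : OP p O) {g : Γ} (hg : g ∈ O) {v : W k} {c : k} (hv : v ≠ 0)
    (h1 : ρ g v = c • v) (h2 : c ^ 2 = 1) : c = 1 :=
  eq_one_of_odd h.odd (eig_pow hv h1 (pow_card hg)) h2

theorem sq_comm_of_inv {g z : Γ} (c : g * z * g⁻¹ = z⁻¹) : g * g * z = z * (g * g) := by
  have c' : g * z⁻¹ * g⁻¹ = z := by rw [← conj_inv, c, inv_inv]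
  rw [← mul_inv_eq_iff_eq_mul]
  calc _ = g * (g * z * g⁻¹) * g⁻¹ := by group
    _ = z := by rw [c, c']

theorem zpowers_comm (x : Γ) : ∀ g ∈ zpowers x, ∀ g' ∈ zpowers x, g * g' = g' * g := by
  rintro _ ⟨i, rfl⟩ _ ⟨j, rfl⟩; exact zpow_mul_comm x i j

namespace HB

variable (h : HB p ρ) [Finite Γ] {O : Subgroup Γ}
include h

theorem hyp_pair (ho : OP p O) (hO : ∀ g ∈ O, ∀ g' ∈ O, g * g' = g' * g)
    (U : Submodule k (W k)) (hU : ∀ g ∈ O, ∀ v ∈ U, ρ g v ∈ U)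
    (nd : ∀ v ∈ U, (∀ y ∈ U, B v y = 0) → v = 0) {g0 : Γ} (h0 : g0 ∈ O) {v0 : W k} (h1 : v0 ∈ U)
    (h2 : ρ g0 v0 ≠ v0) : ∃ e ∈ U, ∃ f ∈ U, HP e f ∧ ∀ g ∈ O, ∃ c, Dl e f (ρ g) c := by
  have := h.char
  have := Fintype.ofFinite O
  have hn : (Nat.card O : k) ≠ 0 := fun c => ho.pp ((CharP.cast_eq_zero_iff k p _).1 c)
  obtain ⟨e, ⟨u, hu, he⟩, e0, e1⟩ := exists_eigvec (ρ := ρ) hO
    (U.map ((ρ g0).toLinearMap - LinearMap.id))
    (by
      rintro g hg _ ⟨u, hu, rfl⟩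
      refine ⟨ρ g u, hU g hg u hu, ?_⟩
      change ρ g0 (ρ g u) - ρ g u = ρ g (ρ g0 u - u)
      rw [map_sub, ← LinearEquiv.mul_apply, ← LinearEquiv.mul_apply, ← map_mul, ← map_mul,
        hO g hg g0 h0])
    ((Submodule.ne_bot_iff _).2 ⟨_, ⟨v0, h1, rfl⟩, sub_ne_zero.2 h2⟩)
  change ρ g0 u - u = e at he
  have eU : e ∈ U := he ▸ sub_mem (hU g0 h0 u hu) hu
  choose! χ hχ using e1
  have χ0 : ∀ g ∈ O, χ g ≠ 0 := fun g hg c => e0 (by simpa [c] using hχ g hg)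
  have χm : ∀ g ∈ O, ∀ g' ∈ O, χ (g * g') = χ g * χ g' := fun g hg g' hg' =>
    smul_left_injective k e0 (by
      simp only []
      rw [← hχ _ (mul_mem hg hg'), map_mul, LinearEquiv.mul_apply, hχ g' hg', map_smul, hχ g hg,
        smul_smul, mul_comm])
  have c1 : χ g0 ^ 2 ≠ 1 := fun c => by
    have k1 := hχ g0 h0
    rw [ho.eq_one h0 e0 k1 c, one_smul] at k1
    have : ∀ i : ℕ, ρ (g0 ^ i) u = u + (i : k) • e := fun i => by
      induction i with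
      | zero => simp
      | succ i ih =>
        rw [pow_succ', map_mul, LinearEquiv.mul_apply, ih, map_add, map_smul, k1,
          sub_eq_iff_eq_add.1 he]
        push_cast; module
    have := this (Nat.card O)
    rw [pow_card h0, map_one] at this
    exact e0 ((smul_eq_zero.1 (left_eq_add.1 this)).resolve_left hn)
  have sing : ∀ {v : W k} {c : k}, c ^ 2 ≠ 1 → ρ g0 v = c • v → Q v = 0 := fun {v c} c1 c2 => by
    have := (h.iso g0).Q_eq h.two v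
    rw [c2, Q_smul] at this
    exact (mul_eq_zero.1 (show (c ^ 2 - 1) * Q v = 0 by linear_combination this)).resolve_left
      (sub_ne_zero.2 c1)
  obtain ⟨y, hy, y1⟩ : ∃ y ∈ U, B e y = 1 := by
    by_contra hc
    push Not at hc
    refine e0 (nd e eU fun y hy => by_contra fun c => hc _ (U.smul_mem (B e y)⁻¹ hy) ?_)
    simp [c]
  have fs : ∀ g ∈ O, ρ g ((Nat.card O : k)⁻¹ • ∑ g : O, χ g • ρ g y) =
      (χ g)⁻¹ • (Nat.card O : k)⁻¹ • ∑ g : O, χ g • ρ g y := fun g hg => by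
    rw [map_smul, smul_comm, map_sum, Finset.smul_sum (r := (χ g)⁻¹)]
    congr 1
    refine Fintype.sum_equiv (Equiv.mulLeft (⟨g, hg⟩ : O)) _ _ fun g' => ?_
    simp [χm g hg g' g'.2, smul_smul, χ0 g hg]
  refine ⟨e, eU, (Nat.card O : k)⁻¹ • ∑ g : O, χ g • ρ g y, U.smul_mem _
    (U.sum_mem fun g _ => U.smul_mem _ (hU g g.2 y hy)), ⟨sing c1 (hχ g0 h0),
      sing (by simpa using c1) (fs g0 h0), ?_⟩, fun g hg => ⟨χ g, χ0 g hg, hχ g hg, fs g hg⟩⟩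
  rw [map_smul, map_sum, Finset.sum_congr rfl (g := fun _ => 1)]
  · simp [← Nat.card_eq_fintype_card, hn]
  · intro g _
    have := h.iso g e y
    rw [hχ g g.2, y1] at this
    simpa using this

theorem dg_of (ho : OP p O) (F : Fr k) {g : Γ} (hg : g ∈ O) {a b : k} (h1 : Dl F.e1 F.f1 (ρ g) a)
    (h2 : Dl F.e2 F.f2 (ρ g) b) : Dg F (ρ g) a b := by
  refine ⟨h1, h2, ?_⟩
  have k1 := h1.perp (h.iso g) F.a1 F.b1
  have k2 := h2.perp (h.iso g) F.a2 F.b2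
  have k3 := F.dec h.two (ρ g F.e0)
  simp only [k1.1, k1.2, k2.1, k2.2, zero_smul, zero_add] at k3
  have k4 := (h.iso g).Q_eq h.two F.e0
  rw [k3, Q_smul, F.q0, mul_one] at k4
  rw [k3, ho.eq_one hg (fun c => by simpa [c] using F.q0) k3 k4, one_smul]

theorem exists_frame (ho : OP p O) (hO : ∀ g ∈ O, ∀ g' ∈ O, g * g' = g' * g) :
    ∃ F : Fr k, ∀ g ∈ O, ∃ a b, Dg F (ρ g) a b := by
  by_cases h0 : ∀ g ∈ O, ∀ v, ρ g v = v
  · exact ⟨Fr0, fun g hg => ⟨1, 1, (LinearEquiv.ext (h0 g hg) : ρ g = 1) ▸ Dg.one⟩⟩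
  push Not at h0
  obtain ⟨g0, h0, v0, h1⟩ := h0
  obtain ⟨e, -, f, -, hp, hd⟩ := h.hyp_pair ho hO ⊤ (fun _ _ _ _ => trivial)
    (fun v _ c => B_nd h.two fun y => c y trivial) h0 trivial h1
  have mem : ∀ v, v ∈ B.orthogonal (Pl e f) ↔ B v e = 0 ∧ B v f = 0 := fun v =>
    ⟨fun c => ⟨B_comm v e ▸ c e (left_mem_Pl _ _), B_comm v f ▸ c f (right_mem_Pl _ _)⟩,
      fun c u hu => (B_comm u v).trans (pp_Pl_aux c.1 c.2 hu)⟩
  by_cases h2 : ∀ g ∈ O, ∀ v ∈ B.orthogonal (Pl e f), ρ g v = v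
  · obtain ⟨F, rfl, rfl⟩ := exists_fr1 h.two hp
    refine ⟨F, fun g hg => (hd g hg).imp fun a ha => ⟨1, h.dg_of ho F hg ha ⟨one_ne_zero, ?_, ?_⟩⟩⟩
    · simpa using h2 g hg _ ((mem _).2 ⟨F.ee, F.ef⟩)
    · simpa using h2 g hg _ ((mem _).2 ⟨F.fe, F.ff⟩)
  push Not at h2
  obtain ⟨g1, h2, v1, h3, h4⟩ := h2
  obtain ⟨e', he, f', hf, hp', hd'⟩ := h.hyp_pair ho hO _ (fun g hg v hv => (mem _).2
    ((hd g hg).elim fun c hc => hc.perp (h.iso g) ((mem _).1 hv).1 ((mem _).1 hv).2))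
    (fun v hv c => hp.eq_zero (hp.mem_of_perp h.two fun y y1 y2 => c y ((mem _).2 ⟨y1, y2⟩))
      ((mem _).1 hv).1 ((mem _).1 hv).2) h2 h3 h4
  obtain ⟨F, rfl, rfl, rfl, rfl⟩ := exists_fr2 h.two hp hp' ((mem _).1 he).1 ((mem _).1 he).2
    ((mem _).1 hf).1 ((mem _).1 hf).2
  exact ⟨F, fun g hg => (hd g hg).imp fun a ha => (hd' g hg).imp fun b hb => h.dg_of ho F hg ha hb⟩

theorem exists_frame' (ho : OP p O) (hO : ∀ g ∈ O, ∀ g' ∈ O, g * g' = g' * g) :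
    ∃ (F : Fr k) (a b : O → k), ∀ g : O, Dg F (ρ g) (a g) (b g) := by
  obtain ⟨F, hF⟩ := h.exists_frame ho hO
  choose a b hab using fun g : O => hF g g.2
  exact ⟨F, a, b, hab⟩

theorem fix_e0 {F : Fr k} {x : Γ} {a b : k} (hx : Dg F (ρ x) a b) (ha : a ≠ 1) (hb : b ≠ 1) {v : W k}
    (hv : ρ x v = v) : v = (B v F.e0 / 2) • F.e0 := by
  obtain ⟨k1, k2, k3, k4, -⟩ := hx.eig (h.iso x) (c := 1) (by simpa using hv)
  simp [sub_eq_zero, ha.symm, hb.symm, ha, hb] at k1 k2 k3 k4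
  conv_lhs => rw [F.dec h.two v]
  simp [k1, k2, k3, k4]

theorem wt {F : Fr k} {a b : O → k} (hF : ∀ g : O, Dg F (ρ g) (a g) (b g)) {v : W k} (hv : v ≠ 0)
    {χ : O → k} (hχ : ∀ g : O, ρ g v = χ g • v) : Wt a b χ := by
  have k1 := fun g => (hF g).eig (h.iso g) (hχ g)
  by_contra hc
  simp only [Wt, not_or, funext_iff, not_forall] at hc
  obtain ⟨⟨g1, c1⟩, ⟨g2, c2⟩, ⟨g3, c3⟩, ⟨g4, c4⟩, g5, c5⟩ := hc
  exact hv (F.eq_zero h.two ((mul_eq_zero.1 (k1 g2).2.1).resolve_left (sub_ne_zero.2 c2))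
    ((mul_eq_zero.1 (k1 g1).1).resolve_left (sub_ne_zero.2 c1))
    ((mul_eq_zero.1 (k1 g4).2.2.2.1).resolve_left (sub_ne_zero.2 c4))
    ((mul_eq_zero.1 (k1 g3).2.2.1).resolve_left (sub_ne_zero.2 c3))
    ((mul_eq_zero.1 (k1 g5).2.2.2.2).resolve_left (sub_ne_zero.2 c5)))

theorem wt_cn {F : Fr k} {a b : O → k} (hF : ∀ g : O, Dg F (ρ g) (a g) (b g)) {n : Γ}
    (hn : n ∈ normalizer (O : Set Γ)) : Wt a b (a ∘ cn hn) :=
  h.wt hF (v := (ρ n)⁻¹ F.e1) (by simpa using F.h1.ne) fun g => by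
    have := (hF (cn hn g)).d1.2.1
    rw [show ((cn hn g : O) : Γ) = n * g * n⁻¹ from rfl] at this
    exact (ρ n).injective (by simpa using this)

theorem pow_four {F : Fr k} {a b : O → k} (hF : ∀ g : O, Dg F (ρ g) (a g) (b g)) {n : Γ}
    (hn : n ∈ normalizer (O : Set Γ)) {g : Γ} (hg : g ∈ O) : n ^ 4 * g = g * n ^ 4 := by
  have e2 : cn (mul_mem hn hn) = cn hn ∘ cn hn := funext fun g => Subtype.ext (by
    simp [cn, mul_assoc])
  have k1 := orb4 (cn_surj hn) (h.wt_cn hF hn) (e2 ▸ h.wt_cn hF (mul_mem hn hn)) ⟨g, hg⟩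
  have k2 := orb4 (cn_surj hn) (h.wt_cn (fun g => (hF g).swap) hn)
    (e2 ▸ h.wt_cn (fun g => (hF g).swap) (mul_mem hn hn)) ⟨g, hg⟩
  have k3 := hF (cn hn (cn hn (cn hn (cn hn ⟨g, hg⟩))))
  rw [k1, k2] at k3
  have := h.inj (k3.ext h.two (hF ⟨g, hg⟩))
  simp only [cn] at this
  conv_rhs => rw [← this]
  simp only [pow_succ, pow_zero]; group

variable [IsSimpleGroup Γ]

theorem cube_of_isR {x : Γ} (hx : IsR (ρ x)) (h2 : x * x ≠ 1) : x ^ 3 = 1 := by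
  obtain ⟨e, f, a, -, hx⟩ := hx
  have key : ∀ n : ℕ, a ^ n = 1 → x ^ n = 1 := fun n c => by
    have := hx.pow n
    rw [← map_pow, c] at this
    exact h.eq_one.1 (this.eq_one_iff.2 rfl)
  exact key 3 ((h.r1 hx).resolve_left fun c => h2 (by rw [← pow_two, key 2 c]))

theorem OP_cube (ho : OP p O) {x : Γ} (hx : x ∈ O) (hr : IsR (ρ x)) : x ^ 3 = 1 := by
  by_cases h2 : x * x = 1
  · rw [eq_one_of_odd ho.odd (pow_card hx) (by rw [pow_two, h2]), one_pow]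
  · exact h.cube_of_isR hr h2

theorem isR_of_C00 {e f : W k} (hp : HP e f) (ho : OP p O) {z : Γ} (hz : z ∈ O) (h0 : z ∈ C00 ρ e f)
    (h1 : z ≠ 1) : IsR (ρ z) := by
  obtain ⟨F, hF⟩ := h.exists_frame (ho.le (zpowers_le.2 hz)) (zpowers_comm z)
  obtain ⟨a, b, hd⟩ := hF z (mem_zpowers z)
  refine (hd.isR_iff h.two (h.eq_one.not.2 h1)).2 (by_contra fun c => ?_)
  push Not at c
  have k1 := h.fix_e0 hd c.1 c.2 (h0.2.1.trans (one_smul _ _))
  have k2 := hp.qe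
  rw [k1, Q_smul, F.q0, mul_one, sq_eq_zero_iff] at k2
  exact hp.ne (by rw [k1, k2, zero_smul])

theorem three_of_isR (ho : OP p O) (hO : ∀ g ∈ O, ∀ g' ∈ O, g * g' = g' * g)
    (hr : ∀ g ∈ O, g ≠ 1 → IsR (ρ g)) {z z' : Γ} (hz : z ∈ O) (h1 : z ≠ 1) (hz' : z' ∈ O) :
    z' = 1 ∨ z' = z ∨ z' = z⁻¹ := by
  obtain ⟨F, hF⟩ := h.exists_frame ho hO
  have key : ∀ F : Fr k, (∀ g ∈ O, ∃ a b, Dg F (ρ g) a b) → ∀ a, Dg F (ρ z) a 1 →
      z' = 1 ∨ z' = z ∨ z' = z⁻¹ := fun F hF a ha => by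
    by_cases h2 : z' = 1
    · exact Or.inl h2
    obtain ⟨a', b', hd⟩ := hF z' hz'
    have a1 : a ≠ 1 := fun c => h1 (h.eq_one.1 ((ha.eq_one_iff h.two).2 ⟨c, rfl⟩))
    obtain rfl : b' = 1 := by
      by_contra c
      obtain rfl := ((hd.isR_iff h.two (h.eq_one.not.2 h2)).1 (hr z' hz' h2)).resolve_right c
      have k1 := ha.mul hd
      rw [mul_one, one_mul, ← map_mul] at k1
      exact k1.not_isR a1 c (hr _ (mul_mem hz hz') fun c =>
        a1 ((k1.eq_one_iff h.two).1 (h.eq_one.2 c)).1)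
    rcases cube_cases (ha.d1.pow_eq_one F.h1.ne (h.OP_cube ho hz (hr z hz h1))) a1
      (hd.d1.pow_eq_one F.h1.ne (h.OP_cube ho hz' (hr z' hz' h2))) with rfl | rfl | rfl
    · exact Or.inl (h.eq_one.1 ((hd.eq_one_iff h.two).2 ⟨rfl, rfl⟩))
    · exact Or.inr (Or.inl (h.inj (hd.ext h.two ha)))
    · exact Or.inr (Or.inr (h.inj (hd.ext h.two (by simpa using ha.inv))))
  obtain ⟨a, b, hd⟩ := hF z hz
  rcases (hd.isR_iff h.two (h.eq_one.not.2 h1)).1 (hr z hz h1) with rfl | rfl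
  · exact key F.swap (fun g hg => let ⟨a, b, c⟩ := hF g hg; ⟨b, a, c.swap⟩) b hd.swap
  · exact key F hF a hd

omit h in
theorem exists_cen {q : ℕ} [Fact q.Prime] (hO : IsPGroup q O) (h0 : O ≠ ⊥) :
    ∃ x ∈ O, x ≠ 1 ∧ ∀ g ∈ O, g * x = x * g := by
  have : Nontrivial O := (Subgroup.nontrivial_iff_ne_bot _).2 h0
  have := hO.center_nontrivial
  obtain ⟨z, hz⟩ := exists_ne (1 : center O)
  exact ⟨z, z.1.2, fun c => hz (Subtype.ext (Subtype.ext c)), fun g hg =>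
    congrArg Subtype.val (mem_center_iff.1 z.2 ⟨g, hg⟩)⟩

theorem three_aux {e f : W k} (hp : HP e f) (ho : OP p O) (hle : O ≤ C00 ρ e f)
    (ih : ∀ x ∈ O, x ≠ 1 → (∀ g ∈ O, g * x = x * g) → ∀ g ∈ O, ∀ g' ∈ O, g * g' = g' * g)
    {z z' : Γ} (hz : z ∈ O) (h1 : z ≠ 1) (hz' : z' ∈ O) : z' = 1 ∨ z' = z ∨ z' = z⁻¹ := by
  have hr : ∀ g ∈ O, g ≠ 1 → IsR (ρ g) := fun g hg => h.isR_of_C00 hp ho hg (hle hg)
  obtain ⟨x, x1, x2, x3⟩ := exists_cen (q := 3) (O := O) (fun g => ⟨1, Subtype.ext (by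
    by_cases c : (g : Γ) = 1
    · simp [c]
    · simpa using h.OP_cube ho g.2 (hr g g.2 c))⟩) ((ne_bot_iff_exists_ne_one).2
      ⟨⟨z, hz⟩, fun c => h1 (congrArg Subtype.val c)⟩)
  exact h.three_of_isR ho (ih x x1 x2 x3) hr hz h1 hz'

/-- subgroups of odd order prime to `p` with non-trivial centre are commutative -/
theorem tor (ho : OP p O) {x : Γ} (hx : x ∈ O) (h1 : x ≠ 1) (hc : ∀ g ∈ O, g * x = x * g) :
    ∀ g ∈ O, ∀ g' ∈ O, g * g' = g' * g := by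
  induction hn : Nat.card O using Nat.strong_induction_on generalizing O x with
  | _ n ih =>
  obtain ⟨F, hF⟩ := h.exists_frame (ho.le (zpowers_le.2 hx)) (zpowers_comm x)
  obtain ⟨a, b, hd⟩ := hF x (mem_zpowers x)
  by_cases hr : IsR (ρ x)
  · obtain ⟨e, f, a, a1, hr⟩ := hr
    have hle : O ≤ C0 ρ e f := fun g hg => h.mem_C0_of_comm hr
      (fun c => a1 (ho.eq_one hx hr.hp.ne hr.dl.2.1 c)) (hc g hg)
    refine comm_of_central hr.hp.ne hle fun g hg z hz h0 => ?_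
    by_cases z1 : z = 1
    · simp [z1]
    have hlt : Nat.card (O ⊓ C00 ρ e f : Subgroup Γ) < n := hn ▸ lt_of_le_of_ne
      (card_le_of_le inf_le_left) fun c => a1 (hr.dl.uniq hr.hp.ne
        ((eq_of_le_of_card_ge inf_le_left c.ge).ge hx).2)
    rcases h.three_aux hr.hp (ho.le inf_le_left) inf_le_right
      (fun x x1 x2 x3 => ih _ hlt (ho.le inf_le_left) x1 x2 x3 rfl) (z' := g * z * g⁻¹) ⟨hz, h0⟩ z1
      ⟨O.mul_mem (O.mul_mem hg hz) (O.inv_mem hg), conj_mem_C00 h0 (C0_le (hle hg))⟩ with c | c | c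
    · exact (z1 (by simpa using c)).elim
    · exact mul_inv_eq_iff_eq_mul.1 c
    · have k1 : Commute (g ^ 2) z := by rw [pow_two]; exact sq_comm_of_inv c
      obtain ⟨m, hm⟩ := ho.odd
      have k2 := pow_card hg
      rw [hm, pow_succ, pow_mul, mul_eq_one_iff_inv_eq] at k2
      exact k2 ▸ (k1.pow_left m).inv_left.eq
  · rw [hd.isR_iff h.two (h.eq_one.not.2 h1), not_or] at hr
    have q0 : F.e0 ≠ 0 := fun c => by simpa [c] using F.q0
    have hle : O ≤ Xw ρ F.e0 := fun g hg => h.mem_Xw.2 (by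
      have k3 := h.fix_e0 hd hr.1 hr.2 (v := ρ g F.e0) (by
        rw [← LinearEquiv.mul_apply, ← map_mul, ← hc g hg, map_mul, LinearEquiv.mul_apply, hd.d0])
      have k4 := (h.iso g).Q_eq h.two F.e0
      rw [k3, Q_smul, F.q0, mul_one] at k4
      rw [k3, ho.eq_one hg q0 k3 k4, one_smul])
    obtain ⟨φ, m⟩ := exists_m4 h.two (w := F.e0) (by simp [F.q0])
    have := Fact.mk h.prime
    have := h.char
    intro g hg g' hg'
    have k1 := odd_pi ((m.π₁.comp (ιw ρ _)).comp (inclusion hle)) ho.pp ho.odd ⟨g, hg⟩ ⟨g', hg'⟩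
    have k2 := odd_pi ((m.π₂.comp (ιw ρ _)).comp (inclusion hle)) ho.pp ho.odd ⟨g, hg⟩ ⟨g', hg'⟩
    simp only [MonoidHom.comp_apply] at k1 k2
    have := h.ker_two m (g := inclusion hle ⟨g, hg⟩ * inclusion hle ⟨g', hg'⟩ *
      (inclusion hle ⟨g', hg'⟩ * inclusion hle ⟨g, hg⟩)⁻¹) (by simp [k1]) (by simp [k2])
    exact congrArg Subtype.val (mul_inv_eq_one.1 this)

theorem three_of_C00 {e f : W k} (hp : HP e f) (ho : OP p O) (hle : O ≤ C00 ρ e f)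
    {z z' : Γ} (hz : z ∈ O) (h1 : z ≠ 1) (hz' : z' ∈ O) : z' = 1 ∨ z' = z ∨ z' = z⁻¹ :=
  h.three_aux hp ho hle (fun _ => h.tor ho) hz h1 hz'

theorem comm_of_pgroup {q : ℕ} [Fact q.Prime] (h2 : q ≠ 2) (hp : q ≠ p) (hO : IsPGroup q O) :
    OP p O ∧ ∀ g ∈ O, ∀ g' ∈ O, g * g' = g' * g := by
  obtain ⟨n, hn⟩ := IsPGroup.iff_card.1 hO
  have ho : OP p O := ⟨hn ▸ ((Fact.out : q.Prime).odd_of_ne_two h2).pow, fun c =>
    hp ((Nat.prime_dvd_prime_iff_eq h.prime Fact.out).1 (h.prime.dvd_of_dvd_pow (hn ▸ c))).symm⟩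
  refine ⟨ho, ?_⟩
  by_cases h0 : O = ⊥
  · simp [h0]
  · obtain ⟨x, x1, x2, x3⟩ := exists_cen hO h0
    exact h.tor ho x1 x2 x3

theorem even_card : Even (Nat.card Γ) := by
  by_contra hc
  rw [Nat.not_even_iff_odd] at hc
  obtain ⟨q, hq, h1, h2⟩ : ∃ q, q.Prime ∧ q ∣ Nat.card Γ ∧ q ≠ p := by
    by_contra hc
    push Not at hc
    have := Fact.mk h.prime
    have hP : IsPGroup p Γ := IsPGroup.of_card (Nat.eq_prime_pow_of_unique_prime_dvd
      Nat.card_pos.ne' fun h1 h2 => hc _ h1 h2)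
    have := hP.center_nontrivial
    rcases (inferInstance : (center Γ).Normal).eq_bot_or_eq_top with c | c
    · exact (nontrivial_iff_ne_bot _).1 this c
    · exact h.nab fun x y => mem_center_iff.1 (c.ge (mem_top y)) x
  have := Fact.mk hq
  obtain ⟨S⟩ : Nonempty (Sylow q Γ) := inferInstance
  obtain ⟨ho, hO⟩ := h.comm_of_pgroup (fun c => (Nat.not_even_iff_odd.2 hc)
    (even_iff_two_dvd.2 (c ▸ h1))) h2 S.isPGroup'
  obtain ⟨F, a, b, hF⟩ := h.exists_frame' ho hO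
  refine burnside h.nab S h1 fun n hn => ?_
  have k1 : n ^ 4 ∈ centralizer (S : Set Γ) := fun g hg => (h.pow_four hF hn hg).symm
  obtain ⟨i, hi⟩ := exists_pow_eq_self_of_coprime (x := n) (n := 4) (Nat.Coprime.pow_left 2
    (Nat.coprime_two_left.2 (hc.of_dvd_nat (orderOf_dvd_natCard n))))
  exact hi ▸ pow_mem k1 i

theorem aut_op (hA : IsCA O) (ho : OP p O) : ww O = 2 ∨ ww O = 4 := by
  classical
  obtain ⟨y, y1, y2⟩ := (O.bot_or_exists_ne_one).resolve_left hA.ne_bot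
  obtain ⟨F, a, b, hF, ha⟩ : ∃ (F : Fr k) (a b : O → k), (∀ g : O, Dg F (ρ g) (a g) (b g)) ∧
      a ⟨y, y1⟩ ≠ 1 := by
    obtain ⟨F, a, b, hF⟩ := h.exists_frame' ho hA.comm
    by_cases c : a ⟨y, y1⟩ = 1
    · exact ⟨F.swap, b, a, fun g => (hF g).swap, fun c' =>
        y2 (h.eq_one.1 (((hF ⟨y, y1⟩).eq_one_iff h.two).2 ⟨c, c'⟩))⟩
    · exact ⟨F, a, b, hF, c⟩
  have h4 : ∀ n ∈ normalizer (O : Set Γ), n ^ 4 ∈ O := fun n hn =>
    (hA.cent y y1 y2 _).1 (h.pow_four hF hn y1)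
  have claim : ∀ (m : Γ) (hm : m ∈ normalizer (O : Set Γ)), a ∘ cn hm = a → m ∈ O := by
    intro m hm e
    by_cases hz : ∃ z : O, z ≠ 1 ∧ a z = 1
    · obtain ⟨z, z1, z2⟩ := hz
      have z3 : (z : Γ) ≠ 1 := fun c => z1 (Subtype.ext c)
      have k1 := hF (cn hm z)
      rw [show a (cn hm z) = 1 from (congrFun e z).trans z2] at k1
      have k2 := hF z
      rw [z2] at k2
      have k3 : b (cn hm z) ≠ 1 := fun c => z3 (by
        simpa [cn] using h.eq_one.1 ((k1.eq_one_iff h.two).2 ⟨rfl, c⟩))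
      by_contra hc
      have k4 : m * z * m⁻¹ = (z : Γ)⁻¹ := by
        rcases h.wt_cn (fun g => (hF g).swap) hm with c | c | c | c | c <;>
          have c : b (cn hm z) = _ := congrFun c z
        · rw [c] at k1
          exact (hc ((hA.cent z z.2 z3 m).1 (mul_inv_eq_iff_eq_mul.1 (h.inj (k1.ext h.two k2))))).elim
        · rw [c] at k1
          exact h.inj (k1.ext h.two (by simpa using k2.inv))
        all_goals exact (k3 (by simp [c, z2])).elim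
      have k5 := inverts hA hm hc ((hA.cent z z.2 z3 _).1 (sq_comm_of_inv k4)) y1
      have k6 := hF (cn hm ⟨y, y1⟩)
      rw [show a (cn hm ⟨y, y1⟩) = a ⟨y, y1⟩ from congrFun e _,
        show ((cn hm ⟨y, y1⟩ : O) : Γ) = y⁻¹ from k5, map_inv] at k6
      have k7 := (k6.uniq (hF ⟨y, y1⟩).inv).1
      exact ha (ho.eq_one y1 F.h1.ne (hF ⟨y, y1⟩).d1.2.1 (by
        rw [pow_two]; exact mul_eq_one_iff_eq_inv₀ (hF ⟨y, y1⟩).d1.1 |>.2 k7))
    · push Not at hz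
      have k1 := (hF (cn hm ⟨y, y1⟩)).mul (hF ⟨y, y1⟩).inv
      rw [show a (cn hm ⟨y, y1⟩) = a ⟨y, y1⟩ from congrFun e _,
        mul_inv_cancel₀ (hF ⟨y, y1⟩).d1.1, ← map_inv, ← map_mul] at k1
      have k2 : cn hm ⟨y, y1⟩ * ⟨y, y1⟩⁻¹ = 1 := by_contra fun c =>
        hz _ c ((hF (cn hm ⟨y, y1⟩ * ⟨y, y1⟩⁻¹)).uniq k1).1
      exact (hA.cent y y1 y2 m).1 (mul_inv_eq_iff_eq_mul.1
        (congrArg Subtype.val (mul_inv_eq_one.1 k2)))
  have hle := H6.Mob.card_le_of_fibers (normalizer (O : Set Γ)) O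
    (fun n => if hn : n ∈ normalizer (O : Set Γ) then a ∘ cn hn else 1) {a, a⁻¹, b, b⁻¹}
    (fun n hn => by
      rw [dif_pos hn]
      rcases h.wt_cn hF hn with c | c | c | c | c
      any_goals simp [c]
      obtain ⟨z, hz⟩ := cn_surj hn ⟨y, y1⟩
      exact (ha (hz ▸ congrFun c z)).elim)
    (fun n hn n' hn' e => by
      rw [dif_pos hn, dif_pos hn'] at e
      have := claim (n' * n⁻¹) (mul_mem hn' (inv_mem hn)) (funext fun g => by
        have := congrFun e (cn (inv_mem hn) g)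
        simp only [Function.comp, cn] at this ⊢
        simpa [mul_assoc] using this.symm)
      simpa [mul_assoc] using (mem_normalizer_iff.1 (inv_mem hn) _).1 this)
  have k1 := two_le h.nab hA
  have k2 := card_mul_relIndex O
  have k3 : O.relIndex (normalizer (O : Set Γ)) ≤ 4 := Nat.le_of_mul_le_mul_left
    (k2.le.trans (hle.trans (Nat.mul_le_mul_left _ Finset.card_le_four))) Nat.card_pos
  have k4 : O.relIndex (normalizer (O : Set Γ)) ≠ 3 := fun c => by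
    have : O.relIndex (normalizer (O : Set Γ)) = 1 := relIndex_eq_one.2 fun n hn =>
      mem_of_pows (c ▸ pow_relIndex hn) (h4 n hn) (by decide)
    omega
  unfold ww; omega

end HB

end Cfsg.Agent.O5
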