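import Cfsg.Agent.O5.B4

/-!
Case B: elements of order `p`, and the hypotheses common to both counting arguments.
-/

set_option autoImplicit false
set_option linter.unusedSectionVars false

namespace Cfsg.Agent.O5

open Subgroup Module Cfsg.Agent.H6.MG Cfsg.Agent.H4.CABasic

variable {k : Type*} [Field k] [IsAlgClosed k] {Γ : Type*} [Group Γ] {ρ : Γ →* GW k} {p : ℕ}

theorem HP.on {e f : W k} (hp : HP e f) {i : k} (hi : -1 = i * i) : ON (e + f) (i • (e - f)) :=
  ⟨by rw [Q_add, hp.qe, hp.qf, hp.b]; simp, by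
    rw [Q_smul, Q_sub, hp.qe, hp.qf, hp.b]; linear_combination hi,
    by simp [hp.ee, hp.ff, hp.b, hp.fe]⟩

theorem perp_of_on (h2 : (2 : k) ≠ 0) {e f y : W k} {i : k} (hi : -1 = i * i)
    (h1 : B y (e + f) = 0) (h3 : B y (i • (e - f)) = 0) : B y e = 0 ∧ B y f = 0 := by
  have i0 : i ≠ 0 := by rintro rfl; simp at hi
  simp [i0] at h1 h3
  exact ⟨mul_left_cancel₀ h2 (by linear_combination h1 + h3),
    mul_left_cancel₀ h2 (by linear_combination h1 - h3)⟩

theorem mem_three [Finite Γ] (h9 : ¬ 9 ∣ Nat.card Γ) {u g : Γ} (u3 : u ^ 3 = 1) (u1 : u ≠ 1)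
    (g3 : g ^ 3 = 1) (hg : g * u * g⁻¹ = u ∨ g * u * g⁻¹ = u⁻¹) : g = 1 ∨ g = u ∨ g = u⁻¹ := by
  classical
  have : Fact (Nat.Prime 3) := ⟨by norm_num⟩
  have pg : ∀ {z : Γ}, z ^ 3 = 1 → IsPGroup 3 (zpowers z) := fun {z} hz =>
    IsPGroup.of_card_dvd_pow (n := 1) (by
      rw [Nat.card_zpowers, pow_one]; exact orderOf_dvd_of_pow_eq_one hz)
  have hn : g ∈ normalizer (zpowers u : Set Γ) := mem_normalizer_fintype (by
    rintro _ ⟨i, rfl⟩
    rw [← conj_zpow]
    rcases hg with c | c <;> rw [c]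
    exacts [zpow_mem (mem_zpowers u) i, zpow_mem (inv_mem (mem_zpowers u)) i])
  obtain ⟨n, hc⟩ := IsPGroup.iff_card.1 ((pg g3).to_sup_of_normal_right' (pg u3) (zpowers_le.2 hn))
  have o3 := orderOf_eq_prime u3 u1
  have e : zpowers u = zpowers g ⊔ zpowers u := eq_of_le_of_card_ge le_sup_right (by
    rw [Nat.card_zpowers, o3, hc]
    have : n ≤ 1 := by
      by_contra c
      exact h9 ((pow_dvd_pow 3 (show 2 ≤ n by omega)).trans (hc ▸ card_subgroup_dvd_card _))
    simpa using Nat.pow_le_pow_right (by norm_num : 0 < 3) this)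
  have := e.ge (mem_sup_left (mem_zpowers g))
  rw [mem_zpowers_iff_mem_range_orderOf, o3] at this
  obtain ⟨i, hi, rfl⟩ := Finset.mem_image.1 this
  rw [Finset.mem_range] at hi
  interval_cases i
  · simp
  · simp
  · exact Or.inr (Or.inr (eq_inv_of_mul_eq_one_left ((pow_succ u 2).symm.trans u3)))

theorem exists_sq_not_mem [Finite Γ] {A : Subgroup Γ} (hA : IsCA A) (h4 : ww A = 4) :
    ∃ n ∈ normalizer (A : Set Γ), n * n ∉ A := by
  classical
  by_contra hc
  push Not at hc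
  obtain ⟨y, y1, y2⟩ := (A.bot_or_exists_ne_one).resolve_left hA.ne_bot
  have hle := H6.Mob.card_le_of_fibers (normalizer (A : Set Γ)) A (fun n => decide (n ∈ A))
    Finset.univ (fun _ _ => Finset.mem_univ _) (fun n hn n' hn' e => by
      by_cases c : n ∈ A
      · exact mul_mem (inv_mem c) (by simpa [c] using e)
      · have k1 := inverts hA hn c (hc n hn) y1
        rw [← inverts hA hn' (by simpa [c] using e) (hc n' hn') y1] at k1
        refine (hA.cent y y1 y2 _).1 ?_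
        calc _ = n⁻¹ * (n' * y * n'⁻¹) * n' := by group
          _ = _ := by rw [← k1]; group)
  rw [← card_mul_relIndex, show A.relIndex _ = 4 from h4] at hle
  have : 0 < Nat.card A := Nat.card_pos
  rw [Finset.card_univ, Fintype.card_bool] at hle; omega

namespace HB

variable (h : HB p ρ) [Finite Γ]
include h

theorem not_neg {e f : W k} (hp : HP e f) {g : Γ}
    (hg : ∀ y, B y e = 0 → B y f = 0 → ρ g y = -y) : False := by
  obtain ⟨i, hi⟩ := IsAlgClosed.exists_eq_mul_self (-1 : k)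
  obtain ⟨c, d, hT⟩ := isT_of_neg h.two (hp.on hi) (h.om g) fun y y1 y2 =>
    hg y (perp_of_on h.two hi y1 y2).1 (perp_of_on h.two hi y1 y2).2
  exact h.noA _ _ hT

theorem rt_of_fix {e f : W k} (hp : HP e f) {g : Γ} (h1 : g ∈ C1 ρ e f)
    (hg : ∀ y, B y e = 0 → B y f = 0 → ρ g y = y) : ∃ a, RT e f a (ρ g) := by
  obtain ⟨c, hc | hc⟩ := h1
  · exact ⟨c, hp, hc, hg⟩
  obtain ⟨i, hi⟩ := IsAlgClosed.exists_eq_mul_self (-1 : k)
  obtain ⟨a, b, -, k1, k2⟩ := rot_of_fix h.two (hp.on hi) (h.om g) fun y y1 y2 =>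
    hg y (perp_of_on h.two hi y1 y2).1 (perp_of_on h.two hi y1 y2).2
  have j1 := congrArg (fun v => B v e) k1
  have j2 := congrArg (fun v => B v e) k2
  simp [hc.2.1, hc.2.2, hp.ee, hp.fe] at j1 j2
  exact (mul_ne_zero h.two hc.1 (by linear_combination j1 - i * j2 - (c + a) * hi)).elim

theorem pow_p {c : k} {n : ℕ} (hc : c ^ (p * n) = 1) : c ^ n = 1 := by
  have := h.char
  have := Fact.mk h.prime
  exact (ExpChar.pow_prime_pow_mul_eq_one_iff p 1 n c).1 (by rwa [pow_one])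

theorem comm_short {u g : Γ} {s m : W k} (h0 : s ≠ 0) (E : IsE s m (ρ u)) (hm : Q m ≠ 0)
    (hg : g * u = u * g) : ∃ c d : k, c ^ 2 = 1 ∧ ρ g s = c • s ∧ ρ g m = c • m + d • s := by
  obtain ⟨v, -, hv⟩ := exists_hyp' h.two E.1 h0
  rw [B_comm] at hv
  have key : ∀ y, ρ g (sg s m y) = sg s m (ρ g y) := fun y => by
    rw [← E.2.2, ← E.2.2, ← LinearEquiv.mul_apply, ← map_mul, hg, map_mul, LinearEquiv.mul_apply]
  have k1 := key v
  simp only [sg, hv, map_add, map_sub, map_smul, one_smul] at k1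
  have k2 := key m
  simp only [sg, E.2.1, map_add, map_sub, map_smul, zero_smul, mul_zero, add_zero, B_self] at k2
  have sm : B s m = 0 := by rw [B_comm, E.2.1]
  have ss : B s s = 0 := by rw [B_self, E.1, mul_zero]
  obtain ⟨x, y, k3⟩ : ∃ x y : k, ρ g m = B (ρ g v) s • m + x • s + y • ρ g s :=
    ⟨-(B (ρ g v) m + Q m * B (ρ g v) s), B v m + Q m * 1, by linear_combination (norm := module) k1⟩
  obtain ⟨x', y', k4⟩ : ∃ x y : k, ρ g s = x • m + y • s := ⟨-B (ρ g m) s / (2 * Q m),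
    (B (ρ g m) m + Q m * B (ρ g m) s) / (2 * Q m), smul_right_injective _ (mul_ne_zero h.two hm) (by
      simp only [smul_add, smul_smul, mul_div_cancel₀ _ (mul_ne_zero h.two hm)]
      linear_combination (norm := module) -k2)⟩
  have k5 := (h.iso g).Q_eq h.two s
  rw [k4, Q_add, Q_smul, Q_smul, E.1] at k5
  simp [E.2.1, hm] at k5
  rw [k5, zero_smul, zero_add] at k4
  have k6 := h.iso g v s
  rw [k4, map_smul, hv, smul_eq_mul] at k6
  have k7 := (h.iso g).Q_eq h.two m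
  rw [k3, k4, smul_smul, add_assoc, ← add_smul, Q_add, Q_smul, Q_smul, E.1] at k7
  simp [E.2.1, hm] at k7
  have k8 : B (ρ g v) s ^ 2 = 1 := sq_eq_one_iff.2 k7
  have k9 : y' = B (ρ g v) s := by linear_combination B (ρ g v) s * k6 - y' * k8
  exact ⟨_, x + y * y', k8, k9 ▸ k4, by rw [k3, k4, smul_smul, add_assoc, ← add_smul]⟩

variable [IsSimpleGroup Γ]

theorem odd_comm_short (h3 : p = 3) {u g : Γ} (u3 : u ^ 3 = 1) (u1 : u ≠ 1) (hg : g * u = u * g)
    (ho : Odd (orderOf g)) : g = 1 ∨ g = u ∨ g = u⁻¹ := by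
  obtain ⟨h9, hu⟩ := h.u3 h3
  refine mem_three h9 u3 u1 ?_ (Or.inl (by rw [hg, mul_inv_cancel_right]))
  by_contra c
  obtain ⟨s, m, h0, E, hm⟩ := hu u u3 u1
  have op : OP p (zpowers (g ^ 3)) := by
    refine ⟨?_, ?_⟩ <;> rw [Nat.card_zpowers]
    · exact ho.of_dvd_nat (orderOf_pow_dvd 3)
    · rw [h3, orderOf_pow]
      intro c
      refine h9 (Dvd.dvd.trans ?_ (orderOf_dvd_natCard g))
      by_cases c' : 3 ∣ orderOf g
      · rw [Nat.gcd_eq_right c'] at c
        exact (Nat.dvd_div_iff_mul_dvd c').1 c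
      · exact (c' (c.trans (Nat.div_dvd_of_dvd (Nat.gcd_dvd_left _ _)))).elim
  obtain ⟨F, hF⟩ := h.exists_frame op (zpowers_comm _)
  obtain ⟨a, b, hd⟩ := hF _ (mem_zpowers _)
  have nr : ¬ IsR (ρ (g ^ 3)) := fun r => op.pp (by
    rw [Nat.card_zpowers, h3, orderOf_eq_prime (h.OP_cube op (mem_zpowers _) r) c])
  rw [hd.isR_iff h.two (h.eq_one.not.2 c), not_or] at nr
  obtain ⟨c', d, c1, c2, -⟩ := h.comm_short h0 E hm (Commute.pow_left hg 3).eq
  rw [op.eq_one (mem_zpowers _) h0 c2 c1, one_smul] at c2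
  have k1 := h.fix_e0 hd nr.1 nr.2 c2
  have k2 := E.1
  rw [k1, Q_smul, F.q0, mul_one, sq_eq_zero_iff] at k2
  exact h0 (by rw [k1, k2, zero_smul])

theorem cube_short (h3 : p = 3) {u g t : Γ} {e f : W k} (ht : RT e f (-1) (ρ t)) (u3 : u ^ 3 = 1)
    (u1 : u ≠ 1) (hu : u ∈ C00 ρ e f) (hg : g * u = u * g) (h1 : g ∈ C1 ρ e f) :
    g ^ 3 = 1 ∨ g ^ 3 = t := by
  obtain ⟨s, m, h0, E, hm⟩ := (h.u3 h3).2 u u3 u1
  have t0 : (3 : k) = 0 := by
    have := h.char
    exact_mod_cast (CharP.cast_eq_zero_iff k p 3).2 (h3 ▸ dvd_rfl)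
  have sm : B s m = 0 := by rw [B_comm, E.2.1]
  have pp : ∀ y, ρ u y = y → B s y = 0 ∧ B m y = 0 := fun y hy => by
    rw [E.2.2, sg] at hy
    have k1 := congrArg (fun v => B v m) hy
    simp [sm, B_self, h.two, hm, sub_eq_self] at k1
    simp [k1, h0, sub_eq_self] at hy
    exact ⟨B_comm s y ▸ k1, B_comm m y ▸ hy⟩
  obtain ⟨a1, a2⟩ := pp e (hu.2.1.trans (one_smul _ _))
  obtain ⟨b1, b2⟩ := pp f (hu.2.2.trans (by simp))
  obtain ⟨r, hr, q0⟩ := exists_unit hm
  obtain ⟨s', s1, s2, s3⟩ := exists_hyp h.two (U := Submodule.span k {e, f, m}) E.1 (fun c => by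
      obtain ⟨x, y, z, c⟩ := Submodule.mem_span_triple.1 c
      have k1 := congrArg (fun v => B v e) c
      have k2 := congrArg (fun v => B v f) c
      have k3 := congrArg (fun v => B v m) c
      simp [ht.hp.ee, ht.hp.ff, ht.hp.b, ht.hp.fe, a1, a2, b1, b2, B_comm e m, B_comm f m, sm,
        B_self m, h.two, hm] at k1 k2 k3
      exact h0 (by simpa [k1, k2, k3] using c.symm))
    (fun v c => by
      obtain ⟨x, y, z, rfl⟩ := Submodule.mem_span_triple.1 c
      simp [B_comm e s, B_comm f s, a1, b1, E.2.1])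
  have s4 := s1 e (Submodule.subset_span (by simp))
  have s5 := s1 f (Submodule.subset_span (by simp))
  have s6 := s1 m (Submodule.subset_span (by simp))
  let F : Fr k := ⟨e, f, s, s', r • m, ht.hp, ⟨E.1, s2, s3⟩, a1, b1, B_comm e s' ▸ s4,
    B_comm f s' ▸ s5, q0, by simp [a2], by simp [b2], by simp [E.2.1], by simp [s6]⟩
  obtain ⟨c, d, c1, c2, c3⟩ := h.comm_short h0 E hm hg
  obtain ⟨x, z, c4⟩ : ∃ x z : k, ρ g s' = c • s' + x • s + z • m := by
    have k1 := F.dec h.two (ρ g s')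
    have k2 : B (ρ g s') e = 0 ∧ B (ρ g s') f = 0 := by
      obtain ⟨c, hc | hc⟩ := h1
      exacts [hc.perp (h.iso g) F.fe F.ff, hc.perp (h.iso g) F.fe F.ff]
    have k3 := h.iso g s' s
    rw [c2, map_smul, B_comm s' s, s3, smul_eq_mul] at k3
    have k4 : B (ρ g s') s = c := by linear_combination c * k3 - B (ρ g s') s * c1
    simp only [F, k2.1, k2.2, k4, zero_smul, zero_add, smul_smul] at k1
    exact ⟨_, _, k1.trans (by rw [add_comm (_ • s)])⟩
  have c5 : ∀ y, B y e = 0 → B y f = 0 → ρ (g ^ 3) y = c • y := fun y y1 y2 => by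
    have k1 := F.dec h.two y
    simp only [F, y1, y2, zero_smul, zero_add] at k1
    rw [k1]
    simp only [pow_succ, pow_zero, one_mul, map_mul, LinearEquiv.mul_apply, map_add, map_smul, c2,
      c3, c4]
    match_scalars <;> grind
  rcases sq_eq_one_iff.1 c1 with rfl | rfl
  · obtain ⟨a, ha⟩ := h.rt_of_fix ht.hp (pow_mem h1 3) (by simpa using c5)
    have a2 : a ^ 2 = 1 := (h.r1 ha).elim id fun c => by
      rw [← pow_one a, h.pow_p (n := 1) (by rw [h3, c]), one_pow]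
    rcases sq_eq_one_iff.1 a2 with rfl | rfl
    · exact Or.inl (h.eq_one.1 (ha.eq_one_iff.2 rfl))
    · exact Or.inr (h.rt_ext ha ht)
  · exact (h.not_neg ht.hp (g := g ^ 3) (by simpa using c5)).elim

end HB

namespace Reg

variable {U : Subgroup Γ} {s s1 : W k} {α : Γ → k} (r : Reg p ρ U s s1 α)
include r

theorem al_pow {n : Γ} (hn : n ∈ normalizer (U : Set Γ)) (i : ℕ) : α (n ^ i) = α n ^ i := by
  induction i with
  | zero => simpa using (r.ker 1 (one_mem _)).2 (one_mem _)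
  | succ i ih => rw [pow_succ, pow_succ, r.mul _ (pow_mem hn i) _ hn, ih]

theorem not_isR [Finite Γ] (h : HB p ρ) {n : Γ} (hn : n ∈ normalizer (U : Set Γ)) (hr : IsR (ρ n)) :
    n * n = 1 := by
  obtain ⟨e, f, a, a1, hr⟩ := hr
  by_cases c : α n ^ 2 = 1
  · have k1 := r.pw _ ((r.ker _ (pow_mem hn 2)).1 (by rw [r.al_pow hn, c]))
    have k2 := hr.pow 2
    rw [h.pow_p (hr.dl.pow_eq_one hr.hp.ne (by rwa [mul_comm, pow_mul])), ← map_pow] at k2
    rw [← pow_two]; exact h.eq_one.1 (k2.eq_one_iff.2 rfl)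
  have k1 := hr.eig_mem c (r.al n hn)
  obtain ⟨d, hd⟩ := r.al1 n hn
  have k2 : s1 ∈ Pl e f := by
    have := sub_mem (hr.sub_mem s1) (Submodule.smul_mem _ d k1)
    rw [hd, show α n • s1 + d • s - s1 - d • s = (α n - 1) • s1 by module] at this
    exact (Submodule.smul_mem_iff _ (sub_ne_zero.2 fun c' => c (by simp [c']))).1 this
  have k3 := r.ss1
  have k4 := r.ind
  have k5 := r.s0
  exfalso
  rcases hr.hp.sing k1 r.qs with ⟨x, rfl⟩ | ⟨x, rfl⟩ <;>
    rcases hr.hp.sing k2 r.qs1 with ⟨y, rfl⟩ | ⟨y, rfl⟩ <;> have x0 := left_ne_zero_of_smul k5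
  · exact k4 (y / x) (by simp [smul_smul, x0])
  · simp [hr.hp.fe, x0] at k3; exact k4 0 (by simp [k3])
  · simp [hr.hp.b, x0] at k3; exact k4 0 (by simp [k3])
  · exact k4 (y / x) (by simp [smul_smul, x0])

theorem exists_sp [Finite Γ] (h : HB p ρ) : ∃ δ, Sp p U δ := by
  let φ : normalizer (U : Set Γ) →* kˣ := MonoidHom.mk' (fun n => Units.mk0 (α n) (r.ne0 n n.2))
    fun a b => Units.ext (r.mul a a.2 b b.2)
  have hk : φ.ker = U.subgroupOf _ := by
    ext n; rw [MonoidHom.mem_ker, mem_subgroupOf, ← r.ker n n.2, Units.ext_iff]; rfl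
  have : Finite φ.range := Finite.of_surjective _ φ.rangeRestrict_surjective
  have hc : Nat.card φ.range = ww U := by rw [← index_ker, hk]; rfl
  obtain ⟨⟨_, y, rfl⟩, hy⟩ := IsCyclic.exists_generator (α := φ.range)
  have o1 : orderOf (α y) = ww U := by
    rw [← hc, ← orderOf_eq_card_of_forall_mem_zpowers hy, ← orderOf_coe, ← orderOf_units]; rfl
  have m1 : (y : Γ) ^ p ∈ normalizer (U : Set Γ) := pow_mem y.2 p
  have o2 : ∀ n : ℕ, α (y ^ p) ^ n = 1 ↔ ww U ∣ n := fun n => by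
    rw [r.al_pow y.2, ← pow_mul, ← o1, orderOf_dvd_iff_pow_eq_one]
    exact ⟨h.pow_p, fun c => by rw [mul_comm, pow_mul, c, one_pow]⟩
  have o3 : orderOf ((y : Γ) ^ p) = ww U := Nat.dvd_antisymm (orderOf_dvd_of_pow_eq_one (by
      rw [← pow_mul, mul_comm, pow_mul]
      exact r.pw _ ((r.ker _ (pow_mem y.2 _)).1 (by rw [r.al_pow y.2, ← o1, pow_orderOf_eq_one]))))
    ((o2 _).1 (by rw [← r.al_pow m1, pow_orderOf_eq_one]; exact (r.ker 1 (one_mem _)).2 (one_mem _)))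
  have gen : ∀ n ∈ normalizer (U : Set Γ), ∃ i : ℕ, (((y : Γ) ^ p) ^ i)⁻¹ * n ∈ U := fun n hn => by
    have k1 : zpowers (φ.rangeRestrict (y ^ p)) = ⊤ := eq_top_of_card_eq _ (by
      rw [Nat.card_zpowers, hc, ← orderOf_coe, ← orderOf_units]
      exact Nat.dvd_antisymm (orderOf_dvd_of_pow_eq_one ((o2 _).2 dvd_rfl))
        ((o2 _).1 (pow_orderOf_eq_one _)))
    obtain ⟨i, hi⟩ := (mem_powers_iff_mem_zpowers.2 (k1.ge (mem_top (φ.rangeRestrict ⟨n, hn⟩))))
    have : ((y ^ p) ^ i)⁻¹ * ⟨n, hn⟩ ∈ φ.ker := by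
      have := congrArg Subtype.val hi
      rw [MonoidHom.mem_ker, map_mul, map_inv, inv_mul_eq_one, map_pow]; exact this
    exact ⟨i, by rw [hk] at this; exact this⟩
  refine ⟨y ^ p, h.prime, r.five, r.ca, r.pw, m1, o3, gen, fun h5 => ?_, fun h5 hA ho h4 => ?_⟩
  · refine le_antisymm (fun c hc => ?_) (zpowers_le.2 (mem_centralizer_singleton_iff.2 rfl))
    rw [mem_centralizer_singleton_iff] at hc
    obtain ⟨i, hi⟩ := gen c (r.cent _ m1 (fun c => by have := Nat.le_of_dvd (by norm_num) ((o2 _).1 c); omega)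
      (fun c => by have := Nat.le_of_dvd (by norm_num) ((o2 _).1 c); omega) c hc)
    by_cases c1 : (((y : Γ) ^ p) ^ i)⁻¹ * c = 1
    · exact inv_mul_eq_one.1 c1 ▸ pow_mem (mem_zpowers _) i
    · have k1 := (r.ker _ m1).2 ((r.ca.cent _ hi c1 _).1
        (((Commute.refl _).pow_right i).inv_right.mul_right (Commute.symm hc)).eq)
      have := Nat.le_of_dvd (by norm_num) ((o2 1).1 (by simpa using k1))
      omega
  · set δ := (y : Γ) ^ p
    obtain ⟨n, hn, n2⟩ := exists_sq_not_mem hA h4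
    have k1 := inverts hA (mul_mem hn hn) n2 (by
      have := pow_relIndex hn
      rwa [show (zpowers δ).relIndex _ = 4 from h4, show n ^ 4 = n * n * (n * n) by
        simp [pow_succ, mul_assoc]] at this) (mem_zpowers δ)
    obtain ⟨j, hj⟩ := mem_powers_iff_mem_zpowers.2 ((mem_normalizer_iff.1 hn δ).1 (mem_zpowers δ))
    simp only at hj
    have k2 : δ ^ (j * j + 1) = 1 := by
      rw [pow_succ, pow_mul, hj, conj_pow, hj, mul_eq_one_iff_eq_inv, ← k1]; group
    have k3 : α δ ^ (j * j + 1) = 1 := (o2 _).2 (o3 ▸ orderOf_dvd_of_pow_eq_one k2)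
    have k4 := r.eig δ m1 ((ρ n)⁻¹ s) (α (δ ^ j) ^ 2) (by simpa using r.s0) ((ρ n).injective (by
      have := r.al _ (pow_mem m1 j)
      rw [hj] at this ⊢
      simpa using this))
    rw [r.al_pow m1] at k4
    have b0 := r.ne0 δ m1
    have fin : ∀ i : ℕ, α δ ^ i = 1 → i = 4 ∨ i = 5 ∨ i = 8 → ww U = 5 := fun i c1 c2 => by
      have c3 := (o2 i).1 c1
      have c4 := Nat.le_of_dvd (by omega) c3
      rw [Nat.odd_iff] at ho
      generalize ww U = d at *
      rcases c2 with rfl | rfl | rfl <;> interval_cases d <;> omega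
    have k5 : (α δ ^ j) ^ j * α δ = 1 := by rw [← pow_mul, ← pow_succ, k3]
    generalize α δ = β at *
    have pw : ∀ {x y : k}, x = y → x ^ j = y ^ j := fun c => c ▸ rfl
    rcases k4 with c | c | c | c | c <;> have c' := pw c <;>
      simp only [mul_pow, one_pow, ← pow_mul, mul_comm _ j] at c' <;> simp only [pow_mul] at c' <;>
      generalize β ^ j = γ at * <;> generalize γ ^ j = ε at *
    · exact fin 8 (by grind) (by simp)
    · exact fin 5 (by grind) (by simp)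
    · exact fin 4 (by grind) (by simp)
    · exact fin 5 (by grind) (by simp)
    · exact fin 8 (by grind) (by simp)

end Reg

namespace HB

variable (h : HB p ρ) [Finite Γ] [IsSimpleGroup Γ]
include h

theorem exists_U : ∃ (U : Subgroup Γ) (δ : Γ), (U = ⊥ ∨ Sp p U δ) ∧
    (p ≠ 3 → ∀ u : Γ, u ^ p = 1 → ∃ g, g * u * g⁻¹ ∈ U) ∧
    ∀ n ∈ normalizer (U : Set Γ), U ≠ ⊥ → IsR (ρ n) → n * n = 1 := by
  by_cases c : p ≠ 3 ∧ p ∣ Nat.card Γ
  · obtain ⟨U, s, s1, α, r⟩ := h.reg c.1 c.2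
    obtain ⟨δ, hδ⟩ := r.exists_sp h
    exact ⟨U, δ, Or.inr hδ, fun _ => r.syl, fun n hn _ => r.not_isR h hn⟩
  · refine ⟨⊥, 1, Or.inl rfl, fun h3 u hu => ⟨1, ?_⟩, fun _ _ c => (c rfl).elim⟩
    have := Fact.mk h.prime
    by_contra c'
    exact c ⟨h3, orderOf_eq_prime hu (by simpa using c') ▸ orderOf_dvd_natCard u⟩

omit h in
theorem exists_p {O : Subgroup Γ} (hp : p.Prime) (c : p ∣ Nat.card O) :
    ∃ u ∈ O, u ^ p = 1 ∧ u ≠ 1 := by
  have := Fact.mk hp
  obtain ⟨u, hu⟩ := exists_prime_orderOf_dvd_card' p c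
  rw [← orderOf_coe] at hu
  exact ⟨u, u.2, hu ▸ pow_orderOf_eq_one _, fun c => hp.ne_one (by rw [← hu, c, orderOf_one])⟩

theorem not_dvd_cent {U : Subgroup Γ} {δ : Γ} (hU : U = ⊥ ∨ Sp p U δ) (h3 : p ≠ 3)
    (syl : ∀ u : Γ, u ^ p = 1 → ∃ g, g * u * g⁻¹ ∈ U) {y : Γ} (hy : ∀ g, g * y * g⁻¹ ∉ U) :
    ¬ p ∣ Nat.card (centralizer {y}) := fun c => by
  obtain ⟨u, u1, u2, u3⟩ := exists_p h.prime c
  obtain ⟨g, hg⟩ := syl u u2
  rcases hU with rfl | hU
  · exact u3 (by simpa using hg)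
  · exact hy g ((hU.ca.cent _ hg (by simpa using u3) _).1 (by
      rw [conj_mul, conj_mul, mem_centralizer_singleton_iff.1 u1]))

theorem cm {U : Subgroup Γ} {δ t : Γ} (hU : U = ⊥ ∨ Sp p U δ)
    (syl : p ≠ 3 → ∀ u : Γ, u ^ p = 1 → ∃ g, g * u * g⁻¹ ∈ U) (t1 : t * t = 1) (t2 : t ≠ 1) :
    Cm p U δ t := by
  have tri : ∀ {O : Subgroup Γ}, p = 3 → Odd (Nat.card O) → ∀ u ∈ O, u ^ p = 1 → u ≠ 1 →
      ∀ a ∈ O, a * u = u * a → a = 1 ∨ a = u ∨ a = u⁻¹ := fun h3 ho u _ u2 u3 a ha c =>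
    h.odd_comm_short h3 (h3 ▸ u2) u3 c (ho.of_dvd_nat (orderOf_dvd_natCard _ ha))
  refine ⟨h.nab, t1, t2, fun s => h.one_class t1 t2, hU, fun y y1 y2 y3 => ?_, fun A hA ho hy => ?_⟩
  · have ho : Odd (Nat.card (centralizer {y})) := by
      by_contra hc
      obtain ⟨s, s1, s2, s3⟩ := H4.Basic.exists_involution_of_even _ (Nat.not_odd_iff_even.1 hc)
      exact s3 (y2 s s2 (mem_centralizer_singleton_iff.1 s1))
    have ym : y ∈ centralizer {y} := mem_centralizer_singleton_iff.2 rfl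
    by_cases c : p ∣ Nat.card (centralizer {y})
    · have h3 : p = 3 := by_contra fun h3 => h.not_dvd_cent hU h3 (syl h3) y3 c
      obtain ⟨u, u1, u2, u3⟩ := exists_p h.prime c
      have k1 : ∀ a ∈ centralizer {y}, a * u = u * a := fun a ha => by
        rw [mem_centralizer_singleton_iff] at ha
        rcases tri h3 ho u u1 u2 u3 y ym (mem_centralizer_singleton_iff.1 u1).symm with c | c | c
        · exact (y1 c).elim
        · rwa [c] at ha
        · rw [c] at ha; exact (Commute.inv_right_iff.1 ha).eq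
      intro a ha b hb
      rcases tri h3 ho u u1 u2 u3 b hb (k1 b hb) with rfl | rfl | rfl
      exacts [by simp, k1 a ha, (Commute.inv_right (k1 a ha)).eq]
    · exact h.tor ⟨ho, c⟩ ym y1 fun g => mem_centralizer_singleton_iff.1
  · by_cases c : p ∣ Nat.card A
    · obtain ⟨u, u1, u2, u3⟩ := exists_p h.prime c
      have h3 : p = 3 := by_contra fun h3 => by
        obtain ⟨g, hg⟩ := syl h3 u u2
        exact u3 (hy u u1 g hg)
      have k1 : Nat.card A ≤ 3 := by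
        classical
        change Nat.card (A : Set Γ) ≤ 3
        rw [Nat.card_coe_set_eq]
        refine (Set.ncard_le_ncard (t := ({1, u, u⁻¹} : Finset Γ)) (fun a ha => ?_)).trans ?_
        · simpa using tri h3 ho u u1 u2 u3 a ha (hA.comm a ha u u1)
        · rw [Set.ncard_coe_finset]; exact Finset.card_le_three
      have k2 := two_le h.nab hA
      have k3 := Nat.le_of_dvd (by have := hA.one_lt_card; omega) hA.index_dvd
      unfold ww; omega
    · exact h.aut_op hA ⟨ho, c⟩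

end HB

end Cfsg.Agent.O5
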