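import Cfsg.Agent.O5.B5

/-!
Case B: group-theoretic lemmas for the dihedral case.
-/

set_option autoImplicit false

namespace Cfsg.Agent.O5

open Subgroup

variable {Γ : Type*} [Group Γ] [Finite Γ]

theorem oddc (Y : Subgroup Γ) (hY : ∀ S ≤ Y, IsPGroup 2 S → IsCyclic S) :
    ∃ O : Subgroup Γ, Odd (Nat.card O) ∧ (∀ g, g ∈ O ↔ g ∈ Y ∧ Odd (orderOf g)) ∧
      ∀ g ∈ Y, ∀ g' ∈ Y, g * g' * g⁻¹ * g'⁻¹ ∈ O := by
  by_cases ho : Odd (Nat.card Y)
  · exact ⟨Y, ho, fun g => ⟨fun c => ⟨c, ho.of_dvd_nat (orderOf_dvd_natCard _ c)⟩, fun c => c.1⟩,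
      fun g hg g' hg' => mul_mem (mul_mem (mul_mem hg hg') (inv_mem hg)) (inv_mem hg')⟩
  obtain ⟨P⟩ : Nonempty (Sylow 2 Y) := inferInstance
  have hP : IsCyclic P := (equivMapOfInjective (P : Subgroup Y) Y.subtype
    Y.subtype_injective).isCyclic.2 (hY _ (map_subtype_le _) (P.isPGroup'.map _))
  have hN := hP.normalizer_le_centralizer ((Nat.minFac_eq_two_iff _).2
    (even_iff_two_dvd.1 (Nat.not_odd_iff_even.1 ho)))
  have k1 : Odd (Nat.card ((MonoidHom.transferSylow P hN).ker.map Y.subtype)) := by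
    rw [card_map_of_injective Y.subtype_injective, ← Nat.not_even_iff_odd, even_iff_two_dvd]
    exact MonoidHom.not_dvd_card_ker_transferSylow P hN
  refine ⟨_, k1, fun g => ⟨fun c => ⟨map_subtype_le _ c, k1.of_dvd_nat (orderOf_dvd_natCard _ c)⟩,
    fun c => ⟨⟨g, c.1⟩, ?_, rfl⟩⟩, fun g hg g' hg' =>
      ⟨⟨g, hg⟩ * ⟨g', hg'⟩ * ⟨g, hg⟩⁻¹ * ⟨g', hg'⟩⁻¹, ?_, rfl⟩⟩
  · obtain ⟨n, hn⟩ := P.isPGroup' (MonoidHom.transferSylow P hN ⟨g, c.1⟩)
    refine (pow_eq_one_iff_of_coprime (m := orderOf g) (n := 2 ^ n)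
      (Nat.Coprime.pow_right n (Nat.coprime_two_right.2 c.2))).1 ⟨?_, hn⟩
    rw [← map_pow, show (⟨g, c.1⟩ : Y) ^ orderOf g = 1 from Subtype.ext (pow_orderOf_eq_one g),
      map_one]
  · change MonoidHom.transferSylow P hN _ = 1
    simp only [map_mul, map_inv]
    rw [mul_inv_eq_one, mul_inv_eq_iff_eq_mul]
    exact hP.isMulCommutative.is_comm.comm _ _

theorem fin3 : ∀ a b c d e f : Fin 3, ¬ (a = 0 ∧ b = 0) → (∀ n : Fin 3, ¬ (c = a * n ∧ d = b * n)) →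
    ∃ u v : Fin 3, e = a * u + c * v ∧ f = b * u + d * v := by decide +kernel

theorem sw {A : Subgroup Γ} {t s x z : Γ} (cls : ∀ s, s * s = 1 → s ≠ 1 → IsConj t s)
    (t1 : t * t = 1) (t2 : t ≠ 1) (cA : ∀ a ∈ A, ∀ b ∈ A, a * b = b * a) (tA : t ∈ A)
    (uniq : ∀ s ∈ A, s * s = 1 → s = 1 ∨ s = t) (out : ∀ g, g * t = t * g → g ∉ A → g * g = 1)
    (om : ∀ g g', g * t = t * g → g ∉ A → g' * t = t * g' → g' ∉ A → g * g' ∈ A)
    (st : s * t = t * s) (sA : s ∉ A) (xA : x ∈ A) (x3 : x ^ 3 = 1) (z1 : z ≠ 1)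
    (z3 : z ^ 3 = 1) (xz : x * z = z * x) (tz : t * z * t⁻¹ = z⁻¹) (sz : s * z = z * s)
    (span : ∀ w, w ^ 3 = 1 → w * x = x * w → ∃ i j : ℕ, w = x ^ i * z ^ j) : False := by
  have ti : t⁻¹ = t := inv_eq_of_mul_eq_one_right t1
  have inv : ∀ g, g * t = t * g → g ∉ A → ∀ a ∈ A, g * a * g⁻¹ = a⁻¹ := fun g g1 g2 a ha => by
    have := out (g * a) (by rw [mul_assoc, cA a ha t tA, ← mul_assoc, g1, mul_assoc])
      (by rwa [mul_mem_cancel_right ha])
    rw [inv_eq_of_mul_eq_one_right (out g g1 g2), ← mul_eq_one_iff_eq_inv, ← this]; group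
  have od : ∀ {w : Γ}, w ^ 3 = 1 → w = w⁻¹ → w = 1 := fun c1 c2 =>
    eq_one_of_odd (by decide) c1 (by rw [pow_two, mul_eq_one_iff_eq_inv, ← c2])
  have kz : ∀ n : ℕ, Commute t (z ^ n) → z ^ n = 1 := fun n c =>
    od (by rw [← pow_mul, mul_comm, pow_mul, z3, one_pow]) (by
      rw [← inv_pow, ← tz, conj_pow, c.eq, mul_inv_cancel_right])
  have tx : Commute t x := cA t tA x xA
  have xz' : Commute x z := xz
  have nosq : ∀ c, c * c ≠ t := fun c hc => by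
    have cA' : c ∈ A := by_contra fun c' => t2 (hc ▸ out c (by rw [← hc, mul_assoc]) c')
    have cx : c * x * c⁻¹ = x := mul_inv_eq_iff_eq_mul.2 (cA c cA' x xA)
    obtain ⟨i, j, e⟩ := span (c * z * c⁻¹) (by rw [conj_pow, z3]; simp)
      (by rw [← cx, conj_mul, conj_mul, xz])
    have e2 : z⁻¹ = x ^ (i + i * j) * z ^ (j * j) := by
      calc _ = c * (c * z * c⁻¹) * c⁻¹ := by rw [← tz, ← hc]; group
        _ = _ := by
          rw [e, ← conj_mul, ← conj_pow, ← conj_pow, cx, e, (xz'.pow_pow i j).mul_pow, ← pow_mul,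
            ← pow_mul, pow_add, mul_assoc]
    have e3 := kz (j * j + 1) (by
      rw [pow_succ, show z ^ (j * j) * z = (x ^ (i + i * j))⁻¹ by
        rw [eq_inv_iff_mul_eq_one, ← mul_eq_one_comm, ← mul_assoc, ← e2, inv_mul_cancel]]
      exact (tx.pow_right _).inv_right)
    have : Fact (Nat.Prime 3) := ⟨by norm_num⟩
    have e4 := orderOf_dvd_of_pow_eq_one e3
    rw [orderOf_eq_prime z3 z1, Nat.dvd_iff_mod_eq_zero, Nat.add_mod, Nat.mul_mod] at e4
    have := Nat.mod_lt j (show 0 < 3 by norm_num)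
    generalize j % 3 = r at *
    interval_cases r <;> simp at e4
  have two : ∀ n : ℕ, ∀ b ∈ A, b ^ 2 ^ n = 1 → b = 1 ∨ b = t := fun n => by
    induction n with
    | zero => exact fun b _ c => Or.inl (by simpa using c)
    | succ n ih =>
      exact fun b hb c => uniq b hb ((ih (b * b) (mul_mem hb hb) (by
        rw [← pow_two, ← pow_mul, ← pow_succ', c])).resolve_right (nosq b))
  have sqs : ∀ a ∈ A, ∃ b ∈ A, b * b = a ∨ b * b = t * a := fun a ha => by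
    obtain ⟨n, m, ⟨r, rfl⟩, e⟩ := Nat.exists_eq_two_pow_mul_odd (orderOf_pos a).ne'
    have e2 : a ^ (r + 1) * a ^ (r + 1) = a ^ (2 * r + 1) * a := by
      rw [← pow_add, ← pow_succ]; congr 1; ring
    refine ⟨a ^ (r + 1), pow_mem ha _, (two n _ (pow_mem ha (2 * r + 1)) (by
      rw [← pow_mul, mul_comm, ← e, pow_orderOf_eq_one])).imp (fun c => ?_) fun c => ?_⟩ <;>
      simp [e2, c]
  have nsw : ∀ g u, g * t = t * g → u * t = t * u → u ∉ A → g * u * g⁻¹ ≠ t * u := by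
    have key : ∀ g ∈ A, ∀ u, u * t = t * u → u ∉ A → g * u * g⁻¹ ≠ t * u := fun g hg u u1 u2 c =>
      nosq g (by
        have := inv u u1 u2 _ (inv_mem hg)
        rw [inv_inv] at this
        calc _ = g * u * g⁻¹ * u⁻¹ := by nth_rw 2 [← this]; group
          _ = t := by rw [c, mul_inv_cancel_right])
    intro g u g1 u1 u2 c
    by_cases hg : g ∈ A
    · exact key g hg u u1 u2 c
    · exact key _ (om g u g1 hg u1 u2) u u1 u2 (by rw [← c]; group)
  have s1 := out s st sA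
  have si : s⁻¹ = s := inv_eq_of_mul_eq_one_right s1
  have s2 : s ≠ 1 := fun c => sA (c ▸ one_mem A)
  have nA : ∀ g : Γ, g * t * g⁻¹ ≠ t → g * t * g⁻¹ ∉ A := fun g c c' =>
    (uniq _ c' (by rw [conj_mul, t1]; simp)).elim (by simpa using t2) c
  have tsA : t * s ∉ A := by rwa [mul_mem_cancel_left tA]
  have ts : t * s * t = t * (t * s) := by rw [mul_assoc, st]
  obtain ⟨g, g1, g2⟩ : ∃ g : Γ, g * (t * s) * g⁻¹ = t ∧ (g * t * g⁻¹ = s ∨ g * t * g⁻¹ = t * s) := by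
    obtain ⟨g, hg⟩ := isConj_iff.1 (cls (t * s) (out _ ts tsA) fun c => tsA (c ▸ one_mem A)).symm
    have k1 : g * t * g⁻¹ * t = t * (g * t * g⁻¹) := by
      have := (Commute.conj (a := t) (b := t * s) ts.symm g).eq
      rwa [hg] at this
    have k2 := nA g fun c => s2 (by simpa using hg.trans c.symm)
    obtain ⟨b, hb, e⟩ := sqs _ (om _ s k1 k2 st sA)
    have k3 : b⁻¹ * g * t * (b⁻¹ * g)⁻¹ = b⁻¹ * (g * t * g⁻¹ * s) * b⁻¹ * s := by
      calc _ = b⁻¹ * (g * t * g⁻¹ * (s * s)) * b * (s⁻¹ * s) := by rw [s1]; group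
        _ = b⁻¹ * (g * t * g⁻¹ * s) * (s * b * s⁻¹) * s := by group
        _ = _ := by rw [inv s st sA b hb]
    refine ⟨b⁻¹ * g, ?_, ?_⟩
    · calc _ = b⁻¹ * (g * (t * s) * g⁻¹) * b := by group
        _ = t := by rw [hg, mul_assoc, cA t tA b hb, inv_mul_cancel_left]
    · rw [k3]
      refine e.imp (fun c => by rw [← c]; group) fun c => ?_
      rw [show g * t * g⁻¹ * s = t * (b * b) by rw [c, ← mul_assoc, t1, one_mul],
        ← mul_assoc b⁻¹, ← cA t tA _ (inv_mem hb)]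
      group
  have g3 : g * s * g⁻¹ = (g * t * g⁻¹)⁻¹ * t :=
    (show _ = (g * t * g⁻¹)⁻¹ * (g * (t * s) * g⁻¹) by group).trans (by rw [g1])
  rcases g2 with g2 | g2
  swap
  · obtain ⟨γ, hγ⟩ := isConj_iff.1 (cls s s1 s2).symm
    rw [g2, mul_inv_rev, inv_mul_cancel_right, si, mul_inv_eq_iff_eq_mul] at g3
    refine nsw (γ * g * γ⁻¹) (γ * t * γ⁻¹) ?_ ?_ (nA γ fun c => sA ?_) ?_
    · have := (Commute.conj (a := g) g3 γ).eq
      rwa [hγ] at this
    · have := (Commute.conj (a := t) st.symm γ).eq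
      rwa [hγ] at this
    · rw [show s = t by simpa using hγ.trans c.symm]; exact tA
    · calc _ = γ * (g * t * g⁻¹) * γ⁻¹ := by group
        _ = γ * s * γ⁻¹ * (γ * t * γ⁻¹) := by rw [g2, ← st, conj_mul]
        _ = _ := by rw [hγ]
  rw [g2, si, st] at g3
  have T2 : ∀ w, w ^ 3 = 1 → Commute t w → ∃ i : ℕ, w = x ^ i := fun w w3 wt => by
    have wA : w ∈ A := by_contra fun c => c (by
      rw [od w3 (eq_inv_of_mul_eq_one_left (out w wt.symm c))]; exact one_mem A)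
    obtain ⟨i, j, e⟩ := span w w3 (cA w wA x xA)
    refine ⟨i, e.trans (mul_eq_left.2 (kz j ?_))⟩
    rw [← inv_mul_eq_iff_eq_mul.2 e]
    exact (tx.pow_right i).inv_right.mul_right wt
  have cb : ∀ {w : Γ} (γ : Γ), w ^ 3 = 1 → (γ * w * γ⁻¹) ^ 3 = 1 := fun γ c => by
    rw [conj_pow, c]; simp
  obtain ⟨i, e1⟩ := T2 (g⁻¹ * z * g⁻¹⁻¹) (cb _ z3) (by
    have := Commute.conj (a := s) sz g⁻¹
    rwa [← g2, show g⁻¹ * (g * t * g⁻¹) * g⁻¹⁻¹ = t by group] at this)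
  have c1 : Commute z (g * z * g⁻¹) := by
    have := (xz'.pow_left i).conj g
    rwa [← e1, show g * (g⁻¹ * z * g⁻¹⁻¹) * g⁻¹ = z by group] at this
  have c2 : Commute (t * s) (g * z * g⁻¹) := g3 ▸ Commute.conj (a := s) sz g
  obtain ⟨j, e2⟩ := T2 (g * (g * z * g⁻¹) * g⁻¹) (cb _ (cb _ z3)) (g1 ▸ c2.conj g)
  have c3 : Commute (g * z * g⁻¹) x := by
    have k1 := (c1.conj g).pow_right j
    rw [e2, ← pow_mul, pow_eq_pow_mod _ x3, Nat.mul_mod] at k1
    rw [pow_eq_pow_mod _ x3] at e2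
    have := Nat.mod_lt j (show 0 < 3 by norm_num)
    generalize j % 3 = r at *
    interval_cases r
    · exact (z1 (by simpa using e2)).elim
    all_goals simpa using k1
  obtain ⟨a, b, e3⟩ := span _ (cb g z3) c3
  refine z1 (conj_eq_one_iff.1 (od (cb g z3) ?_))
  have k1 : t * s * z * (t * s)⁻¹ = z⁻¹ := by
    rw [← tz, mul_assoc t s, sz]; group
  nth_rw 1 [← mul_inv_eq_iff_eq_mul.2 c2.eq]
  rw [e3, ← conj_mul, ← conj_pow, ← conj_pow, inv _ ts tsA x xA, k1, inv_pow, inv_pow,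
    ← mul_inv_rev, (xz'.pow_pow a b).eq]

end Cfsg.Agent.O5
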