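import Cfsg.Agent.O5.B6a
import Cfsg.Agent.O5.B6b

/-!
Case B: the case of a generalised dihedral involution centraliser.
-/

set_option autoImplicit false
set_option linter.unusedSectionVars false

namespace Cfsg.Agent.O5

open Subgroup Module Cfsg.Agent.H6.MG Cfsg.Agent.H4.CABasic

variable {k : Type*} [Field k] [IsAlgClosed k] {Γ : Type*} [Group Γ] {ρ : Γ →* GW k} {p : ℕ}

/-- no rotation of order three is centralised by a four-group -/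
structure NF (p : ℕ) (ρ : Γ →* GW k) (U : Subgroup Γ) (δ : Γ) : Prop extends HB p ρ where
  hU : U = ⊥ ∨ Sp p U δ
  syl : p ≠ 3 → ∀ u : Γ, u ^ p = 1 → ∃ g, g * u * g⁻¹ ∈ U
  nf : ∀ x t s : Γ, IsR (ρ x) → x ^ 3 = 1 → t * t = 1 → t ≠ 1 → s * s = 1 → s ≠ 1 → t ≠ s →
    t * s = s * t → x * t = t * x → x * s = s * x → False

namespace NF

variable {U : Subgroup Γ} {δ t s g y z : Γ} {e f : W k} (h : NF p ρ U δ) [Finite Γ] [IsSimpleGroup Γ]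
include h

theorem not_dvd (h3 : p ≠ 3) (t1 : t * t = 1) (t2 : t ≠ 1) (y1 : y ≠ 1) (hy : t * y = y * t) :
    ¬ p ∣ Nat.card (centralizer {y}) :=
  h.not_dvd_cent h.hU h3 (h.syl h3) fun g c => by
    rcases h.hU with c' | c'
    · exact y1 (by simpa [c'] using c)
    · exact t2 (conj_eq_one_iff.1 (eq_one_of_odd (h.prime.odd_of_ne_two h.ne2)
        (c'.pw (g * t * g⁻¹) ((c'.ca.cent _ c (by simpa using y1) _).1 (Commute.conj hy g)))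
        (by rw [conj_pow, pow_two, t1]; simp)))

theorem op_C00 (h3 : p ≠ 3) (ht : RT e f (-1) (ρ t)) : OP p (C00 ρ e f) :=
  ⟨h.odd_C00 ht, fun c => h.not_dvd h3 (h.sq_of_rt ht) (h.ne_of_rt ht h.neg_ne)
    (h.ne_of_rt ht h.neg_ne) rfl (c.trans (card_dvd_of_le (h.cent_eq ht ▸ C00_le.trans C0_le)))⟩

theorem cube_C00 (ht : RT e f (-1) (ρ t)) (hg : g ∈ C00 ρ e f) : g ^ 3 = 1 := by
  have key : ∀ {O : Subgroup Γ}, OP p O → ∀ z ∈ O, z ∈ C00 ρ e f → z ^ 3 = 1 := fun ho z z1 z2 => by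
    by_cases c : z = 1
    · simp [c]
    · exact h.OP_cube ho z1 (h.isR_of_C00 ht.hp ho z1 z2 c)
  by_cases h3 : p = 3
  swap
  · exact key (h.op_C00 h3 ht) g hg hg
  have ho := (h.odd_C00 ht).of_dvd_nat (orderOf_dvd_natCard _ hg)
  have op : OP p (zpowers (g ^ 3)) := by
    refine ⟨?_, ?_⟩ <;> rw [Nat.card_zpowers]
    · exact ho.of_dvd_nat (orderOf_pow_dvd 3)
    · rw [h3, orderOf_pow]
      intro c
      refine (h.u3 h3).1 (Dvd.dvd.trans ?_ (orderOf_dvd_natCard g))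
      by_cases c' : 3 ∣ orderOf g
      · rw [Nat.gcd_eq_right c'] at c
        exact (Nat.dvd_div_iff_mul_dvd c').1 c
      · exact (c' (c.trans (Nat.div_dvd_of_dvd (Nat.gcd_dvd_left _ _)))).elim
  have : Fact (Nat.Prime 3) := ⟨by norm_num⟩
  by_contra c
  exact op.pp (by
    rw [Nat.card_zpowers, h3, orderOf_eq_prime (key op _ (mem_zpowers _) (pow_mem hg 3)) c])

theorem three_C00 (ht : RT e f (-1) (ρ t)) (hz : z ∈ C00 ρ e f) (z1 : z ≠ 1) (hg : g ∈ C00 ρ e f) :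
    g = 1 ∨ g = z ∨ g = z⁻¹ := by
  by_cases h3 : p = 3
  swap
  · exact h.three_of_C00 ht.hp (h.op_C00 h3 ht) le_rfl hz z1 hg
  have : Fact (Nat.Prime 3) := ⟨by norm_num⟩
  obtain ⟨x, x1, x2, x3⟩ := HB.exists_cen (q := 3) (O := C00 ρ e f)
    (fun g => ⟨1, Subtype.ext (by simpa using h.cube_C00 ht g.2)⟩)
    (ne_bot_iff_exists_ne_one.2 ⟨⟨z, hz⟩, fun c => z1 (congrArg Subtype.val c)⟩)
  refine mem_three (h.u3 h3).1 (h.cube_C00 ht hz) z1 (h.cube_C00 ht hg) (Or.inl ?_)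
  rw [mul_inv_eq_iff_eq_mul]
  rcases mem_three (h.u3 h3).1 (h.cube_C00 ht x1) x2 (h.cube_C00 ht hz)
    (Or.inl (mul_inv_eq_iff_eq_mul.2 (x3 z hz))) with c | c | c <;> rw [c]
  exacts [by simp, x3 g hg, (Commute.inv_right (x3 g hg)).eq]

theorem out_ne (ht : RT e f (-1) (ρ t)) (hz : z ∈ C00 ρ e f) (z1 : z ≠ 1) (s1 : s ∈ C1 ρ e f)
    (s2 : s ∉ C0 ρ e f) : s * z ≠ z * s := fun c => by
  have s3 : s ^ 3 ∉ C0 ρ e f := by
    rwa [pow_succ, pow_two, mul_mem_cancel_left (C00_le (out_sq s1 s2))]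
  have tA : t ∈ C0 ρ e f := ⟨_, ht.dl⟩
  by_cases h3 : p = 3
  · rcases h.cube_short h3 ht (h.cube_C00 ht hz) z1 hz c s1 with c | c <;> rw [c] at s3
    exacts [s3 (one_mem _), s3 tA]
  · refine h.nf z t (s ^ 3) (h.isR_of_C00 ht.hp (h.op_C00 h3 ht) hz hz z1) (h.cube_C00 ht hz)
      (h.sq_of_rt ht) (h.ne_of_rt ht h.neg_ne) ?_ (fun c => s3 (c ▸ one_mem _))
      (fun c => s3 (c ▸ tA)) ((h.mem_C1_iff ht).1 (pow_mem s1 3)).symm
      (h.comm_of_C0 ht (C00_le hz)) (Commute.pow_left c 3).eq.symm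
    rw [← (Commute.refl s).mul_pow]; exact h.cube_C00 ht (out_sq s1 s2)

theorem comm (ht : RT e f (-1) (ρ t)) : ∀ a ∈ C0 ρ e f, ∀ b ∈ C0 ρ e f, a * b = b * a := by
  refine comm_of_central ht.hp.ne le_rfl fun g hg z _ hz => ?_
  by_cases z1 : z = 1
  · simp [z1]
  have key : ∀ s ∈ C1 ρ e f, s ∉ C0 ρ e f → s * z * s⁻¹ = z⁻¹ := fun s s1 s2 =>
    ((h.three_C00 ht hz z1 (conj_mem_C00 hz s1)).resolve_left (by simpa using z1)).resolve_left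
      fun c => h.out_ne ht hz z1 s1 s2 (mul_inv_eq_iff_eq_mul.1 c)
  obtain ⟨s, -, s1, s2⟩ := h.exists_out ht
  have k1 := key _ (mul_mem s1 (C0_le hg)) (by rwa [mul_mem_cancel_right hg])
  rw [← key s s1 s2] at k1
  exact mul_inv_eq_iff_eq_mul.1 (conj_injective (x := s) (by simp only []; rw [← k1]; group))

theorem out (ht : RT e f (-1) (ρ t)) (s1 : s * t = t * s) (s2 : s ∉ C0 ρ e f) : s * s = 1 :=
  by_contra fun c => h.out_ne ht (out_sq ((h.mem_C1_iff ht).2 s1) s2) c ((h.mem_C1_iff ht).2 s1) s2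
    (mul_assoc s s s).symm

theorem inv (ht : RT e f (-1) (ρ t)) (s1 : s * t = t * s) (s2 : s ∉ C0 ρ e f) (hy : y ∈ C0 ρ e f) :
    s * y * s⁻¹ = y⁻¹ := by
  have := h.out ht (s := s * y) (by rw [mul_assoc, h.comm_of_C0 ht hy, ← mul_assoc, s1, mul_assoc])
    (by rwa [mul_mem_cancel_right hy])
  rw [inv_eq_of_mul_eq_one_right (h.out ht s1 s2), ← mul_eq_one_iff_eq_inv, ← this]; group

theorem mem_of_comm (ht : RT e f (-1) (ρ t)) (hy : y ∈ C0 ρ e f) (y2 : y * y ≠ 1)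
    (g1 : g * t = t * g) (g2 : g * y = y * g) : g ∈ C0 ρ e f := by_contra fun c =>
  y2 (mul_eq_one_iff_eq_inv.2 (by rw [← h.inv ht g1 c hy, g2, mul_inv_cancel_right]))

theorem exists_O (ho : Odd (orderOf y)) (y1 : y ≠ 1) :
    ∃ O : Subgroup Γ, Odd (Nat.card O) ∧ (∀ g, g ∈ O ↔ g * y = y * g ∧ Odd (orderOf g)) ∧
      ∀ g, g * y = y * g → ∀ g', g' * y = y * g' → g * g' * g⁻¹ * g'⁻¹ ∈ O := by
  have := oddc (centralizer {y}) fun S hS h2 => ?_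
  · simpa only [mem_centralizer_singleton_iff] using this
  by_cases h0 : S = ⊥
  · rw [h0]; infer_instance
  obtain ⟨x, x1, x2, x3⟩ := HB.exists_cen h2 h0
  obtain ⟨n, hn⟩ := h2 ⟨x, x1⟩
  obtain ⟨t, ⟨m, rfl⟩, t1, t2⟩ := H4.Basic.exists_involution_of_even (zpowers x) (by
    rw [Nat.card_zpowers, ← Nat.not_odd_iff_even]
    exact fun c => x2 ((pow_eq_one_iff_of_coprime (Nat.Coprime.pow_right n
      (Nat.coprime_two_right.2 c))).1 ⟨pow_orderOf_eq_one x, congrArg Subtype.val hn⟩))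
  obtain ⟨e, f, ht⟩ := h.inv_rt t1 t2
  have hy : y ∈ C0 ρ e f := mem_C0_of_odd ((h.mem_C1_iff ht).2 (Commute.zpow_right
    (mem_centralizer_singleton_iff.1 (hS x1)).symm m)) ho (pow_orderOf_eq_one y)
  obtain ⟨u, hu, H⟩ := exists_gen ht.hp.ne S fun g hg => h.mem_of_comm ht hy
    (fun c => y1 (eq_one_of_odd ho (pow_orderOf_eq_one y) (by rwa [pow_two])))
    (Commute.zpow_right (x3 g hg) m) (mem_centralizer_singleton_iff.1 (hS hg))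
  refine ⟨⟨u, hu⟩, fun g => ?_⟩
  obtain ⟨n, hn⟩ := H g g.2
  obtain ⟨r, hr⟩ := h2 ((⟨u, hu⟩ ^ n)⁻¹ * g)
  exact ⟨n, Subtype.ext (by
    simpa [inv_mul_eq_one] using h.eq_one_of_two ht hn (congrArg Subtype.val hr))⟩

theorem op_O {O : Subgroup Γ} (ho : Odd (Nat.card O))
    (hO : ∀ g, g ∈ O ↔ g * y = y * g ∧ Odd (orderOf g)) (y0 : Odd (orderOf y)) (y1 : y ≠ 1)
    (t1 : t * t = 1) (t2 : t ≠ 1) (ty : t * y = y * t) (hz : z ∈ O) (z1 : z ≠ 1)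
    (tz : t * z * t⁻¹ = z⁻¹) : OP p O ∧ ∀ g ∈ O, ∀ g' ∈ O, g * g' = g' * g := by
  have op : OP p O := ⟨ho, fun c => by
    by_cases h3 : p = 3
    swap
    · exact h.not_dvd h3 t1 t2 y1 ty (c.trans (card_dvd_of_le fun g hg =>
        mem_centralizer_singleton_iff.2 ((hO g).1 hg).1))
    obtain ⟨u, u1, u2, u3⟩ := HB.exists_p h.prime c
    rw [h3] at u2
    have y3 : y ^ 3 = 1 := by
      rcases h.odd_comm_short h3 u2 u3 ((hO u).1 u1).1.symm y0 with c | c | c <;> simp [c, u2]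
    have k1 : Commute t z := by
      rcases h.odd_comm_short h3 y3 y1 ((hO z).1 hz).1 ((hO z).1 hz).2 with c | c | c <;> rw [c]
      exacts [Commute.one_right t, ty, Commute.inv_right ty]
    rw [k1.eq, mul_inv_cancel_right, ← mul_eq_one_iff_eq_inv, ← pow_two] at tz
    exact z1 (eq_one_of_odd ho (pow_card hz) tz)⟩
  exact ⟨op, h.tor op ((hO y).2 ⟨rfl, y0⟩) y1 fun g hg => ((hO g).1 hg).1⟩

theorem exists_x (ht : RT e f (-1) (ρ t)) {O : Subgroup Γ} (ho : Odd (Nat.card O))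
    (hO : ∀ g, g ∈ O ↔ g * y = y * g ∧ Odd (orderOf g)) (y0 : Odd (orderOf y)) (y1 : y ≠ 1)
    (hy : y ∈ C0 ρ e f) (hz : z ∈ O) (z1 : z ≠ 1) (tz : t * z * t⁻¹ = z⁻¹) (s1 : s * s = 1)
    (s2 : s ≠ 1) (sz : s * z = z * s) :
    z ^ 3 = 1 ∧ ∃ x ∈ C0 ρ e f, x ≠ 1 ∧ x ^ 3 = 1 ∧ x * z = z * x := by
  have t1 := h.sq_of_rt ht
  have t2 := h.ne_of_rt ht h.neg_ne
  have ty := (h.comm_of_C0 ht hy).symm
  obtain ⟨op, cm⟩ := h.op_O ho hO y0 y1 t1 t2 ty hz z1 tz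
  have oc : ∀ g z : Γ, orderOf (g * z * g⁻¹) = orderOf z := fun g z =>
    (MulAut.conj g).orderOf_eq z
  have hn : t ∈ normalizer (O : Set Γ) := mem_normalizer_fintype fun g hg => (hO _).2 ⟨by
    have := (Commute.conj ((hO g).1 hg).1 t).eq
    rwa [ty, mul_inv_cancel_right] at this, by rw [oc]; exact ((hO g).1 hg).2⟩
  have yO : y ∈ O := (hO y).2 ⟨rfl, y0⟩
  have cz : cn hn ⟨z, hz⟩ = ⟨z, hz⟩⁻¹ := Subtype.ext tz
  have cy : cn hn ⟨y, yO⟩ = ⟨y, yO⟩ := Subtype.ext (mul_inv_eq_iff_eq_mul.2 ty)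
  obtain ⟨γ, hγ⟩ := isConj_iff.1 (h.one_class s1 s2 t1 t2)
  have k1 : γ * z * γ⁻¹ * t = t * (γ * z * γ⁻¹) := hγ ▸ (Commute.conj sz.symm γ).eq
  have k2 : γ * z * γ⁻¹ ∈ C0 ρ e f := mem_C0_of_odd ((h.mem_C1_iff ht).2 k1) ho
    (by rw [conj_pow, pow_card hz]; simp)
  have k3 : γ * z * γ⁻¹ ∈ O := (hO _).2 ⟨h.comm ht _ k2 _ hy, by rw [oc]; exact ((hO z).1 hz).2⟩
  have cz' : cn hn ⟨_, k3⟩ = ⟨_, k3⟩ := Subtype.ext (mul_inv_eq_iff_eq_mul.2 k1.symm)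
  have iv : ∀ {F : Fr k} {a b : O → k}, (∀ g : O, Dg F (ρ g) (a g) (b g)) → ∀ g, a g⁻¹ = (a g)⁻¹ :=
    fun hF g => ((hF g⁻¹).uniq (by simpa using (hF g).inv)).1
  have kS : ∀ (F : Fr k) (a b : O → k), (∀ g : O, Dg F (ρ g) (a g) (b g)) → a ∘ cn hn = b →
      z ^ 3 = 1 := fun F a b hF c => by
    have d1 := hF ⟨z, hz⟩
    have d2 := hF ⟨_, k3⟩
    rw [← congrFun c ⟨z, hz⟩, Function.comp, cz, iv hF] at d1
    rw [← congrFun c ⟨_, k3⟩, Function.comp, cz'] at d2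
    have : NeZero (orderOf z) := ⟨(orderOf_pos z).ne'⟩
    obtain ⟨j, -, hj⟩ := (IsPrimitiveRoot.mk (ζ := a ⟨_, k3⟩) (k := orderOf z)
      (d2.d1.pow_eq_one F.h1.ne (oc γ z ▸ pow_orderOf_eq_one _)) fun l hl => by
        rw [← oc γ z, orderOf_dvd_iff_pow_eq_one, ← h.eq_one, map_pow]
        exact ((d2.pow l).eq_one_iff h.two).2 ⟨hl, hl⟩).eq_pow_of_pow_eq_one
      (d1.d1.pow_eq_one F.h1.ne (pow_orderOf_eq_one z))
    have d3 := d1.mul (d2.pow j)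
    rw [hj, inv_mul_cancel₀ d1.d1.1, ← map_pow, ← map_mul] at d3
    have d4 : a ⟨z, hz⟩ ^ 3 = 1 := by
      refine op.eq_one (pow_mem hz 3) F.h1.ne (d1.d1.pow' 3).2.1 ?_
      rw [← pow_mul, mul_comm, pow_mul, pow_two]
      refine d3.d1.pow_eq_one F.h1.ne ?_
      by_cases c : z * (γ * z * γ⁻¹) ^ j = 1
      · rw [c, one_pow]
      · exact h.OP_cube op (mul_mem hz (pow_mem k3 j))
          ((d3.isR_iff h.two (h.eq_one.not.2 c)).2 (Or.inr rfl))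
    rw [← h.eq_one, map_pow]
    exact ((d1.pow 3).eq_one_iff h.two).2 ⟨d4, by rw [inv_pow, d4, inv_one]⟩
  have k1 : ∀ (F : Fr k) (a b : O → k), (∀ g : O, Dg F (ρ g) (a g) (b g)) →
      a ∘ cn hn = b ∨ a ∘ cn hn = b⁻¹ ∨ a ⟨z, hz⟩ = 1 ∨ a ⟨y, yO⟩ = 1 := fun F a b hF => by
    rcases h.wt_cn hF hn with c | c | c | c | c
    · have := congrFun c ⟨z, hz⟩
      rw [Function.comp, cz, iv hF] at this
      exact Or.inr (Or.inr (Or.inl (op.eq_one hz F.h1.ne (hF ⟨z, hz⟩).d1.2.1 (by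
        rw [pow_two]; nth_rw 1 [← this]; exact inv_mul_cancel₀ (hF _).d1.1))))
    · have := congrFun c ⟨y, yO⟩
      rw [Function.comp, cy] at this
      exact Or.inr (Or.inr (Or.inr (op.eq_one yO F.h1.ne (hF ⟨y, yO⟩).d1.2.1 (by
        rw [pow_two]; nth_rw 1 [this]; exact inv_mul_cancel₀ (hF _).d1.1))))
    · exact Or.inl c
    · exact Or.inr (Or.inl c)
    · exact Or.inr (Or.inr (Or.inr (cy ▸ congrFun c ⟨y, yO⟩)))
  have fin : z ^ 3 = 1 → z ^ 3 = 1 ∧ ∃ x ∈ C0 ρ e f, x ≠ 1 ∧ x ^ 3 = 1 ∧ x * z = z * x := fun c =>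
    ⟨c, _, k2, by simpa using z1, by rw [conj_pow, c]; simp, cm _ k3 _ hz⟩
  obtain ⟨F, a, b, hF⟩ := h.exists_frame' op cm
  have rz := ((hF ⟨z, hz⟩).isR_iff h.two (h.eq_one.not.2 z1)).2
  rcases k1 F a b hF with c | c | c | c
  · exact fin (kS _ _ _ hF c)
  · exact fin (kS _ _ _ (fun g => (hF g).flip) c)
  · exact fin (h.OP_cube op hz (rz (Or.inl c)))
  rcases k1 _ b a (fun g => (hF g).swap) with c' | c' | c' | c'
  · exact fin (kS _ _ _ (fun g => (hF g).swap) c')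
  · exact fin (kS _ _ _ (fun g => (hF g).swap.flip) c')
  · exact fin (h.OP_cube op hz (rz (Or.inr c')))
  · exact (y1 (h.eq_one.1 (((hF ⟨y, yO⟩).eq_one_iff h.two).2 ⟨c, c'⟩))).elim

theorem span {x w : Γ} (t1 : t * t = 1) (t2 : t ≠ 1) (tx : t * x = x * t) (x1 : x ≠ 1)
    (x3 : x ^ 3 = 1) (z1 : z ≠ 1) (z3 : z ^ 3 = 1) (xz : x * z = z * x) (tz : t * z * t⁻¹ = z⁻¹)
    (w3 : w ^ 3 = 1) (wx : w * x = x * w) : ∃ i j : ℕ, w = x ^ i * z ^ j := by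
  have od : ∀ {g : Γ}, g ^ 3 = 1 → Odd (orderOf g) := fun c =>
    Odd.of_dvd_nat (by decide) (orderOf_dvd_of_pow_eq_one c)
  obtain ⟨O, ho, hO, -⟩ := h.exists_O (od x3) x1
  have hz := (hO z).2 ⟨xz.symm, od z3⟩
  obtain ⟨op, cm⟩ := h.op_O ho hO (od x3) x1 t1 t2 tx hz z1 tz
  obtain ⟨F, hF⟩ := h.exists_frame op cm
  obtain ⟨a, b, dx⟩ := hF x ((hO x).2 ⟨rfl, od x3⟩)
  obtain ⟨ω, o1, o3⟩ : ∃ ω : k, ω ≠ 1 ∧ ω ^ 3 = 1 := by
    by_cases c : a = 1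
    · exact ⟨b, fun c' => x1 (h.eq_one.1 ((dx.eq_one_iff h.two).2 ⟨c, c'⟩)),
        dx.d2.pow_eq_one F.h2.ne x3⟩
    · exact ⟨a, c, dx.d1.pow_eq_one F.h1.ne x3⟩
  have lg : ∀ {d : k}, d ^ 3 = 1 → ∃ i : Fin 3, d = ω ^ (i : ℕ) := fun c => by
    rcases cube_cases o3 o1 c with c | c | c
    exacts [⟨0, by simp [c]⟩, ⟨1, by simp [c]⟩,
      ⟨2, c.trans (inv_eq_of_mul_eq_one_left ((pow_succ ω 2).symm.trans o3))⟩]
  have dg : ∀ {g : Γ}, g ^ 3 = 1 → g * x = x * g →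
      ∃ i j : Fin 3, Dg F (ρ g) (ω ^ (i : ℕ)) (ω ^ (j : ℕ)) := fun {g} c1 c2 => by
    obtain ⟨a, b, d⟩ := hF g ((hO g).2 ⟨c2, od c1⟩)
    obtain ⟨i, rfl⟩ := lg (d.d1.pow_eq_one F.h1.ne c1)
    obtain ⟨j, rfl⟩ := lg (d.d2.pow_eq_one F.h2.ne c1)
    exact ⟨i, j, d⟩
  have pm : ∀ i j : Fin 3, ω ^ ((i * j : Fin 3) : ℕ) = (ω ^ (i : ℕ)) ^ (j : ℕ) := fun i j => by
    rw [Fin.val_mul, ← pow_eq_pow_mod _ o3, pow_mul]
  have pa : ∀ i j : Fin 3, ω ^ ((i + j : Fin 3) : ℕ) = ω ^ (i : ℕ) * ω ^ (j : ℕ) := fun i j => by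
    rw [Fin.val_add, ← pow_eq_pow_mod _ o3, pow_add]
  obtain ⟨a, b, dx⟩ := dg x3 rfl
  obtain ⟨c, d, dz⟩ := dg z3 xz.symm
  obtain ⟨e, f, dw⟩ := dg w3 wx
  obtain ⟨u, v, rfl, rfl⟩ := fin3 a b c d e f (by
    rintro ⟨rfl, rfl⟩; exact x1 (h.eq_one.1 ((dx.eq_one_iff h.two).2 (by simp)))) (by
    rintro n ⟨rfl, rfl⟩
    rw [pm, pm] at dz
    have k1 : z = x ^ (n : ℕ) := h.inj (by rw [map_pow]; exact dz.ext h.two (dx.pow n))
    rw [k1, (Commute.pow_right tx n).eq, mul_inv_cancel_right, ← k1, ← mul_eq_one_iff_eq_inv,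
      ← pow_two] at tz
    exact z1 (eq_one_of_odd (by decide) z3 tz))
  rw [pa, pa, pm, pm, pm, pm] at dw
  exact ⟨u, v, h.inj (by rw [map_mul, map_pow, map_pow]; exact dw.ext h.two ((dx.pow u).mul (dz.pow v)))⟩

theorem cent (ht : RT e f (-1) (ρ t)) (hy : y ∈ C0 ρ e f) (y2 : y * y ≠ 1) :
    centralizer {y} = C0 ρ e f := by
  ext g
  rw [mem_centralizer_singleton_iff]
  refine ⟨fun hg => h.mem_of_comm ht hy y2 ?_ hg, fun hg => h.comm ht g hg y hy⟩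
  have t1 := h.sq_of_rt ht
  have t2 := h.ne_of_rt ht h.neg_ne
  have tA : t ∈ C0 ρ e f := ⟨_, ht.dl⟩
  rcases (orderOf y).even_or_odd with y0 | y0
  · obtain ⟨n, n1, n2⟩ := H4.Basic.exists_involution_pow y0
    rw [← (h.inv_uniq ht (pow_mem hy n) n1).resolve_left n2]
    exact Commute.pow_right hg n
  by_contra c
  have y1 : y ≠ 1 := fun c => y2 (by simp [c])
  have ti := inv_eq_of_mul_eq_one_right t1
  obtain ⟨O, ho, hO, cm⟩ := h.exists_O y0 y1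
  have om : ∀ g g', g * t = t * g → g ∉ C0 ρ e f → g' * t = t * g' → g' ∉ C0 ρ e f →
      g * g' ∈ C0 ρ e f := fun g g' c1 c2 c3 =>
    out_mul ((h.mem_C1_iff ht).2 c1) c2 ((h.mem_C1_iff ht).2 c3)
  have key : ∀ s z, s * t = t * s → s ∉ C0 ρ e f → z ∈ O → t * z * t⁻¹ = z⁻¹ → s * z = z * s →
      z = 1 := fun s z s1 s2 hz tz sz => by_contra fun z1 => by
    obtain ⟨z3, x, x0, x1, x3, xz⟩ := h.exists_x ht ho hO y0 y1 hy hz z1 tz (h.out ht s1 s2)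
      (fun c => s2 (c ▸ one_mem _)) sz
    exact sw (fun s => h.one_class t1 t2) t1 t2 (h.comm ht) tA (fun s => h.inv_uniq ht)
      (fun g => h.out ht) om s1 s2 x0 x3 z1 z3 xz tz sz
      fun w => h.span t1 t2 (h.comm_of_C0 ht x0).symm x1 x3 z1 z3 xz tz
  have ty := (h.comm_of_C0 ht hy).symm
  have hz := cm g hg t ty
  have z1 : g * t * g⁻¹ * t⁻¹ ≠ 1 := fun c' => c (by rwa [mul_inv_eq_one, mul_inv_eq_iff_eq_mul] at c')
  have tz : t * (g * t * g⁻¹ * t⁻¹) * t⁻¹ = (g * t * g⁻¹ * t⁻¹)⁻¹ := by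
    simp [ti, mul_assoc, t1]
  generalize g * t * g⁻¹ * t⁻¹ = z at *
  obtain ⟨s, s0, s1, s2⟩ := h.exists_out ht
  rw [h.mem_C1_iff ht] at s1
  have k1 : s * z * s⁻¹ ∈ O := (hO _).2 ⟨by
    have := (Commute.conj ((hO z).1 hz).1 s).eq
    rw [h.inv ht s1 s2 hy] at this
    exact Commute.inv_right_iff.1 this, by
      rw [show orderOf (s * z * s⁻¹) = _ from (MulAut.conj s).orderOf_eq z]; exact ((hO z).1 hz).2⟩
  have k2 := (h.op_O ho hO y0 y1 t1 t2 ty hz z1 tz).2 _ hz _ k1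
  have si := inv_eq_of_mul_eq_one_right s0
  have k3 := key s _ s1 s2 (mul_mem hz k1) (by
    rw [← conj_mul, tz, k2, mul_inv_rev, conj_inv, ← tz]
    calc _ = t * z * t⁻¹ * ((t * s) * z * (t * s)⁻¹) := by group
      _ = t * z * t⁻¹ * ((s * t) * z * (s * t)⁻¹) := by rw [s1]
      _ = _ := by group) (by
      nth_rw 1 [k2]; simp [si, mul_assoc, ← mul_assoc s s, s0])
  refine z1 (key (t * s) z (by rw [mul_assoc, s1]) (by rwa [mul_mem_cancel_left tA]) hz tz ?_)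
  rw [← mul_inv_eq_iff_eq_mul]
  calc _ = t * (s * z * s⁻¹) * t⁻¹ := by group
    _ = z := by rw [eq_inv_of_mul_eq_one_right k3, ← conj_inv, tz, inv_inv]

theorem ci (ht : RT e f (-1) (ρ t)) : CI p U δ t (C0 ρ e f) where
  toCm := h.cm h.hU h.syl (h.sq_of_rt ht) (h.ne_of_rt ht h.neg_ne)
  tA := ⟨_, ht.dl⟩
  comm := h.comm ht
  idx := by
    obtain ⟨s, -, s1, s2⟩ := h.exists_out ht
    rw [h.cent_eq ht]
    refine relIndex_eq_two_iff.2 ⟨s, s1, fun b hb => ?_⟩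
    by_cases c : b ∈ C0 ρ e f
    · exact Or.inr ⟨c, by rwa [mul_mem_cancel_left c]⟩
    · exact Or.inl ⟨out_mul hb c s1 s2, c⟩
  out s := h.out ht
  uniq s := h.inv_uniq ht
  cent y := h.cent ht

end NF

end Cfsg.Agent.O5
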