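import Cfsg.Agent.O5.B5

/-!
Case B: small complements on frames.
-/

set_option autoImplicit false
set_option linter.unusedSectionVars false

namespace Cfsg.Agent.O5

open Subgroup Module

variable {k : Type*} [Field k] [IsAlgClosed k] {Γ : Type*} [Group Γ] {ρ : Γ →* GW k} {p : ℕ}

theorem Fr.li (F : Fr k) (h2 : (2 : k) ≠ 0) :
    LinearIndependent k ![F.e1, F.f1, F.e2, F.f2, F.e0] := by
  rw [Fintype.linearIndependent_iff]
  intro c hc
  simp only [Fin.sum_univ_five, Matrix.cons_val] at hc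
  have k1 := congrArg (fun v => B v F.e1) hc
  have k2 := congrArg (fun v => B v F.f1) hc
  have k3 := congrArg (fun v => B v F.e2) hc
  have k4 := congrArg (fun v => B v F.f2) hc
  have k5 := congrArg (fun v => B v F.e0) hc
  simp [F.h1.ee, F.h1.ff, F.h1.b, F.h1.fe, F.h2.ee, F.h2.ff, F.h2.b, F.h2.fe, F.ee, F.ef, F.fe,
    F.ff, F.a1, F.b1, F.a2, F.b2, B_comm _ F.e0, B_comm F.e1 F.e2, B_comm F.e1 F.f2,
    B_comm F.f1 F.e2, B_comm F.f1 F.f2, F.b0, h2] at k1 k2 k3 k4 k5
  intro i; fin_cases i <;> simp [*]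

theorem det_diag {n : Type*} [Fintype n] [DecidableEq n] (b : Basis n k (W k)) (g : W k →ₗ[k] W k)
    (c : n → k) (h : ∀ i, g (b i) = c i • b i) : LinearMap.det g = ∏ i, c i := by
  rw [← LinearMap.det_toMatrix b, ← Matrix.det_diagonal]
  congr 1
  ext i j
  simp [LinearMap.toMatrix_apply, h, Finsupp.single_apply, Matrix.diagonal_apply, eq_comm]
  split_ifs with e <;> simp [e]

namespace HB

variable (h : HB p ρ) [Finite Γ] [IsSimpleGroup Γ]
include h

/-- an element that is diagonal on both pairs of a frame is diagonal -/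
theorem dg_of' (F : Fr k) {g : Γ} {a b : k} (h1 : Dl F.e1 F.f1 (ρ g) a)
    (h2 : Dl F.e2 F.f2 (ρ g) b) : Dg F (ρ g) a b := by
  refine ⟨h1, h2, ?_⟩
  have k1 := h1.perp (h.iso g) F.a1 F.b1
  have k2 := h2.perp (h.iso g) F.a2 F.b2
  have k3 := F.dec h.two (ρ g F.e0)
  simp only [k1.1, k1.2, k2.1, k2.2, zero_smul, zero_add] at k3
  have k4 := det_diag (basisOfLinearIndependentOfCardEqFinrank (F.li h.two) (by simp))
    (ρ g).toLinearMap ![a, a⁻¹, b, b⁻¹, B (ρ g F.e0) F.e0 / 2] (fun i => by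
      fin_cases i <;> simp [h1.2.1, h1.2.2, h2.2.1, h2.2.2, ← k3])
  rw [h.st.det ⟨g, rfl⟩] at k4
  simp only [Fin.prod_univ_five, Matrix.cons_val, mul_inv_cancel₀ h1.1, one_mul,
    mul_inv_cancel₀ h2.1] at k4
  rw [k3, ← k4, one_smul]

/-- the only rotations of the plane of a half-turn -/
theorem rot_t {e f : W k} {t g : Γ} {a : k} (ht : RT e f (-1) (ρ t)) (hg : RT e f a (ρ g)) :
    g = 1 ∨ g = t := by
  have k1 := ht.mul hg
  rw [← map_mul] at k1
  have a2 : a ^ 2 = 1 := (h.r1 hg).elim id fun c => (h.r1 k1).elim (fun c' => by simpa using c')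
    fun c' => (h.neg_ne (by linear_combination c' + c)).elim
  rcases sq_eq_one_iff.1 a2 with rfl | rfl
  · exact Or.inl (h.eq_one.1 (hg.eq_one_iff.2 rfl))
  · exact Or.inr (h.rt_ext hg ht)

end HB

end Cfsg.Agent.O5
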