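import Cfsg.Agent.O5.B4
import Cfsg.Agent.H6.MI2

/-!
Case B: recognition of the alternating group of degree seven.
-/

set_option autoImplicit false
set_option linter.unusedSectionVars false

namespace Cfsg.Agent.O5

open Cfsg.Agent.H6.MG

variable {k : Type*} [Field k]

/-- an orthonormal triple permuted by `z`, the first vector being the axis of `u` -/
structure Ax (e f : W k) (z u : GW k) (a : W k) : Prop where
  ae : B a e = 0
  af : B a f = 0
  b0 : B a a = 2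
  b1 : B (z a) a = 0
  z3 : z (z (z a)) = a
  dec : ∀ y, (2 : k) • (y - B y f • e - B y e • f) =
    B y a • a + B y (z a) • z a + B y (z (z a)) • z (z a)
  ua : ∀ y, u y = y - B y (z a) • z a - B y (z (z a)) • z (z a)

theorem Ax.neg {e f a : W k} {z u : GW k} (h : Ax e f z u a) : Ax e f z u (-a) :=
  ⟨by simp [h.ae], by simp [h.af], by simp [h.b0], by simp [h.b1], by simp [h.z3],
    fun y => by simpa using h.dec y, fun y => by simpa using h.ua y⟩

theorem Ax.gram {e f a : W k} {z u : GW k} (h : Ax e f z u a) (hz : Iso z) :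
    B a (z a) = 0 ∧ B a (z (z a)) = 0 ∧ B (z a) (z a) = 2 ∧ B (z a) (z (z a)) = 0 ∧
      B (z (z a)) (z a) = 0 ∧ B (z (z a)) (z (z a)) = 2 := by
  have h1 : B a (z a) = 0 := by rw [B_comm, h.b1]
  refine ⟨h1, ?_, by rw [hz, h.b0], by rw [hz, h1], by rw [hz, h.b1], by rw [hz, hz, h.b0]⟩
  rw [← hz, h.z3, h.b1]

variable [IsAlgClosed k] {Γ : Type*} [Group Γ] {ρ : Γ →* GW k} {p : ℕ}

theorem HB.ax (h : HB p ρ) {e f : W k} (hp : HP e f) {z u : Γ} (z3 : z ^ 3 = 1) (ze : ρ z e = e)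
    (zf : ρ z f = f) (u1 : u * u = 1) (u2 : u ≠ 1) (ue : ρ u e = e) (uf : ρ u f = f)
    (u3 : u * (z * u * z⁻¹) = z ^ 2 * u * (z ^ 2)⁻¹) : ∃ a, Ax e f (ρ z) (ρ u) a := by
  obtain ⟨e2, f2, hu⟩ := h.inv_rt u1 u2
  have a1 := (hu.fix_iff h.neg_ne).1 ue
  have a2 := (hu.fix_iff h.neg_ne).1 uf
  obtain ⟨F, rfl, rfl, rfl, rfl⟩ := exists_fr2 h.two hp hu.hp (by rw [B_comm, a1.1])
    (by rw [B_comm, a2.1]) (by rw [B_comm, a1.2]) (by rw [B_comm, a2.2])
  have hz := h.iso z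
  have a3 : ∀ y, ρ z (ρ z (ρ z y)) = y := fun y => by
    rw [← LinearEquiv.mul_apply, ← LinearEquiv.mul_apply, ← map_mul, ← map_mul, ← pow_three', z3,
      map_one]; rfl
  have a4 : ∀ y, ρ u y = (2 : k) • (B y F.f1 • F.e1 + B y F.e1 • F.f1) + B y F.e0 • F.e0 - y :=
    fun y => by
      have := F.dec h.two y
      rw [← mul_div_cancel₀ (B y F.e0) h.two, hu.apply, inv_neg, inv_one]
      linear_combination (norm := module) (2 : k) • this
  have a5 : ∀ y w, B y (ρ z w) = B (ρ z (ρ z y)) w := fun y w => by rw [← hz (ρ z (ρ z y)), a3]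
  have a6 : ∀ y, (2 : k) • (y - B y F.f1 • F.e1 - B y F.e1 • F.f1) = B y F.e0 • F.e0 +
      B y (ρ z F.e0) • ρ z F.e0 + B y (ρ z (ρ z F.e0)) • ρ z (ρ z F.e0) -
        (B y (ρ z F.e0) * B (ρ z F.e0) F.e0) • F.e0 := fun y => by
    have b1 : z * z = z⁻¹ := eq_inv_of_mul_eq_one_left (by rw [← pow_three', z3])
    have b2 := congrArg (fun g => ρ g y) u3
    have b3 : ∀ y, B (ρ z y) F.e1 = B y F.e1 ∧ B (ρ z y) F.f1 = B y F.f1 := fun y =>
      ⟨by rw [← hz y, ze], by rw [← hz y, zf]⟩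
    simp only [pow_two, mul_inv_rev, ← b1, map_mul, LinearEquiv.mul_apply, a4, map_add, map_sub,
      map_smul, a3, ze, zf, b3, LinearMap.add_apply, LinearMap.sub_apply, LinearMap.smul_apply,
      smul_eq_mul, hp.ee, hp.ff, hp.b, hp.fe, F.a1, F.b1, B_comm _ F.e0] at b2
    rw [a5 y (ρ z _), hz, a5 y]
    simp only [B_comm _ F.e0]
    linear_combination (norm := module) b2
  have b0 := F.b0
  have b1 : B (ρ z F.e0) F.e0 = 0 := by
    by_contra hb
    have c1 := a6 (ρ z F.e0)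
    rw [hz, hz, ← ze, ← zf, hz, hz, F.a1, F.b1, b0, B_comm F.e0] at c1
    have c2 : ρ z (ρ z F.e0) = F.e0 := smul_right_injective _ hb (by
      linear_combination (norm := module) -c1)
    have c3 : ρ z F.e0 = F.e0 := by rw [← c2, a3, c2]
    have c4 := congrArg (B · F.f2) (a6 F.e2)
    simp [c3, F.ee, F.ef, B_comm _ F.e0, F.a2, F.h2.b, h.two] at c4
  refine ⟨F.e0, F.a1, F.b1, b0, b1, a3 _, fun y => by simpa [b1] using a6 y, fun y => ?_⟩
  have := a6 y
  rw [b1] at this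
  rw [a4]
  linear_combination (norm := module) -this

theorem Ax.fix {e f a : W k} {x z u : GW k} {ω : k} (h : Ax e f z u a) (hz : Iso z)
    (hx : RT e f ω x) (ze : z e = e) (zf : z f = f) :
    x a = a ∧ x (z a) = z a ∧ x (z (z a)) = z (z a) :=
  ⟨hx.fix _ h.ae h.af, hx.fix _ (by rw [← ze, hz, h.ae]) (by rw [← zf, hz, h.af]),
    hx.fix _ (by rw [← ze, ← ze, hz, hz, h.ae]) (by rw [← zf, ← zf, hz, hz, h.af])⟩

theorem cross {a b : W k} {x z : GW k} (hx : Iso x) (hz : Iso z)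
    (xa : x a = a ∧ x (z a) = z a ∧ x (z (z a)) = z (z a)) (zb : z b = b) :
    (B (x b) a = B b a ∧ B (x (x b)) a = B b a) ∧
    (B b (z a) = B b a ∧ B (x b) (z a) = B b a ∧ B (x (x b)) (z a) = B b a) ∧
    B b (z (z a)) = B b a ∧ B (x b) (z (z a)) = B b a ∧ B (x (x b)) (z (z a)) = B b a := by
  have h1 : ∀ y, x y = y → ∀ w, B (x w) y = B w y := fun y hy w => by rw [← hx w, hy]
  have h2 : ∀ y, B b (z y) = B b y := fun y => by rw [← hz b y, zb]
  simp only [h1 _ xa.1, h1 _ xa.2.1, h1 _ xa.2.2, h2, and_self]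

theorem Ax.rel {e f e' f' a b : W k} {x z u u' : GW k} (h2 : (2 : k) ≠ 0) (h7 : (7 : k) = 0)
    (h : Ax e f z u a) (h' : Ax e' f' x u' b) (hx : Iso x) (hz : Iso z)
    (xa : x a = a ∧ x (z a) = z a ∧ x (z (z a)) = z (z a)) (zb : z b = b)
    (pe : B e e' = 0 ∧ B e f' = 0) (pf : B f e' = 0 ∧ B f f' = 0) (c : B b a = 3)
    (s : (2 : k) • (b + x b + x (x b)) = (9 : k) • (a + z a + z (z a))) :
    x * x * u' * u * (x * x * u' * u) * (x * x * u' * u * (x * x * u' * u)) = 1 := by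
  obtain ⟨⟨c1, c2⟩, ⟨c3, c4, c5⟩, c6, c7, c8⟩ := cross hx hz xa zb
  obtain ⟨g1, g2, g3, g4, g5, g6⟩ := h.gram hz
  obtain ⟨g1', g2', g3', g4', g5', g6'⟩ := h'.gram hx
  have s' : x (x b) = a + z a + z (z a) - b - x b := smul_right_injective _ h2 (by
    linear_combination (norm := module) s + h7 • (a + z a + z (z a)))
  set M := x * x * u' * u with hM
  have m : ∀ y, M y = x (x (u' (u y))) := fun y => rfl
  have ua : ∀ y, x y = y → B (x b) y = B b a → B (x (x b)) y = B b a →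
      x (x (u' y)) = y - (3 : k) • b - (3 : k) • x b := fun y e1 e2 e3 => by
    rw [h'.ua, B_comm y, B_comm y, e2, e3, c]
    simp only [map_sub, map_smul, e1, h'.z3]
  have u1 := ua _ xa.1 c1 c2
  have u2 := ua _ xa.2.1 c4 c5
  have u3 := ua _ xa.2.2 c7 c8
  have m1 : M a = a - (3 : k) • b - (3 : k) • x b := by
    rw [m, h.ua, g1, g2, ← u1]; simp
  have m2 : M (z a) = (3 : k) • b + (3 : k) • x b - z a := by
    rw [m, h.ua, g3, g4]
    simp only [map_sub, map_smul, u2]; module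
  have m3 : M (z (z a)) = (3 : k) • b + (3 : k) • x b - z (z a) := by
    rw [m, h.ua, g5, g6]
    simp only [map_sub, map_smul, u3]; module
  have m4 : M b = a - (2 : k) • z a - (2 : k) • z (z a) + (17 : k) • b + (17 : k) • x b := by
    rw [m, h.ua, c3, c6, c]
    simp only [map_sub, map_smul, u2, u3, h'.ua b, g1', g2', zero_smul, sub_zero]
    linear_combination (norm := module) s'
  have m5 : M (x b) = (17 : k) • b + (18 : k) • x b - (3 : k) • z a - (3 : k) • z (z a) := by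
    rw [m, h.ua, c4, c7, c]
    simp only [map_sub, map_smul, u2, u3, h'.ua (x b), g3', g4', zero_smul, sub_zero, h'.z3]
    module
  have k0 : ∀ y, (M * M * (M * M)) y = M (M (M (M y))) := fun y => rfl
  set N := M * M * (M * M)
  have k1 : N a = a ∧ N (z a) = z a ∧ N (z (z a)) = z (z a) ∧ N b = b ∧ N (x b) = x b := by
    simp only [k0, m1, m2, m3, m4, m5, map_add, map_sub, map_smul]
    refine ⟨?_, ?_, ?_, ?_, ?_⟩ <;> match_scalars <;> grind
  have k2 : N (x (x b)) = x (x b) := by rw [s']; simp only [map_add, map_sub, k1]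
  have k3 : ∀ y, B y e' = 0 ∧ B y f' = 0 → N y = y := fun y hy => smul_right_injective _ h2 (by
    have := h'.dec y
    simp only [hy, zero_smul, sub_zero] at this
    simp only [← map_smul, this]
    simp only [map_add, map_smul, k1, k2])
  refine LinearEquiv.ext fun y => smul_right_injective _ h2 ?_
  have := congrArg N (h.dec y)
  simp only [map_add, map_sub, map_smul, k1, k3 e pe, k3 f pf] at this
  change (2 : k) • N y = (2 : k) • y
  linear_combination (norm := module) this - h.dec y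

theorem HB.a7 [Finite Γ] (h : HB p ρ) (h7 : p = 7) (hc : Nat.card Γ = 2520) {x z u u' : Γ}
    {e f e' f' : W k} {ω ω' : k} (hx : RT e f ω (ρ x)) (hz : RT e' f' ω' (ρ z))
    (o : ω ^ 2 + ω + 1 = 0) (o' : ω' ^ 2 + ω' + 1 = 0) (xz : x * z = z * x) (ze : ρ z e = e)
    (zf : ρ z f = f) (u1 : u * u = 1) (u2 : u ≠ 1) (ue : ρ u e = e) (uf : ρ u f = f)
    (u3 : u * (z * u * z⁻¹) = z ^ 2 * u * (z ^ 2)⁻¹) (u1' : u' * u' = 1) (u2' : u' ≠ 1)
    (ue' : ρ u' e' = e') (uf' : ρ u' f' = f') (u3' : u' * (x * u' * x⁻¹) = x ^ 2 * u' * (x ^ 2)⁻¹) :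
    Nonempty (Γ ≃* alternatingGroup (Fin 7)) := by
  have c7 : (7 : k) = 0 := by
    have := h.char
    exact_mod_cast (CharP.cast_eq_zero_iff k p 7).2 (h7 ▸ dvd_rfl)
  have n1 : ∀ {ω : k}, ω ^ 2 + ω + 1 = 0 → ω ≠ 1 := by
    rintro _ o rfl
    exact h.two (by linear_combination 3 * o - c7)
  have p3 : ∀ {e f : W k} {ω : k} {x : Γ}, RT e f ω (ρ x) → ω ^ 2 + ω + 1 = 0 → x ^ 3 = 1 :=
    fun {e f ω x} hx o => h.eq_one.1 (by
      rw [map_pow]; exact (hx.pow 3).eq_one_iff.2 (by linear_combination (ω - 1) * o))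
  have pe := (hz.fix_iff (n1 o')).1 ze
  have pf := (hz.fix_iff (n1 o')).1 zf
  have xe := hx.fix e' (by rw [B_comm, pe.1]) (by rw [B_comm, pf.1])
  have xf := hx.fix f' (by rw [B_comm, pe.2]) (by rw [B_comm, pf.2])
  have x3 := p3 hx o
  obtain ⟨a, ha⟩ := h.ax hx.hp (p3 hz o') ze zf u1 u2 ue uf u3
  have xa := ha.fix (h.iso z) hx ze zf
  have key : ∀ b, Ax e' f' (ρ x) (ρ u') b → (2 : k) • (b + ρ x b + ρ x (ρ x b)) =
      (3 * B b a) • (a + ρ z a + ρ z (ρ z a)) := fun b hb => by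
    obtain ⟨⟨c1, c2⟩, ⟨c3, c4, c5⟩, c6, c7, c8⟩ := cross (h.iso x) (h.iso z) xa
      (hb.fix (h.iso x) hz xe xf).1
    have h1 := (hx.fix_iff (n1 o) (v := b + ρ x b + ρ x (ρ x b))).1 (by
      rw [map_add, map_add, hb.z3]; abel)
    have h2 := ha.dec (b + ρ x b + ρ x (ρ x b))
    rw [h1.1, h1.2] at h2
    simp only [map_add, LinearMap.add_apply, c1, c2, c3, c4, c5, c6, c7, c8] at h2
    linear_combination (norm := module) h2
  obtain ⟨b, hb, c⟩ : ∃ b, Ax e' f' (ρ x) (ρ u') b ∧ B b a = 3 := by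
    obtain ⟨b, hb⟩ := h.ax hz.hp x3 xe xf u1' u2' ue' uf' u3'
    obtain ⟨⟨c1, c2⟩, -⟩ := cross (h.iso z) (h.iso x)
      (hb.fix (h.iso x) hz xe xf) xa.1
    have h1 := congrArg (B · b) (key b hb)
    simp only [map_add, map_smul, LinearMap.add_apply, LinearMap.smul_apply, c1, c2, hb.b0, hb.b1,
      B_comm (ρ x (ρ x b)) b, (hb.gram (h.iso x)).2.1, smul_eq_mul, B_comm a b] at h1
    rcases mul_eq_zero.1 (show (B b a - 3) * (B b a + 3) = 0 from mul_left_cancel₀ h.two (by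
      linear_combination -h1 - (B b a ^ 2 + 2) * c7)) with e | e
    · exact ⟨b, hb, sub_eq_zero.1 e⟩
    · exact ⟨-b, hb.neg, by rw [map_neg, LinearMap.neg_apply]; linear_combination -e⟩
  have r := ha.rel h.two c7 hb (h.iso x) (h.iso z) xa
    (hb.fix (h.iso x) hz xe xf).1 pe pf c (by rw [key b hb, c]; norm_num)
  simp only [← map_mul, h.eq_one] at r
  have xi : x * x = x⁻¹ := eq_inv_of_mul_eq_one_left (by rw [← pow_three', x3])
  rw [xi] at r
  have ux := h.comm_of_C0 hx (g := u) ⟨1, one_ne_zero, by simpa using ue, by simpa using uf⟩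
  have zu := h.comm_of_C0 hz (g := u') ⟨1, one_ne_zero, by simpa using ue', by simpa using uf'⟩
  have cb : ∀ y, Commute y (x⁻¹ * u') → x⁻¹ * u' * (y * u * y⁻¹) * (x⁻¹ * u' * (y * u * y⁻¹)) *
      (x⁻¹ * u' * (y * u * y⁻¹) * (x⁻¹ * u' * (y * u * y⁻¹))) = 1 := fun y e => by
    have : x⁻¹ * u' * (y * u * y⁻¹) = y * (x⁻¹ * u' * u) * y⁻¹ := by
      rw [← mul_assoc, ← mul_assoc, ← e.eq]; group
    simp [this, r]
  have zc : Commute z (x⁻¹ * u') := (show Commute z x from xz.symm).inv_right.mul_right zu.symm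
  refine Car.iso_a7 _ (H6.M3.car5 (a := x) (b := x⁻¹ * u') (u := u) (v := z * u * z⁻¹)
    (w := z ^ 2 * u * (z ^ 2)⁻¹) (by rw [← pow_three', x3]) ?_ (by simpa using u1') u1
    (by simp [u1]) (by simp [u1]) u3 ux.symm ?_ r (cb z zc) (cb _ (zc.pow_left 2)))
    (h.ne_of_rt hx (n1 o)) hc
  · have iu := inv_eq_of_mul_eq_one_right u1'
    refine inv_eq_one.1 ?_
    calc _ = u'⁻¹ * x * u'⁻¹ * x⁻¹ * (x ^ 2 * u'⁻¹ * (x ^ 2)⁻¹) * x ^ 3 := by group
      _ = _ := by
        rw [iu, x3, mul_one, mul_assoc u', mul_assoc u', u3']; simp [u1']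
  · exact ((show Commute x z from xz).mul_right ux.symm).mul_right
      (show Commute x z from xz).inv_right

end Cfsg.Agent.O5
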