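import Cfsg.Agent.O5.BC5

/-!
Case B: the counting argument for an involution centraliser of order 24, conclusion.
-/

set_option autoImplicit false
set_option maxHeartbeats 400000
set_option linter.unusedSectionVars false

namespace Cfsg.Agent.O5

open Subgroup Cfsg.Agent.H4 Cfsg.Agent.H4.CABasic Cfsg.Agent.H4.FeitLow
  Cfsg.Agent.H4.Basic Cfsg.Agent.H6.MG Cfsg.Agent.O5.Num Cfsg.Agent.O5.Cnt

theorem Num.red {n i r y j C : ℕ} (hi : n = 24 * i) (hr : n = 36 * r) (hy : 9 * y = j * n)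
    (j1 : 1 ≤ j) (eq : n = 1 + 9 * i + r + y + C) : ∃ m, n = 72 * m ∧
    ((j = 1 ∧ C + 1 = 35 * m) ∨ C + 1 = 27 * m ∨ C + 1 = 19 * m ∨ C + 1 = 11 * m ∨ C + 1 = 3 * m) := by
  refine ⟨n / 72, by omega, ?_⟩
  have : j ≤ 5 := by
    by_contra! h
    have := Nat.mul_le_mul_right n (show 6 ≤ j from h)
    omega
  interval_cases j <;> omega

/-- size estimate -/
def Num.Siz (k C n r lo hi : ℕ) : Prop := (k = 0 ∧ C = 0) ∨ (k = 1 ∧ r * n ≤ lo * C ∧ hi * C < n) ∨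
  (k = 2 ∧ 2 * (r * n) ≤ lo * C ∧ hi * C < 2 * n) ∨ (k = 3 ∧ 3 * (r * n) ≤ lo * C) ∨
  (4 ≤ k ∧ 4 * (r * n) ≤ lo * C)

section
variable {n i r y j k2 C2 k4 C4 : ℕ} (hi : n = 24 * i) (hr : n = 36 * r) (hy : 9 * y = j * n)
  (j1 : 1 ≤ j) (s2 : Siz k2 C2 n 2 5 2) (s4 : Siz k4 C4 n 1 5 4)
include hi hr hy j1 s2 s4

theorem Num.sz0 (eq : n = 1 + 9 * i + r + y + (C2 + C4)) :
    j = 1 ∧ ((k2 = 1 ∧ k4 = 0) ∨ (k2 = 0 ∧ k4 = 2)) := by
  obtain ⟨m, rfl, h⟩ := red hi hr hy j1 eq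
  clear hi hr hy j1 eq
  rcases s2 with s2 | s2 | s2 | s2 | s2 <;> rcases s4 with s4 | s4 | s4 | s4 | s4 <;> omega

theorem Num.sz3 {v : ℕ} (h3 : 2 * n ≤ 7 * v ∧ 3 * v < n)
    (eq : n = 1 + 9 * i + r + y + (C2 + C4) + v) : j = 1 ∧ k2 = 0 ∧ k4 = 1 := by
  obtain ⟨m, rfl, h⟩ := red hi hr hy j1 (eq.trans (add_assoc _ _ _))
  clear hi hr hy j1 eq
  rcases s2 with s2 | s2 | s2 | s2 | s2 <;> rcases s4 with s4 | s4 | s4 | s4 | s4 <;> omega

theorem Num.sz5 {v c C : ℕ} (h3 : 2 * n ≤ 11 * v ∧ 5 * v < n) (hc : 5 * c = n) (hC : c + C4 = C)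
    (eq : n = 1 + 9 * i + r + y + (C2 + C) + v) : False := by
  obtain ⟨m, rfl, h⟩ := red hi hr hy j1 (eq.trans (add_assoc _ _ _))
  clear hi hr hy j1 eq
  rcases s2 with s2 | s2 | s2 | s2 | s2 <;> rcases s4 with s4 | s4 | s4 | s4 | s4 <;> omega

end

variable {Γ : Type*} [Group Γ] {p : ℕ} {U : Subgroup Γ} {δ t x : Γ}

section
variable [Fintype Γ] [DecidableEq Γ] [DecidableEq (Subgroup Γ)] [IsSimpleGroup Γ]
  {F2 F4 : Finset (Subgroup Γ)}

theorem CII.plain (h : CII p U δ t x) (hF : Fam F2 F4)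
    (hc : ∀ y, y ≠ 1 → ∀ g, g * y * g⁻¹ ∈ U → InF F2 F4 y) : False := by
  have eq := (h.eqs hF ∅ (fun y y1 g e => .inl (hc y y1 g e)) (by simp) (by simp)).1
  rw [Finset.card_empty, add_zero] at eq
  obtain ⟨j, j1, hy⟩ := h.exj
  have hi := h.hi; have hr := h.hr
  have n0 : 0 < Nat.card Γ := Nat.card_pos
  have s2 := sizes F2 (fun B => (conjs B).card) fun B hB =>
    (hF.cl2 hB).two' (h.not3 (hF.h2 B hB).1 (hF.h2 B hB).2.1)
  have s4 := sizes F4 (fun B => (conjs B).card) fun B hB => (hF.cl4 hB).four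
  have k := sz0 hi hr hy j1 s2 s4 eq
  clear s2 s4
  obtain ⟨j1, ⟨k2, k4⟩ | ⟨k2, k4⟩⟩ := k
  · obtain ⟨B, rfl⟩ := Finset.card_eq_one.1 k2
    obtain rfl := Finset.card_eq_zero.1 k4
    rw [Finset.sum_singleton, Finset.sum_empty, add_zero] at eq
    obtain ⟨h1, h2, h3⟩ := hF.h2 B (by simp)
    obtain ⟨s, s1, s2, s3⟩ := exists_out h2 (by rw [h3]; decide)
    exact m2 hi hr hy n0 (hF.cl2 (B := B) (by simp)) (h.not3 h1 h2) eq j1
      (pow_two (invs Γ).card ▸ pairs_le h1 s1 s2 s3)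
  · obtain ⟨B, B', e, rfl⟩ := Finset.card_eq_two.1 k4
    obtain rfl := Finset.card_eq_zero.1 k2
    rw [Finset.sum_pair e, Finset.sum_empty, zero_add] at eq
    have b1 := hF.cl4 (B := B) (by simp)
    have b2 := hF.cl4 (B := B') (by simp)
    have h1 := hF.h4 B (by simp)
    have h2 := hF.h4 B' (by simp)
    exact m44 hi hr hy n0 b1 b2 (dvd3 (by omega) b1.dvd b2.dvd (h.cop h1.1 h1.2.1)
      (h.cop h2.1 h2.2.1) (hF.c44 (by simp) (by simp) e)) eq j1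

theorem CII.special (h : CII p U δ t x) (hF : Fam F2 F4) (hs : Sp p U δ)
    (hw : ww U = 3 ∨ 5 ≤ ww U) :
    Nat.card Γ = 2520 ∧ Nat.card U = 7 ∧ 9 * (Y3 Γ).card = Nat.card Γ := by
  obtain ⟨eq, cov⟩ := h.eqs hF (conjs U)
    (fun y y1 g e => .inr (mem_conjs.2 ⟨g⁻¹, _, e, by simpa using y1, by group⟩))
    (fun y hy => ⟨fun e => one_notMem_conjs U (e ▸ hy), by
      rw [hs.ca.cc_eq hy]; exact ⟨hs.odd, h.not3 hs.ca hs.odd⟩⟩)
    (fun B hB e => dj hB hs.ca (by omega))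
  obtain ⟨j, j1, hy⟩ := h.exj
  have hi := h.hi; have hr := h.hr
  have n0 : 0 < Nat.card Γ := Nat.card_pos
  have cl := cl_of hs.ca hs.odd rfl
  have s2 := sizes F2 (fun B => (conjs B).card) fun B hB =>
    (hF.cl2 hB).two' (h.not3 (hF.h2 B hB).1 (hF.h2 B hB).2.1)
  have s4 := sizes F4 (fun B => (conjs B).card) fun B hB => (hF.cl4 hB).four
  rcases hw with hw | hw
  · rw [hw] at cl
    obtain ⟨j1, k2, k4⟩ := sz3 hi hr hy j1 s2 s4 cl.three eq
    obtain ⟨B, rfl⟩ := Finset.card_eq_one.1 k4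
    obtain rfl := Finset.card_eq_zero.1 k2
    rw [Finset.sum_singleton, Finset.sum_empty, zero_add] at eq
    obtain ⟨h1, h2, h4⟩ := hF.h4 B (by simp)
    obtain ⟨e1, e2⟩ := m34 hi hr hy n0 (hF.cl4 (B := B) (by simp)) cl (h.not3 h1 h2)
      (cww h1 hs.ca (by omega)) eq j1
    exact ⟨e1, e2, by rw [hy, j1, one_mul]⟩
  exfalso
  have hcc := hs.cc hw
  have d1 : δ ≠ 1 := fun e => hs.ne (by omega) (by simp [e])
  have nU : ∀ n : ℕ, ¬ IsConj x (δ ^ n) := fun n => h.nU _ (pow_mem hs.mem n) hs.ca.ne_bot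
  have small : ∀ n : ℕ, 0 < n → n < 5 → δ ^ n ≠ 1 := fun n n0 n5 e => by
    have := Nat.le_of_dvd n0 (orderOf_dvd_of_pow_eq_one e)
    have := hs.ord
    omega
  have u1 : ww U + 1 ≤ Nat.card U := by
    have := Nat.le_of_dvd (by have := cl.one; omega) cl.dv; have := cl.one; omega
  have k0 := cl.pos
  rcases cov δ d1 fun g e => d1 (hs.notU hs.pow g e) with e | e | e | ⟨B, h1, h2⟩ | ⟨B, h1, h2⟩
  · obtain ⟨n, hn⟩ := mem_Ev.1 e
    obtain ⟨s1, s2⟩ := mem_invs.1 hn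
    rcases (h.ex' s1 s2 (Commute.pow_self δ n)).1 with e | e
    · exact small 4 (by decide) (by decide) e
    · exact nU 2 ((h.ex' s1 s2 (Commute.pow_pow_self δ n 2)).2 (by rwa [← pow_mul])
        (small 2 (by decide) (by decide)))
  · exact nU 1 (by rw [pow_one]; exact mem_RR.1 e)
  · have e9 : orderOf δ = 9 := by rw [hs.ord, ← hcc, h.ccY e]
    obtain ⟨x', c, e'⟩ := h.sylx (k := 2) (y := δ) (orderOf_dvd_iff_pow_eq_one.1 e9.dvd)
    obtain ⟨n, rfl⟩ := mem_powers_iff_mem_zpowers.2 (hs.cent hw ▸ memC.2 e')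
    exact nU n c
  · have e1 : ww U = Nat.card B := hcc ▸ (hF.h2 B h1).1.cc_eq h2
    rw [e1] at cl hw u1
    have b1 := hF.cl2 h1
    have e5 : (conjs U).card + (normalizer (U : Set Γ)).index = 2 * (normalizer (B : Set Γ)).index := by
      apply Nat.eq_of_mul_eq_mul_left (show 0 < Nat.card B by omega)
      have := cl.e2; have := b1.e1; linarith
    have e6 : Nat.card U * (normalizer (U : Set Γ)).index = 2 * (normalizer (B : Set Γ)).index := by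
      apply Nat.eq_of_mul_eq_mul_left (show 0 < Nat.card B by omega)
      have := cl.e1; have := b1.e1; linarith
    have e7 := (tab e6.symm 6).2 (by omega)
    have e8 := b1.e2
    have e9 := Finset.add_sum_erase F2 (fun B => (conjs B).card) h1
    have := Nat.mul_le_mul_right (Nat.card Γ) j1
    clear * - e5 e7 e8 e9 eq hy hi hr this
    omega
  · have e0 := hs.five' hw (hF.h4 B h1).1 (hF.h4 B h1).2.1 (hF.h4 B h1).2.2 h2
    have e1 : Nat.card B = 5 := e0 ▸ hcc ▸ ((hF.h4 B h1).1.cc_eq h2).symm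
    rw [e0] at cl u1
    have b1 := hF.cl4 h1
    rw [e1] at b1
    have e5 := cl.e2
    have e7 := (tab cl.e1 11).2 (by have := cl.dv; have := cl.odd; omega)
    have e8 := b1.e2
    have e8' := b1.e1
    have s4' := sizes (F4.erase B) (fun B => (conjs B).card)
      fun B hB => (hF.cl4 (Finset.mem_of_mem_erase hB)).four
    have e9 := Finset.add_sum_erase F4 (fun B => (conjs B).card) h1
    refine sz5 hi hr hy j1 s2 s4' ?_ ?_ e9 eq
    all_goals clear * - e5 e7 e8 e8' k0; omega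

end

theorem CII.count [Finite Γ] [IsSimpleGroup Γ] (h : CII p U δ t x) :
    Nat.card Γ = 2520 ∧ p = 7 ∧ Sp p U δ ∧ ∃ z, z * x = x * z ∧ IsConj x z ∧ z ≠ x ∧ z ≠ x⁻¹ := by
  classical
  haveI := Fintype.ofFinite Γ
  obtain ⟨F2, F4, hF⟩ := exists_fam Γ
  rcases h.dich hF with e | ⟨hs, hw⟩
  · exact (h.plain hF e).elim
  · obtain ⟨e1, e2, e3⟩ := h.special hF hs hw
    exact ⟨e1, (hs.cop (by decide) e2.symm.dvd).symm, hs, h.exz e3⟩

end Cfsg.Agent.O5
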