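import Cfsg.Agent.O5.B7b
import Cfsg.Agent.O5.BA7
import Cfsg.Agent.O5.BC6

/-!
Case B, second case: the group is the alternating group of degree seven.
-/

set_option autoImplicit false

namespace Cfsg.Agent.O5

variable {k : Type*} [Field k] [IsAlgClosed k] {Γ : Type*} [Group Γ] {ρ : Γ →* GW k} {p : ℕ}

theorem HB.caseII' [Finite Γ] [IsSimpleGroup Γ] (h : HB p ρ) {x t s : Γ} (H : Four ρ x t s) :
    p = 7 ∧ Nat.card Γ = 2520 ∧ Nonempty (Γ ≃* alternatingGroup (Fin 7)) := by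
  obtain ⟨U, δ, hU, syl, nU⟩ := h.exists_U
  obtain ⟨hc, h7, -, z, zx, hz, z1, z2⟩ := (h.cII hU syl nU H).count
  obtain ⟨e, f, e', f', ω, u', a1, a2, a3, a4, a5, a6, a7, a8, a9, b1, b2, b3, b4⟩ :=
    h.dataII hU syl H zx hz z1 z2
  exact ⟨h7, hc, h.a7 h7 hc a1 a2 a3 a3 zx.symm a4 a5 H.t1 H.t2 a6 a7 a8 a9 b1 b2 b3 b4⟩

theorem HB.caseII [Finite Γ] [IsSimpleGroup Γ] (h : HB p ρ) {x t s : Γ} (r : IsR (ρ x))
    (x3 : x ^ 3 = 1) (t1 : t * t = 1) (t2 : t ≠ 1) (s1 : s * s = 1) (s2 : s ≠ 1) (ts : t ≠ s)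
    (c : t * s = s * t) (xt : x * t = t * x) (xs : x * s = s * x) :
    Nonempty (Γ ≃* alternatingGroup (Fin 7)) :=
  (h.caseII' ⟨r, x3, t1, t2, s1, s2, ts, c, xt, xs⟩).2.2

end Cfsg.Agent.O5
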