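import Cfsg.Agent.O5.B5

/-!
Case B, second case: the group-theoretic part.
-/

set_option autoImplicit false
set_option linter.unusedSectionVars false

namespace Cfsg.Agent.O5

open Subgroup Cfsg.Agent.H6.MG

variable {Γ : Type*} [Group Γ]

theorem card_two [Finite Γ] {K K' : Subgroup Γ} (hle : K' ≤ K) {s : Γ} (hs : s ∈ K) (hs' : s ∉ K')
    (h : ∀ g ∈ K, g ∉ K' → g * s ∈ K') : Nat.card K = 2 * Nat.card K' := by
  have h2 : K'.relIndex K = 2 := relIndex_eq_two_iff.2 ⟨s, hs, fun b hb => by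
    by_cases c : b ∈ K'
    · exact Or.inr ⟨c, by rwa [mul_mem_cancel_left c]⟩
    · exact Or.inl ⟨h b hb c, c⟩⟩
  rw [← h2, mul_comm, relIndex, ← Nat.card_congr (subgroupOfEquivOfLe hle).toEquiv, card_mul_index]

theorem card_orb (N : Subgroup Γ) (y : Γ) : Nat.card N =
    Nat.card (centralizer ({y} : Set Γ) ⊓ N : Subgroup Γ) * {z | ∃ g ∈ N, g * y * g⁻¹ = z}.ncard := by
  let _ : MulAction N Γ := MulAction.compHom Γ (MulAut.conj.comp N.subtype)
  have h := MulAction.index_stabilizer N y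
  have e : (centralizer ({y} : Set Γ)).subgroupOf N = MulAction.stabilizer N y :=
    Subgroup.ext fun g => by
      rw [mem_subgroupOf, mem_centralizer_singleton_iff, ← mul_inv_eq_iff_eq_mul]; rfl
  have e2 : MulAction.orbit N y = {z | ∃ g ∈ N, g * y * g⁻¹ = z} :=
    Set.ext fun z => ⟨fun ⟨g, hg⟩ => ⟨g, g.2, hg⟩, fun ⟨g, hg, e⟩ => ⟨⟨g, hg⟩, e⟩⟩
  rw [← e2, ← h, ← e, ← inf_subgroupOf_right,
    ← Nat.card_congr (subgroupOfEquivOfLe (inf_le_right (a := centralizer {y}))).toEquiv,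
    card_mul_index]

/-- local data at an involution `r` commuting with `x` -/
structure Lr (x r : Γ) (H A : Subgroup Γ) : Prop where
  le : ∀ g ∈ A, g * r = r * g
  rA : r ∈ A
  xA : x ∈ A
  uniq : ∀ s ∈ A, s * s = 1 → s = 1 ∨ s = r
  out : ∀ g, g * r = r * g → g ∉ A → g * g ∈ zpowers x
  om : ∀ g g', g * r = r * g → g ∉ A → g' * r = r * g' → g' ∉ A → g * g' ∈ A
  HA : ∀ g ∈ H, g ∈ A → g = 1 ∨ g = r

/-- the abstract properties of a rotation of order three commuting with an involution -/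
structure Ab (x : Γ) (H : Subgroup Γ) : Prop where
  nab : ¬ ∀ x y : Γ, x * y = y * x
  x1 : x ≠ 1
  x3 : x ^ 3 = 1
  HY : ∀ g ∈ H, g * x = x * g
  xH : x ∉ H
  invH : ∀ r, r * r = 1 → r * x = x * r → r ∈ H
  loc : ∀ r, r * r = 1 → r ≠ 1 → r * x = x * r → ∃ A, Lr x r H A
  cj : ∀ r g, r * r = 1 → r ≠ 1 → r * x = x * r → g * r * g⁻¹ * x = x * (g * r * g⁻¹) →
    g * x * g⁻¹ = x ∨ g * x * g⁻¹ = x⁻¹
  odd : ∀ g ∈ H, Odd (orderOf g) → g ^ 3 = 1
  rot : ∀ z, IsConj x z → z * x = x * z → z ∈ zpowers x ∨ z ∈ H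
  three : ∀ O ≤ H, IsPGroup 3 O → ∀ z ∈ O, z ≠ 1 → ∀ z' ∈ O, z' = 1 ∨ z' = z ∨ z' = z⁻¹
  syl : ∀ S : Subgroup Γ, IsPGroup 3 S → ∀ a ∈ S, ∀ b ∈ S, a * b = b * a
  cls : ∀ t s : Γ, t * t = 1 → t ≠ 1 → s * s = 1 → s ≠ 1 → IsConj t s

/-- a four-group centralising `x` -/
structure Fg (x t s : Γ) : Prop where
  t1 : t * t = 1
  t2 : t ≠ 1
  s1 : s * s = 1
  s2 : s ≠ 1
  ts : t ≠ s
  c : t * s = s * t
  tx : t * x = x * t
  sx : s * x = x * s

/-- the non-trivial elements of the four-group -/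
def V3 (t s w : Γ) : Prop := w = t ∨ w = s ∨ w = t * s

namespace Fg

variable {x t s w : Γ} (F : Fg x t s)
include F

theorem ti : t⁻¹ = t := inv_eq_of_mul_eq_one_right F.t1

theorem swap : Fg x s t := ⟨F.s1, F.s2, F.t1, F.t2, F.ts.symm, F.c.symm, F.sx, F.tx⟩

theorem tts (g : Γ) : t * (t * g) = g := by rw [← mul_assoc, F.t1, one_mul]

theorem sts (g : Γ) : s * (t * g) = t * (s * g) := by rw [← mul_assoc, ← F.c, mul_assoc]

theorem rot : Fg x (t * s) t where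
  t1 := by rw [mul_assoc, F.sts, F.tts, F.s1]
  t2 c := F.ts (by rw [← F.ti, inv_eq_of_mul_eq_one_right c])
  s1 := F.t1
  s2 := F.t2
  ts c := F.s2 (by simpa using c)
  c := by rw [mul_assoc, F.c]
  tx := by rw [mul_assoc, F.sx, ← mul_assoc, F.tx, mul_assoc]
  sx := F.tx

theorem tst : t * s * t = s := by rw [mul_assoc, ← F.c, F.tts]

theorem v_swap : V3 s t w ↔ V3 t s w := by unfold V3; rw [F.c]; tauto

theorem v_rot : V3 (t * s) t w ↔ V3 t s w := by unfold V3; rw [F.tst]; tauto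

/-- every non-trivial element of the four-group is the first member of a pair -/
theorem of_v (h : V3 t s w) : ∃ w', Fg x w w' ∧ ∀ u, V3 w w' u ↔ V3 t s u := by
  rcases h with rfl | rfl | rfl
  exacts [⟨_, F, fun _ => Iff.rfl⟩, ⟨_, F.swap, fun _ => F.v_swap⟩, ⟨_, F.rot, fun _ => F.v_rot⟩]

theorem v_comm (h : V3 t s w) : w * t = t * w := by
  rcases h with rfl | rfl | rfl
  exacts [rfl, F.c.symm, F.rot.c]

theorem third {u v : Γ} (hu : V3 t s u) (hv : V3 t s v) (h1 : u ≠ t) (h2 : v ≠ t) (h3 : u ≠ v) :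
    t * u = v := by
  rcases hu with rfl | rfl | rfl <;> rcases hv with rfl | rfl | rfl <;>
    first | contradiction | rfl | exact F.tts _

theorem conj (g : Γ) : Fg (g * x * g⁻¹) (g * t * g⁻¹) (g * s * g⁻¹) where
  t1 := by rw [conj_mul, F.t1]; simp
  t2 := by simpa using F.t2
  s1 := by rw [conj_mul, F.s1]; simp
  s2 := by simpa using F.s2
  ts := by simpa using F.ts
  c := by rw [conj_mul, conj_mul, F.c]
  tx := by rw [conj_mul, conj_mul, F.tx]
  sx := by rw [conj_mul, conj_mul, F.sx]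

end Fg

namespace Ab

variable [Finite Γ] {x t s g y : Γ} {H A : Subgroup Γ} (h : Ab x H)
include h

theorem ord : orderOf x = 3 :=
  have : Fact (Nat.Prime 3) := ⟨by norm_num⟩
  orderOf_eq_prime h.x3 h.x1

theorem mem_E : g ∈ zpowers x ↔ g = 1 ∨ g = x ∨ g = x⁻¹ := by
  classical
  refine ⟨fun c => ?_, ?_⟩
  · rw [mem_zpowers_iff_mem_range_orderOf, h.ord] at c
    obtain ⟨i, hi, rfl⟩ := Finset.mem_image.1 c
    rw [Finset.mem_range] at hi
    interval_cases i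
    · simp
    · simp
    · exact Or.inr (Or.inr (eq_inv_of_mul_eq_one_left ((pow_succ x 2).symm.trans h.x3)))
  · rintro (rfl | rfl | rfl)
    exacts [one_mem _, mem_zpowers _, inv_mem (mem_zpowers _)]

theorem HE (h1 : g ∈ H) (h2 : g ∈ zpowers x) : g = 1 := by
  rcases h.mem_E.1 h2 with rfl | rfl | rfl
  exacts [rfl, (h.xH h1).elim, (h.xH (inv_mem_iff.1 h1)).elim]

theorem E3 (h2 : g ∈ zpowers x) : g ^ 3 = 1 := by
  rcases h.mem_E.1 h2 with rfl | rfl | rfl <;> simp [h.x3]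

omit h in
theorem Ecomm (h1 : y * x = x * y) (h2 : g ∈ zpowers x) : y * g = g * y := by
  obtain ⟨i, rfl⟩ := h2; exact (Commute.zpow_right h1 i).eq

theorem xne : x ≠ x⁻¹ := fun c => h.x1 (eq_one_of_odd (by decide) h.x3 (by
  rw [pow_two]; exact mul_eq_one_iff_eq_inv.2 c))

/-- an element of `E` commuting with an inverting element is trivial -/
theorem E_inv (h1 : y * x * y⁻¹ = x⁻¹) (h2 : g ∈ zpowers x) (h3 : y * g = g * y) : g = 1 := by
  rcases h.mem_E.1 h2 with rfl | rfl | rfl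
  · rfl
  · exact (h.xne (by rw [← h1, h3, mul_inv_cancel_right])).elim
  · exact (h.xne (by rw [← h1, (Commute.inv_right_iff.1 h3).eq, mul_inv_cancel_right])).elim

theorem cent (F : Fg x t s) (h1 : y * x = x * y) (h2 : y * t = t * y) :
    ∃ c ∈ zpowers x, y = c ∨ ∃ w, V3 t s w ∧ y = c * w := by
  obtain ⟨A, L⟩ := h.loc t F.t1 F.t2 F.tx
  have sA : s ∉ A := fun c => (L.uniq s c F.s1).elim F.s2 F.ts.symm
  have key : ∀ y, y * x = x * y → y * t = t * y → y ∉ A →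
      ∃ c ∈ zpowers x, y = c * s ∨ y = c * (t * s) := fun y h1 h2 h3 => by
    have k1 := L.out y h2 h3
    have k0 : zpowers x ≤ A := zpowers_le.2 L.xA
    have k2 : y ^ 3 * y ^ 3 = 1 := by rw [← (Commute.refl y).mul_pow, h.E3 k1]
    have k3 : y ^ 3 ∉ A := by rwa [pow_succ, pow_two, mul_mem_cancel_left (k0 k1)]
    have k4 := L.HA _ (mul_mem (h.invH _ k2 (Commute.pow_left h1 3)) (h.invH _ F.s1 F.sx))
      (L.om _ _ (Commute.pow_left h2 3) k3 F.c.symm sA)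
    refine ⟨(y * y)⁻¹, inv_mem k1, k4.imp (fun c => ?_) fun c => ?_⟩
    · rw [← F.swap.ti, ← eq_inv_of_mul_eq_one_left c]; group
    · rw [← c, mul_assoc, F.s1]; group
  by_cases c : y ∈ A
  · obtain ⟨c, c1, c2⟩ := key (y * s) (by rw [mul_assoc, F.sx, ← mul_assoc, h1, mul_assoc])
      (by rw [mul_assoc, ← F.c, ← mul_assoc, h2, mul_assoc]) (by rwa [mul_mem_cancel_left c])
    refine ⟨c, c1, c2.imp mul_right_cancel fun e => ⟨t, Or.inl rfl, mul_right_cancel (b := s) ?_⟩⟩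
    rw [e, mul_assoc]
  · obtain ⟨c, c1, c2 | c2⟩ := key y h1 h2 c
    exacts [⟨c, c1, Or.inr ⟨_, Or.inr (Or.inl rfl), c2⟩⟩, ⟨c, c1, Or.inr ⟨_, Or.inr (Or.inr rfl), c2⟩⟩]

theorem two_three (hg : g ∈ H) : g * g = 1 ∨ g ^ 3 = 1 := by
  rcases Nat.even_or_odd (orderOf g) with c | c
  swap
  · exact Or.inr (h.odd g hg c)
  obtain ⟨r, r0, r1, r2⟩ := H4.Basic.exists_involution_of_even (zpowers g) (by rwa [Nat.card_zpowers])
  obtain ⟨A, L⟩ := h.loc r r1 r2 (h.HY r (zpowers_le.2 hg r0))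
  left
  by_cases c : g ∈ A
  · rcases L.HA g hg c with rfl | rfl
    exacts [mul_one _, r1]
  · exact h.HE (mul_mem hg hg) (L.out g (Ecomm rfl r0) c)

theorem vH (F : Fg x t s) {w : Γ} (hw : V3 t s w) : w ∈ H :=
  let ⟨_, F', _⟩ := F.of_v hw; h.invH _ F'.t1 F'.tx

/-- all involutions commuting with `x` lie in the four-group -/
theorem inv_mem (F : Fg x t s) {r : Γ} (r1 : r * r = 1) (r2 : r ≠ 1) (rx : r * x = x * r) :
    V3 t s r := by
  by_contra hc
  have rH := h.invH r r1 rx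
  have key : ∀ w, V3 t s w → r * w * r = w * r * w := fun w hw => by
    obtain ⟨w', F', e⟩ := F.of_v hw
    rcases h.two_three (mul_mem rH (h.vH F hw)) with c | c
    · have c' : r * w = w * r := by
        rw [← inv_eq_of_mul_eq_one_right c, mul_inv_rev, F'.ti, inv_eq_of_mul_eq_one_right r1]
      obtain ⟨c, c1, c2 | ⟨u, c2, c3⟩⟩ := h.cent F' rx c'
      · exact (r2 (h.HE rH (c2 ▸ c1))).elim
      · rw [h.HE (by
          rw [← mul_mem_cancel_right (h.vH F' c2), ← c3]; exact rH) c1, one_mul] at c3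
        exact (hc ((e _).1 (c3 ▸ c2))).elim
    · have e1 : r⁻¹ = r := inv_eq_of_mul_eq_one_right r1
      calc r * w * r = (r * w) ^ 3 * (w⁻¹ * r⁻¹ * w⁻¹) := by simp only [pow_succ]; group
        _ = _ := by rw [c, one_mul, F'.ti, e1]
  have k1 := key t (Or.inl rfl)
  have k2 := key s (Or.inr (Or.inl rfl))
  have k3 := key _ (Or.inr (Or.inr rfl))
  have k4 : r * (t * s) * r = t * r * t * (s * r * s) := by
    rw [← k1, ← k2]
    calc _ = r * t * (r * r) * s * r := by rw [r1]; group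
      _ = _ := by group
  have k5 : s * r * t = r * (t * s) * r := by
    have := k3.symm.trans k4
    calc _ = t⁻¹ * (t * s * r * (t * s)) * s⁻¹ := by group
      _ = _ := by rw [this]; group
  rw [k3, F.c] at k5
  have k6 : r * t = r * t * r * s := by
    calc _ = s⁻¹ * (s * r * t) := by group
      _ = t * r * (s * t) := by rw [k5]; group
      _ = _ := by rw [← F.c, k1]; group
  have k7 : r * s = 1 := by
    have := mul_left_cancel (a := r * t) (b := 1) (c := r * s) (by rw [mul_one, ← mul_assoc, ← k6])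
    exact this.symm
  exact hc (Or.inr (Or.inl (by rw [← F.swap.ti, ← eq_inv_of_mul_eq_one_left k7])))

theorem conj_v (F : Fg x t s) (hg : g * x * g⁻¹ = x ∨ g * x * g⁻¹ = x⁻¹) {w : Γ} (hw : V3 t s w) :
    V3 t s (g * w * g⁻¹) := by
  obtain ⟨w', F', -⟩ := F.of_v hw
  have F2 := F'.conj g
  refine h.inv_mem F F2.t1 F2.t2 ?_
  rcases hg with c | c
  · exact c ▸ F2.tx
  · exact (Commute.inv_right_iff.1 (c ▸ F2.tx : Commute _ _)).eq

theorem cent_v (F : Fg x t s) (h1 : y * x = x * y) {w : Γ} (hw : V3 t s w) (h2 : y * w = w * y) :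
    y * t = t * y := by
  obtain ⟨w', F', e⟩ := F.of_v hw
  obtain ⟨c, c1, rfl | ⟨u, c2, rfl⟩⟩ := h.cent F' h1 h2
  · exact (Ecomm F.tx c1).symm
  · rw [mul_assoc, F.v_comm ((e _).1 c2), ← mul_assoc, ← Ecomm F.tx c1, mul_assoc]

/-- an element of `C(x)` moving `t` permutes the four-group cyclically -/
theorem cyc (F : Fg x t s) (h1 : y * x = x * y) (h2 : y * t ≠ t * y) :
    t * (y * t * y⁻¹) = y ^ 2 * t * (y ^ 2)⁻¹ ∧ y ^ 2 * t ≠ t * y ^ 2 ∧ y ^ 3 * t = t * y ^ 3 := by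
  have hy : y * x * y⁻¹ = x ∨ y * x * y⁻¹ = x⁻¹ := Or.inl (mul_inv_eq_iff_eq_mul.2 h1)
  have mv : ∀ w, V3 t s w → y * w * y⁻¹ ≠ w := fun w hw c =>
    h2 (h.cent_v F h1 hw (mul_inv_eq_iff_eq_mul.1 c))
  have v0 : V3 t s t := Or.inl rfl
  have v1 := h.conj_v F hy v0
  have v2 := h.conj_v F hy v1
  have n1 := mv _ v0
  have n2 := mv _ v1
  have e2 : y * (y * t * y⁻¹) * y⁻¹ = y ^ 2 * t * (y ^ 2)⁻¹ := by rw [pow_two]; group
  have n3 : y * (y * t * y⁻¹) * y⁻¹ ≠ t := fun c => by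
    have v3 : V3 t s (t * (y * t * y⁻¹)) := by
      rcases v1 with c | c | c
      · exact (n1 c).elim
      · rw [c]; exact Or.inr (Or.inr rfl)
      · rw [c, F.tts]; exact Or.inr (Or.inl rfl)
    refine mv _ v3 ?_
    rw [← conj_mul, c, F.v_comm v1]
  have k1 := F.third v1 v2 n1 n3 n2.symm
  refine ⟨k1.trans e2, fun c => n3 (by rw [e2, c, mul_inv_cancel_right]), ?_⟩
  rw [← mul_inv_eq_iff_eq_mul]
  calc _ = y * (y * (y * t * y⁻¹) * y⁻¹) * y⁻¹ := by simp [pow_three, mul_assoc]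
    _ = y * (t * (y * t * y⁻¹)) * y⁻¹ := by rw [k1]
    _ = y * t * y⁻¹ * (t * (y * t * y⁻¹)) := by rw [← conj_mul, ← k1]
    _ = t := by
      rw [← mul_assoc, F.v_comm v1, mul_assoc, (F.conj y).t1, mul_one]

theorem cyc3 (F : Fg x t s) (h1 : y * x = x * y) (y3 : y ^ 3 = 1) (hy : y ∉ zpowers x) :
    t * (y * t * y⁻¹) = y ^ 2 * t * (y ^ 2)⁻¹ := by
  refine (h.cyc F h1 fun h2 => hy ?_).1
  obtain ⟨c, c1, rfl | ⟨w, c2, rfl⟩⟩ := h.cent F h1 h2
  · exact c1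
  · obtain ⟨w', F', -⟩ := F.of_v c2
    rw [(Commute.symm (Ecomm F'.tx c1)).mul_pow, h.E3 c1, one_mul, pow_succ, pow_two, F'.t1,
      one_mul] at y3
    exact (F'.t2 y3).elim

theorem exists_move (F : Fg x t s) : ∃ y, y * x = x * y ∧ y * t ≠ t * y := by
  obtain ⟨g, hg⟩ := isConj_iff.1 (h.cls t s F.t1 F.t2 F.s1 F.s2)
  obtain ⟨g', hg'⟩ := isConj_iff.1 (h.cls t _ F.t1 F.t2 F.rot.t1 F.rot.t2)
  rcases h.cj t g F.t1 F.t2 F.tx (hg ▸ F.sx) with c | c
  · exact ⟨g, mul_inv_eq_iff_eq_mul.1 c, fun e => F.ts (by rw [← hg, e, mul_inv_cancel_right])⟩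
  rcases h.cj t g' F.t1 F.t2 F.tx (hg' ▸ F.rot.tx) with c' | c'
  · exact ⟨g', mul_inv_eq_iff_eq_mul.1 c', fun e => F.rot.ts (by
      rw [← hg', e, mul_inv_cancel_right])⟩
  refine ⟨g⁻¹ * g', ?_, fun e => F.t2 ?_⟩
  · calc _ = g⁻¹ * (g' * x * g'⁻¹) * g' := by group
      _ = _ := by rw [c', ← c]; group
  · have : t * s = s := by
      calc _ = g * (g⁻¹ * g' * t) * g'⁻¹ := by rw [← hg']; group
        _ = _ := by rw [e, ← hg]; group
    simpa using this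

theorem trans (F : Fg x t s) {w : Γ} (hw : V3 t s w) : ∃ y, y * x = x * y ∧ y * t * y⁻¹ = w := by
  obtain ⟨y, h1, h2⟩ := h.exists_move F
  obtain ⟨k1, k2, -⟩ := h.cyc F h1 h2
  have v1 := h.conj_v F (Or.inl (mul_inv_eq_iff_eq_mul.2 h1)) (Or.inl rfl : V3 t s t)
  by_cases c : w = t
  · exact ⟨1, by simp, by simp [c]⟩
  by_cases c' : y * t * y⁻¹ = w
  · exact ⟨y, h1, c'⟩
  · exact ⟨y ^ 2, (Commute.pow_left h1 2).eq,
      k1.symm.trans (F.third v1 hw (fun e => h2 (mul_inv_eq_iff_eq_mul.1 e)) c c')⟩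

theorem real [IsSimpleGroup Γ] : IsConj x x⁻¹ := by
  by_contra hc
  have : Fact (Nat.Prime 3) := ⟨by norm_num⟩
  obtain ⟨S, hS⟩ := (IsPGroup.of_card (p := 3) (G := zpowers x) (n := 1)
    (by rw [Nat.card_zpowers, h.ord, pow_one])).exists_le_sylow
  have xS : x ∈ (S : Subgroup Γ) := hS (mem_zpowers x)
  have cS := h.syl S S.isPGroup'
  have key : ∀ z ∈ (S : Subgroup Γ), IsConj x z → z = x ∨ z ∈ H := fun z hz c =>
    (h.rot z c (cS z hz x xS)).imp_left fun c' => by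
      rcases h.mem_E.1 c' with rfl | rfl | rfl
      exacts [(h.x1 (isConj_one_left.1 c)).elim, rfl, (hc c).elim]
  have uq : ∀ z ∈ (S : Subgroup Γ), IsConj x z → z ≠ x → ∀ z' ∈ (S : Subgroup Γ), IsConj x z' →
      z' ≠ x → z' = z := fun z hz c1 c2 z' hz' c3 c4 => by
    rcases h.three (H ⊓ S) inf_le_left (S.isPGroup'.to_le inf_le_right) z
      ⟨(key z hz c1).resolve_left c2, hz⟩ (fun c => h.x1 (isConj_one_left.1 (c ▸ c1))) z'
      ⟨(key z' hz' c3).resolve_left c4, hz'⟩ with c | c | c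
    · exact (h.x1 (isConj_one_left.1 (c ▸ c3))).elim
    · exact c
    · obtain ⟨g, hg⟩ := isConj_iff.1 c1
      exact (hc ((c ▸ c3).trans (isConj_iff.2 ⟨g⁻¹, by rw [← hg]; group⟩))).elim
  obtain ⟨y, yS, y1, hy⟩ : ∃ y ∈ (S : Subgroup Γ), y ≠ 1 ∧
      ∀ n ∈ normalizer (S : Set Γ), n * y * n⁻¹ = y := by
    have mS : ∀ n ∈ normalizer (S : Set Γ), ∀ z ∈ (S : Subgroup Γ), n * z * n⁻¹ ∈ (S : Subgroup Γ) :=
      fun n hn z hz => (mem_normalizer_iff.1 hn z).1 hz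
    by_cases c : ∃ z ∈ (S : Subgroup Γ), IsConj x z ∧ z ≠ x
    · obtain ⟨z, hz, c1, c2⟩ := c
      refine ⟨x * z, mul_mem xS hz, fun c => hc (by rwa [← eq_inv_of_mul_eq_one_right c]),
        fun n hn => ?_⟩
      have k1 : IsConj x (n * x * n⁻¹) := isConj_iff.2 ⟨n, rfl⟩
      have k2 : IsConj x (n * z * n⁻¹) := c1.trans (isConj_iff.2 ⟨n, rfl⟩)
      rw [← conj_mul]
      by_cases d : n * x * n⁻¹ = x
      · rw [d, uq z hz c1 c2 _ (mS n hn z hz) k2 fun e => c2 (by simpa using e.trans d.symm)]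
      · have d1 := uq z hz c1 c2 _ (mS n hn x xS) k1 d
        have d2 : n * z * n⁻¹ = x := by_contra fun e => c2 (by
          simpa using (uq z hz c1 c2 _ (mS n hn z hz) k2 e).trans d1.symm)
        rw [d1, d2, cS z hz x xS]
    · push Not at c
      exact ⟨x, xS, h.x1, fun n hn => c _ (mS n hn x xS) (isConj_iff.2 ⟨n, rfl⟩)⟩
  have hm : IsMulCommutative S := ⟨⟨fun a b => Subtype.ext (cS a a.2 b b.2)⟩⟩
  let _ : CommGroup S := { (inferInstance : Group S) with mul_comm := hm.is_comm.comm }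
  have k1 := hom_one h.nab (MonoidHom.transfer (MonoidHom.id S)) y
  rw [MonoidHom.transfer_eq_pow _ y fun k g hg => by
    obtain ⟨n, hn, e⟩ := S.conj_eq_normalizer_conj_of_mem (y ^ k) g (pow_mem yS k) hg
    have := hy n⁻¹ (Subgroup.inv_mem _ hn)
    rw [e, ← inv_inv n, inv_inv n⁻¹, ← conj_pow, this]] at k1
  obtain ⟨n, hn⟩ := S.isPGroup' ⟨y, yS⟩
  exact y1 ((pow_eq_one_iff_of_coprime (Nat.Coprime.pow_right n
    ((Nat.Prime.coprime_iff_not_dvd Fact.out).2 S.not_dvd_index).symm)).1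
      ⟨congrArg Subtype.val k1, congrArg Subtype.val hn⟩)

theorem exists_inv [IsSimpleGroup Γ] (F : Fg x t s) : ∃ n, n * t = t * n ∧ n * x * n⁻¹ = x⁻¹ := by
  obtain ⟨g, hg⟩ := isConj_iff.1 h.real
  obtain ⟨y, h1, h2⟩ := h.trans F (h.conj_v F (Or.inr hg) (Or.inl rfl : V3 t s t))
  refine ⟨y⁻¹ * g, ?_, ?_⟩
  · calc _ = y⁻¹ * (g * t * g⁻¹) * g := by group
      _ = _ := by rw [← h2]; group
  · calc _ = y⁻¹ * (g * x * g⁻¹) * y := by group
      _ = _ := by rw [hg, mul_assoc, ← (Commute.inv_right h1).eq, inv_mul_cancel_left]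

theorem nx (F : Fg x t s) (hg : g * t = t * g) : g * x = x * g ∨ g * x * g⁻¹ = x⁻¹ :=
  (h.cj t g F.t1 F.t2 F.tx (by rw [hg, mul_inv_cancel_right, F.tx])).imp_left
    mul_inv_eq_iff_eq_mul.1

theorem tE (F : Fg x t s) : t ∉ zpowers x := fun c => F.t2 (h.HE (h.vH F (Or.inl rfl)) c)

theorem cent_A (F : Fg x t s) (L : Lr x t H A) (h1 : y * x = x * y) (h2 : y ∈ A) :
    y ∈ zpowers x ∨ y * t ∈ zpowers x := by
  have k0 : zpowers x ≤ A := zpowers_le.2 L.xA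
  obtain ⟨c, c1, rfl | ⟨w, c2, rfl⟩⟩ := h.cent F h1 (L.le y h2)
  · exact Or.inl c1
  · obtain ⟨w', F', -⟩ := F.of_v c2
    obtain rfl := (L.uniq w ((mul_mem_cancel_left (k0 c1)).1 h2) F'.t1).resolve_left F'.t2
    exact Or.inr (by rwa [mul_assoc, F.t1, mul_one])

theorem sq_A (F : Fg x t s) (L : Lr x t H A) (h1 : y * x * y⁻¹ = x⁻¹) (h2 : y ∈ A) : y * y = t := by
  have n1 : y * x ≠ x * y := fun c => h.xne (by rw [← h1, c, mul_inv_cancel_right])
  rcases h.cent_A F L (sq_comm_of_inv h1) (mul_mem h2 h2) with c | c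
  · rcases L.uniq y h2 (h.E_inv h1 c (mul_assoc y y y).symm) with rfl | rfl
    exacts [(n1 (by simp)).elim, (n1 F.tx).elim]
  · rw [← F.ti]
    exact eq_inv_of_mul_eq_one_left (h.E_inv h1 c (by
      rw [mul_assoc (y * y), ← L.le y h2]; simp [mul_assoc]))

theorem card12 (F : Fg x t s) :
    Nat.card (centralizer ({x} : Set Γ) ⊓ centralizer {t} : Subgroup Γ) = 12 := by
  obtain ⟨A, L⟩ := h.loc t F.t1 F.t2 F.tx
  have sA : s ∉ A := fun c => (L.uniq s c F.s1).elim F.s2 F.ts.symm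
  have k1 := card_two (K := centralizer ({x} : Set Γ) ⊓ centralizer {t})
    (K' := centralizer ({x} : Set Γ) ⊓ A) (s := s)
    (inf_le_inf_left _ fun g hg => mem_centralizer_singleton_iff.2 (L.le g hg))
    ⟨mem_centralizer_singleton_iff.2 F.sx, mem_centralizer_singleton_iff.2 F.c.symm⟩
    (fun c => sA c.2) fun g hg c => ⟨mul_mem hg.1 (mem_centralizer_singleton_iff.2 F.sx),
      L.om g s (mem_centralizer_singleton_iff.1 hg.2) (fun c' => c ⟨hg.1, c'⟩) F.c.symm sA⟩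
  have k2 := card_two (K := centralizer ({x} : Set Γ) ⊓ A) (K' := zpowers x) (s := t)
    (zpowers_le.2 ⟨mem_centralizer_singleton_iff.2 rfl, L.xA⟩)
    ⟨mem_centralizer_singleton_iff.2 F.tx, L.rA⟩ (h.tE F) fun g hg c =>
      (h.cent_A F L (mem_centralizer_singleton_iff.1 hg.1) hg.2).resolve_left c
  rw [k1, k2, Nat.card_zpowers, h.ord]

theorem card36 (F : Fg x t s) : Nat.card (centralizer ({x} : Set Γ)) = 36 := by
  rw [card_orb _ t, inf_comm, h.card12 F, show {z | ∃ g ∈ centralizer ({x} : Set Γ),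
    g * t * g⁻¹ = z} = {t, s, t * s} from Set.ext fun z => ⟨?_, fun c => ?_⟩,
    Set.ncard_eq_three.2 ⟨t, s, t * s, F.ts, F.rot.ts.symm, F.swap.rot.ts.symm.trans_eq F.c.symm,
      rfl⟩]
  · rintro ⟨g, hg, rfl⟩
    exact h.conj_v F (Or.inl (mul_inv_eq_iff_eq_mul.2 (mem_centralizer_singleton_iff.1 hg)))
      (Or.inl rfl)
  · obtain ⟨y, h1, h2⟩ := h.trans F c
    exact ⟨y, mem_centralizer_singleton_iff.2 h1, h2⟩

theorem card24 [IsSimpleGroup Γ] (F : Fg x t s) : Nat.card (centralizer ({t} : Set Γ)) = 24 := by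
  rw [card_orb _ x, h.card12 F, show {z | ∃ g ∈ centralizer ({t} : Set Γ),
    g * x * g⁻¹ = z} = {x, x⁻¹} from Set.ext fun z => ⟨?_, ?_⟩, Set.ncard_pair h.xne]
  · rintro ⟨g, hg, rfl⟩
    exact (h.nx F (mem_centralizer_singleton_iff.1 hg)).imp_left mul_inv_eq_iff_eq_mul.2
  · rintro (rfl | rfl)
    · exact ⟨1, one_mem _, by simp⟩
    · obtain ⟨n, h1, h2⟩ := h.exists_inv F
      exact ⟨n, mem_centralizer_singleton_iff.2 h1, h2⟩

theorem ev [IsSimpleGroup Γ] (F : Fg x t s) : {y : Γ | ∃ n : ℕ, y ^ n = t}.ncard = 9 := by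
  obtain ⟨A, L⟩ := h.loc t F.t1 F.t2 F.tx
  have sA : s ∉ A := fun c => (L.uniq s c F.s1).elim F.s2 F.ts.symm
  have k0 : zpowers x ≤ A := zpowers_le.2 L.xA
  have k1 := card_two (K := centralizer {t}) (K' := A) (s := s)
    (fun g hg => mem_centralizer_singleton_iff.2 (L.le g hg))
    (mem_centralizer_singleton_iff.2 F.c.symm) sA fun g hg c =>
      L.om g s (mem_centralizer_singleton_iff.1 hg) c F.c.symm sA
  rw [h.card24 F] at k1
  rw [show {y : Γ | ∃ n : ℕ, y ^ n = t} = (A : Set Γ) \ zpowers x from Set.ext fun y => ⟨?_, ?_⟩,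
    Set.ncard_sdiff k0, ← Nat.card_coe_set_eq, ← Nat.card_coe_set_eq, SetLike.coe_sort_coe,
    SetLike.coe_sort_coe, Nat.card_zpowers, h.ord]
  · omega
  · rintro ⟨n, rfl⟩
    refine ⟨by_contra fun c => ?_, fun c => h.tE F (pow_mem c n)⟩
    have k2 := L.out y (Commute.self_pow y n) c
    rcases n.even_or_odd' with ⟨m, rfl | rfl⟩
    · exact h.tE F (by rw [pow_mul, pow_two]; exact pow_mem k2 m)
    · have := L.rA
      rw [pow_succ, pow_mul, pow_two, mul_mem_cancel_left (pow_mem (k0 k2) m)] at this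
      exact c this
  · rintro ⟨h1, h2⟩
    rcases h.nx F (L.le y h1) with c | c
    · have k2 := h.E3 ((h.cent_A F L c h1).resolve_left h2)
      rw [(Commute.mul_pow (L.le y h1)), pow_three t, F.tts] at k2
      exact ⟨3, by rw [← F.ti]; exact eq_inv_of_mul_eq_one_left k2⟩
    · exact ⟨2, by rw [pow_two, h.sq_A F L c h1]⟩

theorem six (F : Fg x t s) (h1 : y * x = x * y) (h2 : y * t = t * y) : y ^ 6 = 1 := by
  obtain ⟨c, c1, rfl | ⟨w, c2, rfl⟩⟩ := h.cent F h1 h2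
  · rw [show 6 = 3 * 2 from rfl, pow_mul, h.E3 c1, one_pow]
  · obtain ⟨w', F', -⟩ := F.of_v c2
    rw [(Commute.symm (Ecomm F'.tx c1)).mul_pow, show 6 = 3 * 2 from rfl, pow_mul, h.E3 c1, one_pow,
      one_mul, mul_comm, pow_mul, pow_two, F'.t1, one_pow]

theorem ex (F : Fg x t s) (h2 : y * t = t * y) : y ^ 4 = 1 ∨ y ^ 6 = 1 := by
  rcases h.nx F h2 with c | c
  · exact Or.inr (h.six F c h2)
  obtain ⟨A, L⟩ := h.loc t F.t1 F.t2 F.tx
  left
  rw [show 4 = 2 * 2 from rfl, pow_mul, pow_two, pow_two]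
  by_cases c' : y ∈ A
  · rw [h.sq_A F L c c', F.t1]
  · rw [h.E_inv c (L.out y h2 c') (mul_assoc y y y).symm, mul_one]

theorem thr (F : Fg x t s) (h2 : y * t = t * y) (y3 : y ^ 3 = 1) : y = 1 ∨ y = x ∨ y = x⁻¹ := by
  have h1 : y * x = x * y := (h.nx F h2).elim id fun c => by
    have : Commute (y * y) x := sq_comm_of_inv c
    rw [← inv_eq_of_mul_eq_one_right ((pow_three y).symm.trans y3)] at this
    exact Commute.inv_left_iff.1 this
  refine h.mem_E.1 (by_contra fun c => ?_)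
  have := h.cyc3 F h1 y3 c
  rw [h2, mul_inv_cancel_right, F.t1, eq_comm, conj_eq_one_iff] at this
  exact F.t2 this

theorem other (F : Fg x t s) : ∃ y, y ≠ 1 ∧ y ^ 9 = 1 ∧ ¬ IsConj x y := by
  obtain ⟨y, h1, h2⟩ := h.exists_move F
  obtain ⟨-, k2, k3⟩ := h.cyc F h1 h2
  have k4 := h.six F (Commute.pow_left h1 3).eq k3
  have k5 : (y ^ 2) ^ 9 = 1 := by rw [← pow_mul] at k4 ⊢; exact k4
  have k6 : y ^ 2 ∉ zpowers x := fun c => k2 (Ecomm F.tx c).symm
  have k7 : Commute x (y ^ 2) := (Commute.pow_left h1 2).symm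
  by_cases c : IsConj x (y ^ 2)
  swap
  · exact ⟨y ^ 2, fun e => k6 (e ▸ one_mem _), k5, c⟩
  have k8 : x * y ^ 2 ∉ zpowers x := by rwa [mul_mem_cancel_left (mem_zpowers x)]
  refine ⟨x * y ^ 2, fun e => k8 (e ▸ one_mem _), ?_, fun c' => h.xH ?_⟩
  · rw [k7.mul_pow, k5, show 9 = 3 * 3 from rfl, pow_mul, h.x3, one_pow, one_mul]
  · have := (h.rot _ c' ((Commute.refl x).mul_left k7.symm)).resolve_left k8
    rwa [mul_mem_cancel_right ((h.rot _ c k7.symm).resolve_left k6)] at this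

end Ab

end Cfsg.Agent.O5
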