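import Cfsg.Agent.O5.B6a
import Cfsg.Agent.O5.B7a

/-!
Case B, second case: a rotation of order three centralised by a four-group.
-/

set_option autoImplicit false
set_option linter.unusedSectionVars false

namespace Cfsg.Agent.O5

open Subgroup Module Cfsg.Agent.H6.MG Cfsg.Agent.H4.CABasic

variable {k : Type*} [Field k] [IsAlgClosed k] {Γ : Type*} [Group Γ] {ρ : Γ →* GW k} {p : ℕ}

/-- a rotation of order three centralised by a four-group -/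
structure Four (ρ : Γ →* GW k) (x t s : Γ) : Prop where
  r : IsR (ρ x)
  x3 : x ^ 3 = 1
  t1 : t * t = 1
  t2 : t ≠ 1
  s1 : s * s = 1
  s2 : s ≠ 1
  ts : t ≠ s
  c : t * s = s * t
  xt : x * t = t * x
  xs : x * s = s * x

theorem Four.fg {x t s : Γ} (H : Four ρ x t s) : Fg x t s :=
  ⟨H.t1, H.t2, H.s1, H.s2, H.ts, H.c, H.xt.symm, H.xs.symm⟩

namespace HB

variable (h : HB p ρ) [Finite Γ] [IsSimpleGroup Γ] {U : Subgroup Γ} {δ x t r : Γ} {e f : W k} {ω : k}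
include h

theorem ne3 (ω1 : ω ≠ 1) (ω3 : ω ^ 3 = 1) : p ≠ 3 := fun c =>
  ω1 (by rw [← pow_one ω, h.pow_p (n := 1) (by rw [c, ω3])])

theorem not_dvd' (hU : U = ⊥ ∨ Sp p U δ) (h3 : p ≠ 3)
    (syl : ∀ u : Γ, u ^ p = 1 → ∃ g, g * u * g⁻¹ ∈ U) {y : Γ} (t1 : t * t = 1) (t2 : t ≠ 1)
    (y1 : y ≠ 1) (hy : t * y = y * t) : ¬ p ∣ Nat.card (centralizer {y}) :=
  h.not_dvd_cent hU h3 syl fun g c => by
    rcases hU with c' | c'
    · exact y1 (by simpa [c'] using c)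
    · exact t2 (conj_eq_one_iff.1 (eq_one_of_odd (h.prime.odd_of_ne_two h.ne2)
        (c'.pw (g * t * g⁻¹) ((c'.ca.cent _ c (by simpa using y1) _).1 (Commute.conj hy g)))
        (by rw [conj_pow, pow_two, t1]; simp)))

theorem inv_C00 (hx : RT e f ω (ρ x)) (ω1 : ω ≠ 1) (ω3 : ω ^ 3 = 1) (r1 : r * r = 1)
    (rx : r * x = x * r) : r ∈ C00 ρ e f := by
  have ω2 : ω ^ 2 ≠ 1 := fun c => ω1 (eq_one_of_odd (by decide) ω3 c)
  obtain ⟨c, hc⟩ := h.mem_C0_of_comm hx ω2 rx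
  rcases sq_eq_one_iff.1 (hc.pow_eq_one hx.hp.ne (by rw [pow_two, r1])) with rfl | rfl
  · exact hc
  · rcases h.rot_t (h.rt_of_dl hx.hp r1 hc) hx with rfl | rfl
    · exact (h.ne_of_rt hx ω1 rfl).elim
    · exact (ω2 (hx.dl.pow_eq_one hx.hp.ne (by rw [pow_two, r1]))).elim

theorem ab (hU : U = ⊥ ∨ Sp p U δ) (syl : p ≠ 3 → ∀ u : Γ, u ^ p = 1 → ∃ g, g * u * g⁻¹ ∈ U)
    (hx : RT e f ω (ρ x)) (ω1 : ω ≠ 1) (x3 : x ^ 3 = 1) (t1 : t * t = 1) (t2 : t ≠ 1)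
    (tx : t * x = x * t) : Ab x (C00 ρ e f) := by
  have ω3 := hx.dl.pow_eq_one hx.hp.ne x3
  have ω2 : ω ^ 2 ≠ 1 := fun c => ω1 (eq_one_of_odd (by decide) ω3 c)
  have h3 := h.ne3 ω1 ω3
  have x1 := h.ne_of_rt hx ω1
  have : Fact (Nat.Prime 3) := ⟨by norm_num⟩
  have sy := fun S => h.comm_of_pgroup (O := S) (q := 3) (by decide) h3.symm
  have pl : ∀ {r e' f'}, r * x = x * r → RT e' f' (-1) (ρ r) → x ∈ C00 ρ e' f' ∧
      (∀ g ∈ C00 ρ e' f', g = 1 ∨ g = x ∨ g = x⁻¹) ∧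
      ∀ g ∈ C00 ρ e f, g ∈ C0 ρ e' f' → g = 1 ∨ g = r := fun {r e' f'} rx hr => by
    have r1 := h.sq_of_rt hr
    have r2 := h.ne_of_rt hr h.neg_ne
    have k1 := h.inv_C00 hx ω1 ω3 r1 rx
    obtain ⟨a1, a2⟩ := (hr.fix_iff h.neg_ne).1 (k1.2.1.trans (one_smul _ _))
    obtain ⟨a3, a4⟩ := (hr.fix_iff h.neg_ne).1 (k1.2.2.trans (by simp))
    rw [B_comm] at a1 a2 a3 a4
    have k2 : x ∈ C00 ρ e' f' := ⟨one_ne_zero, by simpa using hx.fix _ a1 a3,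
      by simpa using hx.fix _ a2 a4⟩
    refine ⟨k2, fun g hg => h.three_of_C00 hr.hp ⟨h.odd_C00 hr, fun c => h.not_dvd' hU h3 (syl h3)
      r1 r2 r2 rfl (c.trans (card_dvd_of_le (h.cent_eq hr ▸ C00_le.trans C0_le)))⟩ le_rfl k2 x1 hg,
      fun g hg ⟨b, hb⟩ => ?_⟩
    obtain ⟨F, rfl, rfl, rfl, rfl⟩ := exists_fr2 h.two hx.hp hr.hp a1 a3 a2 a4
    exact h.rot_t hr ((h.dg_of' F hg hb).swap.rt h.two)
  have mE : ∀ {g}, g = 1 ∨ g = x ∨ g = x⁻¹ → g ∈ zpowers x := by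
    rintro g (rfl | rfl | rfl)
    exacts [one_mem _, mem_zpowers _, inv_mem (mem_zpowers _)]
  refine ⟨h.nab, x1, x3, fun g hg => h.comm_of_C0 hx (C00_le hg),
    fun c => ω1 (hx.dl.uniq hx.hp.ne c), fun r => h.inv_C00 hx ω1 ω3, fun r r1 r2 rx => ?_,
    fun r g r1 r2 rx c => ?_, fun g hg ho => ?_, fun z hz c => ?_, fun O hO h3 z hz z1 z' hz' =>
      h.three_of_C00 hx.hp (sy O h3).1 hO hz z1 hz', fun S hS => (sy S hS).2,
    fun t s => h.one_class⟩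
  · obtain ⟨e', f', hr⟩ := h.inv_rt r1 r2
    obtain ⟨k1, k2, k3⟩ := pl rx hr
    exact ⟨C0 ρ e' f', fun g => h.comm_of_C0 hr, ⟨_, hr.dl⟩, C00_le k1, fun s => h.inv_uniq hr,
      fun g g1 g2 => mE (k2 _ (out_sq ((h.mem_C1_iff hr).2 g1) g2)), fun g g' g1 g2 g3 g4 =>
        out_mul ((h.mem_C1_iff hr).2 g1) g2 ((h.mem_C1_iff hr).2 g3) g4, k3⟩
  · obtain ⟨e', f', hr⟩ := h.inv_rt r1 r2
    refine ((pl c (h.rt_conj hr g)).2.1 _ ?_).resolve_left (by simpa using x1)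
    have := Dl.conj (pl rx hr).1 (ρ g)
    rwa [← map_inv, ← map_mul, ← map_mul] at this
  · by_cases g1 : g = 1
    · simp [g1]
    have op : OP p (zpowers g) := ⟨by rwa [Nat.card_zpowers], fun c => h.not_dvd' hU h3 (syl h3)
      t1 t2 x1 tx (c.trans (card_dvd_of_le (zpowers_le.2 (mem_centralizer_singleton_iff.2
        (h.comm_of_C0 hx (C00_le hg))))))⟩
    exact h.OP_cube op (mem_zpowers g) (h.isR_of_C00 hx.hp op (mem_zpowers g) hg g1)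
  · obtain ⟨g, rfl⟩ := isConj_iff.1 hz
    obtain ⟨c, hc⟩ := h.mem_C0_of_comm hx ω2 c
    by_cases c1 : c = 1
    · exact Or.inr (mem_C00.2 (c1 ▸ hc))
    have k1 := (h.rt_conj hx g).of_dl hx.hp hc c1
    refine Or.inl (mE ?_)
    rcases cube_cases ω3 ω1 (hc.pow_eq_one hx.hp.ne (by rw [conj_pow, x3]; simp)) with
      rfl | rfl | rfl
    · exact (c1 rfl).elim
    · exact Or.inr (Or.inl (h.rt_ext k1 hx))
    · exact Or.inr (Or.inr (h.rt_ext k1 (by rw [map_inv]; exact hx.inv)))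

theorem cII {s : Γ} (hU : U = ⊥ ∨ Sp p U δ)
    (syl : p ≠ 3 → ∀ u : Γ, u ^ p = 1 → ∃ g, g * u * g⁻¹ ∈ U)
    (nU : ∀ n ∈ normalizer (U : Set Γ), U ≠ ⊥ → IsR (ρ n) → n * n = 1) (H : Four ρ x t s) :
    CII p U δ t x := by
  obtain ⟨e, f, ω, ω1, hx⟩ := H.r
  have a := h.ab hU syl hx ω1 H.x3 H.t1 H.t2 H.xt.symm
  have F := H.fg
  refine ⟨h.cm hU syl H.t1 H.t2, a.card24 F, a.ev F, fun y => a.ex F, a.x1, H.x3, H.xt,
    fun y => a.thr F, a.real, a.card36 F, a.syl, a.other F, fun n hn h0 c => ?_⟩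
  obtain ⟨g, rfl⟩ := isConj_iff.1 c
  have := nU _ hn h0 (h.isR_conj H.r g)
  rw [conj_mul, conj_eq_one_iff] at this
  exact a.xne (mul_eq_one_iff_eq_inv.1 this)

/-- the data needed for the identification with the alternating group of degree seven -/
theorem dataII {s z : Γ} (hU : U = ⊥ ∨ Sp p U δ)
    (syl : p ≠ 3 → ∀ u : Γ, u ^ p = 1 → ∃ g, g * u * g⁻¹ ∈ U) (H : Four ρ x t s)
    (zx : z * x = x * z) (hz : IsConj x z) (z1 : z ≠ x) (z2 : z ≠ x⁻¹) :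
    ∃ (e f e' f' : W k) (ω : k) (u' : Γ), RT e f ω (ρ x) ∧ RT e' f' ω (ρ z) ∧ ω ^ 2 + ω + 1 = 0 ∧
      ρ z e = e ∧ ρ z f = f ∧ ρ t e = e ∧ ρ t f = f ∧
      t * (z * t * z⁻¹) = z ^ 2 * t * (z ^ 2)⁻¹ ∧ u' * u' = 1 ∧ u' ≠ 1 ∧ ρ u' e' = e' ∧
      ρ u' f' = f' ∧ u' * (x * u' * x⁻¹) = x ^ 2 * u' * (x ^ 2)⁻¹ := by
  obtain ⟨e, f, ω, ω1, hx⟩ := H.r
  have a := h.ab hU syl hx ω1 H.x3 H.t1 H.t2 H.xt.symm
  have F := H.fg
  have ω3 := hx.dl.pow_eq_one hx.hp.ne H.x3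
  obtain ⟨g, rfl⟩ := isConj_iff.1 hz
  have nE : g * x * g⁻¹ ∉ zpowers x := fun c => by
    rcases a.mem_E.1 c with c | c | c
    exacts [a.x1 (by simpa using c), z1 c, z2 c]
  have zH := (a.rot _ hz zx).resolve_left nE
  have tH := a.vH F (Or.inl rfl)
  have k1 := a.cyc3 F (y := g⁻¹ * x * g) (by
      calc _ = g⁻¹ * (x * (g * x * g⁻¹)) * g := by group
        _ = _ := by rw [← zx]; group)
    (by simpa using (conj_pow (a := g⁻¹) (b := x) (i := 3)).trans (by simp [H.x3])) fun c => by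
      rcases a.mem_E.1 c with c | c | c
      · exact a.x1 (by simpa [mul_assoc, inv_mul_eq_iff_eq_mul] using c)
      · exact z1 (by nth_rw 1 [← c]; group)
      · exact z2 (by
          calc _ = g * (g⁻¹ * x * g)⁻¹ * g⁻¹ := by rw [c, inv_inv]
            _ = _ := by group)
  refine ⟨e, f, _, _, ω, g * t * g⁻¹, hx, h.rt_conj hx g,
    mul_left_cancel₀ (sub_ne_zero.2 ω1) (by linear_combination ω3), by simpa using zH.2.1,
    by simpa using zH.2.2, by simpa using tH.2.1, by simpa using tH.2.2,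
    a.cyc3 F zx (by rw [conj_pow, H.x3]; simp) nE, (F.conj g).t1, (F.conj g).t2,
    by simpa using tH.2.1, by simpa using tH.2.2, ?_⟩
  calc _ = g * (t * (g⁻¹ * x * g * t * (g⁻¹ * x * g)⁻¹)) * g⁻¹ := by group
    _ = _ := by rw [k1]; simp [pow_two, mul_assoc]

end HB

end Cfsg.Agent.O5
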