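import Cfsg.Agent.O5.B6
import Cfsg.Agent.O5.B7
import Cfsg.Agent.H1.Sp4Z

/-!
Case B: the main theorem.
-/

set_option autoImplicit false

namespace Cfsg.Agent.O5

open Subgroup

variable {k : Type*} [Field k] [IsAlgClosed k]

theorem HB.main {Γ : Type*} [Group Γ] [Finite Γ] [IsSimpleGroup Γ] {p : ℕ} {ρ : Γ →* GW k}
    (h : HB p ρ) : Nat.card Γ = 60 ∨ Nonempty (Γ ≃* alternatingGroup (Fin 6)) ∨
      Nonempty (Γ ≃* alternatingGroup (Fin 7)) ∨ ∃ (E : Type) (_ : Field E) (_ : Fintype E),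
        CharP E p ∧ 5 ≤ p ∧ Nonempty (Γ ≃* Matrix.ProjectiveSpecialLinearGroup (Fin 2) E) := by
  by_contra hc
  simp only [not_or] at hc
  obtain ⟨U, δ, hU, syl, -⟩ := h.exists_U
  have nf : NF p ρ U δ := ⟨h, hU, syl, fun x t s r x3 t1 t2 s1 s2 ts c xt xs =>
    hc.2.2.1 (h.caseII r x3 t1 t2 s1 s2 ts c xt xs)⟩
  obtain ⟨t, -, t1, t2⟩ := H4.Basic.exists_involution_of_even (⊤ : Subgroup Γ)
    (by simpa using h.even_card)
  obtain ⟨e, f, ht⟩ := h.inv_rt t1 t2
  obtain ⟨sp, H⟩ := ((nf.ci ht).count.resolve_left hc.1).resolve_left hc.2.1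
  have := Fact.mk h.prime
  obtain ⟨n, hn⟩ := IsPGroup.iff_card.1 (show IsPGroup p U from fun u =>
    ⟨1, Subtype.ext (by simpa using sp.pw u u.2)⟩)
  have n0 : n ≠ 0 := by
    rintro rfl; exact sp.ca.ne_bot (card_eq_one.1 (by simpa using hn))
  have := Fintype.ofFinite (GaloisField p n)
  exact hc.2.2.2 ⟨GaloisField p n, inferInstance, inferInstance, inferInstance, sp.five,
    H _ (by rw [← Nat.card_eq_fintype_card, GaloisField.card p n n0, hn])⟩

theorem caseB {p : ℕ} {G : Subgroup (GW k)} (h : St p G) (hL : ¬ HasLong G)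
    (hs : HasShort G → p = 3 ∧ ¬ 9 ∣ Nat.card G) (hA : ¬ HasA G) :
    Nat.card G = 60 ∨ Nonempty (G ≃* alternatingGroup (Fin 6)) ∨
      Nonempty (G ≃* alternatingGroup (Fin 7)) ∨ ∃ (E : Type) (_ : Field E) (_ : Fintype E),
        CharP E p ∧ 5 ≤ p ∧ Nonempty (G ≃* Matrix.ProjectiveSpecialLinearGroup (Fin 2) E) := by
  have := h.fin
  have := h.simple
  exact (h.hb hL hs hA).main

/-- the classification when there is no long root element -/
theorem caseB' {p : ℕ} {G : Subgroup (GW k)} (h : St p G) (hL : ¬ HasLong G) :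
    Nat.card G = 60 ∨ Nonempty (G ≃* alternatingGroup (Fin 6)) ∨
      Nonempty (G ≃* alternatingGroup (Fin 7)) ∨ ∃ (E : Type) (_ : Field E) (_ : Fintype E),
        CharP E p ∧ 5 ≤ p ∧ Nonempty (G ≃* Matrix.ProjectiveSpecialLinearGroup (Fin 2) E) :=
  caseB h hL (caseS h hL) (caseA' h hL)

end Cfsg.Agent.O5
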