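import Cfsg.Agent.O5.BC0
import Cfsg.Agent.O5.BC1

/-!
Case B: general lemmas for the two counting arguments.
-/

set_option autoImplicit false
set_option maxHeartbeats 400000
set_option linter.unusedSectionVars false

namespace Cfsg.Agent.O5.Cnt

open Subgroup MulAction Cfsg.Agent.H4 Cfsg.Agent.H4.CABasic Cfsg.Agent.H4.FeitLow
  Cfsg.Agent.H4.Basic Cfsg.Agent.H4.Zass Cfsg.Agent.H6.MG Cfsg.Agent.O5.Num

variable {G : Type*} [Group G]

theorem memC {g x : G} : g ∈ centralizer ({x} : Set G) ↔ g * x = x * g :=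
  mem_centralizer_singleton_iff

theorem cj_comm {g y t : G} : y * (g * t * g⁻¹) = g * t * g⁻¹ * y ↔
    g⁻¹ * y * g * t = t * (g⁻¹ * y * g) := by
  constructor <;> intro h
  · calc _ = g⁻¹ * (y * (g * t * g⁻¹)) * g := by group
      _ = _ := by rw [h]; group
  · calc _ = g * (g⁻¹ * y * g * t) * g⁻¹ := by group
      _ = _ := by rw [h]; group

theorem exists_conj_mem [Finite G] {q k : ℕ} [Fact q.Prime] (P : Sylow q G) {b : G}
    (hb : b ^ q ^ k = 1) : ∃ g, g * b * g⁻¹ ∈ P := by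
  obtain ⟨Q, hQ⟩ := (isPGroup_zpowers hb).exists_le_sylow
  obtain ⟨g, rfl⟩ := MulAction.exists_smul_eq G Q P
  exact ⟨g, Subgroup.smul_mem_pointwise_smul b (MulAut.conj g) _ (hQ (mem_zpowers b))⟩

theorem exists_pow_prime [Finite G] (A : Subgroup G) {q : ℕ} (hq : q.Prime) (h : q ∣ Nat.card A) :
    ∃ b ∈ A, b ^ q = 1 ∧ b ≠ 1 := by
  haveI := Fact.mk hq
  obtain ⟨y, hy⟩ := exists_prime_orderOf_dvd_card' (G := A) q h
  exact ⟨y, y.2, by rw [← hy, ← Subgroup.coe_pow, pow_orderOf_eq_one]; rfl, fun e =>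
    hq.one_lt.ne (by rw [← hy, show y = 1 from Subtype.ext e, orderOf_one])⟩

theorem pow_card_mem {A : Subgroup G} {a : G} (h : a ∈ A) : a ^ Nat.card A = 1 :=
  congrArg Subtype.val (pow_card_eq_one' (x := (⟨a, h⟩ : A)))

theorem one_of_cop {a : G} {m n : ℕ} (h1 : a ^ m = 1) (h2 : a ^ n = 1) (h : m.Coprime n) : a = 1 :=
  mem_bot.1 (mem_of_pows (A := ⊥) h1 h2 h)

theorem inv_odd {A : Subgroup G} (h : Odd (Nat.card A)) {s : G} (hs : s ∈ A) (h2 : s * s = 1) :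
    s = 1 :=
  one_of_cop ((pow_two s).trans h2) (pow_card_mem hs) (Nat.coprime_two_left.2 h)

theorem even_cc {y s : G} (h1 : s * s = 1) (h2 : s ≠ 1) (e : s * y = y * s) : ¬ Odd (cc y) :=
  fun h => h2 (inv_odd h (memC.2 e) h1)

/-- reality -/
def Re (h : G) : Prop := ∃ u, u * h * u⁻¹ = h⁻¹

theorem Re.conj {g : G} (h : Re g) (y : G) : Re (y * g * y⁻¹) := by
  obtain ⟨s, e⟩ := h
  exact ⟨y * s * y⁻¹, by
    calc _ = y * (s * g * s⁻¹) * y⁻¹ := by group
      _ = _ := by rw [e]; group⟩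

theorem Re.sq {g : G} (h : g * g = 1) : Re g := ⟨1, by rw [one_mul, inv_one, mul_one]; exact eq_inv_of_mul_eq_one_right h⟩

theorem ww_pos [Finite G] (B : Subgroup G) : ww B ≠ 0 := index_ne_zero_of_finite

theorem ord4 [Finite G] {B : Subgroup G} (hB : IsCA B) (ho : Odd (Nat.card B)) (hw : ww B = 4) :
    ∃ g : G, g ^ 4 = 1 ∧ g * g ≠ 1 := by
  haveI : Fact (Nat.Prime 2) := ⟨Nat.prime_two⟩
  have h1 := card_mul_relIndex B
  obtain ⟨T, hT⟩ := Sylow.exists_subgroup_card_pow_prime (G := normalizer (B : Set G)) 2 (n := 2)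
    ⟨Nat.card B, by rw [← h1, show B.relIndex _ = 4 from hw]; ring⟩
  by_contra! hc
  have h2 : ∀ s : T, s.1.1 * s.1.1 = 1 := fun s => hc _ (by
    have := pow_card_mem s.2
    rw [hT] at this
    exact congrArg Subtype.val this)
  obtain ⟨x, hx, x1⟩ := (B.bot_or_exists_ne_one).resolve_left hB.ne_bot
  have h3 : ∀ s : T, s ≠ 1 → s.1.1 * x * s.1.1⁻¹ = x⁻¹ := fun s s1 =>
    inverts hB s.1.2 (fun e => s1 (Subtype.ext (Subtype.ext (inv_odd ho e (h2 s)))))
      (h2 s ▸ one_mem _) hx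
  have h4 : ∀ s s' : T, s ≠ 1 → s' ≠ 1 → s = s' := fun s s' e e' => by
    refine inv_mul_eq_one.1 (Subtype.ext (Subtype.ext (inv_odd ho ((hB.cent x hx x1 _).1 ?_) (h2 _))))
    have := (h3 s' e').trans (h3 s e).symm
    calc _ = s.1.1⁻¹ * (s'.1.1 * x * s'.1.1⁻¹) * s'.1.1 := by simp [mul_assoc]
      _ = _ := by rw [this]; simp [mul_assoc]
  classical
  have := Nat.card_le_card_of_injective (fun s : T => decide (s = 1)) fun s s' e => by
    by_cases h : s = 1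
    · rw [h]; simpa [h, eq_comm] using e
    · exact h4 s s' h (by simpa [h] using e)
  rw [hT] at this
  simp at this

theorem exists_out [Finite G] {B : Subgroup G} (ho : Odd (Nat.card B)) (hw : Even (ww B)) :
    ∃ s, s * s = 1 ∧ s ∈ normalizer (B : Set G) ∧ s ∉ B := by
  obtain ⟨s, h1, h2, h3⟩ := exists_involution_of_even (normalizer (B : Set G))
    (by rw [← card_mul_relIndex]; exact hw.mul_left _)
  exact ⟨s, h2, h1, fun e => h3 (inv_odd ho e h2)⟩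

theorem psl_of_ca' [Finite G] [IsSimpleGroup G] {A : Subgroup G} (hA : IsCA A)
    (hidx : (normalizer (A : Set G)).index = Nat.card A + 1) {w : ℕ}
    (hw : A.relIndex (normalizer (A : Set G)) = w) (h2 : 2 * w = Nat.card A - 1)
    (he : Even (Nat.card G)) (hreal : ∀ h : G, h ^ w = 1 → Re h)
    (hab : ∀ e ∈ normalizer (A : Set G), ∀ h ∈ normalizer (A : Set G), e * h * e⁻¹ * h⁻¹ ∈ A)
    (F : Type*) [Field F] [Fintype F] (hF : Fintype.card F = Nat.card A) :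
    Nonempty (G ≃* Matrix.ProjectiveSpecialLinearGroup (Fin 2) F) := by
  obtain ⟨hK, h3⟩ := zlem hA hidx
  have hi := inj_quot (H := normalizer (A : Set G)) (fun e => by
    have := hA.one_lt_card
    rw [e, index_top] at hidx; omega)
  haveI : FaithfulSMul G (G ⧸ normalizer (A : Set G)) := ⟨fun e => hi (Equiv.ext e)⟩
  set a : G ⧸ normalizer (A : Set G) := ((1 : G) : G ⧸ normalizer (A : Set G))
  have hst : stabilizer G a = normalizer (A : Set G) := stabilizer_quotient _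
  obtain ⟨s, s1, s2⟩ : ∃ s : G, s * s = 1 ∧ s • a ≠ a := by
    obtain ⟨t, -, t1, t2⟩ := exists_involution_of_even (⊤ : Subgroup G) (by rwa [card_top])
    obtain ⟨x, hx⟩ : ∃ x : G ⧸ normalizer (A : Set G), t • x ≠ x := by
      by_contra hc
      push Not at hc
      exact t2 (hi (Equiv.ext fun x => by simpa using hc x))
    obtain ⟨g, rfl⟩ := exists_smul_eq G a x
    exact ⟨g⁻¹ * t * g, by simp [mul_assoc, ← mul_assoc t, t1], by
      rwa [mul_smul, mul_smul, ne_eq, inv_smul_eq_iff]⟩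
  have s3 : s • s • a = a := by rw [← mul_smul, s1, one_smul]
  have si : s⁻¹ = s := inv_eq_of_mul_eq_one_right s1
  have cE : Nat.card ↥(stabilizer G a ⊓ stabilizer G (s • a)) = w := by
    have := hK.card_stab s2.symm
    rw [hst, ← card_mul_relIndex, hw] at this
    rw [hst]
    exact (Nat.eq_of_mul_eq_mul_left Nat.card_pos this).symm
  refine Ident.equiv_psl h3 s2.symm hK (by rw [cE, h2]) s1 rfl s3 (fun h hh => ?_) F hF
  have ab : ∀ e ∈ stabilizer G a ⊓ stabilizer G (s • a), e * h * e⁻¹ = h := fun e he =>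
    mul_inv_eq_one.1 (hK.eq_one (hab e (hst ▸ he.1) h (hst ▸ hh.1)) s2
      (mul_mem (mul_mem (mul_mem he.2 hh.2) (inv_mem he.2)) (inv_mem hh.2) :
        _ ∈ stabilizer G (s • a)))
  by_cases h1 : h = 1
  · simp [h1]
  obtain ⟨u, hu⟩ := hreal h (cE ▸ congrArg Subtype.val (pow_card_eq_one' (x := (⟨h, hh⟩ :
    ↥(stabilizer G a ⊓ stabilizer G (s • a))))))
  have fx : ∀ x : G ⧸ normalizer (A : Set G), h • x = x → u • x = a ∨ u • x = s • a := fun x hx =>
    h3.eq_or_eq h1 s2.symm hh.1 hh.2 (by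
      rw [← inv_smul_eq_iff.1 (show h⁻¹ • u • x = u • x by
        rw [← hu, mul_smul, mul_smul, inv_smul_smul, hx])])
  have ne : u • a ≠ u • s • a := fun e => s2 (smul_left_cancel u e).symm
  rcases fx a hh.1 with e | e
  · have hi : h = h⁻¹ := by
      rw [← hu, ab u ⟨e, (fx _ hh.2).resolve_left fun e' => ne (e.trans e'.symm)⟩]
    have h2 : h * h = 1 := mul_eq_one_iff_eq_inv.2 hi
    have k1 : (s * h * s⁻¹) • a = a := by
      rw [si, mul_smul, mul_smul, show h • s • a = s • a from hh.2, s3]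
    have k2 : (s * h * s⁻¹) • s • a = s • a := by
      rw [mul_smul, mul_smul, inv_smul_smul, show h • a = a from hh.1]
    obtain ⟨x, hx, x1⟩ := (A.bot_or_exists_ne_one).resolve_left hA.ne_bot
    have inv : ∀ h : G, h ≠ 1 → h * h = 1 → h • a = a → h • s • a = s • a → h * x * h⁻¹ = x⁻¹ :=
      fun h h1 h2 ha hb => inverts hA (hst ▸ ha) (fun e => h1 (hK.eq_one e s2 hb)) (h2 ▸ one_mem _) hx
    have k3 := inv _ (by simpa using h1) (by simp [h2]) k1 k2
    rw [← inv h h1 h2 hh.1 hh.2] at k3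
    have := hK.eq_one ((hA.cent x hx x1 (h⁻¹ * (s * h * s⁻¹))).1 (by
      rw [mul_assoc, mul_inv_eq_iff_eq_mul.1 k3]; group)) s2 (by
      rw [mul_smul, k2, inv_smul_eq_iff]; exact hh.2.symm)
    rw [← hi, (inv_mul_eq_one.1 this).symm]
  · have e' := (fx _ hh.2).resolve_right fun e' => ne (e.trans e'.symm)
    have := ab (s * u) (mem_inf.2 ⟨by rw [mem_stabilizer_iff, mul_smul, e, s3],
      by rw [mem_stabilizer_iff, mul_smul, e']⟩)
    calc _ = (s * (u * h * u⁻¹) * s⁻¹)⁻¹ := by rw [hu]; group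
      _ = (s * u * h * (s * u)⁻¹)⁻¹ := by group
      _ = _ := by rw [this]

theorem _root_.Cfsg.Agent.O5.Sp.comm_mem {p : ℕ} {U : Subgroup G} {δ : G} (h : Sp p U δ) :
    ∀ e ∈ normalizer (U : Set G), ∀ f ∈ normalizer (U : Set G), e * f * e⁻¹ * f⁻¹ ∈ U := by
  intro e he f hf
  obtain ⟨i, hi⟩ := h.gen e he
  obtain ⟨j, hj⟩ := h.gen f hf
  let π := QuotientGroup.mk' (U.subgroupOf (normalizer (U : Set G)))
  have h1 : π ⟨δ, h.mem⟩ ^ i = π ⟨e, he⟩ := by
    rw [← map_pow]; exact QuotientGroup.eq.2 hi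
  have h2 : π ⟨δ, h.mem⟩ ^ j = π ⟨f, hf⟩ := by
    rw [← map_pow]; exact QuotientGroup.eq.2 hj
  have : π (⟨e, he⟩ * ⟨f, hf⟩ * (⟨e, he⟩)⁻¹ * (⟨f, hf⟩)⁻¹) = 1 := by
    simp only [map_mul, map_inv, ← h1, ← h2]
    group
  exact mem_subgroupOf.1 ((QuotientGroup.eq_one_iff _).1 this)

theorem _root_.Cfsg.Agent.O5.Sp.cop [Finite G] {p : ℕ} {U : Subgroup G} {δ : G} (h : Sp p U δ)
    {q : ℕ} (hq : q.Prime) (h1 : q ∣ Nat.card U) : q = p := by
  obtain ⟨b, hb, e, e'⟩ := exists_pow_prime U hq h1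
  by_contra h2
  exact e' (one_of_cop e (h.pw b hb) ((Nat.coprime_primes hq h.prime).2 h2))

theorem _root_.Cfsg.Agent.O5.Sp.odd [Finite G] {p : ℕ} {U : Subgroup G} {δ : G} (h : Sp p U δ) :
    Odd (Nat.card U) := by
  rw [← Nat.not_even_iff_odd, even_iff_two_dvd]
  intro e
  have := h.cop Nat.prime_two e
  have := h.five
  omega

variable [Fintype G]

theorem mem_conjs_of_prime {A : Subgroup G} (hA : IsCA A) {q : ℕ} (hq : q.Prime)
    (h : q ∣ Nat.card A) {b : G} (hb : b ^ q = 1) (h1 : b ≠ 1) : b ∈ conjs A := by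
  haveI := Fact.mk hq
  obtain ⟨y, hy, y2, y1⟩ := exists_pow_prime A hq h
  obtain ⟨P, hP⟩ := (isPGroup_zpowers (p := q) (k := 1) (g := y) (by
    rw [pow_one, y2])).exists_le_sylow
  obtain ⟨g, hg⟩ := exists_conj_mem (k := 1) (b := b) P (by rwa [pow_one])
  exact mem_conjs.2 ⟨g⁻¹, _, CAEven2.pgroup_le hA P.isPGroup' hy y1 (hP (mem_zpowers _)) hg,
    by simpa using h1, by group⟩

theorem pow_of_mem_conjs {A : Subgroup G} {g : G} (h : g ∈ conjs A) : g ^ Nat.card A = 1 := by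
  obtain ⟨y, a, ha, -, rfl⟩ := mem_conjs.1 h
  rw [conj_pow, pow_card_mem ha]
  simp

theorem cl_of {B : Subgroup G} (hB : IsCA B) (ho : Odd (Nat.card B)) {w : ℕ} (hw : ww B = w) :
    Cl (Nat.card G) (Nat.card B) w (normalizer (B : Set G)).index (conjs B).card := by
  subst hw
  obtain ⟨e1, e2⟩ := ca_num hB
  refine ⟨by rw [e1, mul_assoc]; rfl, ?_, hB.index_dvd, hB.one_lt_card, Nat.odd_iff.1 ho,
    Nat.pos_of_ne_zero index_ne_zero_of_finite⟩
  obtain ⟨d, hd⟩ := Nat.exists_eq_add_of_lt hB.one_lt_card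
  rw [e1, e2, hd, Nat.add_sub_cancel, ww]; ring

theorem ww_eq {A B : Subgroup G} (hA : IsCA A) (hB : IsCA B) {x : G} (hx : x ∈ conjs A)
    (hx' : x ∈ conjs B) : ww A = ww B := by
  obtain ⟨e1, e2⟩ := ca_num hA
  obtain ⟨e3, e4⟩ := ca_num hB
  have e5 : Nat.card A = Nat.card B := (hA.cc_eq hx).symm.trans (hB.cc_eq hx')
  have := hB.one_lt_card
  rw [hA.conjs_eq hB hx hx', e4, e5] at e2
  have e6 := Nat.eq_of_mul_eq_mul_right (by omega) e2
  rw [e3, e5, e6] at e1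
  exact (Nat.eq_of_mul_eq_mul_left (by omega) (Nat.eq_of_mul_eq_mul_right
    (Nat.pos_of_ne_zero index_ne_zero_of_finite) e1)).symm

theorem ca_cent {B : Subgroup G} (hB : IsCA B) {y : G} (hy : y ∈ conjs B) :
    IsCA (centralizer {y}) := by
  obtain ⟨g, a, ha, a1, rfl⟩ := mem_conjs.1 hy
  refine ⟨fun e => a1 ?_, fun b hb b1 c => ?_⟩
  · simpa using mem_bot.1 (e ▸ memC.2 rfl : g * a * g⁻¹ ∈ (⊥ : Subgroup G))
  · rw [memC, cj_comm, hB.cent a ha a1] at hb ⊢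
    rw [← hB.cent _ hb (fun e => b1 (by simpa [mul_assoc, inv_mul_eq_one] using e)),
      ← cj_comm]
    simp [mul_assoc]

theorem real2 {B : Subgroup G} (hB : IsCA B) (hw : ww B = 2) {y : G} (hy : y ∈ conjs B) : Re y := by
  obtain ⟨g, a, ha, -, rfl⟩ := mem_conjs.1 hy
  obtain ⟨n, h1, h2⟩ : ∃ n ∈ normalizer (B : Set G), n ∉ B := by
    by_contra! h
    have := relIndex_eq_one.2 (show normalizer (B : Set G) ≤ B from h)
    rw [ww, this] at hw
    omega
  refine Re.conj ⟨n, inverts hB h1 h2 ?_ ha⟩ g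
  have := pow_relIndex h1
  rwa [show B.relIndex _ = 2 from hw, pow_two] at this

theorem sum_cc {B : Subgroup G} (hB : IsCA B) :
    ∑ y ∈ conjs B, cc y = Nat.card B * (conjs B).card := by
  rw [Finset.sum_congr rfl fun y hy => hB.cc_eq hy, Finset.sum_const, smul_eq_mul, mul_comm]

theorem dvd_of_cc {m : ℕ} (Y : Finset G) (h1 : ∀ g, ∀ y ∈ Y, g * y * g⁻¹ ∈ Y)
    (h2 : ∀ y ∈ Y, cc y = m) : Nat.card G ∣ m * Y.card := by
  classical
  induction Y using Finset.strongInduction with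
  | H Y ih =>
  rcases Y.eq_empty_or_nonempty with rfl | ⟨y, hy⟩
  · simp
  have h3 := Finset.card_filter_add_card_filter_not (s := Y) fun z => IsConj y z
  have h4 : (Y.filter fun z => IsConj y z).card = {x | IsConj y x}.ncard := by
    rw [← Set.ncard_coe_finset]
    congr 1
    ext z
    simp only [Finset.coe_filter, Set.mem_setOf_eq, and_iff_right_iff_imp]
    intro h
    obtain ⟨g, rfl⟩ := isConj_iff.1 h
    exact h1 g y hy
  rw [← h3, mul_add, h4, ← h2 y hy, mul_comm (cc y), class_mul_cc, h2 y hy]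
  refine (Nat.dvd_add_right dvd_rfl).2 (ih _ (Finset.filter_ssubset.2 ⟨y, hy, not_not.2 (IsConj.refl y)⟩)
    (fun g z hz => ?_) fun z hz => h2 z (Finset.mem_filter.1 hz).1)
  rw [Finset.mem_filter] at hz ⊢
  exact ⟨h1 g z hz.1, fun e => hz.2 (e.trans (isConj_iff.2 ⟨g, rfl⟩).symm)⟩

variable [DecidableEq G]

theorem pair_count' {t : G} (h1 : ∀ s ∈ invs G, IsConj t s) (Q : G → Prop) [DecidablePred Q]
    (hQ : ∀ g y, Q y → Q (g * y * g⁻¹))
    (hr : ∀ y, Q y → y * t = t * y → ∀ s ∈ invs G, y * s = s * y → s = t) (ht : t ∈ invs G) :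
    (Finset.univ.filter fun y => Q y ∧ ∃ s ∈ invs G, y * s = s * y).card =
      (invs G).card * (Finset.univ.filter fun y => Q y ∧ y * t = t * y).card := by
  refine (mul_one _).symm.trans ((pair_count h1 _ ?_ 1 ?_).trans ?_)
  rotate_left 2
  · congr 2
    ext y
    simp only [Finset.mem_filter, Finset.mem_univ, true_and, and_assoc, and_congr_right_iff,
      and_iff_right_iff_imp]
    exact fun _ h => ⟨t, ht, h⟩
  · intro g y hy
    simp only [Finset.mem_filter, Finset.mem_univ, true_and] at hy ⊢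
    obtain ⟨h2, s, hs, e⟩ := hy
    exact ⟨hQ g y h2, _, (conj_mem_invs g).2 hs, by simp [e]⟩
  · intro y hy
    simp only [Finset.mem_filter, Finset.mem_univ, true_and] at hy
    obtain ⟨h2, s, hs, e⟩ := hy
    obtain ⟨g, rfl⟩ := isConj_iff.1 (h1 s hs)
    refine Finset.card_eq_one.2 ⟨g * t * g⁻¹, Finset.eq_singleton_iff_unique_mem.2
      ⟨Finset.mem_filter.2 ⟨hs, e⟩, fun s' hs' => ?_⟩⟩
    rw [Finset.mem_filter] at hs'
    rw [← hr _ (by simpa using hQ g⁻¹ y h2) (cj_comm.1 e) _ ((conj_mem_invs g⁻¹).2 hs'.1) (by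
      calc _ = g⁻¹ * (y * s') * g := by group
        _ = _ := by rw [hs'.2]; group)]
    group

/-- A system of representatives. -/
structure Fam (F2 F4 : Finset (Subgroup G)) : Prop where
  h2 : ∀ B ∈ F2, IsCA B ∧ Odd (Nat.card B) ∧ ww B = 2
  h4 : ∀ B ∈ F4, IsCA B ∧ Odd (Nat.card B) ∧ ww B = 4
  d2 : ∀ B ∈ F2, ∀ B' ∈ F2, B ≠ B' → Disjoint (conjs B) (conjs B')
  d4 : ∀ B ∈ F4, ∀ B' ∈ F4, B ≠ B' → Disjoint (conjs B) (conjs B')
  all : ∀ B, IsCA B → Odd (Nat.card B) → ww B = 2 ∨ ww B = 4 → ∀ y ∈ conjs B,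
    (∃ B ∈ F2, y ∈ conjs B) ∨ ∃ B ∈ F4, y ∈ conjs B

theorem exists_fam1 (w : ℕ) : ∃ F : Finset (Subgroup G),
    (∀ B ∈ F, IsCA B ∧ Odd (Nat.card B) ∧ ww B = w) ∧
    (∀ B ∈ F, ∀ B' ∈ F, B ≠ B' → Disjoint (conjs B) (conjs B')) ∧
    ∀ B, IsCA B → Odd (Nat.card B) → ww B = w → ∀ y ∈ conjs B, ∃ B ∈ F, y ∈ conjs B := by
  classical
  let P : Finset G → Prop := fun s => ∃ B : Subgroup G, (IsCA B ∧ Odd (Nat.card B) ∧ ww B = w) ∧ conjs B = s
  have : ∀ s : {s // P s}, ∃ B : Subgroup G, (IsCA B ∧ Odd (Nat.card B) ∧ ww B = w) ∧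
      conjs B = s.1 := fun s => s.2
  choose r h1 h2 using this
  refine ⟨Finset.univ.image r, fun B hB => ?_, fun B hB B' hB' e => ?_, fun B e1 e2 e3 y hy =>
    ⟨r ⟨_, B, ⟨e1, e2, e3⟩, rfl⟩, Finset.mem_image_of_mem _ (Finset.mem_univ _), by rwa [h2]⟩⟩
  · obtain ⟨s, -, rfl⟩ := Finset.mem_image.1 hB
    exact h1 s
  · obtain ⟨s, -, rfl⟩ := Finset.mem_image.1 hB
    obtain ⟨s', -, rfl⟩ := Finset.mem_image.1 hB'
    refine Finset.disjoint_left.2 fun x hx hx' => e (congrArg r (Subtype.ext ?_))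
    rw [← h2, ← h2, (h1 s).1.conjs_eq (h1 s').1 hx hx']

variable (G) in
theorem exists_fam : ∃ F2 F4 : Finset (Subgroup G), Fam F2 F4 := by
  obtain ⟨F2, a1, a2, a3⟩ := exists_fam1 (G := G) 2
  obtain ⟨F4, b1, b2, b3⟩ := exists_fam1 (G := G) 4
  exact ⟨F2, F4, a1, b1, a2, b2, fun B e1 e2 e3 y hy =>
    e3.imp (fun e => a3 B e1 e2 e y hy) fun e => b3 B e1 e2 e y hy⟩

theorem dj {A B : Subgroup G} (hA : IsCA A) (hB : IsCA B) (h : ww A ≠ ww B) :
    Disjoint (conjs A) (conjs B) :=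
  Finset.disjoint_left.2 fun _ hx hx' => h (ww_eq hA hB hx hx')

theorem Fam.split {F2 F4 : Finset (Subgroup G)} (h : Fam F2 F4) (T V : Finset G)
    (hc : ∀ y, y ∈ T ∨ ((∃ B ∈ F2, y ∈ conjs B) ∨ ∃ B ∈ F4, y ∈ conjs B) ∨ y ∈ V)
    (h1 : ∀ B, IsCA B → Odd (Nat.card B) → Disjoint T (conjs B)) (h2 : Disjoint T V)
    (h3 : ∀ B, IsCA B → ww B = 2 ∨ ww B = 4 → Disjoint (conjs B) V) (φ : G → ℕ) :
    ∑ y, φ y = ∑ y ∈ T, φ y + (∑ B ∈ F2, ∑ y ∈ conjs B, φ y + ∑ B ∈ F4, ∑ y ∈ conjs B, φ y) +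
      ∑ y ∈ V, φ y := by
  rw [← Finset.sum_biUnion fun B hB B' hB' e => h.d2 B hB B' hB' e,
    ← Finset.sum_biUnion fun B hB B' hB' e => h.d4 B hB B' hB' e, ← Finset.sum_union,
    ← Finset.sum_union, ← Finset.sum_union]
  · congr 1
    ext y
    simpa [or_assoc] using hc y
  · simp only [Finset.disjoint_union_left, Finset.disjoint_biUnion_left]
    exact ⟨h2, fun B hB => h3 B (h.h2 B hB).1 (.inl (h.h2 B hB).2.2),
      fun B hB => h3 B (h.h4 B hB).1 (.inr (h.h4 B hB).2.2)⟩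
  · simp only [Finset.disjoint_union_right, Finset.disjoint_biUnion_right]
    exact ⟨fun B hB => h1 B (h.h2 B hB).1 (h.h2 B hB).2.1,
      fun B hB => h1 B (h.h4 B hB).1 (h.h4 B hB).2.1⟩
  · simp only [Finset.disjoint_biUnion_left, Finset.disjoint_biUnion_right]
    exact fun B hB B' hB' => dj (h.h2 _ ‹_›).1 (h.h4 _ ‹_›).1 (by
      rw [(h.h2 _ ‹_›).2.2, (h.h4 _ ‹_›).2.2]; decide)

end Cfsg.Agent.O5.Cnt
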