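import Cfsg.Agent.O5.BC2

/-!
Case B: the counting argument for a dihedral involution centraliser.
-/

set_option autoImplicit false
set_option maxHeartbeats 400000
set_option linter.unusedSectionVars false

namespace Cfsg.Agent.O5

open Subgroup Cfsg.Agent.H4 Cfsg.Agent.H4.CABasic Cfsg.Agent.H4.FeitLow
  Cfsg.Agent.H4.Basic Cfsg.Agent.H6.MG Cfsg.Agent.O5.Num Cfsg.Agent.O5.Cnt

variable {Γ : Type*} [Group Γ] {p : ℕ} {U A : Subgroup Γ} {δ t x : Γ}

theorem Cm.loc (h : Cm p U δ t) {y s : Γ} (h1 : s * s = 1) (h2 : s ≠ 1) (e : s * y = y * s) :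
    ∃ g, g * y * g⁻¹ * t = t * (g * y * g⁻¹) := by
  obtain ⟨g, rfl⟩ := isConj_iff.1 (h.cls s h1 h2)
  exact ⟨g⁻¹, by simpa using cj_comm.1 e.symm⟩

theorem Cm.notU (h : Cm p U δ t) {y a : Γ} (hU : ∀ g, g * y * g⁻¹ ∉ U) (e : a * y = y * a) (g : Γ)
    (ha : g * a * g⁻¹ ∈ U) : a = 1 := by
  by_contra a1
  rcases h.sp with rfl | hs
  · exact a1 (by simpa using ha)
  · exact hU g ((hs.ca.cent _ ha (by simpa using a1) _).1 (by simp [e]))

theorem Cm.ca [Finite Γ] (h : Cm p U δ t) {y : Γ} (y1 : y ≠ 1) (hU : ∀ g, g * y * g⁻¹ ∉ U)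
    (hi : ∀ a, a * y = y * a → a ≠ 1 → ∀ s, s * s = 1 → s * a = a * s → s = 1) :
    IsCA (centralizer {y}) ∧ Odd (Nat.card (centralizer {y})) ∧
      (ww (centralizer {y}) = 2 ∨ ww (centralizer {y}) = 4) := by
  have h1 : IsCA (centralizer {y}) := by
    refine ⟨fun e => y1 (mem_bot.1 (e ▸ memC.2 rfl)), fun a ha a1 g => ⟨fun e => ?_, fun e => ?_⟩⟩
    · exact memC.2 (h.ab a a1 (hi a (memC.1 ha) a1) (fun g e => a1 (h.notU hU (memC.1 ha) g e)) g
        (memC.2 e) y (memC.2 (memC.1 ha).symm))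
    · exact h.ab y y1 (hi y rfl y1) hU g e a ha
  have h2 : Odd (Nat.card (centralizer {y})) := by
    rw [← Nat.not_even_iff_odd]
    intro e
    obtain ⟨s, s1, s2, s3⟩ := exists_involution_of_even _ e
    exact s3 (hi y rfl y1 s s2 (memC.1 s1))
  exact ⟨h1, h2, h.aut _ h1 h2 fun a ha g e => h.notU hU (memC.1 ha) g e⟩

theorem Sp.notU [Finite Γ] (h : Sp p U δ) {y : Γ} (e : y ^ ww U = 1) (g : Γ)
    (hy : g * y * g⁻¹ ∈ U) : y = 1 := by
  simpa using one_of_cop (a := g * y * g⁻¹) (m := ww U) (by rw [conj_pow, e]; simp)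
    (pow_card_mem hy) (ca_coprime h.ca)

theorem Sp.pow (h : Sp p U δ) : δ ^ ww U = 1 := h.ord ▸ pow_orderOf_eq_one δ

theorem Sp.ne (h : Sp p U δ) (h3 : 3 ≤ ww U) : δ * δ ≠ 1 := fun e => by
  have := Nat.le_of_dvd two_pos (orderOf_dvd_of_pow_eq_one ((pow_two δ).trans e))
  have := h.ord
  omega

theorem Sp.cc (h : Sp p U δ) (h5 : 5 ≤ ww U) : cc δ = ww U := by
  rw [FeitLow.cc, h.cent h5, Nat.card_zpowers, h.ord]

theorem Sp.dvd (h : Sp p U δ) : ww U ∣ FeitLow.cc δ :=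
  h.ord ▸ orderOf_dvd_of_pow_eq_one (pow_card_mem (memC.2 rfl))

variable [Fintype Γ]

theorem Sp.five' (h : Sp p U δ) (h5 : 5 ≤ ww U) {B : Subgroup Γ} (hB : IsCA B)
    (ho : Odd (Nat.card B)) (hw : ww B = 4) (hd : δ ∈ conjs B) : ww U = 5 := by
  have h1 := ca_cent hB hd
  have h2 := ww_eq h1 hB (CAEven2.self_mem_conjs fun e => h.ne (by omega) (by simp [e])) hd
  rw [h.cent h5] at h1 h2
  exact h.four h5 h1 (by rwa [← h.cc h5, hB.cc_eq hd]) (h2.trans hw)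

theorem cop_of_inv {B H : Subgroup Γ} (hB : IsCA B) (ho : Odd (Nat.card B)) (h1 : t * t = 1)
    (h2 : t ≠ 1) (hH : ∀ z ∈ H, t * z = z * t) : (Nat.card H).Coprime (Nat.card B) :=
  Nat.coprime_of_dvd fun q hq e1 e2 => by
    obtain ⟨b, hb, e, e'⟩ := exists_pow_prime _ hq e1
    exact even_cc h1 h2 (hH b hb) (by rwa [hB.cc_eq (mem_conjs_of_prime hB hq e2 e e')])

variable [DecidableEq Γ]

/-- membership in the family -/
def InF (F2 F4 : Finset (Subgroup Γ)) (y : Γ) : Prop :=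
  (∃ B ∈ F2, y ∈ conjs B) ∨ ∃ B ∈ F4, y ∈ conjs B

theorem Cm.dich [IsSimpleGroup Γ] (h : Cm p U δ t) {F2 F4 : Finset (Subgroup Γ)} (hF : Fam F2 F4) :
    (∀ y, y ≠ 1 → ∀ g, g * y * g⁻¹ ∈ U → InF F2 F4 y) ∨ Sp p U δ ∧ (ww U = 3 ∨ 5 ≤ ww U) := by
  rcases h.sp with rfl | hs
  · exact .inl fun y y1 g e => absurd (by simpa using e) y1
  have : 2 ≤ ww U := two_le h.nab hs.ca
  by_cases e : ww U = 2 ∨ ww U = 4
  · exact .inl fun y y1 g e' => hF.all U hs.ca hs.odd e y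
      (mem_conjs.2 ⟨g⁻¹, _, e', by simpa using y1, by group⟩)
  · exact .inr ⟨hs, by omega⟩

open Classical in
variable (Γ) in
/-- the non-trivial elements commuting with an involution -/
noncomputable def EE : Finset Γ := Finset.univ.filter fun y => y ≠ 1 ∧ ∃ s ∈ invs Γ, y * s = s * y

theorem mem_EE {y : Γ} : y ∈ EE Γ ↔ y ≠ 1 ∧ ∃ s ∈ invs Γ, y * s = s * y := by simp [EE]

theorem EE_even {y : Γ} (h : y ∈ EE Γ) : ¬ Odd (cc y) := by
  obtain ⟨-, s, hs, e⟩ := mem_EE.1 h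
  exact even_cc (mem_invs.1 hs).1 (mem_invs.1 hs).2 e.symm

namespace CI
variable (h : CI p U δ t A)
include h

theorem memA {y : Γ} (y2 : y * y ≠ 1) (hy : ∃ s ∈ invs Γ, y * s = s * y) :
    ∃ g, g * y * g⁻¹ ∈ A := by
  obtain ⟨s, hs, e⟩ := hy
  obtain ⟨g, hg⟩ := h.loc (mem_invs.1 hs).1 (mem_invs.1 hs).2 e.symm
  exact ⟨g, by_contra fun e' => y2 (by simpa using h.out _ hg e')⟩

theorem ccA {y : Γ} (y2 : y * y ≠ 1) (hy : ∃ s ∈ invs Γ, y * s = s * y) :
    cc y = Nat.card A := by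
  obtain ⟨g, hg⟩ := h.memA y2 hy
  rw [← cc_conj g, cc, h.cent _ hg (by simpa using y2)]

theorem le : A ≤ centralizer {t} := fun a ha => memC.2 (h.comm a ha t h.tA)

theorem cct : cc t = Nat.card A * 2 := by
  rw [← h.idx, cc, relIndex, ← (A.subgroupOf _).card_mul_index,
    Nat.card_congr (subgroupOfEquivOfLe h.le).toEquiv]

theorem ti : t ∈ invs Γ := mem_invs.2 ⟨h.t1, h.t2⟩

theorem cls' : ∀ s ∈ invs Γ, IsConj t s := fun s hs => h.cls s (mem_invs.1 hs).1 (mem_invs.1 hs).2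

theorem ha : Nat.card Γ = Nat.card A * (2 * (invs Γ).card) := by
  rw [← card_invs h.ti h.cls', ← cc, h.cct]; ring

theorem a2 : Nat.card A % 2 = 0 := by
  by_contra e
  exact h.t2 (inv_odd (Nat.odd_iff.2 (by omega)) h.tA h.t1)

theorem he : 2 * (EE Γ).card + 2 * (invs Γ).card = Nat.card Γ := by
  classical
  have h1 := pair_count' h.cls' (fun y => y * y ≠ 1) (fun g y e => by simpa using e)
    (fun y y2 e s hs e' => (h.uniq s (h.cent y (by_contra fun e' => y2 (h.out y e e')) y2 ▸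
      memC.2 e'.symm) (mem_invs.1 hs).1).resolve_left (mem_invs.1 hs).2) h.ti
  have h2 := Finset.card_filter_add_card_filter_not (s := EE Γ) fun y => y * y = 1
  have h3 : (EE Γ).filter (fun y => y * y = 1) = invs Γ := by
    ext y
    simp only [Finset.mem_filter, mem_EE, mem_invs]
    exact ⟨fun e => ⟨e.2, e.1.1⟩, fun e => ⟨⟨e.2, y, e, rfl⟩, e.1⟩⟩
  have h4 : (EE Γ).filter (fun y => ¬ y * y = 1) =
      Finset.univ.filter fun y => y * y ≠ 1 ∧ ∃ s ∈ invs Γ, y * s = s * y := by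
    ext y
    simp only [Finset.mem_filter, mem_EE, Finset.mem_univ, true_and]
    exact ⟨fun e => ⟨e.2, e.1.2⟩, fun e => ⟨⟨fun e' => e.1 (by simp [e']), e.2⟩, e.1⟩⟩
  have h5 : (Finset.univ.filter fun y => y * y ≠ 1 ∧ y * t = t * y).card + 2 = Nat.card A := by
    have e1 : (Finset.univ.filter fun y => y ∈ A) =
        (Finset.univ.filter fun y => y * y ≠ 1 ∧ y * t = t * y) ∪ {1, t} := by
      ext y
      simp only [Finset.mem_filter, Finset.mem_univ, true_and, Finset.mem_union, Finset.mem_insert,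
        Finset.mem_singleton]
      refine ⟨fun e => ?_, ?_⟩
      · by_cases e' : y * y = 1
        · exact .inr (h.uniq y e e')
        · exact .inl ⟨e', h.comm y e t h.tA⟩
      · rintro (e | rfl | rfl)
        · exact by_contra fun e' => e.1 (h.out y e.2 e')
        · exact one_mem _
        · exact h.tA
    rw [Nat.card_eq_fintype_card, Fintype.card_subtype, e1, Finset.card_union_of_disjoint,
      Finset.card_pair h.t2.symm]
    simp [h.t1]
  rw [h3, h4, h1] at h2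
  rw [h.ha, ← h2, ← h5]; ring

theorem re {y : Γ} (hy : y = 1 ∨ y ∈ EE Γ) : Re y := by
  by_cases y2 : y * y = 1
  · exact Re.sq y2
  obtain ⟨g, hg⟩ := h.memA y2 (mem_EE.1 (hy.resolve_left fun e => y2 (by simp [e]))).2
  obtain ⟨s, h1, h2⟩ : ∃ s ∈ centralizer {t}, s ∉ A := by
    by_contra! e
    have := relIndex_eq_one.2 (show centralizer {t} ≤ A from e)
    rw [h.idx] at this
    omega
  have h3 := h.out s (memC.1 h1) h2
  have h4 := h.out _ (memC.1 (mul_mem h1 (h.le hg))) fun e => h2 ((mul_mem_cancel_right hg).1 e)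
  have : Re (g * y * g⁻¹) := ⟨s, eq_inv_of_mul_eq_one_left (by
    rw [inv_eq_of_mul_eq_one_right h3, mul_assoc, h4])⟩
  simpa [mul_assoc] using this.conj g⁻¹

theorem a4 {B : Subgroup Γ} (hB : IsCA B ∧ Odd (Nat.card B) ∧ ww B = 4) : 4 ∣ Nat.card A := by
  obtain ⟨y, y4, y2⟩ := ord4 hB.1 hB.2.1 hB.2.2
  obtain ⟨g, hg⟩ := h.memA y2 ⟨y * y, mem_invs.2 ⟨by rw [← y4, pow_succ, pow_three']; group, y2⟩, mul_assoc y y y ▸ rfl⟩
  haveI : Fact (Nat.Prime 2) := ⟨Nat.prime_two⟩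
  have : orderOf (g * y * g⁻¹) = 2 ^ (1 + 1) :=
    orderOf_eq_prime_pow (by simpa [pow_two] using y2) (by rw [conj_pow]; simp [y4])
  exact (this.symm.trans (orderOf_coe (⟨_, hg⟩ : A))).dvd.trans (orderOf_dvd_natCard _)

theorem cop {B : Subgroup Γ} (hB : IsCA B) (ho : Odd (Nat.card B)) :
    (Nat.card A).Coprime (Nat.card B) :=
  cop_of_inv hB ho h.t1 h.t2 (h.comm t h.tA)

theorem cover {F2 F4 : Finset (Subgroup Γ)} (hF : Fam F2 F4) (y : Γ) (y1 : y ≠ 1)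
    (hU : ∀ g, g * y * g⁻¹ ∉ U) : y ∈ EE Γ ∨ InF F2 F4 y := by
  refine or_iff_not_imp_left.2 fun hE => ?_
  have hi : ∀ s, s * s = 1 → s * y = y * s → s = 1 := fun s s1 e => by_contra fun s2 =>
    hE (mem_EE.2 ⟨y1, s, mem_invs.2 ⟨s1, s2⟩, e.symm⟩)
  obtain ⟨h1, h2, h3⟩ := h.ca y1 hU fun a e a1 s s1 e' => by_contra fun s2 => by
    have a2 : a * a ≠ 1 := fun e' => a1 (hi a e' e)
    obtain ⟨g, hg⟩ := h.memA a2 ⟨s, mem_invs.2 ⟨s1, s2⟩, e'.symm⟩
    have h1 : g * y * g⁻¹ ∈ A := h.cent _ hg (by simpa using a2) ▸ memC.2 (by simp [e])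
    exact h.t2 (conj_eq_one_iff.1 (hi (g⁻¹ * t * g⁻¹⁻¹) (by simp [mul_assoc, ← mul_assoc t, h.t1])
      (cj_comm.2 (by simpa using h.comm _ h1 t h.tA)).symm))
  exact hF.all _ h1 h2 h3 y (CAEven2.self_mem_conjs y1)

theorem eqs {F2 F4 : Finset (Subgroup Γ)} (hF : Fam F2 F4) (V : Finset Γ)
    (hc : ∀ y, y ≠ 1 → ∀ g, g * y * g⁻¹ ∈ U → InF F2 F4 y ∨ y ∈ V)
    (h2 : ∀ y ∈ V, y ≠ 1 ∧ Odd (cc y))
    (h3 : ∀ B, IsCA B → ww B = 2 ∨ ww B = 4 → Disjoint (conjs B) V) :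
    Nat.card Γ = 1 + (EE Γ).card + (∑ B ∈ F2, (conjs B).card + ∑ B ∈ F4, (conjs B).card) + V.card ∧
    (invs Γ).card * (invs Γ).card ≤ (invs Γ).card + 2 * Nat.card A * (EE Γ).card +
      (∑ B ∈ F2, Nat.card B * (conjs B).card + ∑ B ∈ F4, Nat.card B * (conjs B).card) +
      ∑ y ∈ V, cc y := by
  have key := hF.split (insert 1 (EE Γ)) V (fun y => by
      by_cases y1 : y = 1
      · simp [y1]
      by_cases hU : ∀ g, g * y * g⁻¹ ∉ U
      · exact (h.cover hF y y1 hU).imp Finset.mem_insert_of_mem .inl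
      · push Not at hU
        exact .inr (hU.elim (hc y y1)))
    (fun B hB ho => Finset.disjoint_left.2 fun y hy hy' => (Finset.mem_insert.1 hy).elim
      (fun e => one_notMem_conjs B (e ▸ hy')) fun e => EE_even e (by rwa [hB.cc_eq hy']))
    (Finset.disjoint_left.2 fun y hy hy' => (Finset.mem_insert.1 hy).elim (h2 y hy').1
      fun e => EE_even e (h2 y hy').2) h3
  have n1 : (1 : Γ) ∉ EE Γ := fun e => (mem_EE.1 e).1 rfl
  constructor
  · simpa [Finset.card_insert_of_notMem n1, add_comm (EE Γ).card] using key fun _ => 1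
  · have := key jj
    rw [sum_jj, Finset.sum_insert n1, jj_one, pow_two] at this
    rw [this]
    gcongr with B hB B hB y hy
    · rw [mul_comm, ← smul_eq_mul]
      refine Finset.sum_le_card_nsmul _ _ _ fun y hy => (jj_le_cc y).trans ?_
      by_cases y2 : y * y = 1
      · obtain ⟨g, rfl⟩ := isConj_iff.1 (h.cls y y2 (mem_EE.1 hy).1)
        rw [cc_conj, h.cct, mul_comm]
      · rw [h.ccA y2 (mem_EE.1 hy).2]; omega
    · exact sum_cc (hF.h2 B hB).1 ▸ Finset.sum_le_sum fun y _ => jj_le_cc y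
    · exact sum_cc (hF.h4 B hB).1 ▸ Finset.sum_le_sum fun y _ => jj_le_cc y
    · exact jj_le_cc y

end CI

end Cfsg.Agent.O5
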