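import Cfsg.Agent.O5.BC3

/-!
Case B: the counting argument for a dihedral involution centraliser, conclusion.
-/

set_option autoImplicit false
set_option maxHeartbeats 400000
set_option linter.unusedSectionVars false

namespace Cfsg.Agent.O5

open Subgroup Cfsg.Agent.H4 Cfsg.Agent.H4.CABasic Cfsg.Agent.H4.FeitLow
  Cfsg.Agent.H4.Basic Cfsg.Agent.H6.MG Cfsg.Agent.O5.Num Cfsg.Agent.O5.Cnt

variable {Γ : Type*} [Group Γ] {p : ℕ} {U A : Subgroup Γ} {δ t x : Γ}

section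
variable [Fintype Γ] [DecidableEq Γ] {F2 F4 : Finset (Subgroup Γ)}

theorem Cnt.Fam.cl2 (hF : Fam F2 F4) {B : Subgroup Γ} (hB : B ∈ F2) :
    Cl (Nat.card Γ) (Nat.card B) 2 (normalizer (B : Set Γ)).index (conjs B).card :=
  cl_of (hF.h2 B hB).1 (hF.h2 B hB).2.1 (hF.h2 B hB).2.2

theorem Cnt.Fam.cl4 (hF : Fam F2 F4) {B : Subgroup Γ} (hB : B ∈ F4) :
    Cl (Nat.card Γ) (Nat.card B) 4 (normalizer (B : Set Γ)).index (conjs B).card :=
  cl_of (hF.h4 B hB).1 (hF.h4 B hB).2.1 (hF.h4 B hB).2.2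

theorem Cnt.Fam.c22 (hF : Fam F2 F4) {B B' : Subgroup Γ} (hB : B ∈ F2) (hB' : B' ∈ F2) (e : B ≠ B') :
    (Nat.card B).Coprime (Nat.card B') :=
  CAEven2.coprime (hF.h2 B hB).1 (hF.h2 B' hB').1 (hF.d2 B hB B' hB' e)

theorem Cnt.Fam.c44 (hF : Fam F2 F4) {B B' : Subgroup Γ} (hB : B ∈ F4) (hB' : B' ∈ F4) (e : B ≠ B') :
    (Nat.card B).Coprime (Nat.card B') :=
  CAEven2.coprime (hF.h4 B hB).1 (hF.h4 B' hB').1 (hF.d4 B hB B' hB' e)

theorem cww {B B' : Subgroup Γ} (hB : IsCA B) (hB' : IsCA B') (e : ww B ≠ ww B') :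
    (Nat.card B).Coprime (Nat.card B') := CAEven2.coprime hB hB' (dj hB hB' e)

theorem dvd4 {n a b c d : ℕ} (ha : a ∣ n) (hb : b ∣ n) (hc : c ∣ n) (hd : d ∣ n) (h1 : a.Coprime b)
    (h2 : a.Coprime c) (h3 : a.Coprime d) (h4 : b.Coprime c) (h5 : b.Coprime d) (h6 : c.Coprime d) :
    a * b * c * d ∣ n :=
  ((h3.mul_left h5).mul_left h6).mul_dvd_of_dvd_of_dvd (dvd3 ha hb hc h1 h2 h4) hd

variable [IsSimpleGroup Γ] [DecidableEq (Subgroup Γ)]

theorem CI.psl (h : CI p U δ t A) (hs : Sp p U δ) {B : Subgroup Γ} (hF : Fam {B} ∅)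
    (hk : (normalizer (U : Set Γ)).index = Nat.card U + 1 ∧ 2 * ww U = Nat.card U - 1)
    (F : Type) [Field F] [Fintype F] (hc : Fintype.card F = Nat.card U) :
    Nonempty (Γ ≃* Matrix.ProjectiveSpecialLinearGroup (Fin 2) F) := by
  refine psl_of_ca' hs.ca hk.1 rfl hk.2 ⟨Nat.card A * (invs Γ).card, by rw [h.ha]; ring⟩
    (fun y hy => ?_) hs.comm_mem F hc
  by_cases y1 : y = 1
  · exact h.re (.inl y1)
  rcases h.cover hF y y1 fun g e => y1 (hs.notU hy g e) with e | ⟨B', h1, h2⟩ | ⟨B', h1, -⟩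
  · exact h.re (.inr e)
  · exact real2 (hF.h2 B' h1).1 (hF.h2 B' h1).2.2 h2
  · simp at h1

theorem CI.plain (h : CI p U δ t A) (hF : Fam F2 F4)
    (hc : ∀ y, y ≠ 1 → ∀ g, g * y * g⁻¹ ∈ U → InF F2 F4 y) :
    Nat.card Γ = 60 ∨ Nonempty (Γ ≃* alternatingGroup (Fin 6)) := by
  have eq := (h.eqs hF ∅ (fun y y1 g e => .inl (hc y y1 g e)) (by simp) (by simp)).1
  rw [Finset.card_empty, add_zero] at eq
  have ha := h.ha; have he := h.he; have a2 := h.a2
  have i0 : 0 < (invs Γ).card := Finset.card_pos.2 ⟨t, h.ti⟩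
  have s2 := sizes F2 (fun B => (conjs B).card) fun B hB => (hF.cl2 hB).two
  have s4 := sizes F4 (fun B => (conjs B).card) fun B hB => (hF.cl4 hB).four
  have a4 : F4.card ≠ 0 → 4 ∣ Nat.card A := fun e =>
    (Finset.card_ne_zero.1 e).elim fun B hB => h.a4 (hF.h4 B hB)
  have a0 : 0 < Nat.card A := Nat.card_pos
  have t2 := (tab ha 2).2 (by omega)
  have t4 : F4.card ≠ 0 → _ := fun e => (tab ha 4).2 (Nat.le_of_dvd a0 (a4 e))
  have k : (F2.card = 2 ∧ F4.card = 0) ∨ (F2.card = 1 ∧ F4.card = 1) ∨ (F2.card = 0 ∧ F4.card = 3) := by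
    clear a4 ha a2 a0
    rcases s2 with s2 | s2 | s2 | s2 | s2 <;> rcases s4 with s4 | s4 | s4 | s4 | s4 <;> omega
  clear s2 s4 t2 t4
  rcases k with ⟨k2, k4⟩ | ⟨k2, k4⟩ | ⟨k2, k4⟩
  · obtain ⟨B, B', e, rfl⟩ := Finset.card_eq_two.1 k2
    obtain rfl := Finset.card_eq_zero.1 k4
    rw [Finset.sum_pair e, Finset.sum_empty, add_zero] at eq
    exact .inl (n22 ha he a2 i0 (hF.cl2 (B := B) (by simp)) (hF.cl2 (B := B') (by simp))
      (hF.c22 (by simp) (by simp) e) eq)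
  · obtain ⟨B, rfl⟩ := Finset.card_eq_one.1 k2
    obtain ⟨B', rfl⟩ := Finset.card_eq_one.1 k4
    rw [Finset.sum_singleton, Finset.sum_singleton] at eq
    have h1 := hF.h2 B (by simp)
    have h2 := hF.h4 B' (by simp)
    obtain ⟨e1, e2⟩ := n24 ha he a2 i0 (a4 (by omega)) (hF.cl2 (B := B) (by simp))
      (hF.cl4 (B := B') (by simp)) (cww h1.1 h2.1 (by omega)) (h.cop h1.1 h1.2.1) eq
    refine .inr (simple360 e1 h2.1 e2 h2.2.2 fun y y4 => ?_)
    by_cases y2 : y * y = 1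
    · exact Re.sq y2
    · exact h.re (.inr (mem_EE.2 ⟨fun e => y2 (by simp [e]), y * y,
        mem_invs.2 ⟨by rw [← y4, pow_succ, pow_three']; group, y2⟩, mul_assoc y y y ▸ rfl⟩))
  · obtain ⟨B, B', B'', e1, e2, e3, rfl⟩ := Finset.card_eq_three.1 k4
    obtain rfl := Finset.card_eq_zero.1 k2
    rw [Finset.sum_insert (by simp [e1, e2]), Finset.sum_pair e3, Finset.sum_empty, zero_add,
      ← add_assoc (conjs B).card] at eq
    exact (n444 ha he a2 i0 (a4 (by omega)) (hF.cl4 (B := B) (by simp)) (hF.cl4 (B := B') (by simp))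
      (hF.cl4 (B := B'') (by simp)) (hF.c44 (by simp) (by simp) e1) (hF.c44 (by simp) (by simp) e2)
      (hF.c44 (by simp) (by simp) e3) eq).elim

theorem CI.special (h : CI p U δ t A) (hF : Fam F2 F4) (hs : Sp p U δ) (hw : ww U = 3 ∨ 5 ≤ ww U)
    (F : Type) [Field F] [Fintype F] (hc : Fintype.card F = Nat.card U) :
    Nonempty (Γ ≃* Matrix.ProjectiveSpecialLinearGroup (Fin 2) F) := by
  obtain ⟨eq, jj⟩ := h.eqs hF (conjs U)
    (fun y y1 g e => .inr (mem_conjs.2 ⟨g⁻¹, _, e, by simpa using y1, by group⟩))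
    (fun y hy => ⟨fun e => one_notMem_conjs U (e ▸ hy), by rw [hs.ca.cc_eq hy]; exact hs.odd⟩)
    (fun B hB e => dj hB hs.ca (by omega))
  rw [sum_cc hs.ca] at jj
  have ha := h.ha; have he := h.he; have a2 := h.a2
  have i0 : 0 < (invs Γ).card := Finset.card_pos.2 ⟨t, h.ti⟩
  have a4 : F4.card ≠ 0 → 4 ∣ Nat.card A := fun e =>
    (Finset.card_ne_zero.1 e).elim fun B hB => h.a4 (hF.h4 B hB)
  have a0 : 0 < Nat.card A := Nat.card_pos
  have t2 := (tab ha 2).2 (by omega)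
  have t4 : F4.card ≠ 0 → _ := fun e => (tab ha 4).2 (Nat.le_of_dvd a0 (a4 e))
  have d2 := hs.ne (by omega)
  have d1 : δ ≠ 1 := fun e => d2 (by simp [e])
  have hd := h.cover hF δ d1 fun g e => d1 (hs.notU hs.pow g e)
  have cU := h.cop hs.ca hs.odd
  have cl := cl_of hs.ca hs.odd rfl
  have c2 : ∀ B ∈ F2, (Nat.card B).Coprime (Nat.card U) := fun B hB =>
    cww (hF.h2 B hB).1 hs.ca (by have := (hF.h2 B hB).2.2; omega)
  have c4 : ∀ B ∈ F4, (Nat.card B).Coprime (Nat.card U) := fun B hB =>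
    cww (hF.h4 B hB).1 hs.ca (by have := (hF.h4 B hB).2.2; omega)
  have cA2 : ∀ B ∈ F2, (Nat.card A).Coprime (Nat.card B) := fun B hB =>
    h.cop (hF.h2 B hB).1 (hF.h2 B hB).2.1
  have cA4 : ∀ B ∈ F4, (Nat.card A).Coprime (Nat.card B) := fun B hB =>
    h.cop (hF.h4 B hB).1 (hF.h4 B hB).2.1
  have s2 := sizes F2 (fun B => (conjs B).card) fun B hB => (hF.cl2 hB).two
  have s4 := sizes F4 (fun B => (conjs B).card) fun B hB => (hF.cl4 hB).four
  have dA : 2 * Nat.card A ∣ Nat.card Γ := ⟨(invs Γ).card, by rw [ha]; ring⟩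
  rcases hw with hw | hw
  · rw [hw] at cl
    have h3 := cl.three
    have h4 : 3 ∣ cc δ := hw ▸ hs.dvd
    have k : (F2.card = 1 ∧ F4.card = 0) ∨ (F2.card = 0 ∧ F4.card = 1) := by
      clear * - s2 s4 h3 t2 t4 eq he i0
      rcases s2 with s2 | s2 | s2 | s2 | s2 <;> rcases s4 with s4 | s4 | s4 | s4 | s4 <;> omega
    clear s2 s4 t2 t4
    rcases k with ⟨k2, k4⟩ | ⟨k2, k4⟩
    · obtain ⟨B, rfl⟩ := Finset.card_eq_one.1 k2
      obtain rfl := Finset.card_eq_zero.1 k4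
      rw [Finset.sum_singleton, Finset.sum_empty, add_zero] at eq
      refine h.psl hs hF (hw ▸ n32 ha he a2 i0 (hF.cl2 (B := B) (by simp)) cl ?_ eq) F hc
      rcases hd with e | ⟨B', h1, h2⟩ | ⟨B', h1, -⟩
      · exact .inl (h.ccA d2 (mem_EE.1 e).2 ▸ h4)
      · obtain rfl := Finset.mem_singleton.1 h1
        exact .inr ((hF.h2 B' h1).1.cc_eq h2 ▸ h4)
      · simp at h1
    · obtain ⟨B, rfl⟩ := Finset.card_eq_one.1 k4
      obtain rfl := Finset.card_eq_zero.1 k2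
      rw [Finset.sum_singleton, Finset.sum_empty, zero_add] at eq jj
      refine (n34 ha he a2 i0 (a4 (by omega)) (hF.cl4 (B := B) (by simp)) cl ?_ (cA4 B (by simp)) cU
        (c4 B (by simp)) eq jj).elim
      rcases hd with e | ⟨B', h1, -⟩ | ⟨B', h1, h2⟩
      · exact .inl (h.ccA d2 (mem_EE.1 e).2 ▸ h4)
      · simp at h1
      · obtain rfl := Finset.mem_singleton.1 h1
        exact .inr ((hF.h4 B' h1).1.cc_eq h2 ▸ h4)
  have hcc := hs.cc hw
  have u1 : ww U + 1 ≤ Nat.card U := by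
    have := Nat.le_of_dvd (by have := cl.one; omega) cl.dv; have := cl.one; omega
  have k0 := cl.pos
  rcases hd with e | ⟨B, h1, h2⟩ | ⟨B, h1, h2⟩
  · have e1 : ww U = Nat.card A := hcc ▸ h.ccA d2 (mem_EE.1 e).2
    rw [e1] at cl hw u1
    have e5 : (conjs U).card + (normalizer (U : Set Γ)).index = 2 * (invs Γ).card := by
      apply Nat.eq_of_mul_eq_mul_left a0; have := cl.e2; linarith
    have e6 : Nat.card U * (normalizer (U : Set Γ)).index = 2 * (invs Γ).card := by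
      apply Nat.eq_of_mul_eq_mul_left a0; have := cl.e1; linarith
    have e7 := (tab e6.symm 7).2 (by omega)
    have t6 := (tab ha 6).2 (by omega)
    have k : (F2.card = 1 ∧ F4.card = 0) ∨ (F2.card = 0 ∧ F4.card = 2) := by
      clear * - s2 s4 e5 e7 t6 eq he i0 k0
      rcases s2 with s2 | s2 | s2 | s2 | s2 <;> rcases s4 with s4 | s4 | s4 | s4 | s4 <;> omega
    clear s2 s4 t2 t4
    rcases k with ⟨k2, k4⟩ | ⟨k2, k4⟩
    · obtain ⟨B, rfl⟩ := Finset.card_eq_one.1 k2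
      obtain rfl := Finset.card_eq_zero.1 k4
      rw [Finset.sum_singleton, Finset.sum_empty, add_zero] at eq
      exact h.psl hs hF (e1 ▸ na2 ha he a2 i0 (hF.cl2 (B := B) (by simp)) cl (by omega)
        (cA2 B (by simp)) cU (c2 B (by simp)) eq) F hc
    · obtain ⟨B, B', e, rfl⟩ := Finset.card_eq_two.1 k4
      obtain rfl := Finset.card_eq_zero.1 k2
      rw [Finset.sum_pair e, Finset.sum_empty, zero_add] at eq jj
      have b1 := hF.cl4 (B := B) (by simp)
      have b2 := hF.cl4 (B := B') (by simp)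
      exact (na44 ha he a2 i0 b1 b2 cl hw (dvd4 dA b1.dvd b2.dvd cl.dvd (b1.cop2 (cA4 B (by simp)))
        (b2.cop2 (cA4 B' (by simp))) (cl.cop2 cU) (hF.c44 (by simp) (by simp) e) (c4 B (by simp))
        (c4 B' (by simp))) eq jj).elim
  · have e1 : ww U = Nat.card B := hcc ▸ (hF.h2 B h1).1.cc_eq h2
    rw [e1] at cl hw u1
    have b1 := hF.cl2 h1
    have e5 : (conjs U).card + (normalizer (U : Set Γ)).index = 2 * (normalizer (B : Set Γ)).index := by
      apply Nat.eq_of_mul_eq_mul_left (show 0 < Nat.card B by omega)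
      have := cl.e2; have := b1.e1; linarith
    have e6 : Nat.card U * (normalizer (U : Set Γ)).index = 2 * (normalizer (B : Set Γ)).index := by
      apply Nat.eq_of_mul_eq_mul_left (show 0 < Nat.card B by omega)
      have := cl.e1; have := b1.e1; linarith
    have e7 := (tab e6.symm 6).2 (by omega)
    have e8 := b1.e2
    have s2' := sizes (F2.erase B) (fun B => (conjs B).card)
      fun B hB => (hF.cl2 (Finset.mem_of_mem_erase hB)).two
    have e9 := Finset.add_sum_erase F2 (fun B => (conjs B).card) h1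
    have k : (F2.erase B).card = 0 ∧ F4.card = 0 := by
      clear * - s2' s4 e5 e7 e8 e9 t2 t4 eq he i0 k0
      rcases s2' with s2 | s2 | s2 | s2 | s2 <;> rcases s4 with s4 | s4 | s4 | s4 | s4 <;> omega
    obtain rfl := Finset.card_eq_zero.1 k.2
    obtain rfl : F2 = {B} := by rw [← Finset.insert_erase h1, Finset.card_eq_zero.1 k.1]; rfl
    rw [Finset.sum_singleton, Finset.sum_empty, add_zero] at eq
    exact h.psl hs hF (e1 ▸ nb2 ha he a2 i0 b1 cl (cA2 B h1) cU (c2 B h1) eq) F hc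
  · have e0 := hs.five' hw (hF.h4 B h1).1 (hF.h4 B h1).2.1 (hF.h4 B h1).2.2 h2
    have e1 : Nat.card B = 5 := e0 ▸ hcc ▸ ((hF.h4 B h1).1.cc_eq h2).symm
    rw [e0] at cl u1
    have b1 := hF.cl4 h1
    rw [e1] at b1
    have e5 := cl.e2
    have e7 := (tab cl.e1 11).2 (by have := cl.dv; have := cl.odd; omega)
    have e8 := b1.e2
    have e8' := b1.e1
    have s4' := sizes (F4.erase B) (fun B => (conjs B).card)
      fun B hB => (hF.cl4 (Finset.mem_of_mem_erase hB)).four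
    have e9 := Finset.add_sum_erase F4 (fun B => (conjs B).card) h1
    have k4 : F4.card ≠ 0 := Finset.card_ne_zero.2 ⟨B, h1⟩
    have t4' := t4 k4
    have k : F2.card = 0 ∧ (F4.erase B).card = 1 := by
      clear * - s2 s4' e5 e7 e8 e8' e9 t4' eq he i0 k0
      rcases s2 with s2 | s2 | s2 | s2 | s2 <;> rcases s4' with s4 | s4 | s4 | s4 | s4 <;> omega
    obtain rfl := Finset.card_eq_zero.1 k.1
    obtain ⟨B', hB'⟩ := Finset.card_eq_one.1 k.2
    have m : B' ∈ F4.erase B := by simp [hB']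
    rw [← e9, hB', Finset.sum_singleton, Finset.sum_empty, zero_add] at eq
    have m' := Finset.mem_of_mem_erase m
    have b2 := hF.cl4 m'
    have c0 := hF.c44 h1 m' (Finset.ne_of_mem_erase m).symm
    exact (nb4 ha he a2 i0 (a4 k4) b1 b2 cl (e1 ▸ c0) (dvd4 dA b1.dvd b2.dvd cl.dvd
      (b1.cop2 (e1 ▸ cA4 B h1)) (b2.cop2 (cA4 B' m')) (cl.cop2 cU) (e1 ▸ c0) (e1 ▸ c4 B h1)
      (c4 B' m')) eq).elim

end

theorem CI.count [Finite Γ] [IsSimpleGroup Γ] (h : CI p U δ t A) :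
    Nat.card Γ = 60 ∨ Nonempty (Γ ≃* alternatingGroup (Fin 6)) ∨
      (Sp p U δ ∧ ∀ (F : Type) [Field F] [Fintype F], Fintype.card F = Nat.card U →
        Nonempty (Γ ≃* Matrix.ProjectiveSpecialLinearGroup (Fin 2) F)) := by
  classical
  haveI := Fintype.ofFinite Γ
  obtain ⟨F2, F4, hF⟩ := exists_fam Γ
  rcases h.dich hF with e | ⟨hs, hw⟩
  · exact (h.plain hF e).imp_right .inl
  · exact .inr (.inr ⟨hs, h.special hF hs hw⟩)

end Cfsg.Agent.O5
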