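import Cfsg.Agent.O5.BC4
import Cfsg.Agent.Rk1.FcA

/-!
Case B: the counting argument for an involution centraliser of order 24.
-/

set_option autoImplicit false
set_option maxHeartbeats 400000
set_option linter.unusedSectionVars false

namespace Cfsg.Agent.O5

open Subgroup Cfsg.Agent.H4 Cfsg.Agent.H4.CABasic Cfsg.Agent.H4.FeitLow
  Cfsg.Agent.H4.Basic Cfsg.Agent.H6.MG Cfsg.Agent.O5.Num Cfsg.Agent.O5.Cnt

variable {Γ : Type*} [Group Γ] {p : ℕ} {U : Subgroup Γ} {δ t x : Γ}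

theorem Cnt.inv_pow_uniq {y : Γ} {m n : ℕ} (h1 : y ^ m * y ^ m = 1) (h2 : y ^ m ≠ 1)
    (h3 : y ^ n * y ^ n = 1) (h4 : y ^ n ≠ 1) : y ^ m = y ^ n := by
  rw [← pow_add, ← orderOf_dvd_iff_pow_eq_one] at h1 h3
  rw [Ne, ← orderOf_dvd_iff_pow_eq_one] at h2 h4
  have key : ∀ {m : ℕ}, orderOf y ∣ m + m → ¬ orderOf y ∣ m → ∃ k, m + m = orderOf y * (2 * k + 1) := by
    rintro m ⟨k, hk⟩ h
    rcases Nat.even_or_odd' k with ⟨l, rfl | rfl⟩
    · exact absurd ⟨l, by linarith⟩ h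
    · exact ⟨l, hk⟩
  obtain ⟨k, hk⟩ := key h1 h2
  obtain ⟨l, hl⟩ := key h3 h4
  have e1 : y ^ m * y ^ n = 1 := by
    rw [← pow_add, ← orderOf_dvd_iff_pow_eq_one]; exact ⟨k + l + 1, by linarith⟩
  have e2 : y ^ n * y ^ n = 1 := by rwa [← pow_add, ← orderOf_dvd_iff_pow_eq_one]
  exact mul_right_cancel (e1.trans e2.symm)

variable [Fintype Γ] [DecidableEq Γ]

open Classical in
variable (Γ) in
/-- the elements of even order -/
noncomputable def Ev : Finset Γ := Finset.univ.filter fun y => ∃ n : ℕ, y ^ n ∈ invs Γ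

open Classical in
/-- the class of `x` -/
noncomputable def RR (x : Γ) : Finset Γ := Finset.univ.filter fun y => IsConj x y

open Classical in
variable (Γ) in
/-- the remaining `3`-elements -/
noncomputable def Y3 : Finset Γ := Finset.univ.filter fun y => Odd (cc y) ∧ 3 ∣ cc y

theorem mem_Ev {y : Γ} : y ∈ Ev Γ ↔ ∃ n : ℕ, y ^ n ∈ invs Γ := by simp [Ev]
theorem mem_RR {y : Γ} : y ∈ RR x ↔ IsConj x y := by
  rw [RR, Finset.mem_filter, and_iff_right (Finset.mem_univ _)]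
theorem mem_Y3 {y : Γ} : y ∈ Y3 Γ ↔ Odd (cc y) ∧ 3 ∣ cc y := by simp [Y3]

theorem Ev_even {y : Γ} (h : y ∈ Ev Γ) : ¬ Odd (cc y) := by
  obtain ⟨n, hn⟩ := mem_Ev.1 h
  exact even_cc (mem_invs.1 hn).1 (mem_invs.1 hn).2 (Commute.pow_self y n)

theorem card_RR (x : Γ) : (RR x).card * cc x = Nat.card Γ := by
  rw [← class_mul_cc x, ← Set.ncard_coe_finset]
  congr 2
  ext y
  exact mem_RR

namespace CII
variable (h : CII p U δ t x)
include h

theorem cls' : ∀ s ∈ invs Γ, IsConj t s := fun s hs => h.cls s (mem_invs.1 hs).1 (mem_invs.1 hs).2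

theorem hi : Nat.card Γ = 24 * (invs Γ).card := by
  rw [← card_invs (mem_invs.2 ⟨h.t1, h.t2⟩) h.cls', h.ct, mul_comm]

theorem hr : Nat.card Γ = 36 * (RR x).card := by rw [← card_RR x, cc, h.cx, mul_comm]

theorem ccR {y : Γ} (hy : IsConj x y) : cc y = 36 := by
  obtain ⟨g, rfl⟩ := isConj_iff.1 hy
  rw [cc_conj, cc, h.cx]

theorem cube {y : Γ} (hy : IsConj x y) : y ^ 3 = 1 := by
  obtain ⟨g, rfl⟩ := isConj_iff.1 hy
  rw [conj_pow, h.x3]; simp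

theorem card_Ev : (Ev Γ).card = 9 * (invs Γ).card := by
  classical
  have e : Ev Γ = (invs Γ).biUnion fun s => Finset.univ.filter fun y => ∃ n : ℕ, y ^ n = s := by
    ext y
    simp only [mem_Ev, Finset.mem_biUnion, Finset.mem_filter, Finset.mem_univ, true_and]
    exact ⟨fun ⟨n, hn⟩ => ⟨_, hn, n, rfl⟩, fun ⟨s, hs, n, e⟩ => ⟨n, e ▸ hs⟩⟩
  rw [e, Finset.card_biUnion, mul_comm, ← smul_eq_mul, ← Finset.sum_const]
  · refine Finset.sum_congr rfl fun s hs => ?_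
    obtain ⟨g, rfl⟩ := isConj_iff.1 (h.cls' s hs)
    rw [← h.ev, ← Set.ncard_coe_finset, ← Set.ncard_image_of_injective
      {y : Γ | ∃ n : ℕ, y ^ n = t} (MulAut.conj g).injective]
    congr 1
    ext y
    simp only [Finset.coe_filter, Finset.mem_univ, true_and, Set.mem_setOf_eq, Set.mem_image,
      MulAut.conj_apply]
    exact ⟨fun ⟨n, hn⟩ => ⟨g⁻¹ * y * g⁻¹⁻¹, ⟨n, by rw [conj_pow, hn]; group⟩, by group⟩,
      fun ⟨z, ⟨n, hn⟩, e⟩ => ⟨n, by rw [← e, conj_pow, hn]⟩⟩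
  · intro s hs s' hs' e
    refine Finset.disjoint_left.2 fun y hy hy' => e ?_
    obtain ⟨n, rfl⟩ := (Finset.mem_filter.1 hy).2
    obtain ⟨m, rfl⟩ := (Finset.mem_filter.1 hy').2
    exact inv_pow_uniq (mem_invs.1 hs).1 (mem_invs.1 hs).2 (mem_invs.1 hs').1 (mem_invs.1 hs').2

theorem ex' {y s : Γ} (h1 : s * s = 1) (h2 : s ≠ 1) (e : s * y = y * s) :
    (y ^ 4 = 1 ∨ y ^ 6 = 1) ∧ (y ^ 3 = 1 → y ≠ 1 → IsConj x y) := by
  obtain ⟨g, hg⟩ := h.loc h1 h2 e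
  refine ⟨by simpa [conj_pow] using h.ex _ hg, fun y3 y1 => ?_⟩
  have c : IsConj (g * y * g⁻¹) y := (isConj_iff.2 ⟨g, rfl⟩).symm
  rcases h.three _ hg (by rw [conj_pow, y3]; simp) with e | e | e
  · exact absurd (by simpa using e) y1
  · exact e ▸ c
  · exact h.real.trans (e ▸ c)

theorem not3 {B : Subgroup Γ} (hB : IsCA B) (ho : Odd (Nat.card B)) : ¬ 3 ∣ Nat.card B := fun e =>
  even_cc h.t1 h.t2 h.xt.symm (by
    rwa [hB.cc_eq (mem_conjs_of_prime hB Nat.prime_three e h.x3 h.x1)])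

theorem cop {B : Subgroup Γ} (hB : IsCA B) (ho : Odd (Nat.card B)) :
    Nat.Coprime 72 (Nat.card B) :=
  Nat.Coprime.mul_left (m := 2 ^ 3) (n := 3 ^ 2) ((Nat.coprime_two_left.2 ho).pow_left 3)
    ((Nat.prime_three.coprime_iff_not_dvd.2 (h.not3 hB ho)).pow_left 2)

theorem sylx {y : Γ} {k : ℕ} (hy : y ^ 3 ^ k = 1) : ∃ x', IsConj x x' ∧ x' * y = y * x' := by
  haveI : Fact (Nat.Prime 3) := ⟨Nat.prime_three⟩
  obtain ⟨S, hS⟩ := (isPGroup_zpowers hy).exists_le_sylow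
  obtain ⟨g, hg⟩ := exists_conj_mem (k := 1) S (by rw [pow_one]; exact h.x3)
  exact ⟨_, isConj_iff.2 ⟨g, rfl⟩, h.syl S S.isPGroup' _ hg y (hS (mem_zpowers y))⟩

theorem nine (S : Sylow 3 Γ) : 9 ∣ Nat.card S :=
  haveI : Fact (Nat.Prime 3) := ⟨Nat.prime_three⟩
  S.pow_dvd_card_of_pow_dvd_card (n := 2) ⟨4 * (RR x).card, by rw [h.hr]; ring⟩

theorem notU3 {y : Γ} (h3 : 3 ∣ cc y) (y1 : y ≠ 1) (g : Γ) : g * y * g⁻¹ ∉ U := fun e => by
  rcases h.sp with rfl | hs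
  · exact y1 (by simpa using e)
  · exact h.not3 hs.ca hs.odd (by
      rwa [← hs.ca.cc_eq (mem_conjs_self e (by simpa using y1)), cc_conj])

theorem ccY {y : Γ} (hy : y ∈ Y3 Γ) : cc y = 9 := by
  haveI : Fact (Nat.Prime 3) := ⟨Nat.prime_three⟩
  obtain ⟨ho, h3⟩ := mem_Y3.1 hy
  have hi : ∀ s, s * s = 1 → s * y = y * s → s = 1 := fun s s1 e => inv_odd ho (memC.2 e) s1
  have y1 : y ≠ 1 := fun e => h.t2 (hi t h.t1 (by simp [e]))
  have hU := h.notU3 h3 y1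
  obtain ⟨a, ha, a3, a1⟩ := exists_pow_prime _ Nat.prime_three h3
  obtain ⟨x', c, e⟩ : ∃ x', IsConj x x' ∧ x' * y = y * x' := by
    by_cases ea : ∀ s, s * s = 1 → s * a = a * s → s = 1
    · obtain ⟨x', c, e⟩ := h.sylx (k := 1) (y := a) (by rwa [pow_one])
      exact ⟨x', c, h.ab a a1 ea (fun g e => a1 (h.notU hU (memC.1 ha) g e)) x' (memC.2 e) y
        (memC.2 (memC.1 ha).symm)⟩
    · push Not at ea
      obtain ⟨s, s1, e, s2⟩ := ea
      exact ⟨a, (h.ex' s1 s2 e).2 a3 a1, memC.1 ha⟩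
  have h1 : cc y ∣ 36 := h.ccR c ▸ card_dvd_of_le fun g hg =>
    memC.2 (h.ab y y1 hi hU g hg x' (memC.2 e))
  have h2 : cc y ∣ 9 := ((Nat.coprime_two_right.2 ho).pow_right 2).dvd_of_dvd_mul_left h1
  obtain ⟨S, hS⟩ := (isPGroup_zpowers (p := 3) (k := 2) (g := y)
    (orderOf_dvd_iff_pow_eq_one.1 ((orderOf_dvd_of_pow_eq_one
      (pow_card_mem (memC.2 rfl))).trans h2))).exists_le_sylow
  exact Nat.dvd_antisymm h2 ((h.nine S).trans (card_dvd_of_le fun g hg =>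
    memC.2 (h.syl S S.isPGroup' g hg y (hS (mem_zpowers y)))))

theorem memY {y : Γ} (y1 : y ≠ 1) (y9 : y ^ 9 = 1) (c : ¬ IsConj x y) : y ∈ Y3 Γ := by
  refine mem_Y3.2 ⟨?_, ?_⟩
  · rw [← Nat.not_even_iff_odd]
    intro e
    obtain ⟨s, s0, s1, s2⟩ := exists_involution_of_even _ e
    obtain ⟨e1 | e1, e2⟩ := h.ex' s1 s2 (memC.1 s0)
    · exact y1 (one_of_cop e1 y9 (by norm_num))
    · refine c (e2 ?_ y1)
      rw [show 9 = 6 + 3 from rfl, pow_add, e1, one_mul] at y9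
      exact y9
  · by_contra e
    exact y1 (one_of_cop y9 (pow_card_mem (memC.2 rfl))
      ((Nat.prime_three.coprime_iff_not_dvd.2 e).pow_left 2))

theorem eqs {F2 F4 : Finset (Subgroup Γ)} (hF : Fam F2 F4) (V : Finset Γ)
    (hc : ∀ y, y ≠ 1 → ∀ g, g * y * g⁻¹ ∈ U → InF F2 F4 y ∨ y ∈ V)
    (h2 : ∀ y ∈ V, y ≠ 1 ∧ Odd (cc y) ∧ ¬ 3 ∣ cc y)
    (h3 : ∀ B, IsCA B → ww B = 2 ∨ ww B = 4 → Disjoint (conjs B) V) :
    (Nat.card Γ = 1 + 9 * (invs Γ).card + (RR x).card + (Y3 Γ).card +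
      (∑ B ∈ F2, (conjs B).card + ∑ B ∈ F4, (conjs B).card) + V.card) ∧
    ∀ y, y ≠ 1 → (∀ g, g * y * g⁻¹ ∉ U) → y ∈ Ev Γ ∨ y ∈ RR x ∨ y ∈ Y3 Γ ∨ InF F2 F4 y := by
  have cov : ∀ y, y ≠ 1 → (∀ g, g * y * g⁻¹ ∉ U) →
      y ∈ Ev Γ ∨ y ∈ RR x ∨ y ∈ Y3 Γ ∨ InF F2 F4 y := by
    intro y y1 hU
    rcases Nat.even_or_odd (cc y) with e | ho
    · obtain ⟨s, s0, s1, s2⟩ := exists_involution_of_even _ e
      obtain ⟨e1 | e1, e2⟩ := h.ex' s1 s2 (memC.1 s0)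
      · by_cases y2 : y ^ 2 = 1
        · exact .inl (mem_Ev.2 ⟨1, mem_invs.2 ⟨by rwa [← pow_add], by rwa [pow_one]⟩⟩)
        · exact .inl (mem_Ev.2 ⟨2, mem_invs.2 ⟨by rwa [← pow_add], y2⟩⟩)
      · by_cases y3 : y ^ 3 = 1
        · exact .inr (.inl (mem_RR.2 (e2 y3 y1)))
        · exact .inl (mem_Ev.2 ⟨3, mem_invs.2 ⟨by rwa [← pow_add], y3⟩⟩)
    by_cases e3 : 3 ∣ cc y
    · exact .inr (.inr (.inl (mem_Y3.2 ⟨ho, e3⟩)))
    obtain ⟨h1, h2, h3⟩ := h.ca y1 hU fun a e a1 s s1 e' => by_contra fun s2 => by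
      have c2 := Nat.coprime_two_left.2 ho
      have := pow_card_mem (memC.2 e)
      rcases (h.ex' s1 s2 e').1 with e1 | e1
      · exact a1 (one_of_cop e1 this (c2.pow_left 2))
      · exact a1 (one_of_cop e1 this (c2.mul_left (Nat.prime_three.coprime_iff_not_dvd.2 e3)))
    exact .inr (.inr (.inr (hF.all _ h1 h2 h3 y (CAEven2.self_mem_conjs y1))))
  refine ⟨?_, cov⟩
  have hT : ∀ y ∈ insert 1 (Ev Γ ∪ RR x ∪ Y3 Γ), y ≠ 1 → Odd (cc y) → 3 ∣ cc y := by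
    intro y hy y1 ho
    simp only [Finset.mem_insert, Finset.mem_union] at hy
    rcases hy with e | (e | e) | e
    · exact absurd e y1
    · exact absurd ho (Ev_even e)
    · rw [h.ccR (mem_RR.1 e)]; decide
    · exact (mem_Y3.1 e).2
  have key := hF.split (insert 1 (Ev Γ ∪ RR x ∪ Y3 Γ)) V (fun y => by
      by_cases y1 : y = 1
      · simp [y1]
      by_cases hU : ∀ g, g * y * g⁻¹ ∉ U
      · rcases cov y y1 hU with e | e | e | e
        iterate 3 simp [e]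
        exact .inr (.inl e)
      · push Not at hU
        exact .inr (hU.elim (hc y y1)))
    (fun B hB ho => Finset.disjoint_left.2 fun y hy hy' => h.not3 hB ho (hB.cc_eq hy' ▸
      hT y hy (fun e => one_notMem_conjs B (e ▸ hy')) (by rwa [hB.cc_eq hy'])))
    (Finset.disjoint_left.2 fun y hy hy' => (h2 y hy').2.2 (hT y hy (h2 y hy').1 (h2 y hy').2.1))
    h3 fun _ => 1
  have n1 : (1 : Γ) ∉ Ev Γ ∪ RR x ∪ Y3 Γ := by
    simp only [Finset.mem_union, not_or]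
    refine ⟨⟨fun e => ?_, fun e => h.x1 (isConj_one_left.1 (mem_RR.1 e))⟩, fun e =>
      even_cc h.t1 h.t2 (by simp) (mem_Y3.1 e).1⟩
    obtain ⟨n, hn⟩ := mem_Ev.1 e
    exact (mem_invs.1 hn).2 (one_pow n)
  have d1 : Disjoint (Ev Γ) (RR x) := Finset.disjoint_left.2 fun y e e' => by
    obtain ⟨n, hn⟩ := mem_Ev.1 e
    exact (mem_invs.1 hn).2 (one_of_cop ((pow_two _).trans (mem_invs.1 hn).1) (n := 3)
      (by rw [← pow_mul, mul_comm, pow_mul, h.cube (mem_RR.1 e'), one_pow]) (by norm_num))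
  have d2 : Disjoint (Ev Γ ∪ RR x) (Y3 Γ) := Finset.disjoint_left.2 fun y e e' => by
    rcases Finset.mem_union.1 e with e | e
    · exact Ev_even e (mem_Y3.1 e').1
    · have := (mem_Y3.1 e').1
      rw [h.ccR (mem_RR.1 e)] at this
      exact absurd this (by decide)
  simp only [Finset.sum_const, smul_eq_mul, mul_one] at key
  rw [Finset.card_insert_of_notMem n1, Finset.card_union_of_disjoint d2,
    Finset.card_union_of_disjoint d1, h.card_Ev, Finset.card_univ, ← Nat.card_eq_fintype_card] at key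
  omega

theorem exj : ∃ j, 1 ≤ j ∧ 9 * (Y3 Γ).card = j * Nat.card Γ := by
  obtain ⟨j, hj⟩ := dvd_of_cc (Y3 Γ) (fun g y hy => by rwa [mem_Y3, cc_conj, ← mem_Y3])
    fun y hy => h.ccY hy
  obtain ⟨y, y1, y9, c⟩ := h.other
  have := Finset.card_pos.2 ⟨y, h.memY y1 y9 c⟩
  exact ⟨j, Nat.pos_of_ne_zero (by rintro rfl; omega), by rw [hj, mul_comm]⟩

theorem exS : ∃ S : Subgroup Γ, x ∈ S ∧ (∀ y ∈ S, S ≤ centralizer {y}) ∧ Nat.card S = 9 ∧
    ¬ 3 ∣ S.index := by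
  haveI : Fact (Nat.Prime 3) := ⟨Nat.prime_three⟩
  obtain ⟨S, hS⟩ := (isPGroup_zpowers (p := 3) (k := 1) (g := x) h.x3).exists_le_sylow
  have xS := hS (mem_zpowers x)
  have hle : ∀ y ∈ S, (S : Subgroup Γ) ≤ centralizer {y} := fun y hy g hg =>
    memC.2 (h.syl S S.isPGroup' g hg y hy)
  refine ⟨S, xS, hle, ?_, S.not_dvd_index⟩
  obtain ⟨k, hk⟩ := S.isPGroup'.exists_card_eq
  have e1 : Nat.card S ∣ 4 * 9 := (card_dvd_of_le (hle x xS)).trans h.cx.dvd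
  have e2 : (Nat.card S).Coprime 4 := by rw [hk]; exact Nat.Coprime.pow_left k (by norm_num)
  exact Nat.dvd_antisymm (e2.dvd_of_dvd_mul_left e1) (h.nine S)

theorem exz (hj : 9 * (Y3 Γ).card = Nat.card Γ) :
    ∃ z, z * x = x * z ∧ IsConj x z ∧ z ≠ x ∧ z ≠ x⁻¹ := by
  by_contra! hz
  obtain ⟨S, xS, hle, c9, hI⟩ := h.exS
  let D : Set Γ := (S : Set Γ) \ {1, x, x⁻¹}
  have xx : x ≠ x⁻¹ := fun e => h.x1 (one_of_cop ((pow_two x).trans (mul_eq_one_iff_eq_inv.2 e))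
    h.x3 (by norm_num))
  have cD : D.ncard = 6 := by
    rw [Set.ncard_diff (by
      rintro y (rfl | rfl | rfl)
      exacts [one_mem S, xS, inv_mem xS]), Set.ncard_eq_three.2 ⟨1, x, x⁻¹, h.x1.symm,
        (inv_ne_one.2 h.x1).symm, xx, rfl⟩, show (S : Set Γ).ncard = 9 from c9]
  have nD : ∀ y ∈ D, ¬ IsConj x y := fun y hy c => by
    have := hy.2
    simp only [Set.mem_insert_iff, Set.mem_singleton_iff, not_or] at this
    exact this.2.2 (hz y (memC.1 (hle x xS hy.1)) c this.2.1)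
  have hD : ∀ y ∈ D, y ∈ Y3 Γ := fun y hy =>
    h.memY (fun e => hy.2 (.inl e)) (by rw [← c9]; exact pow_card_mem hy.1) (nD y hy)
  have hC : ∀ y ∈ D, centralizer {y} = S := fun y hy =>
    (eq_of_le_of_card_ge (hle y hy.1) (by rw [c9]; exact (h.ccY (hD y hy)).le)).symm
  obtain ⟨y, hy⟩ : D.Nonempty := Set.nonempty_of_ncard_ne_zero (by omega)
  have hY : RR y = Y3 Γ := Finset.eq_of_subset_of_card_le (fun z hz => by
      obtain ⟨g, rfl⟩ := isConj_iff.1 (mem_RR.1 hz)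
      rw [mem_Y3, cc_conj, ← mem_Y3]; exact hD y hy) (by
    have := card_RR y
    rw [h.ccY (hD y hy)] at this
    omega)
  have e : Rk1.Fc.cls (normalizer (S : Set Γ)) y = D := by
    ext z
    constructor
    · rintro ⟨g, hg, rfl⟩
      have c : IsConj (g * y * g⁻¹) y := (isConj_iff.2 ⟨g, rfl⟩).symm
      refine ⟨(mem_normalizer_iff.1 hg y).1 hy.1, ?_⟩
      rintro (e | e | e)
      · exact hy.2 (.inl (by simpa using e))
      · exact nD y hy (by rwa [e] at c)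
      · exact nD y hy (h.real.trans (by rwa [show g * y * g⁻¹ = x⁻¹ from e] at c))
    · intro hz
      obtain ⟨g, rfl⟩ := isConj_iff.1 (mem_RR.1 (show z ∈ RR y by rw [hY]; exact hD z hz))
      refine ⟨g, mem_normalizer_iff.2 fun s => ?_, rfl⟩
      conv_lhs => rw [← hC y hy]
      conv_rhs => rw [← hC _ hz]
      simp [memC]
  have := Rk1.Fc.ncard_cls (normalizer (S : Set Γ)) y
  rw [e, cD, hC y hy] at this
  exact hI (Dvd.dvd.trans ⟨2, this.symm⟩ (relIndex_dvd_index_of_le le_normalizer))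

end CII

end Cfsg.Agent.O5
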