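import Cfsg.Agent.O5.B0
import Cfsg.Agent.O5.Unip

/-!
Case B: the unipotent elements.
-/

set_option autoImplicit false
set_option linter.unusedSectionVars false

namespace Cfsg.Agent.O5

open Module Subgroup Cfsg.Agent.H4.CABasic

variable {k : Type*} [Field k]

namespace Fl

variable {s s1 z : W k} {g : GW k} {l m a b c : k}

theorem not_cube (F : Fl s s1 z) (h3 : (3 : k) = 0) (hi : Iso g) (t : Tri s s1 z g 1 1 a b c)
    (ha : a ≠ 0) (hb : b ≠ 0) : g ^ 3 ≠ 1 := fun e => by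
  refine F.ne (B_nd F.two fun x => ?_)
  have e3 : g (g (g x)) = x := by
    have := congrArg (fun u : GW k => u x) e
    simpa [pow_succ] using this
  obtain ⟨β, e4⟩ := F.fix1 hi t ha hb (x := g (g x - x) - (g x - x)) (by
    simp only [map_sub, e3]
    linear_combination (norm := module) h3 • (g x - g (g x)))
  obtain ⟨α, β', e5, -⟩ := F.fix2 hi t ha hb (x := g x - x) (d := β) (by rw [← e4]; simp)
  have e6 := hi x s1
  rw [show g x = x + α • s1 + β' • s by rw [add_assoc, ← e5]; simp, t.2.1] at e6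
  simp [F.Bss, F.B11, F.B1, F.B1', ha] at e6
  rw [B_comm, e6]

theorem chain (F : Fl s s1 z) (hi : Iso g) (t : Tri s s1 z g l m a b c) {v : W k} {e d : k}
    (hv : g v = e • v + d • s) (h0 : B v s = 0) (h1 : e * m ≠ 1) (h2 : e ≠ 1) :
    ∃ α β : k, v = α • s1 + β • s := by
  have a1 := hi v s1
  have a2 := hi v z
  simp [hv, t.2.1, t.2.2, h0, F.Bss, F.B1', F.Bz'] at a1 a2
  have b1 : B v s1 = 0 := mul_left_cancel₀ (sub_ne_zero.2 h1) (by linear_combination a1)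
  rw [b1] at a2
  exact F.mem2 h0 b1 (mul_left_cancel₀ (sub_ne_zero.2 h2) (by linear_combination a2))

theorem chain0 (hi : Iso g) (t : Tri s s1 z g l m a b c) {v : W k} {e : k}
    (hv : g v = e • v) (h1 : e * l ≠ 1) : B v s = 0 := by
  have a1 := hi v s
  simp [hv, t.1] at a1
  exact mul_left_cancel₀ (sub_ne_zero.2 h1) (by linear_combination a1)

theorem chain2 (F : Fl s s1 z) (t : Tri s s1 z g l m a b c) {α β e : k}
    (hv : g (α • s1 + β • s) = e • (α • s1 + β • s)) : α * (m - e) = 0 ∧ α * a + β * (l - e) = 0 :=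
  F.li2 (by
    simp only [map_add, map_smul, t.1, t.2.1] at hv
    linear_combination (norm := module) hv)

theorem eig (F : Fl s s1 z) (hi : Iso g) (t : Tri s s1 z g l m a b c) {v : W k} {e : k} (h0 : v ≠ 0)
    (hv : g v = e • v) : e = l ∨ e = m ∨ e = 1 ∨ e * m = 1 ∨ e * l = 1 := by
  by_contra hc
  push Not at hc
  obtain ⟨h1, h2, h3, h4, h5⟩ := hc
  obtain ⟨α, β, rfl⟩ := F.chain hi t (d := 0) (by simpa using hv) (chain0 hi t hv h5) h4 h3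
  obtain ⟨a1, a2⟩ := F.chain2 t hv
  have b1 : α = 0 := by simpa [sub_eq_zero, h2.symm] using a1
  have b2 : β = 0 := by simpa [b1, sub_eq_zero, h1.symm] using a2
  simp [b1, b2] at h0

theorem tri_of_comm [IsAlgClosed k] (F : Fl s s1 z) (hi : Iso g) (t : Tri s s1 z g (m ^ 2) m a b c)
    (h3 : m ^ 3 ≠ 1) (h4 : m ^ 4 ≠ 1) {n : GW k} (hn : n ∈ Om k) (e : n * g = g * n) :
    ∃ l m a b c, Tri s s1 z n l m a b c := by
  have e' : ∀ x, g (n x) = n (g x) := fun x => by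
    rw [← LinearEquiv.mul_apply, ← e, LinearEquiv.mul_apply]
  have h2 : m ^ 2 ≠ 1 := fun h => h4 (by linear_combination (m ^ 2 + 1) * h)
  have h1 : m ≠ 1 := fun h => h2 (by rw [h, one_pow])
  obtain ⟨-, hm⟩ := F.ne_zero t.1 t.2.1
  have e1 : g (n s) = m ^ 2 • n s := by rw [e', t.1, map_smul]
  obtain ⟨α, β, e2⟩ := F.chain hi t (d := 0) (by simpa using e1)
    (chain0 hi t e1 (by rwa [← pow_add])) (by rwa [← pow_succ]) h2
  rw [e2] at e1
  have b1 : α = 0 := by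
    refine (mul_eq_zero.1 (F.chain2 t e1).1).resolve_right fun h => h1 ?_
    exact mul_left_cancel₀ hm (by linear_combination -h)
  rw [b1, zero_smul, zero_add] at e2
  have hβ : β ≠ 0 := by
    rintro rfl
    exact F.ne (by simpa using e2)
  have b2 := Om_iso hn s1 s
  rw [e2, F.B1, map_smul, smul_eq_zero, or_iff_right hβ] at b2
  obtain ⟨α', β', e3⟩ := F.chain hi t (v := n s1) (e := m) (d := a * β)
    (by rw [e', t.2.1, map_add, map_smul, map_smul, e2, smul_smul]) b2 (by rwa [← sq]) h1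
  obtain ⟨_, _, t'⟩ := F.tri hn e2 e3
  exact ⟨_, _, _, _, _, t'⟩

end Fl

variable {Γ : Type*} [Group Γ] {p : ℕ} {ρ : Γ →* GW k}

namespace HB

variable [IsAlgClosed k] [Finite Γ]

theorem flag (h : HB p ρ) {S : Subgroup Γ} (hS : IsPGroup p S) :
    ∃ s s1 z, Fl s s1 z ∧ ∀ g ∈ S, ∃ a b c, Tri s s1 z (ρ g) 1 1 a b c := by
  have := h.char
  have := Fact.mk h.prime
  have : Finite (S.map ρ) := Finite.of_surjective _ (S.equivMapOfInjective _ h.inj).surjective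
  obtain ⟨s, s1, z, F, e⟩ := exists_flag h.two (hS.map ρ) (by rintro _ ⟨g, -, rfl⟩; exact h.om g)
  exact ⟨s, s1, z, F, fun g hg => e _ ⟨g, hg, rfl⟩⟩

theorem short (h : HB p ρ) (h3 : p = 3) {u : Γ} (hu : u ^ 3 = 1) (h1 : u ≠ 1) :
    ∃ s m, s ≠ 0 ∧ IsE s m (ρ u) ∧ Q m ≠ 0 := by
  subst h3
  have := h.char
  have := Fact.mk h.prime
  obtain ⟨s, s1, z, F, e⟩ := h.flag (S := zpowers u) (IsPGroup.of_card (n := 1) (by
    rw [Nat.card_zpowers, orderOf_eq_prime hu h1, pow_one]))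
  obtain ⟨a, b, c, t⟩ := e u (mem_zpowers u)
  obtain ⟨s', m, h0, e'⟩ : ∃ s' m, s' ≠ 0 ∧ IsE s' m (ρ u) := by
    by_cases ha : a = 0
    · exact F.isE_of_a (h.iso u) (ha ▸ t)
    by_cases hb : b = 0
    · exact ⟨s, (F.isE_of_b (h.iso u) (hb ▸ t)).imp fun _ e => ⟨F.ne, e⟩⟩
    exact absurd (by rw [← map_pow, hu, map_one]) (F.not_cube
      (by exact_mod_cast CharP.cast_eq_zero k 3) (h.iso u) t ha hb)
  exact ⟨s', m, h0, e', fun e => h1 (h.noL u s' m e' e)⟩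

theorem u3 (h : HB p ρ) (h3 : p = 3) : ¬ 9 ∣ Nat.card Γ ∧
    ∀ u : Γ, u ^ 3 = 1 → u ≠ 1 → ∃ s m, s ≠ 0 ∧ IsE s m (ρ u) ∧ Q m ≠ 0 := by
  refine ⟨fun h9 => ?_, fun u => h.short h3⟩
  have : Fact (Nat.Prime 3) := ⟨Nat.prime_three⟩
  obtain ⟨u, hu⟩ := exists_prime_orderOf_dvd_card' (G := Γ) 3 ((by norm_num : 3 ∣ 9).trans h9)
  obtain ⟨s, m, a1, a2, a3⟩ := h.short h3 (u := u) (hu ▸ pow_orderOf_eq_one u)
    (by rintro rfl; simp at hu)
  exact (h.sh u s m a1 a2 a3).2 h9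

omit [IsAlgClosed k] [Finite Γ] in
theorem nr (h : HB p ρ) (h3 : p ≠ 3) : NR ρ.range where
  le := by rintro _ ⟨g, rfl⟩; exact h.om g
  nl := by
    rintro ⟨_, ⟨g, rfl⟩, h1, s, m, a1, a2⟩
    exact h1 (h.eq_one.2 (h.noL g s m a1 a2))
  ns := by
    rintro ⟨_, ⟨g, rfl⟩, s, m, a1, a2, a3⟩
    exact h3 (h.sh g s m a1 a2 a3).1

theorem reg' (h : HB p ρ) (h3 : p ≠ 3) (hp : p ∣ Nat.card Γ) : ∃ U s s1 z α, Reg p ρ U s s1 α ∧
    Fl s s1 z ∧ (∀ g, g ∈ U ↔ ρ g ∈ Un ρ.range s s1 z) ∧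
      ∀ n ∈ normalizer (U : Set Γ), ∃ a b c, Tri s s1 z (ρ n) (α n ^ 2) (α n) a b c := by
  have := h.char
  have := Fact.mk h.prime
  have N := h.nr h3
  obtain ⟨S⟩ : Nonempty (Sylow p Γ) := inferInstance
  obtain ⟨s, s1, z, F, e⟩ := h.flag S.isPGroup'
  have e1 : (Un ρ.range s s1 z).comap ρ = S := S.is_maximal'
    ((N.isPGroup F p).comap_of_injective ρ h.inj) fun g hg => ⟨⟨g, rfl⟩, e g hg⟩
  have e2 : ∀ g, g ∈ (S : Subgroup Γ) ↔ ρ g ∈ Un ρ.range s s1 z := fun g => by rw [← e1]; rfl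
  have ne1 : ∀ {g}, g ≠ 1 → ρ g ≠ 1 := fun hg e => hg (h.eq_one.1 e)
  have ca : IsCA (S : Subgroup Γ) := ⟨S.ne_bot_of_dvd_card hp, fun a ha h1 g =>
    ⟨fun c => (e2 g).2 (N.cent F ((e2 a).1 ha) (ne1 h1) ⟨g, rfl⟩ (by rw [← map_mul, c, map_mul])),
      fun hg => h.inj (by rw [map_mul, map_mul]; exact N.comm F ((e2 g).1 hg) ((e2 a).1 ha))⟩⟩
  obtain ⟨u, hu, hu1⟩ := (Subgroup.bot_or_exists_ne_one _).resolve_left ca.ne_bot
  have hu' := (e2 u).1 hu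
  have key : ∀ n : Γ, ∃ m : k, n ∈ normalizer ((S : Subgroup Γ) : Set Γ) →
      ∃ a b c, Tri s s1 z (ρ n) (m ^ 2) m a b c := fun n => by
    by_cases hn : n ∈ normalizer ((S : Subgroup Γ) : Set Γ)
    swap
    · exact ⟨0, fun h => absurd h hn⟩
    obtain ⟨l, m, a, b, c, t⟩ := N.tri_of_conj F hu' (ne1 hu1) (h.om n) (by
      rw [← map_inv, ← map_mul, ← map_mul, ← e2]
      exact (mem_normalizer_iff.1 hn u).1 hu)
    exact ⟨m, fun _ => ⟨a, b, c, N.sq F hu' (ne1 hu1) ⟨n, rfl⟩ t ▸ t⟩⟩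
  choose α hα using key
  refine ⟨S, s, s1, z, α, ⟨N.five_le F h.prime hu' (ne1 hu1), ca,
    fun g hg => h.eq_one.1 (by rw [map_pow]; exact N.pow_p F p ((e2 g).1 hg)), fun g hg => ?_,
    F.ne, F.Qs, F.Q1, F.B1, F.nmem, fun g hg h1 v hv => ?_, fun n hn => ?_, fun n hn => ?_,
    fun n hn => ?_, fun n hn n' hn' => ?_, fun n hn => ⟨fun e => ?_, fun e => ?_⟩,
    fun n hn v c h0 hv => ?_, fun n hn a3 a4 c hc => ?_⟩, F, e2, hα⟩
  · obtain ⟨T, hT⟩ := (show IsPGroup p (zpowers g) from fun x => ⟨1, by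
      obtain ⟨x, n, rfl⟩ := x
      apply Subtype.ext
      change (g ^ n) ^ (p ^ 1) = 1
      rw [pow_one, ← zpow_natCast, ← zpow_mul, mul_comm, zpow_mul, zpow_natCast, hg,
        one_zpow]⟩).exists_le_sylow
    obtain ⟨y, rfl⟩ := MulAction.exists_smul_eq Γ S T
    have := hT (mem_zpowers g)
    exact ⟨y⁻¹, by simpa [Sylow.coe_subgroup_smul, mem_pointwise_smul_iff_inv_smul_mem] using this⟩
  · obtain ⟨a1, a, b, c, t⟩ := (e2 g).1 hg
    exact F.fix1 (h.iso g) t (N.a_ne F a1 t (ne1 h1)) (N.b_ne F a1 t (ne1 h1)) hv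
  · obtain ⟨a, b, c, t⟩ := hα n hn
    exact (F.ne_zero t.1 t.2.1).2
  · obtain ⟨a, b, c, t⟩ := hα n hn
    exact t.1
  · obtain ⟨a, b, c, t⟩ := hα n hn
    exact ⟨a, t.2.1⟩
  · obtain ⟨a, b, c, t⟩ := hα n hn
    obtain ⟨a', b', c', t'⟩ := hα n' hn'
    obtain ⟨a'', b'', c'', t''⟩ := hα _ (mul_mem hn hn')
    rw [map_mul] at t''
    exact (F.tri_unique t'' (t.mul t')).2.1
  · obtain ⟨a, b, c, t⟩ := hα n hn
    rw [e, one_pow] at t
    exact (e2 n).2 ⟨⟨n, rfl⟩, _, _, _, t⟩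
  · obtain ⟨a, b, c, t⟩ := hα n hn
    obtain ⟨-, a', b', c', t'⟩ := (e2 n).1 e
    exact (F.tri_unique t t').2.1
  · obtain ⟨a, b, d, t⟩ := hα n hn
    exact F.eig (h.iso n) t h0 hv
  · obtain ⟨a, b, d, t⟩ := hα n hn
    obtain ⟨_, _, _, _, _, t'⟩ := F.tri_of_comm (h.iso n) t a3 a4 (h.om c)
      (by rw [← map_mul, hc, map_mul])
    refine ca.mem_norm hu hu1 ((e2 _).2 ?_)
    rw [map_mul, map_mul, map_inv]
    exact NR.conj_mem F hu' ⟨c, rfl⟩ t'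

theorem reg (h : HB p ρ) (h3 : p ≠ 3) (hp : p ∣ Nat.card Γ) : ∃ U s s1 α, Reg p ρ U s s1 α :=
  let ⟨U, s, s1, _, α, r, _⟩ := h.reg' h3 hp
  ⟨U, s, s1, α, r⟩

end HB

end Cfsg.Agent.O5
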