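import Cfsg.Agent.O5.G0
import Cfsg.Agent.H6.MI1

/-!
Non-maximality: stabilisers of small sets of vectors, equidistant point sets and simplices.
-/

set_option autoImplicit false
set_option linter.unusedSectionVars false

namespace Cfsg.Agent.O5

open Module Matrix H1.Spin5

section grp

variable {Γ : Type*} [Group Γ] [Finite Γ]

theorem card_dvd_fact [IsSimpleGroup Γ] {K : Subgroup Γ} (h : K ≠ ⊤) :
    Nat.card Γ ∣ K.index.factorial := by
  classical
  have := Fintype.ofFinite (Γ ⧸ K)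
  have := Subgroup.card_dvd_of_injective _ (H6.MG.inj_quot h)
  rwa [Nat.card_eq_fintype_card (α := Equiv.Perm _), Fintype.card_perm,
    ← Nat.card_eq_fintype_card] at this

theorem index_dvd {K : Subgroup Γ} {d m : ℕ} (hd : d ∣ Nat.card K) (h : Nat.card Γ = d * m) :
    K.index ∣ m := by
  obtain ⟨e, he⟩ := hd
  have h1 := K.card_mul_index
  have : 0 < d := Nat.pos_of_ne_zero fun c => by
    rw [c, zero_mul] at h; exact Nat.card_pos.ne' h
  rw [he, h, mul_assoc] at h1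
  exact ⟨e, by rw [← Nat.eq_of_mul_eq_mul_left this h1, mul_comm]⟩

theorem top_of [IsSimpleGroup Γ] {K : Subgroup Γ} {d m : ℕ} (hd : d ∣ Nat.card K)
    (h : Nat.card Γ = d * m) (hm : ¬ d * m ∣ m.factorial) : K = ⊤ := by
  by_contra c
  have h1 := card_dvd_fact c
  have h0 : m ≠ 0 := fun c => by rw [c, mul_zero] at h; exact Nat.card_pos.ne' h
  exact hm (h ▸ h1.trans (Nat.factorial_dvd_factorial
    (Nat.le_of_dvd (Nat.pos_of_ne_zero h0) (index_dvd hd h))))

theorem ppow_dvd {K : Subgroup Γ} {g : Γ} (hg : g ∈ K) {q n : ℕ} (hq : q.Prime)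
    (h1 : g ^ q ^ (n + 1) = 1) (h2 : g ^ q ^ n ≠ 1) : q ^ (n + 1) ∣ Nat.card K := by
  have := Fact.mk hq
  rw [← orderOf_eq_prime_pow h2 h1]
  exact Subgroup.orderOf_dvd_natCard K hg

theorem prime_dvd {K : Subgroup Γ} {g : Γ} (hg : g ∈ K) {q : ℕ} (hq : q.Prime)
    (h1 : g ^ q = 1) (h2 : g ≠ 1) : q ∣ Nat.card K := by
  simpa using ppow_dvd hg hq (n := 0) (by simpa) (by simpa)

theorem sq_dvd {K : Subgroup Γ} {a b : Γ} (ha : a ∈ K) (hb : b ∈ K) {q : ℕ} (hq : q.Prime)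
    (h1 : a ^ q = 1) (h2 : b ^ q = 1) (a1 : a ≠ 1) (hc : a * b = b * a)
    (hn : ∀ i < q, b ≠ a ^ i) : q ^ 2 ∣ Nat.card K := by
  classical
  have := Fact.mk hq
  let L := Subgroup.closure {a, b}
  have hle : L ≤ K := (Subgroup.closure_le K).2 (by rintro x (rfl | rfl) <;> assumption)
  have hp : IsPGroup q L := fun x => ⟨1, Subtype.ext (by
    obtain ⟨x, hx⟩ := x
    obtain ⟨i, j, rfl⟩ : ∃ i j : ℤ, a ^ i * b ^ j = x := by
      induction hx using Subgroup.closure_induction_left with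
      | one => exact ⟨0, 0, by simp⟩
      | mul_left x hx y _ ih =>
        obtain ⟨i, j, rfl⟩ := ih
        rcases hx with rfl | rfl
        · exact ⟨1 + i, j, by group⟩
        · exact ⟨i, 1 + j, by
            rw [← mul_assoc, ((show Commute a x from hc).zpow_left i).symm.eq]; group⟩
      | inv_mul_cancel x hx y _ ih =>
        obtain ⟨i, j, rfl⟩ := ih
        rcases hx with rfl | rfl
        · exact ⟨-1 + i, j, by group⟩
        · exact ⟨i, -1 + j, by
            rw [← mul_assoc, ((show Commute a x from hc).zpow_left i).symm.inv_left.eq]; group⟩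
    have e : ∀ (y : Γ) (i : ℤ), y ^ q = 1 → (y ^ i) ^ q = 1 := fun y i hy => by
      rw [← zpow_natCast, ← _root_.zpow_mul, mul_comm, _root_.zpow_mul, zpow_natCast, hy,
        _root_.one_zpow]
    simp only [pow_one, SubgroupClass.coe_pow, OneMemClass.coe_one]
    rw [((show Commute a b from hc).zpow_zpow i j).mul_pow, e a i h1, e b j h2, one_mul])⟩
  obtain ⟨n, hn'⟩ := IsPGroup.iff_card.1 hp
  refine .trans (hn' ▸ pow_dvd_pow q ?_) (Subgroup.card_dvd_of_le hle)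
  by_contra c
  have aL : a ∈ L := Subgroup.subset_closure (by simp)
  have bL : b ∈ L := Subgroup.subset_closure (by simp)
  have : Subgroup.zpowers a = L := Subgroup.eq_of_le_of_card_ge (Subgroup.zpowers_le.2 aL) (by
    rw [Nat.card_zpowers, orderOf_eq_prime h1 a1, hn']
    exact (Nat.pow_le_pow_right hq.pos (show n ≤ 1 by omega)).trans (by simp))
  rw [← this, mem_zpowers_iff_mem_range_orderOf, orderOf_eq_prime h1 a1] at bL
  obtain ⟨i, hi, e⟩ := Finset.mem_image.1 bL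
  exact hn i (by simpa using hi) e.symm

theorem syl_conj {q : ℕ} (hq : q.Prime) (h : ¬ q ^ 2 ∣ Nat.card Γ) {g g' : Γ} (h1 : g ^ q = 1)
    (h2 : g' ^ q = 1) (h3 : g' ≠ 1) : ∃ (γ : Γ) (j : ℕ), j < q ∧ γ * g' ^ j * γ⁻¹ = g := by
  classical
  have := Fact.mk hq
  have pg : ∀ x : Γ, x ^ q = 1 → IsPGroup q (Subgroup.zpowers x) := fun x hx =>
    IsPGroup.iff_card.2 (by
      rw [Nat.card_zpowers]
      obtain ⟨n, -, e⟩ := (Nat.dvd_prime_pow hq (m := 1)).1 (by
        simpa using orderOf_dvd_of_pow_eq_one hx)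
      exact ⟨n, e⟩)
  obtain ⟨P, hP⟩ := (pg g h1).exists_le_sylow
  obtain ⟨P', hP'⟩ := (pg g' h2).exists_le_sylow
  obtain ⟨γ, rfl⟩ := MulAction.exists_smul_eq Γ P P'
  have m : γ * g * γ⁻¹ ∈ γ • P :=
    Subgroup.smul_mem_pointwise_smul g (MulAut.conj γ) _ (hP (Subgroup.mem_zpowers g))
  obtain ⟨n, hn⟩ := IsPGroup.iff_card.1 (γ • P).isPGroup'
  have : Subgroup.zpowers g' = (γ • P : Sylow q Γ) := Subgroup.eq_of_le_of_card_ge hP' (by
    rw [Nat.card_zpowers, orderOf_eq_prime h2 h3, hn]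
    refine (Nat.pow_le_pow_right hq.pos (show n ≤ 1 from ?_)).trans (by simp)
    by_contra c
    exact h ((pow_dvd_pow q (by omega)).trans (hn ▸ Subgroup.card_subgroup_dvd_card _)))
  have m' : γ * g * γ⁻¹ ∈ Subgroup.zpowers g' := this ▸ m
  rw [mem_zpowers_iff_mem_range_orderOf, orderOf_eq_prime h2 h3] at m'
  obtain ⟨i, hi, e⟩ := Finset.mem_image.1 m'
  exact ⟨γ⁻¹, i, by simpa using hi, by rw [e]; group⟩

end grp

variable {F : Type*} [Field F]

theorem exists_sing_B (h2 : (2 : F) ≠ 0) {v : W F} (hv : v ≠ 0) : ∃ s, Q s = 0 ∧ B v s = 1 := by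
  suffices ∃ s, Q s = 0 ∧ B v s ≠ 0 by
    obtain ⟨s, a, b⟩ := this
    exact ⟨(B v s)⁻¹ • s, by rw [Q_smul, a, mul_zero], by simp [b]⟩
  by_contra! c
  have a1 := c ![0, 1, 0, 0, 0] (by simp [Q_apply])
  have a2 := c ![0, 0, 1, 0, 0] (by simp [Q_apply])
  have a3 := c ![0, 0, 0, 1, 0] (by simp [Q_apply])
  have a4 := c ![0, 0, 0, 0, 1] (by simp [Q_apply])
  have a0 := c ![1, 1, -1, 0, 0] (by simp [Q_apply])
  simp [B_apply] at a0 a1 a2 a3 a4
  simp [a1, a2, h2] at a0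
  exact hv (by ext i; fin_cases i <;> simp [*])

theorem tv_swap {I : Type*} [DecidableEq I] (y : I → W F) {c : F} (hc : c ≠ 0)
    (hQ : ∀ i j, i ≠ j → Q (y i - y j) = c) {a b : I} (hab : a ≠ b) (i j : I) :
    tv (y a - y b) (y i - y j) = -(y (Equiv.swap a b i) - y (Equiv.swap a b j)) := by
  have k : ∀ i, y (Equiv.swap a b i) =
      y i - ((Q (y i - y b) - Q (y i - y a)) / c) • (y a - y b) := fun i => by
    by_cases h1 : i = a
    · subst h1; simp [hQ _ _ hab, hc]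
    by_cases h2 : i = b
    · subst h2; simp [hQ _ _ h1, hc, neg_div]
    simp [Equiv.swap_apply_of_ne_of_ne h1 h2, hQ _ _ h1, hQ _ _ h2]
  have : B (y i - y j) (y a - y b) =
      (Q (y i - y b) - Q (y i - y a)) - (Q (y j - y b) - Q (y j - y a)) := by
    simp only [Q_sub, map_sub, LinearMap.sub_apply]; ring
  rw [k i, k j, tv, this, hQ _ _ hab, sub_div]; module

theorem Q_sub_of (h2 : (2 : F) ≠ 0) {x y : W F} {a b c d : F} (h1 : B x x = a) (h3 : B y y = b)
    (h4 : B x y = c) (e : a + b - 2 * c = 2 * d) : Q (x - y) = d :=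
  mul_left_cancel₀ h2 (by
    rw [← B_self, ← e, ← h1, ← h3, ← h4]
    simp only [map_sub, LinearMap.sub_apply, B_comm y x]; ring)

variable {Γ : Type*} [Group Γ] {p : ℕ} {ρ : Γ →* GW F} {N : Subgroup (GW F)}

namespace Cx

variable (h : Cx p ρ N)
include h

/-- the stabiliser of a small invariant set is `N` -/
theorem nm [Fintype F] {Ψ : Set (W F)} {v : W F} (hv : v ∈ Ψ) (h0 : v ≠ 0)
    (hc : Ψ.ncard < Fintype.card F ^ 3) (hN : ∀ n ∈ N, ∀ x ∈ Ψ, n x ∈ Ψ) {n : GW F}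
    (hn : n ∈ Om F) (hΨ : ∀ x ∈ Ψ, n x ∈ Ψ) : n ∈ N := by
  let M : Subgroup (GW F) :=
    { carrier := {g | g ∈ Om F ∧ ∀ x ∈ Ψ, g x ∈ Ψ}
      mul_mem' := fun a b => ⟨mul_mem a.1 b.1, fun x hx => a.2 _ (b.2 x hx)⟩
      one_mem' := ⟨one_mem _, fun _ hx => hx⟩
      inv_mem' := fun {g} a => ⟨inv_mem a.1, fun x hx => by
        obtain ⟨y, hy, rfl⟩ := ((Set.toFinite Ψ).injOn_iff_bijOn_of_mapsTo a.2).1
          g.injective.injOn |>.surjOn hx
        simpa using hy⟩ }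
  rcases h.max M (fun g hg => ⟨h.nom hg, hN g hg⟩) (fun g hg => hg.1) with e | e
  · exact e ▸ (⟨hn, hΨ⟩ : n ∈ M)
  obtain ⟨s, hs, hvs⟩ := exists_sing_B h.two h0
  let U := (B : LinearMap.BilinForm F (W F)).orthogonal (Submodule.span F {s, v})
  have hU : 3 ≤ finrank F U := by
    have a := finrank_orth h.two (Submodule.span F {s, v})
    have b : finrank F (Submodule.span F {s, v}) ≤ 2 := by
      classical
      refine (finrank_span_le_card _).trans ?_
      simpa using Finset.card_le_two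
    simp only [U]; omega
  have m1 : ∀ m : U, B m.1 s = 0 := fun m => by
    rw [B_comm]; exact mem_orth.1 m.2 s (Submodule.subset_span (by simp))
  have m2 : ∀ m : U, B v m.1 = 0 := fun m => mem_orth.1 m.2 v (Submodule.subset_span (by simp))
  let φ : U → Ψ := fun m => ⟨v + m.1 - Q m.1 • s, by
    have : sgE hs (m1 m) ∈ M := e ▸ (sgE_isE hs (m1 m)).mem_Om h.two
    have := this.2 v hv
    rwa [(sgE_isE hs (m1 m)).2.2, sg, hvs, m2, one_smul, zero_add, mul_one] at this⟩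
  have inj : Function.Injective φ := fun m m' e => by
    have e1 : v + m.1 - Q m.1 • s = v + m'.1 - Q m'.1 • s := congrArg Subtype.val e
    have e2 := congrArg (B v) e1
    simp only [map_sub, map_add, map_smul, m2, hvs, smul_eq_mul, mul_one, add_zero,
      sub_right_inj] at e2
    rw [e2] at e1
    exact Subtype.ext (add_left_cancel (sub_left_injective e1))
  have := Nat.card_le_card_of_injective φ inj
  rw [Module.natCard_eq_pow_finrank (K := F), Nat.card_coe_set_eq, Nat.card_eq_fintype_card] at this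
  exact absurd ((Nat.pow_le_pow_right Fintype.card_pos hU).trans this) (not_le.2 hc)

/-- three-cycles of an equidistant set lie in `N` -/
theorem eq3 [Fintype F] {I : Type*} [Fintype I] [DecidableEq I] (y : I → W F) {c : F} (hc : c ≠ 0)
    (hQ : ∀ i j, i ≠ j → Q (y i - y j) = c) (hI : Fintype.card I ^ 2 < Fintype.card F ^ 3)
    (hN : ∀ n ∈ N, ∀ i j, ∃ k l, n (y i - y j) = y k - y l) {a b d : I} (hab : a ≠ b)
    (hbd : b ≠ d) : ∃ n ∈ N, ∀ i j, n (y i - y j) =
      y (Equiv.swap a b (Equiv.swap b d i)) - y (Equiv.swap a b (Equiv.swap b d j)) := by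
  have q1 : Q (y a - y b) ≠ 0 := by rwa [hQ _ _ hab]
  have q2 : Q (y b - y d) ≠ 0 := by rwa [hQ _ _ hbd]
  obtain ⟨A, -, hA⟩ := lf_tt (tE_isT q1) (tE_isT q2) (by rw [hQ _ _ hab, hQ _ _ hbd])
  have key : ∀ i j, (tE q1 * tE q2) (y i - y j) =
      y (Equiv.swap a b (Equiv.swap b d i)) - y (Equiv.swap a b (Equiv.swap b d j)) := fun i j => by
    rw [LinearEquiv.mul_apply, (tE_isT q1).2, (tE_isT q2).2, tv_swap y hc hQ hbd, tv_neg,
      tv_swap y hc hQ hab, neg_neg]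
  refine ⟨_, h.nm (Ψ := Set.range fun x : I × I => y x.1 - y x.2) ⟨(a, b), rfl⟩
    (fun e => q1 (by simp only at e; rw [e, Q_zero])) ?_ ?_ (mem_Om.2 ⟨A, hA⟩) ?_, key⟩
  · refine lt_of_le_of_lt ?_ hI
    rw [← Set.image_univ]
    exact (Set.ncard_image_le (Set.toFinite _)).trans (by simp [Set.ncard_univ, pow_two])
  · rintro n hn _ ⟨⟨i, j⟩, rfl⟩
    obtain ⟨k, l, e⟩ := hN n hn i j
    exact ⟨(k, l), e.symm⟩
  · rintro _ ⟨⟨i, j⟩, rfl⟩
    exact ⟨(_, _), (key i j).symm⟩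

/-- the simplex of six vectors -/
theorem simplex [Finite Γ] {x : W F} (h0 : x ≠ 0) {K : Subgroup Γ} (hK : ∀ g ∈ K, ρ g x = x)
    (hi : K.index ≤ 6) {g : Γ} (hg : g ∈ K) (g5 : g ^ 5 = 1) (g1 : g ≠ 1)
    (h25 : ¬ 5 ^ 2 ∣ Nat.card Γ) : ∃ (y : Fin 6 → W F) (c : F), c ≠ 0 ∧ (3 : F) ≠ 0 ∧ y 0 = x ∧
      (∀ i, B (y i) (y i) = 5 * c) ∧ (∀ i j, i ≠ j → B (y i) (y j) = -c) ∧
      (∀ i, ρ g (y i) = y (![0, 2, 3, 4, 5, 1] i)) ∧ Function.Injective y ∧ ∑ i, y i = 0 ∧
      ∀ n ∈ N, ∃ ε : F, ε * ε = 1 ∧ ∀ i, ∃ j, n (y i) = ε • y j := by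
  have gx := hK g hg
  obtain ⟨γ0, he⟩ : ∃ γ, ρ g (ρ γ x) ≠ ρ γ x := by
    by_contra! c
    refine g1 (h.inj (LinearEquiv.ext fun w => sub_eq_zero.1 (h.perp_zero h0 fun γ => ?_)))
    rw [map_sub, LinearMap.sub_apply, ← c γ, h.iso, c]; simp
  let δ : Fin 6 → Γ := ![1, γ0, g * γ0, g ^ 2 * γ0, g ^ 3 * γ0, g ^ 4 * γ0]
  let y : Fin 6 → W F := fun i => ρ (δ i) x
  have y0 : y 0 = x := by simp [y, δ]
  have gy : ∀ i, ρ g (y i) = y (![0, 2, 3, 4, 5, 1] i) := fun i => by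
    have e : ∀ a b : Γ, ρ a (ρ b x) = ρ (a * b) x := fun a b => by simp
    fin_cases i <;> simp only [y, δ, e, cons_val, Fin.zero_eta, Fin.mk_one, Fin.reduceFinMk,
      ← mul_assoc, ← pow_succ', ← pow_two, g5, one_mul, mul_one, gx, map_one,
      LinearEquiv.coe_one, id]
  have nf : ∀ i, i ≠ 0 → ρ g (y i) ≠ y i := by
    have k : ∀ i, ρ g (y i) = y i → ρ g (y (![0, 2, 3, 4, 5, 1] i)) = y (![0, 2, 3, 4, 5, 1] i) :=
      fun i e => by rw [← gy, e, e]
    have k1 : ρ g (y 1) ≠ y 1 := he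
    have k5 : ρ g (y 5) ≠ y 5 := fun e => k1 (k 5 e)
    have k4 : ρ g (y 4) ≠ y 4 := fun e => k5 (k 4 e)
    have k3 : ρ g (y 3) ≠ y 3 := fun e => k4 (k 3 e)
    have k2 : ρ g (y 2) ≠ y 2 := fun e => k3 (k 2 e)
    intro i hi; fin_cases i <;> first | assumption | exact absurd rfl hi
  have inj : Function.Injective y := by
    have k : ∀ i j, y i = y j → y (![0, 2, 3, 4, 5, 1] i) = y (![0, 2, 3, 4, 5, 1] j) :=
      fun i j e => by rw [← gy, ← gy, e]
    have a0 : ∀ i, i ≠ 0 → y i ≠ y 0 := fun i hi e => nf i hi (by rw [e, gy]; rfl)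
    have a12 : y 1 ≠ y 2 := fun e => nf 1 (by decide) (by rw [gy]; exact e.symm)
    have a13 : y 1 ≠ y 3 := fun e => by
      have b1 : y 3 = y 5 := k _ _ (k _ _ e)
      have b2 : y 5 = y 2 := k _ _ (k _ _ b1)
      exact a12 (e.trans (b1.trans b2))
    have b : ∀ i j, y (![0, 2, 3, 4, 5, 1] i) ≠ y (![0, 2, 3, 4, 5, 1] j) → y i ≠ y j :=
      fun i j a e => a (k i j e)
    have a51 : y 5 ≠ y 1 := b _ _ a12
    have a45 : y 4 ≠ y 5 := b _ _ a51
    have a34 : y 3 ≠ y 4 := b _ _ a45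
    have a23 : y 2 ≠ y 3 := b _ _ a34
    have a52 : y 5 ≠ y 2 := b _ _ a13
    have a41 : y 4 ≠ y 1 := b _ _ a52
    have a35 : y 3 ≠ y 5 := b _ _ a41
    have a24 : y 2 ≠ y 4 := b _ _ a35
    intro i j e
    by_contra c
    revert e c
    fin_cases i <;> fin_cases j <;> intro e c <;>
      first | exact c rfl | contradiction | exact absurd e.symm ‹_› | exact a0 _ (by decide) e |
        exact a0 _ (by decide) e.symm
  have orb : ∀ γ, ∃ j, ρ γ x = y j := by
    let φ : Γ ⧸ K → W F := Quotient.lift (fun γ => ρ γ x) fun a b e => by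
      have := hK _ (QuotientGroup.leftRel_apply.1 e)
      rw [map_mul, map_inv, LinearEquiv.mul_apply] at this
      simpa using (congrArg (ρ a) this).symm
    have sub : Set.range y ⊆ Set.range φ := by rintro _ ⟨i, rfl⟩; exact ⟨(δ i : Γ), rfl⟩
    have : Set.range y = Set.range φ := Set.eq_of_subset_of_ncard_le sub (by
      rw [Set.ncard_range_of_injective inj, ← Set.image_univ]
      exact (Set.ncard_image_le (Set.toFinite _)).trans (by
        rw [Set.ncard_univ, Nat.card_fin]; exact hi))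
      (Set.finite_range _)
    intro γ
    obtain ⟨j, e⟩ : ρ γ x ∈ Set.range y := this ▸ ⟨(γ : Γ ⧸ K), rfl⟩
    exact ⟨j, e.symm⟩
  have act : ∀ γ i, ∃ j, ρ γ (y i) = y j := fun γ i => by simpa [y] using orb (γ * δ i)
  have sum : ∑ i, y i = 0 := h.fix_zero fun γ => by
    choose σ hσ using act γ
    rw [map_sum]; simp only [hσ]
    exact Function.Bijective.sum_comp (Finite.injective_iff_bijective.1 fun i j e =>
      inj ((ρ γ).injective (by rw [hσ, hσ, e]))) y
  have cst : ∀ v, ρ g v = v → ∀ i, i ≠ 0 → B v (y i) = B v (y 1) := fun v hv => by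
    have k : ∀ i, B v (y (![0, 2, 3, 4, 5, 1] i)) = B v (y i) := fun i => by
      rw [← gy, ← h.iso g v (y i), hv]
    have k2 : B v (y 2) = B v (y 1) := k 1
    have k3 : B v (y 3) = B v (y 1) := (k 2).trans k2
    have k4 : B v (y 4) = B v (y 1) := (k 3).trans k3
    have k5 : B v (y 5) = B v (y 1) := (k 4).trans k4
    intro i hi; fin_cases i <;> first | assumption | rfl | exact absurd rfl hi
  have cs0 : ∀ v, ρ g v = v → B v (y 0) = -5 * B v (y 1) := fun v hv => by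
    have := congrArg (B v) sum
    rw [map_sum, Fin.sum_univ_six, cst v hv 2 (by decide), cst v hv 3 (by decide),
      cst v hv 4 (by decide), cst v hv 5 (by decide), map_zero] at this
    linear_combination this
  obtain ⟨c, hc⟩ : ∃ c, B x (y 1) = -c := ⟨_, (neg_neg _).symm⟩
  have G1 : ∀ i, B (y i) (y i) = 5 * c := fun i => by
    have := cs0 x gx
    rw [y0, hc] at this
    rw [h.iso, this]; ring
  have G2 : ∀ i j, i ≠ j → B (y i) (y j) = -c := fun i j hij => by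
    obtain ⟨k, hk⟩ := act (δ i)⁻¹ j
    have e : ρ (δ i)⁻¹ (y i) = x := by simp [y]
    rw [← h.iso (δ i)⁻¹, hk, e, cst x gx k, hc]
    rintro rfl
    exact hij (inj ((ρ (δ i)⁻¹).injective (by rw [hk, e, y0])))
  have pz : ∀ w, (∀ i, B w (y i) = 0) → w = 0 := fun w hw => h.perp_zero h0 fun γ => by
    obtain ⟨j, e⟩ := orb γ
    rw [e, hw]
  have c6 : 6 * c ≠ 0 := fun e => (show (0 : Fin 6) ≠ 1 by decide) (inj (sub_eq_zero.1 (pz _ fun i => by
    rw [map_sub, LinearMap.sub_apply]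
    by_cases i0 : i = 0
    · rw [i0, G1, G2 _ _ (by decide)]; linear_combination e
    by_cases i1 : i = 1
    · rw [i1, G1, G2 _ _ (by decide)]; linear_combination -e
    rw [G2 _ _ (Ne.symm i0), G2 _ _ (Ne.symm i1), sub_self])))
  have c0 : c ≠ 0 := right_ne_zero_of_mul c6
  have fx : ∀ v, ρ g v = v → ∃ l : F, v = l • x := fun v hv =>
    ⟨-(B v (y 1) / c), sub_eq_zero.1 (pz _ fun i => by
      rw [map_sub, map_smul, LinearMap.sub_apply, LinearMap.smul_apply, ← y0, smul_eq_mul]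
      by_cases i0 : i = 0
      · rw [i0, G1, cs0 v hv]; field_simp; ring
      · rw [G2 _ _ (Ne.symm i0), cst v hv i i0]; field_simp; ring)⟩
  refine ⟨y, c, c0, fun e => c6 (by linear_combination 2 * c * e), y0, G1, G2, gy, inj, sum,
    fun n hn => ?_⟩
  obtain ⟨g', hg'⟩ := h.norm n hn g
  obtain ⟨γ, j, -, e⟩ := syl_conj (by norm_num) h25 g5 (g' := g')
    (h.inj (by rw [map_pow, hg', conj_pow, ← map_pow, g5]; simp))
    (fun e => g1 (h.inj (by rw [e, map_one] at hg'; simpa using hg'.symm)))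
  obtain ⟨l, hl⟩ := fx (ρ γ (n x)) (by
    have : ρ (g ^ j) x = x := hK _ (pow_mem hg j)
    rw [map_pow] at this
    nth_rw 1 [← e]
    simp [hg', this])
  have k : ∀ i, ∃ j, n (y i) = l • y j := fun i => by
    obtain ⟨d, hd⟩ := h.norm n hn (δ i)
    obtain ⟨j, hj⟩ := orb (d * γ⁻¹)
    refine ⟨j, ?_⟩
    rw [← hj, ← map_smul, ← hl]
    simp [hd, y]
  refine ⟨l, ?_, k⟩
  obtain ⟨a, ha⟩ := k 0
  obtain ⟨b, hb⟩ := k 1
  have := Om_iso (h.nom hn) (y 0) (y 1)
  rw [ha, hb, G2 0 1 (by decide)] at this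
  simp only [map_smul, LinearMap.smul_apply, smul_eq_mul] at this
  rw [G2 a b (by
    rintro rfl
    exact absurd (inj (n.injective (ha.trans hb.symm))) (by decide))] at this
  exact mul_right_cancel₀ c0 (by linear_combination -this)

end Cx

end Cfsg.Agent.O5
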