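import Cfsg.Agent.O5.G3

/-!
Elements of order three and Clifford systems coming from Carmichael generators.
-/

set_option autoImplicit false
set_option linter.unusedSectionVars false

namespace Cfsg.Agent.O5

open Module Matrix H1.Spin5

variable {F : Type*} [Field F]

theorem trace_anti (h2 : (2 : F) ≠ 0) {C M : M4x F} {c : F} (hc : c ≠ 0) (h : C * C = c • 1)
    (e : C * M = -(M * C)) : M.trace = 0 := by
  have a : (C * M * C).trace = c * M.trace := by rw [trace_mul_cycle, h]; simp
  have b : (C * M * C).trace = -(c * M.trace) := by rw [e, neg_mul, mul_assoc, h]; simp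
  exact mul_left_cancel₀ (mul_ne_zero h2 hc) (by linear_combination b - a)

theorem tt_three {A : GL I4 F} (h : A ^ 3 = 1) : tt A * tt A = tt A + (2 : F) • 1 := by
  have e : A * A = A⁻¹ := eq_inv_of_mul_eq_one_left (by rw [← h, pow_succ, pow_two])
  have e' : A⁻¹ * A⁻¹ = A := by rw [← _root_.mul_inv_rev, e, inv_inv]
  simp only [tt, mul_add, add_mul, ← Units.val_mul, e, e', mul_inv_cancel, inv_mul_cancel,
    Units.val_one]
  module

theorem three_nq (h2 : (2 : F) ≠ 0) {A : GL I4 F} (hA : A ∈ spGL 2 F) (h : A ^ 3 = 1)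
    (h0 : wp A ≠ 0) : A.1.trace = 1 ∧ 4 * Q (wp A) = 9 := by
  have e := tt_three h
  rw [tt_eq h2 hA] at e
  have t : A.1.trace = 2 * (A.1.trace / 2) := by field_simp
  generalize A.1.trace / 2 = c at e t
  obtain ⟨a, b⟩ := dec_unique h2 (c := c * c + Q (wp A)) (c' := c + 2) (x := (2 * c) • wp A)
    (x' := wp A) (by
      simp only [mul_add, add_mul, ψ_mul_self, smul_mul_assoc, mul_smul_comm, one_mul, mul_one,
        map_smul] at e ⊢
      linear_combination (norm := module) e)
  have : 2 * c = 1 := smul_left_injective F h0 (by simpa using b)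
  exact ⟨t.trans this, by linear_combination 4 * a + (1 - 2 * c) * this⟩

theorem three_q (h2 : (2 : F) ≠ 0) {A : GL I4 F} (hA : A ∈ spGL 2 F) (h : A ^ 3 = 1)
    (h0 : wp A = 0) (h1 : A ≠ 1) : (A⁻¹).1 = -1 - A.1 := by
  have e := tt_eq h2 hA
  rw [h0, map_zero, add_zero, tt] at e
  generalize A.1.trace / 2 = c at e
  have e1 : A * A = A⁻¹ := eq_inv_of_mul_eq_one_left (by rw [← h, pow_succ, pow_two])
  have e2 := congrArg (A.1 * ·) e
  simp only [mul_add, ← Units.val_mul, e1, mul_inv_cancel, Units.val_one, mul_smul_comm,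
    mul_one] at e2
  have : (c + 1) • (A.1 - 1) = 0 := by linear_combination (norm := module) e - e2
  rcases smul_eq_zero.1 this with a | a
  · rw [eq_neg_of_add_eq_zero_left a] at e
    linear_combination (norm := module) e
  · exact absurd (Units.ext (sub_eq_zero.1 a)) h1

theorem dich (h2 : (2 : F) ≠ 0) (h3 : (3 : F) ≠ 0) {A C : GL I4 F} (hA : A ∈ spGL 2 F)
    (hC : C ∈ spGL 2 F) (a3 : A ^ 3 = 1) (c3 : C ^ 3 = 1) (e : A * C = C * A) (w1 : wp A ≠ 0)
    (w2 : wp C ≠ 0) (w3 : wp (A * C) ≠ 0) (w4 : wp (A * C⁻¹) ≠ 0) : False := by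
  have e' : Commute A C := e
  obtain ⟨t1, q1⟩ := three_nq h2 hA a3 w1
  obtain ⟨t2, q2⟩ := three_nq h2 hC c3 w2
  have s3 := mul_mem hA hC
  have s4 := mul_mem hA (inv_mem hC)
  obtain ⟨t3, -⟩ := three_nq h2 s3 (by rw [e'.mul_pow, a3, c3, one_mul]) w3
  obtain ⟨t4, -⟩ := three_nq h2 s4 (by rw [e'.inv_right.mul_pow, a3, inv_pow, c3]; simp) w4
  have k : tt A * tt C = tt (A * C) + tt (A * C⁻¹) := by
    simp only [tt, mul_add, add_mul, ← Units.val_mul, _root_.mul_inv_rev, inv_inv, e'.inv_inv.eq,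
      e'.inv_left.eq]
    abel
  obtain ⟨t, ht⟩ := prop_of_comm h2 w1 (comm_wp h2 hC (comm_wp h2 hA (M := C.1)
    (congrArg Units.val e).symm).symm)
  have := congrArg trace k
  rw [trace_add, tt_eq h2 hA, tt_eq h2 hC, tt_eq h2 s3, tt_eq h2 s4, trace_dec, trace_dec, t1, t2,
    t3, t4, ht] at this
  simp [mul_add, add_mul, ψ_mul_self, ψ_trace] at this
  rw [ht, Q_smul] at q2
  field_simp at this
  have k1 : 3 * t = 1 := mul_left_cancel₀ (mul_ne_zero h3 (four_ne h2)) (by
    linear_combination this - 4 * t * q1)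
  exact mul_ne_zero h2 (four_ne h2) (by linear_combination (3 * t + 1) * k1 - q2 + t ^ 2 * q1)

theorem qd_of_q8 (h2 : (2 : F) ≠ 0) {A J K : GL I4 F} (hA : A ∈ spGL 2 F) (hJ : J ∈ spGL 2 F)
    (a3 : A ^ 3 = 1) (j2 : J * J = -1) (k2 : K * K = -1) (jk : J * K * (J * K) = -1)
    (aj : J * A = A * J) (ak : K * A = A * K) : wp A = 0 := by
  have ji : J⁻¹ = -J := inv_eq_of_mul_eq_one_right (by rw [mul_neg, j2, neg_neg])
  have kj : K * J = -(J * K) := by
    have : K * J * (J * K) = 1 := by rw [mul_assoc, ← mul_assoc J, j2]; simp [k2]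
    rw [eq_inv_of_mul_eq_one_left this]
    exact inv_eq_of_mul_eq_one_right (by rw [mul_neg, jk, neg_neg])
  have cm : ∀ X : GL I4 F, X * A = A * X → X.1 * (A.1 - (A⁻¹).1) = (A.1 - (A⁻¹).1) * X.1 :=
    fun X e => by
      simp only [mul_sub, sub_mul, ← Units.val_mul, e, (show Commute X A from e).inv_right.eq]
  have dd : (A.1 - (A⁻¹).1) * (A.1 - (A⁻¹).1) = tt A - (2 : F) • 1 := by
    have := tt_three a3
    simp only [tt, mul_add, add_mul, mul_sub, sub_mul, Units.mul_inv, Units.inv_mul] at this ⊢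
    linear_combination (norm := module) this
  have ad := ((Adj.sp hA).sub (Adj.sp hA).symm).mul (Adj.sp hJ)
  rw [ji, ← neg_sub A.1, Units.val_neg, neg_mul_neg, cm J aj] at ad
  obtain ⟨y, hy⟩ := ad.dec h2
  rw [trace_anti h2 (C := K.1) (c := -1) (by simp) (by simpa using congrArg Units.val k2) (by
    rw [← mul_assoc, cm K ak, mul_assoc, ← Units.val_mul, kj]; simp [mul_assoc]),
    zero_div, zero_smul, zero_add] at hy
  refine wp_of_sc h2 hA (c := 2 - Q y) ?_
  have := ψ_mul_self y
  rw [← hy, mul_assoc, ← mul_assoc J.1, cm J aj, mul_assoc, ← Units.val_mul, j2, ← mul_assoc,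
    dd] at this
  simp only [Units.val_neg, Units.val_one, mul_neg, mul_one] at this
  linear_combination (norm := module) -this

/-- traces in the algebra generated by four anticommuting elements -/
theorem trace_four (h2 : (2 : F) ≠ 0) (L : Subfield F) {a b c d : M4x F} {α β γ δ : F}
    (hα : α ∈ L) (hβ : β ∈ L) (hγ : γ ∈ L) (hδ : δ ∈ L) (α0 : α ≠ 0) (β0 : β ≠ 0) (γ0 : γ ≠ 0)
    (δ0 : δ ≠ 0) (aa : a * a = α • 1) (bb : b * b = β • 1) (cc : c * c = γ • 1)
    (dd : d * d = δ • 1) (ba : b * a = -(a * b)) (ca : c * a = -(a * c)) (da : d * a = -(a * d))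
    (cb : c * b = -(b * c)) (db : d * b = -(b * d)) (dc : d * c = -(c * d)) {X : M4x F}
    (hX : X ∈ Algebra.adjoin L {a, b, c, d}) : X.trace ∈ L := by
  have s : ∀ {x : M4x F} {r : F}, x * x = r • 1 → ∀ X, x * (x * X) = r • X := fun e X => by
    rw [← mul_assoc, e]; simp
  have t : ∀ {x y : M4x F}, x * y = -(y * x) → ∀ X, x * (y * X) = -(y * (x * X)) := fun e X => by
    rw [← mul_assoc, e]; simp [mul_assoc]
  let P : M4x F → Prop := fun M => ∀ i j k l : Bool,
    (cond i a 1 * (cond j b 1 * (cond k c 1 * (cond l d 1 * M)))).trace ∈ L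
  have key : ∀ M, P M → P (X * M) := by
    induction hX using Algebra.adjoin_induction with
    | mem x hx =>
      intro M hM
      simp only [P, Bool.forall_bool, cond_true, cond_false, one_mul] at hM ⊢
      casesm* _ ∧ _
      rcases hx with rfl | rfl | rfl | rfl <;> constructorm* _ ∧ _ <;>
        (try simp only [s aa, s bb, s cc, s dd, t ba, t ca, t da, t cb, t db, t dc, mul_neg,
          neg_neg, trace_neg, mul_smul_comm, trace_smul, smul_eq_mul, neg_mem_iff]) <;>
        first | with_reducible assumption | (apply mul_mem <;> with_reducible assumption)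
    | algebraMap r =>
      intro M hM i j k l
      simp only [← Algebra.smul_def, mul_smul_comm, trace_smul]
      exact mul_mem r.2 (hM i j k l)
    | add x y _ _ hx hy =>
      intro M hM i j k l
      simp only [add_mul, mul_add, trace_add]
      exact add_mem (hx M hM i j k l) (hy M hM i j k l)
    | mul x y _ _ hx hy => intro M hM; rw [mul_assoc]; exact hx _ (hy M hM)
  have z : ∀ {C M : M4x F} {r : F}, r ≠ 0 → C * C = r • 1 → C * M = -(M * C) → M.trace ∈ L :=
    fun a b c => trace_anti h2 a b c ▸ zero_mem L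
  simpa using key 1 (by
    simp only [P, Bool.forall_bool, cond_true, cond_false, one_mul, mul_one]
    constructorm* _ ∧ _ <;>
      first
      | simpa using natCast_mem L 4
      | (refine z α0 aa ?_; simp [mul_assoc, s aa, t ba, t ca, t da, ba, ca, da, aa]; done)
      | (refine z β0 bb ?_; simp [mul_assoc, s bb, t ba, t cb, t db, ba, cb, db, bb]; done)
      | (refine z γ0 cc ?_; simp [mul_assoc, s cc, t ca, t cb, t dc, ca, cb, dc, cc]; done)
      | (refine z δ0 dd ?_; simp [mul_assoc, s dd, t da, t db, t dc, da, db, dc, dd]; done))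
    false false false false

/-- a Clifford system of the simplex type -/
structure Cl {n : ℕ} (e : Fin n → M4x F) : Prop where
  anti : ∀ i j, e i * e j + e j * e i = (if i = j then -6 else -2 : F) • 1
  skew : ∀ i, Adj (e i) (-e i)

/-- linear combinations -/
def lc {n : ℕ} (e : Fin n → M4x F) : (Fin n → F) →ₗ[F] M4x F := Fintype.linearCombination F e

theorem lc_single {n : ℕ} (e : Fin n → M4x F) (i : Fin n) : lc e (Pi.single i 1) = e i := by
  simp [lc]

/-- the form of a Clifford system -/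
def bt {n : ℕ} (u v : Fin n → F) : F := ∑ i, ∑ j, u i * v j * if i = j then -6 else -2

namespace Cl

variable {n : ℕ} {e : Fin n → M4x F} (h : Cl e)
include h

theorem anti' (u v : Fin n → F) : lc e u * lc e v + lc e v * lc e u = bt u v • 1 := by
  simp only [lc, Fintype.linearCombination_apply, bt, Finset.sum_mul_sum, Finset.sum_smul]
  rw [Finset.sum_comm (f := fun i j => v i • e i * u j • e j), ← Finset.sum_add_distrib]
  refine Finset.sum_congr rfl fun i _ => ?_
  rw [← Finset.sum_add_distrib]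
  refine Finset.sum_congr rfl fun j _ => ?_
  rw [mul_smul, ← h.anti]
  simp only [smul_mul_assoc, mul_smul_comm]
  module

theorem anti0 {u v : Fin n → F} (e0 : bt u v = 0) : lc e u * lc e v = -(lc e v * lc e u) := by
  rw [← add_eq_zero_iff_eq_neg, h.anti', e0, zero_smul]

theorem sq (h2 : (2 : F) ≠ 0) {u : Fin n → F} {c : F} (e0 : bt u u = 2 * c) :
    lc e u * lc e u = c • 1 :=
  smul_right_injective _ h2 (by simp only [two_smul, h.anti', e0, two_mul, add_smul])

theorem skew' (u : Fin n → F) : Adj (lc e u) (-lc e u) := by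
  rw [lc, Fintype.linearCombination_apply, ← Finset.sum_neg_distrib]
  induction (Finset.univ : Finset (Fin n)) using Finset.cons_induction with
  | empty => exact fun u v => by simp [H1.Sp4.f_zero, H1.Sp4.f_zero']
  | cons i s hi ih =>
    rw [Finset.sum_cons, Finset.sum_cons]
    exact (((h.skew i).smul _).cast (smul_neg _ _)).add ih

theorem comp {m : ℕ} {φ : Fin m → Fin n} (hφ : Function.Injective φ) : Cl (e ∘ φ) :=
  ⟨fun i j => by simp [h.anti, hφ.eq_iff], fun i => h.skew _⟩

end Cl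

theorem Cl.trace (h2 : (2 : F) ≠ 0) (h3 : (3 : F) ≠ 0) {e : Fin 4 → M4x F} (h : Cl e)
    (L : Subfield F) {X : M4x F} (hX : X ∈ Algebra.adjoin L (Set.range e)) : X.trace ∈ L := by
  have h4 := four_ne h2
  refine trace_four h2 L (a := lc e ![1, -1, 0, 0]) (b := lc e ![0, 0, 1, -1])
    (c := lc e ![1, 1, -1, -1]) (d := lc e ![1, 1, 1, 1]) (α := -4) (β := -4) (γ := -(2 * 4))
    (δ := -(2 * 3 * 4)) (by simp) (by simp) (by simp [mul_mem]) (by simp [mul_mem]) (by simpa)
    (by simpa) (by simp [*]) (by simp [*]) (h.sq h2 ?_) (h.sq h2 ?_) (h.sq h2 ?_) (h.sq h2 ?_)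
    (h.anti0 ?_) (h.anti0 ?_) (h.anti0 ?_) (h.anti0 ?_) (h.anti0 ?_) (h.anti0 ?_)
    (Algebra.adjoin_le ?_ hX)
  iterate 10 simp [bt, Fin.sum_univ_four]; try norm_num
  rintro _ ⟨i, rfl⟩
  have k : ∀ x y z : F, x ∈ L → y ∈ L → z ∈ L → Pi.single i (1 : F) = x • ![(1 : F), -1, 0, 0] +
      y • ![(0 : F), 0, 1, -1] + z • ![(1 : F), 1, -1, -1] + (4 : F)⁻¹ • ![(1 : F), 1, 1, 1] →
      e i ∈ Algebra.adjoin L {lc e ![1, -1, 0, 0], lc e ![0, 0, 1, -1], lc e ![1, 1, -1, -1],
        lc e ![1, 1, 1, 1]} := fun x y z a b c d => by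
    rw [← lc_single e i, d]
    simp only [map_add, map_smul]
    exact add_mem (add_mem (add_mem
      (Subalgebra.smul_mem _ (Algebra.subset_adjoin (by simp)) (⟨x, a⟩ : L))
      (Subalgebra.smul_mem _ (Algebra.subset_adjoin (by simp)) (⟨y, b⟩ : L)))
      (Subalgebra.smul_mem _ (Algebra.subset_adjoin (by simp)) (⟨z, c⟩ : L)))
      (Subalgebra.smul_mem _ (Algebra.subset_adjoin (by simp)) (⟨_, by simp⟩ : L))
  fin_cases i
  · exact k 2⁻¹ 0 4⁻¹ (by simp) (by simp) (by simp) (by
      ext j; fin_cases j <;> simp <;> field_simp <;> norm_num)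
  · exact k (-2⁻¹) 0 4⁻¹ (by simp) (by simp) (by simp) (by
      ext j; fin_cases j <;> simp <;> field_simp <;> norm_num)
  · exact k 0 2⁻¹ (-4⁻¹) (by simp) (by simp) (by simp) (by
      ext j; fin_cases j <;> simp <;> field_simp <;> norm_num)
  · exact k 0 (-2⁻¹) (-4⁻¹) (by simp) (by simp) (by simp) (by
      ext j; fin_cases j <;> simp <;> field_simp <;> norm_num)

end Cfsg.Agent.O5
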