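import Cfsg.Agent.O5.G4a

/-!
The cases of a socle `A₆` or `A₇`.
-/

set_option autoImplicit false
set_option linter.unusedSectionVars false

namespace Cfsg.Agent.O5

open Module Matrix H1.Spin5 Equiv

variable {F : Type*} [Field F] {Γ : Type*} [Group Γ]

theorem wp_char3 (h2 : (2 : F) ≠ 0) (h3 : (3 : F) = 0) {A : GL I4 F} (hA : A ∈ spGL 2 F)
    (a3 : A ^ 3 = 1) : wp A = 0 := by
  by_contra h0
  obtain ⟨t1, -⟩ := three_nq h2 hA a3 h0
  have e : A * A = A⁻¹ := eq_inv_of_mul_eq_one_left (by rw [← a3, pow_succ, pow_two])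
  have e' : A⁻¹ * A⁻¹ = A := by rw [← _root_.mul_inv_rev, e, inv_inv]
  have k : ψ (wp A) = tt A - (2 : F) • 1 := by
    rw [tt_eq h2 hA, t1, show (1 / 2 : F) = 2 by field_simp; linear_combination -h3]; abel
  have dd : (A.1 - (A⁻¹).1) * (A.1 - (A⁻¹).1) = ψ (wp A) := by
    simp only [k, tt, mul_sub, sub_mul, ← Units.val_mul, e, e', mul_inv_cancel, inv_mul_cancel,
      Units.val_one]
    module
  have d1 : (A.1 - (A⁻¹).1) * ψ (wp A) = 0 := by
    simp only [k, tt, mul_sub, sub_mul, mul_add, ← Units.val_mul, e, e', mul_inv_cancel,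
      inv_mul_cancel, Units.val_one, mul_smul_comm, mul_one]
    linear_combination (norm := module) h3 • ((A⁻¹).1 - A.1)
  generalize A.1 - (A⁻¹).1 = D at dd d1
  have d2 : ψ (wp A) * D = 0 := by rw [← dd, mul_assoc, dd, d1]
  obtain ⟨t, ht⟩ := H1.Sp4.exists_B h2 h0
  have := congrArg (fun X => D * X * D) (ψ_add_swap (wp A) t)
  simp only [B_def, ht, one_smul, mul_one, dd, mul_add, add_mul, ← mul_assoc, d1, zero_mul] at this
  rw [mul_assoc, d2, mul_zero, add_zero] at this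
  exact h0 (ψ_inj this.symm)

/-- quadratic elements -/
def Qd (ρ : Γ →* GW F) (g : Γ) : Prop := ∃ A, Lf A (ρ g) ∧ wp A = 0

/-- Carmichael's relations -/
def Cm3 {n : ℕ} (a : Fin n → Γ) : Prop := (∀ i, a i ^ 3 = 1 ∧ a i ≠ 1) ∧
  ∀ i j, i ≠ j → a i * a j * (a i * a j) = 1 ∧ a i * a j ≠ 1

instance {n : ℕ} [DecidableEq Γ] (a : Fin n → Γ) : Decidable (Cm3 a) := by
  unfold Cm3; infer_instance

/-- further relations for the alternating group of degree six -/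
def Cm6 (a : Fin 4 → Γ) : Prop := Cm3 a ∧ (a 0 * a 1 * a 2) ^ 5 = 1 ∧ a 0 * a 1 * a 2 ≠ 1 ∧
  (a 1 * (a 2)⁻¹ * a 3 * (a 1)⁻¹) ^ 3 = 1 ∧
  a 0 * (a 1 * (a 2)⁻¹ * a 3 * (a 1)⁻¹) = a 1 * (a 2)⁻¹ * a 3 * (a 1)⁻¹ * a 0 ∧
  (∀ i < 3, a 1 * (a 2)⁻¹ * a 3 * (a 1)⁻¹ ≠ a 0 ^ i) ∧
  a 0 * a 1 * (a 1 * a 0) = a 1 * a 0 * (a 0 * a 1) ∧ ∀ i < 2, a 1 * a 0 ≠ (a 0 * a 1) ^ i

instance [DecidableEq Γ] (a : Fin 4 → Γ) : Decidable (Cm6 a) := by
  unfold Cm6; infer_instance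

theorem comm_of_lc {n : ℕ} {A : Fin n → GL I4 F} (h2 : (2 : F) ≠ 0) {z : M4x F} {i : Fin n}
    {c : F} (hc : c ≠ 0) (h : z * lc (fun i => (2 : F) • (A i).1 + 1) (Pi.single i c) =
      lc (fun i => (2 : F) • (A i).1 + 1) (Pi.single i c) * z) : (A i).1 * z = z * (A i).1 := by
  simp [lc, mul_add, add_mul, hc, h2] at h
  exact h.symm

variable {p : ℕ} {ρ : Γ →* GW F} {N : Subgroup (GW F)}

namespace Cx

variable (h : Cx p ρ N)
include h

theorem qd_all {g : Γ} (a : Qd ρ g) {A : GL I4 F} (b : Lf A (ρ g)) : wp A = 0 := by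
  obtain ⟨C, c, d⟩ := a
  rcases c.wp_eq h.two b with e | e <;> simp [e, d]

theorem qd_conj {g g' : Γ} (a : Qd ρ g) (γ : Γ) (e : γ * g * γ⁻¹ = g') : Qd ρ g' := by
  obtain ⟨C, c, d⟩ := a
  obtain ⟨T, t⟩ := h.lift γ
  exact ⟨_, e ▸ h.lf_mul (h.lf_mul t c) (h.lf_inv t), by rw [t.wp_conj h.two c.1, d, map_zero]⟩

theorem three_ne (h9 : 9 ∣ Nat.card Γ) {g : Γ} (g3 : g ^ 3 = 1) (g1 : g ≠ 1) : (3 : F) ≠ 0 := by
  intro h3
  obtain ⟨A, a, a3⟩ := h.odd_lift (by decide) g3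
  have := three_q h.two a.1 a3 (wp_char3 h.two h3 a.1 a3) fun e => g1 (h.na g A a (by simp [e]))
  refine (h.ns g A a ?_).elim g1 fun e => e.2 h9
  have e := A.mul_inv
  simp only [this, mul_sub, sub_mul, mul_neg, mul_one, one_mul] at e ⊢
  linear_combination (norm := module) -e - h3 • A.1

theorem qd_dich (h3 : (3 : F) ≠ 0) {a b : Γ} (a3 : a ^ 3 = 1) (b3 : b ^ 3 = 1) (e : a * b = b * a) :
    Qd ρ a ∨ Qd ρ b ∨ Qd ρ (a * b) ∨ Qd ρ (a * b⁻¹) := by
  obtain ⟨A, a1, a2⟩ := h.odd_lift (by decide) a3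
  obtain ⟨C, c1, c2⟩ := h.odd_lift (by decide) b3
  have := h.lf_mul (h.lf_mul a1 c1) (h.lf_inv a1)
  rw [e, mul_inv_cancel_right] at this
  have := h.odd_unique (n := 3) (by decide) c1 this c2 (by rw [conj_pow, c2]; simp)
  by_contra! c
  exact dich h.two h3 a1.1 c1.1 a2 c2 (mul_inv_eq_iff_eq_mul.1 this) (fun e => c.1 ⟨_, a1, e⟩)
    (fun e => c.2.1 ⟨_, c1, e⟩) (fun e => c.2.2.1 ⟨_, h.lf_mul a1 c1, e⟩)
    fun e => c.2.2.2 ⟨_, h.lf_mul a1 (h.lf_inv c1), e⟩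

theorem qd_v4 {a j k : Γ} (a3 : a ^ 3 = 1) (j2 : j * j = 1) (j1 : j ≠ 1) (k2 : k * k = 1)
    (k1 : k ≠ 1) (jk2 : j * k * (j * k) = 1) (jk1 : j * k ≠ 1) (ja : j * a * j⁻¹ = a)
    (ka : k * a * k⁻¹ = a) : Qd ρ a := by
  obtain ⟨A, a1, a2⟩ := h.odd_lift (by decide) a3
  obtain ⟨J, hJ⟩ := h.lift j
  obtain ⟨K, hK⟩ := h.lift k
  have c : ∀ x X, Lf X (ρ x) → x * a * x⁻¹ = a → X * A = A * X := fun x X b e =>
    mul_inv_eq_iff_eq_mul.1 (h.odd_unique (n := 3) (by decide) a1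
      (e ▸ h.lf_mul (h.lf_mul b a1) (h.lf_inv b)) a2 (by rw [conj_pow, a2]; simp))
  exact ⟨A, a1, qd_of_q8 h.two a1.1 hJ.1 a2 (h.inv_sq hJ j2 j1) (h.inv_sq hK k2 k1)
    (h.inv_sq (h.lf_mul hJ hK) jk2 jk1) (c j J hJ ja) (c k K hK ka)⟩

theorem car {n : ℕ} {a : Fin n → Γ} (ha : Cm3 a) (hq : ∀ i, Qd ρ (a i)) :
    ∃ A : Fin n → GL I4 F, (∀ i, Lf (A i) (ρ (a i))) ∧ (∀ i, ((A i)⁻¹).1 = -1 - (A i).1) ∧
      Cl fun i => (2 : F) • (A i).1 + 1 := by
  choose A a1 a2 using fun i => h.odd_lift (by decide) (ha.1 i).1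
  have a3 : ∀ i, ((A i)⁻¹).1 = -1 - (A i).1 := fun i => three_q h.two (a1 i).1 (a2 i)
    (h.qd_all (hq i) (a1 i)) fun e => (ha.1 i).2 (h.na _ _ (a1 i) (by simp [e]))
  refine ⟨A, a1, a3, fun i j => ?_, fun i => (((Adj.sp (a1 i).1).smul 2).add Adj.one).cast ?_⟩
  · simp only [mul_add, add_mul, smul_mul_assoc, mul_smul_comm, one_mul, mul_one]
    split_ifs with e
    · subst e
      have := (A i).mul_inv
      simp only [a3, mul_sub, mul_neg, mul_one] at this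
      linear_combination (norm := module) (-8 : F) • this
    · have := h.inv_sq (h.lf_mul (a1 i) (a1 j)) (ha.2 i j e).1 (ha.2 i j e).2
      have : (A i * A j)⁻¹ = -(A i * A j) :=
        inv_eq_of_mul_eq_one_right (by rw [mul_neg, this, neg_neg])
      have := congrArg Units.val this
      simp only [_root_.mul_inv_rev, Units.val_mul, Units.val_neg, a3, mul_sub, sub_mul, mul_neg,
        neg_mul, mul_one, one_mul] at this
      linear_combination (norm := module) (4 : F) • this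
  · rw [a3]; module

theorem card_p [Fintype F] (h3 : (3 : F) ≠ 0) {n : ℕ} {a : Fin n → Γ}
    (hS : Subgroup.closure (Set.range a) = ⊤) {A : Fin n → GL I4 F} (a1 : ∀ i, Lf (A i) (ρ (a i)))
    (a3 : ∀ i, ((A i)⁻¹).1 = -1 - (A i).1) {e : Fin 4 → M4x F} (he : Cl e)
    (hA : ∀ i, (2 : F) • (A i).1 + 1 ∈ Algebra.adjoin (⊥ : Subfield F) (Set.range e)) :
    Fintype.card F = p := by
  have := h.char
  have := Fact.mk h.prime
  have := h.tr ⊥ fun g X b => he.trace h.two h3 ⊥ (h.gen_ind hS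
    (q := fun X => X.1 ∈ Algebra.adjoin (⊥ : Subfield F) (Set.range e)) (by
      rintro _ ⟨i, rfl⟩
      have : (A i).1 ∈ Algebra.adjoin (⊥ : Subfield F) (Set.range e) := by
        have := Subalgebra.smul_mem _ (sub_mem (hA i) (one_mem _)) (⟨2⁻¹, by simp⟩ : (⊥ : Subfield F))
        rwa [add_sub_cancel_right, Subfield.smul_def, smul_smul, inv_mul_cancel₀ h.two,
          one_smul] at this
      exact ⟨A i, a1 i, this, a3 i ▸ sub_mem (neg_mem (one_mem _)) this⟩)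
    (one_mem _) (fun _ => neg_mem) (fun _ _ => mul_mem) g X b)
  rw [← Subfield.card_bot F p, this, Nat.card_congr Subfield.topEquiv.toEquiv,
    Nat.card_eq_fintype_card]

theorem six [Fintype F] [Finite Γ] [IsSimpleGroup Γ] (hc : Nat.card Γ = 360) (h3 : (3 : F) ≠ 0)
    {a : Fin 4 → Γ} (ha : Cm6 a) (hq : ∀ i, Qd ρ (a i)) : Fintype.card F = p ∧ p ≠ 7 := by
  obtain ⟨c3, g5, g1, z3, zc, zn, vc, vn⟩ := ha
  obtain ⟨A, a1, a3, cl⟩ := h.car c3 hq
  have i1 := c3.2 0 1 (by decide)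
  have m : ∀ i, a i ∈ Subgroup.closure (Set.range a) := fun i => Subgroup.subset_closure ⟨i, rfl⟩
  refine ⟨h.card_p h3 (top_of (d := 2 * 5 * 3 ^ 2) (m := 4) (Nat.Coprime.mul_dvd_of_dvd_of_dvd
    (by norm_num) (Nat.Coprime.mul_dvd_of_dvd_of_dvd (by norm_num)
      (prime_dvd (mul_mem (m 0) (m 1)) (by norm_num) (by rw [pow_two, i1.1]) i1.2)
      (prime_dvd (mul_mem (mul_mem (m 0) (m 1)) (m 2)) (by norm_num) g5 g1))
    (sq_dvd (m 0) (mul_mem (mul_mem (mul_mem (m 1) (inv_mem (m 2))) (m 3)) (inv_mem (m 1)))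
      (by norm_num) (c3.1 0).1 z3 (c3.1 0).2 zc zn)) hc (by decide)) a1 a3 cl
    fun i => Algebra.subset_adjoin ⟨i, rfl⟩, fun h7 => ?_⟩
  have n : ∀ k : ℕ, ¬ 7 ∣ k → (k : F) ≠ 0 := fun k hk => h.cast_ne (h7 ▸ hk)
  generalize he : (fun i => (2 : F) • (A i).1 + 1) = e at cl
  have t := h.two
  obtain ⟨aa, bb, cc, dd⟩ : lc e ![1, -1, 0, 0] * lc e ![1, -1, 0, 0] = (-4 : F) • 1 ∧
      lc e ![1, 1, -2, 0] * lc e ![1, 1, -2, 0] = (-12 : F) • 1 ∧
      lc e ![1, 1, 1, 0] * lc e ![1, 1, 1, 0] = (-15 : F) • 1 ∧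
      lc e ![-1, -1, -1, 5] * lc e ![-1, -1, -1, 5] = (-60 : F) • 1 := by
    refine ⟨cl.sq t ?_, cl.sq t ?_, cl.sq t ?_, cl.sq t ?_⟩ <;>
      simp [bt, Fin.sum_univ_four] <;> norm_num
  obtain ⟨ba, ca, cb, da, db, dc⟩ :
      lc e ![1, 1, -2, 0] * lc e ![1, -1, 0, 0] = -(lc e ![1, -1, 0, 0] * lc e ![1, 1, -2, 0]) ∧
      lc e ![1, 1, 1, 0] * lc e ![1, -1, 0, 0] = -(lc e ![1, -1, 0, 0] * lc e ![1, 1, 1, 0]) ∧
      lc e ![1, 1, 1, 0] * lc e ![1, 1, -2, 0] = -(lc e ![1, 1, -2, 0] * lc e ![1, 1, 1, 0]) ∧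
      lc e ![-1, -1, -1, 5] * lc e ![1, -1, 0, 0] = -(lc e ![1, -1, 0, 0] * lc e ![-1, -1, -1, 5]) ∧
      lc e ![-1, -1, -1, 5] * lc e ![1, 1, -2, 0] = -(lc e ![1, 1, -2, 0] * lc e ![-1, -1, -1, 5]) ∧
      lc e ![-1, -1, -1, 5] * lc e ![1, 1, 1, 0] = -(lc e ![1, 1, 1, 0] * lc e ![-1, -1, -1, 5]) := by
    refine ⟨cl.anti0 ?_, cl.anti0 ?_, cl.anti0 ?_, cl.anti0 ?_, cl.anti0 ?_, cl.anti0 ?_⟩ <;>
      simp [bt, Fin.sum_univ_four] <;> norm_num
  have sa := cl.skew' ![1, -1, 0, 0]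
  have sb := cl.skew' ![1, 1, -2, 0]
  have sc := cl.skew' ![1, 1, 1, 0]
  have k : ∀ (i : Fin 4) (x y z : F), Pi.single i (6 : F) = x • ![(1 : F), -1, 0, 0] +
      y • ![(1 : F), 1, -2, 0] + z • ![(1 : F), 1, 1, 0] → lc e (Pi.single i 6) =
      x • lc e ![1, -1, 0, 0] + y • lc e ![1, 1, -2, 0] + z • lc e ![1, 1, 1, 0] :=
    fun i x y z d => by rw [d]; simp only [map_add, map_smul]
  generalize lc e ![1, -1, 0, 0] = u at *
  generalize lc e ![1, 1, -2, 0] = v at *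
  generalize lc e ![1, 1, 1, 0] = w at *
  generalize lc e ![-1, -1, -1, 5] = d at *
  have s : ∀ {x : M4x F} {r : F}, x * x = r • 1 → ∀ X, x * (x * X) = r • X := fun e X => by
    rw [← mul_assoc, e]; simp
  have r : ∀ {x y : M4x F}, x * y = -(y * x) → ∀ X, x * (y * X) = -(y * (x * X)) := fun e X => by
    rw [← mul_assoc, e]; simp [mul_assoc]
  have ad : Adj (u * (v * w)) (u * (v * w)) :=
    (sa.mul (sb.mul sc)).cast (by simp [mul_assoc, r ba, r ca, r cb, ba, ca, cb])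
  obtain ⟨x, hx⟩ := ad.dec t
  rw [trace_anti t (neg_ne_zero.2 (by exact_mod_cast n 60 (by decide))) dd
    (by simp [mul_assoc, r da, r db, dc]), zero_div, zero_smul, zero_add] at hx
  have x0 : x ≠ 0 := fun c => by
    have : u * (v * w) * (u * (v * w)) = (720 : F) • 1 := by
      simp only [mul_assoc, r ba, r ca, r cb, s aa, s bb, cc, mul_neg, neg_neg, mul_smul_comm,
        mul_one, aa, bb]
      module
    rw [hx, c, map_zero, zero_mul] at this
    exact n 720 (by decide) (by exact_mod_cast smul_one_eq_zero this.symm)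
  have f : ∀ (i : Fin 4) (x' y z : F), Pi.single i (6 : F) = x' • ![(1 : F), -1, 0, 0] +
      y • ![(1 : F), 1, -2, 0] + z • ![(1 : F), 1, 1, 0] → a i ∈ stb ρ x := fun i x' y z d =>
    (a1 i).fix_iff.2 (comm_of_lc t (c := 6) (by exact_mod_cast n 6 (by decide)) (by
      rw [he, k i x' y z d, ← hx]
      simp only [mul_add, add_mul, smul_mul_assoc, mul_smul_comm, mul_assoc, r ba, r ca, r cb, s aa,
        s bb, cc, mul_neg, neg_neg, mul_one, ba, ca, cb, bb])).symm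
  have f0 := f 0 3 1 2 (by ext j; fin_cases j <;> simp <;> norm_num)
  have f1 := f 1 (-3) 1 2 (by ext j; fin_cases j <;> simp <;> norm_num)
  have f2 := f 2 0 (-2) 2 (by ext j; fin_cases j <;> simp <;> norm_num)
  exact h.no_simplex7 h7 x0 (Nat.le_of_dvd (by norm_num) (index_dvd (d := 3 * 5 * 2 ^ 2) (m := 6)
    (Nat.Coprime.mul_dvd_of_dvd_of_dvd (by norm_num) (Nat.Coprime.mul_dvd_of_dvd_of_dvd
      (by norm_num) (prime_dvd f0 (by norm_num) (c3.1 0).1 (c3.1 0).2)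
      (prime_dvd (mul_mem (mul_mem f0 f1) f2) (by norm_num) g5 g1))
      (sq_dvd (mul_mem f0 f1) (mul_mem f1 f0) (by norm_num) (by rw [pow_two, i1.1])
        (by rw [pow_two, (c3.2 1 0 (by decide)).1]) i1.2 vc vn)) hc))
    (mul_mem (mul_mem f0 f1) f2) g5 g1 (by rw [hc]; decide)

theorem seven [Fintype F] (h3 : (3 : F) ≠ 0) {a : Fin 5 → Γ} (ha : Cm3 a)
    (hS : Subgroup.closure (Set.range a) = ⊤) (hq : ∀ i, Qd ρ (a i)) : Fintype.card F = 7 := by
  obtain ⟨A, a1, a3, cl⟩ := h.car ha hq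
  generalize he : (fun i => (2 : F) • (A i).1 + 1) = e at cl
  have t := h.two
  have t4 := four_ne t
  obtain ⟨aa, bb, cc, dd, ee⟩ : lc e ![1, -1, 0, 0, 0] * lc e ![1, -1, 0, 0, 0] = (-4 : F) • 1 ∧
      lc e ![0, 0, 1, -1, 0] * lc e ![0, 0, 1, -1, 0] = (-4 : F) • 1 ∧
      lc e ![1, 1, -1, -1, 0] * lc e ![1, 1, -1, -1, 0] = (-8 : F) • 1 ∧
      lc e ![1, 1, 1, 1, 0] * lc e ![1, 1, 1, 1, 0] = (-24 : F) • 1 ∧
      lc e ![-1, -1, -1, -1, 6] * lc e ![-1, -1, -1, -1, 6] = (-84 : F) • 1 := by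
    refine ⟨cl.sq t ?_, cl.sq t ?_, cl.sq t ?_, cl.sq t ?_, cl.sq t ?_⟩ <;>
      simp [bt, Fin.sum_univ_five] <;> norm_num
  have an : ∀ i j : Fin 5, j < i →
      lc e (![![1, -1, 0, 0, 0], ![0, 0, 1, -1, 0], ![1, 1, -1, -1, 0], ![1, 1, 1, 1, 0],
        ![-1, -1, -1, -1, 6]] i) * lc e (![![1, -1, 0, 0, 0], ![0, 0, 1, -1, 0], ![1, 1, -1, -1, 0],
        ![1, 1, 1, 1, 0], ![-1, -1, -1, -1, 6]] j) = -(lc e (![![1, -1, 0, 0, 0], ![0, 0, 1, -1, 0],
        ![1, 1, -1, -1, 0], ![1, 1, 1, 1, 0], ![-1, -1, -1, -1, 6]] j) * lc e (![![1, -1, 0, 0, 0],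
        ![0, 0, 1, -1, 0], ![1, 1, -1, -1, 0], ![1, 1, 1, 1, 0], ![-1, -1, -1, -1, 6]] i)) :=
    fun i j hij => cl.anti0 (by
      fin_cases i <;> fin_cases j <;> simp [bt, Fin.sum_univ_five] at hij ⊢ <;> norm_num)
  have ba := an 1 0 (by decide)
  have ca := an 2 0 (by decide)
  have cb := an 2 1 (by decide)
  have da := an 3 0 (by decide)
  have db := an 3 1 (by decide)
  have dc := an 3 2 (by decide)
  have ea := an 4 0 (by decide)
  have eb := an 4 1 (by decide)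
  have ec := an 4 2 (by decide)
  have ed := an 4 3 (by decide)
  clear an
  simp only [cons_val] at ba ca cb da db dc ea eb ec ed
  have sa := cl.skew' ![1, -1, 0, 0, 0]
  have sb := cl.skew' ![0, 0, 1, -1, 0]
  have sc := cl.skew' ![1, 1, -1, -1, 0]
  have sd := cl.skew' ![1, 1, 1, 1, 0]
  have se := cl.skew' ![-1, -1, -1, -1, 6]
  have k : ∀ i : Fin 5, ∃ x1 x2 x3 x4 x5 : F, lc e (Pi.single i 12) = x1 • lc e ![1, -1, 0, 0, 0] +
      x2 • lc e ![0, 0, 1, -1, 0] + x3 • lc e ![1, 1, -1, -1, 0] + x4 • lc e ![1, 1, 1, 1, 0] +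
      x5 • lc e ![-1, -1, -1, -1, 6] := fun i => by
    refine ⟨![6, -6, 0, 0, 0] i, ![0, 0, 6, -6, 0] i, ![3, 3, -3, -3, 0] i, ![3, 3, 3, 3, 2] i,
      ![0, 0, 0, 0, 2] i, ?_⟩
    simp only [← map_smul, ← map_add]
    congr 1
    ext j; fin_cases i <;> fin_cases j <;> simp <;> norm_num
  have k5 : lc e ![-1, -1, -1, -1, 6] = (6 : F) • e 4 - (e 0 + e 1 + e 2 + e 3) := by
    simp [lc, Fintype.linearCombination_apply, Fin.sum_univ_five]; abel
  generalize lc e ![1, -1, 0, 0, 0] = u at *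
  generalize lc e ![0, 0, 1, -1, 0] = v at *
  generalize lc e ![1, 1, -1, -1, 0] = w at *
  generalize lc e ![1, 1, 1, 1, 0] = d at *
  generalize lc e ![-1, -1, -1, -1, 6] = y at *
  have s : ∀ {x : M4x F} {r : F}, x * x = r • 1 → ∀ X, x * (x * X) = r • X := fun e X => by
    rw [← mul_assoc, e]; simp
  have r : ∀ {x y : M4x F}, x * y = -(y * x) → ∀ X, x * (y * X) = -(y * (x * X)) := fun e X => by
    rw [← mul_assoc, e]; simp [mul_assoc]
  obtain ⟨c, hc⟩ := h.schur hS (M := u * (v * (w * (d * y)))) (by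
    rintro _ ⟨i, rfl⟩
    refine ⟨A i, a1 i, comm_of_lc t (c := 12) (by
      rw [show (12 : F) = 3 * 4 by norm_num]; exact mul_ne_zero h3 t4) ?_⟩
    obtain ⟨x1, x2, x3, x4, x5, b⟩ := k i
    rw [he, b]
    simp only [mul_add, add_mul, smul_mul_assoc, mul_smul_comm, mul_assoc, r ba, r ca, r cb, r da,
      r db, r dc, s aa, s bb, s cc, s dd, ee, mul_neg, neg_neg, mul_one, ea, eb, ec, ed, r ea, r eb,
      r ec, r ed, bb, cc, dd])
  have := (sa.mul (sb.mul (sc.mul (sd.mul se)))).unique (hc ▸ Adj.one.smul c)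
  simp only [mul_assoc, r ba, r ca, r cb, r da, r db, r dc, mul_neg, neg_mul, neg_neg, r ea, r eb,
    r ec, r ed, ba, ca, da, ea, cb, db, dc, eb, ec, ed, hc] at this
  have c0 : c = 0 := mul_left_cancel₀ t (by
    linear_combination smul_one_eq_zero (c := 2 * c) (by linear_combination (norm := module) -this))
  have y0 : y = 0 := by
    have := congrArg (fun X => d * (w * (v * (u * X)))) hc
    simp only [s aa, s bb, s cc, s dd, mul_smul_comm, c0, zero_smul, mul_zero, smul_eq_zero,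
      neg_eq_zero] at this
    simpa [t4, show (8 : F) = 2 * 4 by norm_num, show (24 : F) = 2 * 3 * 4 by norm_num, t,
      h3] using this
  have z7 : (7 : F) = 0 := by
    rw [y0, mul_zero] at ee
    exact mul_left_cancel₀ (mul_ne_zero h3 t4) (by linear_combination -smul_one_eq_zero ee.symm)
  have h7 : p = 7 := (Nat.prime_dvd_prime_iff_eq h.prime (by norm_num)).1
    (by_contra fun c => h.cast_ne c (by exact_mod_cast z7))
  refine h7 ▸ h.card_p h3 hS a1 a3 (cl.comp (Fin.castSucc_injective 4)) fun i => ?_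
  have m : ∀ i : Fin 4, e i.castSucc ∈ Algebra.adjoin (⊥ : Subfield F)
    (Set.range (e ∘ Fin.castSucc)) := fun i => Algebra.subset_adjoin ⟨i, rfl⟩
  rw [show (2 : F) • (A i).1 + 1 = e i from congrFun he i]
  refine Fin.lastCases ?_ m i
  rw [show e (Fin.last 4) = -(e 0 + e 1 + e 2 + e 3) from (by
    rw [y0] at k5
    linear_combination (norm := module) k5 + z7 • e 4 : e 4 = _)]
  exact neg_mem (add_mem (add_mem (add_mem (m 0) (m 1)) (m 2)) (m 3))

theorem a6 [Fintype F] (e : Γ ≃* alternatingGroup (Fin 6)) :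
    Fintype.card F = p ∧ 5 ≤ p ∧ p ≠ 7 := by
  have k := h.comp e
  have := alternatingGroup.isSimpleGroup (α := Fin 6) (by simp)
  have hc : Nat.card (alternatingGroup (Fin 6)) = 360 := by rw [nat_card_alternatingGroup]; simp; rfl
  have h3 := k.three_ne (by rw [hc]; decide) (g := al 0 1 1 2) (by decide +kernel) (by decide +kernel)
  have A : Qd _ (al (0 : Fin 6) 1 1 2) → _ := fun q =>
    k.six hc h3 (a := ![al 0 1 1 2, al 0 1 1 3, al 0 1 1 4, al 0 1 1 5]) (by decide +kernel)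
      fun i => k.qd_conj q (![1, al 2 3 3 4, al 2 3 2 4, al 2 3 2 5] i) (by revert i; decide +kernel)
  have B : Qd _ (al (0 : Fin 6) 1 1 2 * al (3 : Fin 6) 4 4 5) → _ := fun q =>
    k.six hc h3 (a := ![al 0 1 1 2 * al 3 4 4 5, al 0 2 1 3 * al 2 4 3 5, al 0 3 0 4 * al 1 2 1 5,
      al 0 1 0 3 * al 2 4 2 5]) (by decide +kernel)
      fun i => k.qd_conj q (![1, al 0 5 2 3, al 1 4 2 3, al 0 5 1 4] i) (by revert i; decide +kernel)
  have : Fintype.card F = p ∧ p ≠ 7 := by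
    rcases k.qd_dich h3 (a := al 0 1 1 2) (b := al 3 4 4 5) (by decide +kernel) (by decide +kernel)
      (by decide +kernel) with q | q | q | q
    · exact A q
    · exact A (k.qd_conj q (al 0 1 0 3 * al 1 4 2 5)⁻¹ (by decide +kernel))
    · exact B q
    · exact B (k.qd_conj q (al 0 1 0 3 * al 1 4 2 5) (by decide +kernel))
  exact ⟨this.1, h.five_le h3, this.2⟩

theorem a7 [Fintype F] (e : Γ ≃* alternatingGroup (Fin 7)) : Fintype.card F = 7 := by
  have k := h.comp e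
  have := alternatingGroup.isSimpleGroup (α := Fin 7) (by simp)
  have hc : Nat.card (alternatingGroup (Fin 7)) = 2520 := by
    rw [nat_card_alternatingGroup]; simp; rfl
  have h3 := k.three_ne (by rw [hc]; decide) (g := al 0 1 1 2) (by decide +kernel) (by decide +kernel)
  have q := k.qd_v4 (a := al 0 1 1 2) (j := al 3 4 5 6) (k := al 3 5 4 6) (by decide +kernel)
    (by decide +kernel) (by decide +kernel) (by decide +kernel) (by decide +kernel)
    (by decide +kernel) (by decide +kernel) (by decide +kernel) (by decide +kernel)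
  let a : Fin 5 → alternatingGroup (Fin 7) :=
    ![al 0 1 1 2, al 0 1 1 3, al 0 1 1 4, al 0 1 1 5, al 0 1 1 6]
  have m : ∀ i, a i ∈ Subgroup.closure (Set.range a) := fun i => Subgroup.subset_closure ⟨i, rfl⟩
  exact k.seven h3 (a := a) (by decide +kernel) (top_of (d := 3 * 5 * 7 * 2 ^ (1 + 1)) (m := 6)
    (Nat.Coprime.mul_dvd_of_dvd_of_dvd (by norm_num) (Nat.Coprime.mul_dvd_of_dvd_of_dvd
      (by norm_num) (Nat.Coprime.mul_dvd_of_dvd_of_dvd (by norm_num)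
        (prime_dvd (m 0) (by norm_num) (by decide +kernel) (by decide +kernel))
        (prime_dvd (mul_mem (mul_mem (m 0) (m 1)) (m 2)) (by norm_num) (by decide +kernel)
          (by decide +kernel)))
      (prime_dvd (mul_mem (mul_mem (mul_mem (mul_mem (m 0) (m 1)) (m 2)) (m 3)) (m 4))
        (by norm_num) (by decide +kernel) (by decide +kernel)))
      (ppow_dvd (mul_mem (mul_mem (mul_mem (m 0) (m 1)) (m 2)) (inv_mem (m 3))) (by norm_num)
        (by decide +kernel) (by decide +kernel))) hc (by decide)) fun i => k.qd_conj q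
    (![1, al 2 3 3 4, al 2 3 2 4, al 2 3 2 5, al 2 3 2 6] i) (by revert i; decide +kernel)

end Cx

end Cfsg.Agent.O5
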