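import Cfsg.Agent.O5.G7a

/-!
A socle of order 168 does not give a maximal subgroup of `Sp₄(7)`.
-/

set_option autoImplicit false
set_option linter.unusedSectionVars false
set_option synthInstance.maxSize 4096

namespace Cfsg.Agent.O5

open Module Matrix H1.Spin5
open scoped MatrixGroups

variable {F : Type*} [Field F] {Γ : Type*} [Group Γ]

/-- the model -/
abbrev L3 : Type := SL(3, ZMod 2)

/-- an element of the model -/
def sl (M : Matrix (Fin 3) (Fin 3) (ZMod 2)) (h : M.det = 1 := by decide +kernel) : L3 := ⟨M, h⟩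

/-- the seven points -/
abbrev Pt7 : Type := {v : Fin 3 → ZMod 2 // v ≠ 0}

instance : MulAction L3 Pt7 where
  smul M v := ⟨M.1 *ᵥ v.1, fun e => v.2 (by simpa [adjugate_mul] using congrArg ((M⁻¹).1 *ᵥ ·) e)⟩
  one_smul v := Subtype.ext (one_mulVec v.1)
  mul_smul M N v := Subtype.ext (mulVec_mulVec v.1 M.1 N.1).symm

theorem mat3 {P : L3 → Prop} (h : ∀ (a b c d e f g h i : ZMod 2)
    (k : (!![a, b, c; d, e, f; g, h, i]).det = 1), P (sl _ k)) (M : L3) : P M := by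
  obtain ⟨M, k⟩ := M
  revert k
  rw [eta_fin_three M]
  exact h _ _ _ _ _ _ _ _ _

theorem iso168 [Finite Γ] [IsSimpleGroup Γ] (hc : Nat.card Γ = 168) : Nonempty (Γ ≃* L3) := by
  obtain ⟨e⟩ := H6.MG.simple168' hc
  have : Subgroup.center L3 = ⊥ := (Subgroup.eq_bot_iff_forall _).2 fun M hM => by
    obtain ⟨r, a, b⟩ := Matrix.SpecialLinearGroup.mem_center_iff.1 hM
    have : r = 1 := by clear b; revert a; simp only [Fintype.card_fin]; revert r; decide
    exact Subtype.ext (by rw [← b, this]; simp)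
  exact ⟨e.trans ((QuotientGroup.quotientMulEquivOfEq this).trans QuotientGroup.quotientBot)⟩

namespace L3

/-- an element of order four -/
def g : L3 := sl !![0, 1, 0; 1, 0, 1; 0, 0, 1]
/-- an involution inverting `g` -/
def v : L3 := sl !![1, 0, 0; 0, 1, 1; 0, 0, 1]
/-- an involution -/
def t : L3 := sl !![0, 1, 0; 1, 0, 0; 0, 0, 1]
/-- another involution -/
def r : L3 := sl !![0, 0, 1; 0, 1, 0; 1, 0, 0]
/-- an element of order three -/
def u : L3 := sl !![0, 1, 0; 1, 1, 0; 0, 0, 1]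
/-- an element of order seven -/
def s : L3 := sl !![0, 0, 1; 0, 1, 1; 1, 1, 0]
/-- an element normalising `s` -/
def δ : L3 := sl !![0, 0, 1; 1, 1, 1; 1, 0, 1]
/-- a point -/
def o₁ : Pt7 := ⟨![1, 0, 0], by decide⟩
/-- a point -/
def o₂ : Pt7 := ⟨![0, 1, 0], by decide⟩

theorem stab : ∀ M : L3, M • o₁ = o₁ → M • o₂ = o₂ → M ∈ [1, v, g * g, v * (g * g)] :=
  mat3 (by decide +kernel)

theorem invs : ∀ M : L3, M * M = 1 → M ≠ 1 → (M * s) ^ 3 = 1 → ∃ c ∈ [1, s,
    sl !![1, 1, 0; 1, 0, 1; 0, 1, 0], sl !![0, 1, 0; 1, 1, 1; 0, 1, 1],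
    sl !![0, 1, 1; 1, 0, 0; 1, 0, 1], sl !![1, 0, 1; 0, 0, 1; 1, 1, 1],
    sl !![1, 1, 1; 1, 1, 0; 1, 0, 0]], c * t = M * c ∧ c * s = s * c :=
  mat3 (by decide +kernel)

theorem tr2 (i j : Pt7) (h : i ≠ j) : ∃ γ : L3, γ • o₁ = i ∧ γ • o₂ = j := by
  obtain ⟨w, hw⟩ : ∃ w : Fin 3 → ZMod 2, (Matrix.of ![i.1, j.1, w])ᵀ.det = 1 := by
    revert i j; decide +kernel
  refine ⟨⟨_, hw⟩, Subtype.ext ?_, Subtype.ext ?_⟩ <;>
    change (Matrix.of ![i.1, j.1, w])ᵀ *ᵥ _ = _ <;> ext k <;> simp [o₁, o₂, mulVec, dotProduct, Fin.sum_univ_three]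

theorem tri : ∀ k : Pt7, k ≠ o₁ → k ≠ o₂ → ∃ x ∈ [
    (sl !![0, 0, 1; 1, 0, 0; 0, 1, 0], t, sl !![1, 0, 0; 0, 1, 0; 0, 1, 1]),
    (sl !![0, 0, 1; 1, 1, 1; 0, 1, 1], sl !![0, 1, 1; 1, 0, 1; 0, 0, 1],
      sl !![1, 0, 0; 0, 0, 1; 0, 1, 0]),
    (sl !![0, 1, 1; 1, 0, 1; 0, 1, 0], sl !![0, 1, 1; 1, 0, 1; 0, 0, 1], r), (u, t, r),
    (sl !![0, 1, 0; 1, 1, 0; 0, 1, 1], t, sl !![0, 0, 1; 1, 1, 1; 1, 0, 0])],
    (x.1 • o₁ = o₂ ∧ x.1 • o₂ = k ∧ x.1 • k = o₁ ∧ x.2.1 • o₁ = o₂ ∧ x.2.1 • o₂ = o₁ ∧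
      x.2.1 • k = k) ∧ x.1 ^ 3 = 1 ∧ x.1 ≠ 1 ∧ x.2.1 * x.1 * x.2.1⁻¹ = x.1⁻¹ ∧ x.2.2 * x.2.2 = 1 ∧
      x.2.2 ≠ 1 ∧ (x.2.2 * x.1) ^ 7 = 1 ∧ x.2.2 * x.1 ≠ 1 := by
  decide +kernel

theorem pows : ∀ j < 7, j = 0 ∨ ∃ k < 3, s ^ j = δ ^ k * s * (δ ^ k)⁻¹ ∨
    s ^ j = δ ^ k * s⁻¹ * (δ ^ k)⁻¹ := by
  decide +kernel

variable [IsSimpleGroup L3] (hc : Nat.card L3 = 168)
include hc

theorem gen {a b : L3} (a2 : a * a = 1) (a1 : a ≠ 1) (h3 : 3 ∣ Nat.card (Subgroup.closure {a, b}) ∨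
    2 ^ 2 ∣ Nat.card (Subgroup.closure {a, b})) (c7 : (a * b) ^ 7 = 1) (c1 : a * b ≠ 1) :
    Subgroup.closure {a, b} = ⊤ := by
  have m1 : a ∈ Subgroup.closure {a, b} := Subgroup.subset_closure (by simp)
  have m2 : b ∈ Subgroup.closure {a, b} := Subgroup.subset_closure (by simp)
  have k := prime_dvd (mul_mem m1 m2) (by norm_num) c7 c1
  rcases h3 with h3 | h3
  · exact top_of (d := 2 * 3 * 7) (m := 4) (Nat.Coprime.mul_dvd_of_dvd_of_dvd (by norm_num)
      (Nat.Coprime.mul_dvd_of_dvd_of_dvd (by norm_num)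
        (prime_dvd m1 (by norm_num) (by rwa [pow_two]) a1) h3) k) hc (by decide)
  · exact top_of (d := 2 ^ 2 * 7) (m := 6) (Nat.Coprime.mul_dvd_of_dvd_of_dvd (by norm_num) h3 k)
      hc (by decide)

end L3

variable {p : ℕ} {N : Subgroup (GW F)}

namespace Cx

open L3

theorem range168 [Fintype F] [IsSimpleGroup L3] {ρ : L3 →* GW F} (h : Cx p ρ N)
    (hF : Fintype.card F = 7) (hc : Nat.card L3 = 168) {n : GW F} (hn : n ∈ N) : ∃ γ, ρ γ = n := by
  have s7 : s ^ 7 = 1 := by decide +kernel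
  have s1 : s ≠ 1 := by decide +kernel
  have key : ∀ n ∈ N, n * ρ s * n⁻¹ = ρ s → ∃ γ, ρ γ = n := fun n hn e => by
    obtain ⟨t', ht⟩ := h.norm n hn t
    have k : ρ (t' * s) = n * ρ (t * s) * n⁻¹ := by
      rw [map_mul, map_mul, ht]; nth_rw 1 [← e]; group
    obtain ⟨c, -, c1, c2⟩ := invs t' (h.inj (by
        rw [map_mul, ht, conj_mul, ← map_mul, show t * t = 1 by decide +kernel]; simp))
      (fun e => (show t ≠ 1 by decide +kernel) (h.inj (by
        rw [e, map_one] at ht; simpa using ht.symm)))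
      (h.inj (by
        rw [map_pow, k, conj_pow, ← map_pow, show (t * s) ^ 3 = 1 by decide +kernel]; simp))
    refine ⟨c, inv_mul_eq_one.1 (h.cent (a := t * s) (b := s) (i := 3) (j := 7) ?_ (by decide)
      (by decide) (by decide +kernel) s7 (h.nom (mul_mem (inv_mem (h.le c)) hn)) ?_ ?_)⟩
    · have m1 : t * s ∈ Subgroup.closure {t * s, s} := Subgroup.subset_closure (by simp)
      have m2 : s ∈ Subgroup.closure {t * s, s} := Subgroup.subset_closure (by simp)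
      exact top_of (d := 2 * 3 * 7) (m := 4) (Nat.Coprime.mul_dvd_of_dvd_of_dvd (by norm_num)
        (Nat.Coprime.mul_dvd_of_dvd_of_dvd (by norm_num) (prime_dvd (mul_mem m1 (inv_mem m2))
          (by norm_num) (by decide +kernel) (by decide +kernel))
        (prime_dvd m1 (by norm_num) (by decide +kernel) (by decide +kernel)))
        (prime_dvd m2 (by norm_num) s7 s1)) hc (by decide)
    · calc _ = (ρ c)⁻¹ * (n * ρ (t * s) * n⁻¹) * ρ c := by group
        _ = ρ (c⁻¹ * (t' * (s * c))) := by rw [← k]; simp [mul_assoc]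
        _ = _ := by rw [← c2, ← mul_assoc t', ← c1]; simp [mul_assoc]
    · calc _ = (ρ c)⁻¹ * (n * ρ s * n⁻¹) * ρ c := by group
        _ = ρ (c⁻¹ * (s * c)) := by rw [e]; simp [mul_assoc]
        _ = _ := by rw [← c2]; simp
  obtain ⟨s', hs⟩ := h.norm n hn s
  obtain ⟨γ, j, hj, e⟩ := syl_conj (q := 7) (by norm_num) (by rw [hc]; decide) (g := s')
    (h.inj (by rw [map_pow, hs, conj_pow, ← map_pow, s7]; simp)) s7 s1
  have m : ∀ k : ℕ, (ρ (γ * δ ^ k))⁻¹ * n ∈ N := fun k => mul_mem (inv_mem (h.le _)) hn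
  have w : ∀ (k : ℕ) (x : L3), s ^ j = δ ^ k * x * (δ ^ k)⁻¹ →
      (ρ (γ * δ ^ k))⁻¹ * n * ρ s * ((ρ (γ * δ ^ k))⁻¹ * n)⁻¹ = ρ x := fun k x a => by
    calc _ = (ρ (γ * δ ^ k))⁻¹ * (n * ρ s * n⁻¹) * ρ (γ * δ ^ k) := by group
      _ = _ := by 
        rw [← hs, ← e, a, ← map_inv, ← map_mul, ← map_mul]; exact congrArg ρ (by group)
  rcases pows j hj with rfl | ⟨k, -, a | a⟩
  · rw [← e] at hs
    exact absurd (h.inj (by simpa using hs.symm)) s1
  · obtain ⟨x, hx⟩ := key _ (m k) (w k _ a)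
    exact ⟨γ * δ ^ k * x, by rw [map_mul ρ (γ * δ ^ k) x, hx, mul_inv_cancel_left]⟩
  · exact absurd (w k _ a) (h.not_real hF s7 s1 (h.nom (m k)))

theorem noL3 [Fintype F] [IsSimpleGroup L3] {ρ : L3 →* GW F} (h : Cx p ρ N)
    (hF : Fintype.card F = 7) (hc : Nat.card L3 = 168) : False := by
  have r2 : r * r = 1 := by decide +kernel
  have r1 : r ≠ 1 := by decide +kernel
  obtain ⟨G, hG⟩ := h.lift g
  have x0 := h.wp_ne (gen hc r2 r1 (Or.inr (ppow_dvd (g := g) (n := 1)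
    (Subgroup.subset_closure (by simp)) (by norm_num) (by decide +kernel) (by decide +kernel)))
    (by decide +kernel) (by decide +kernel)) r2 r1 hG
  have gx : g ∈ stb ρ (wp G) := hG.fix_wp h.two
  have vx : v ∈ stb ρ (wp G) := h.fix_wp_inv hG (by decide +kernel) (by decide +kernel)
    (by decide +kernel) (by decide +kernel)
  generalize wp G = x at x0 gx vx
  have k1 : ∀ M ∈ [1, v, g * g, v * (g * g)], ρ M x = x := by
    simp only [List.forall_mem_cons, List.not_mem_nil, IsEmpty.forall_iff, implies_true, and_true]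
    exact ⟨one_mem (stb ρ x), vx, mul_mem gx gx, mul_mem vx (mul_mem gx gx)⟩
  have k2 : ∀ a b c : L3, ρ c x = x → a * b = b * c → ρ a (ρ b x) = ρ b x := fun a b c e e' => by
    rw [← LinearEquiv.mul_apply, ← map_mul, e', map_mul, LinearEquiv.mul_apply, e]
  have tx : ρ t x = x := (show t = v * g by decide +kernel) ▸ mul_mem vx gx
  have d0 : ρ u x - ρ (u * u) x ≠ 0 := fun e => by
    obtain ⟨U, a, b⟩ := h.odd_lift (g := u) (n := 3) (by decide) (by decide +kernel)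
    obtain ⟨J, hJ⟩ := h.lift v
    have w0 := h.wp_ne (gen hc r2 r1 (Or.inl (prime_dvd (g := u) (Subgroup.subset_closure (by simp))
      (by norm_num) (by decide +kernel) (by decide +kernel))) (by decide +kernel)
      (by decide +kernel)) r2 r1 a
    obtain ⟨c, rfl⟩ := a.fix_line h.two w0 (y := x) ((ρ u).injective (by
      simpa using (sub_eq_zero.1 e).symm))
    have : ρ v (wp U) = wp U := smul_right_injective _ (left_ne_zero_of_smul x0) (by
      simpa using mem_stb.1 vx)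
    refine w0 (wp_of_comm h.two a.1 b (J := J) ?_ (h.inv_sq (h.lf_mul (h.lf_mul (h.lf_mul a hJ)
      (h.lf_inv a)) (h.lf_inv hJ)) (by decide +kernel) (by decide +kernel)))
    rw [tt_eq h.two a.1, mul_add, add_mul, hJ.fix_iff.1 this]; simp
  obtain ⟨y, hy⟩ := h.cocycle (o₁ := o₁) (o₂ := o₂) (d := ρ u x - ρ (u * u) x) (by decide) tr2
    (fun γ a b => by
      obtain ⟨c, c1, c2⟩ := (show ∀ γ ∈ [1, v, g * g, v * (g * g)], ∃ c ∈ [1, v, g * g, v * (g * g)],
        γ * u = u * c by decide +kernel) γ (stab γ a b)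
      obtain ⟨d, d1, d2⟩ := (show ∀ γ ∈ [1, v, g * g, v * (g * g)], ∃ c ∈ [1, v, g * g, v * (g * g)],
        γ * (u * u) = u * u * c by decide +kernel) γ (stab γ a b)
      rw [map_sub, k2 _ _ _ (k1 c c1) c2, k2 _ _ _ (k1 d d1) d2]) (t := t) (by decide +kernel)
    (by decide +kernel) (by
      have e : ∀ a b : L3, t * a = b * t → ρ t (ρ a x) = ρ b x := fun a b e => by
        rw [← LinearEquiv.mul_apply, ← map_mul, e, map_mul, LinearEquiv.mul_apply, tx]
      rw [map_sub, e u (u * u) (by decide +kernel), e (u * u) u (by decide +kernel), neg_sub])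
    fun k a b => by
      obtain ⟨x, -, ⟨a1, a2, a3, a4, a5, a6⟩, b1, b2, b3, b4, b5, b6, b7⟩ := tri k a b
      exact ⟨x.1, x.2.1, a1, a2, a3, a4, a5, a6, fun w => h.fix_of_fix (gen hc b4 b5 (Or.inl
        (prime_dvd (Subgroup.subset_closure (by simp)) (by norm_num) b1 b2)) b6 b7) b4 b5 b1 b3⟩
  generalize ρ u x - ρ (u * u) x = d at d0 hy
  have hQ : ∀ i j, i ≠ j → Q (y i - y j) = Q d := fun i j e => by
    obtain ⟨γ, rfl, rfl⟩ := tr2 i j e
    rw [← hy, Om_Q (h.om γ)]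
  have ac : ∀ (γ : L3) i j, ρ γ (y i - y j) = y (γ • i) - y (γ • j) := fun γ i j => by
    by_cases e : i = j
    · simp [e]
    obtain ⟨γ', rfl, rfl⟩ := tr2 i j e
    rw [← hy, ← mul_smul, ← mul_smul, ← hy]; simp
  have hq : ∀ i j, Q (y i - y j) = if i = j then 0 else Q d := fun i j => by
    split_ifs with e
    exacts [by simp [e], hQ i j e]
  have c0 : Q d ≠ 0 := fun c => d0 (h.perp_zero d0 fun γ => by
    have := hy 1
    rw [map_one, LinearEquiv.coe_one, id] at this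
    rw [hy γ, this, B_sub_sub]; simp [hq, c])
  obtain ⟨n, hn, e⟩ := h.eq3 y c0 hQ (by rw [hF]; decide +kernel) (fun n hn i j => by
      obtain ⟨γ, rfl⟩ := h.range168 hF hc hn
      exact ⟨_, _, ac γ i j⟩) (a := ⟨![1, 1, 0], by decide⟩) (b := ⟨![0, 0, 1], by decide⟩)
    (d := ⟨![1, 1, 1], by decide⟩) (by decide) (by decide)
  obtain ⟨γ, rfl⟩ := h.range168 hF hc hn
  have h7 : ∀ k : ℕ, k < 5 → k ≠ 0 → (k : F) * Q d ≠ 0 := fun k a b => mul_ne_zero (fun c => by
    have := (CharP.cast_eq_zero_iff F 7 (self := charP_of_card_eq_prime (hp := ⟨by norm_num⟩) hF)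
      k).1 c
    omega) c0
  have un : ∀ a b k l, a ≠ b → y a - y b = y k - y l → a = k := fun a b k l h1 h2 => by
    by_contra c
    have := B_sub_sub (y a) (y b) (y k) (y l)
    rw [← h2, B_self, hQ a b h1, hQ a k c, hq, hq, hq] at this
    split_ifs at this <;>
      first
      | (refine h7 1 (by omega) (by omega) ?_; push_cast; linear_combination this)
      | (refine h7 2 (by omega) (by omega) ?_; push_cast; linear_combination this)
      | (refine h7 3 (by omega) (by omega) ?_; push_cast; linear_combination this)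
      | (refine h7 4 (by omega) (by omega) ?_; push_cast; linear_combination this)
  have k : ∀ i j, i ≠ j → _ := fun i j a =>
    un _ _ _ _ (fun e => a (MulAction.injective γ e)) ((ac γ i j).symm.trans (e i j))
  have := stab γ ((k o₁ o₂ (by decide)).trans (by decide +kernel))
    ((k o₂ o₁ (by decide)).trans (by decide +kernel))
  have k3 := k ⟨![1, 1, 0], by decide⟩ o₁ (by decide)
  revert this k3
  generalize γ = γ
  intro a
  simp only [List.mem_cons, List.not_mem_nil, or_false] at a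
  rcases a with rfl | rfl | rfl | rfl <;> decide +kernel

theorem no168 [Fintype F] [Finite Γ] [IsSimpleGroup Γ] {ρ : Γ →* GW F} (h : Cx p ρ N)
    (hF : Fintype.card F = 7) (hc : Nat.card Γ = 168) : False := by
  obtain ⟨e⟩ := iso168 hc
  have := e.symm.isSimpleGroup
  exact (h.comp e).noL3 hF (by rw [← hc, Nat.card_congr e.toEquiv])

end Cx

end Cfsg.Agent.O5
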