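import Cfsg.Agent.O5.G4a
import Cfsg.Agent.O5.G5

/-!
Lemmas for the socle of order 168.
-/

set_option autoImplicit false
set_option linter.unusedSectionVars false

namespace Cfsg.Agent.O5

open Module Matrix H1.Spin5

variable {F : Type*} [Field F] {Γ : Type*} [Group Γ]

/-- a regular unipotent element conjugate to its inverse makes `-1` a square -/
theorem sq_of_real (h2 : (2 : F) ≠ 0) {A C : GL I4 F} (hA : A ∈ spGL 2 F) (hC : C ∈ spGL 2 F)
    {x : W F} (x0 : x ≠ 0) (qx : Q x = 0) (e : tt A = (2 : F) • 1 + ψ x) (hc : C * A * C⁻¹ = A⁻¹) :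
    IsSquare (-1 : F) := by
  have xx : ψ x * ψ x = 0 := by rw [ψ_mul_self, qx, zero_smul]
  have dd : (A.1 - (A⁻¹).1) * (A.1 - (A⁻¹).1) = (4 : F) • ψ x := by
    have : tt A * tt A = (4 : F) • ψ x + (4 : F) • 1 := by
      simp only [e, mul_add, add_mul, xx, smul_mul_assoc, mul_smul_comm, one_mul, mul_one]; module
    simp only [tt, mul_add, add_mul, mul_sub, sub_mul, Units.mul_inv, Units.inv_mul] at this ⊢
    linear_combination (norm := module) this
  have w := (wp_of h2 hA e).2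
  have dx : (A.1 - (A⁻¹).1) * ψ x = ψ x * (A.1 - (A⁻¹).1) := by
    rw [sub_mul, mul_sub, ← w, comm_wp h2 hA rfl, comm_wp h2 hA (M := (A⁻¹).1) (by simp)]
  have sk : Adj (A.1 - (A⁻¹).1) (-(A.1 - (A⁻¹).1)) :=
    ((Adj.sp hA).sub (Adj.sp hA).symm).cast (neg_sub _ _).symm
  have cd : C.1 * (A.1 - (A⁻¹).1) = -((A.1 - (A⁻¹).1) * C.1) := by
    have a : C * A = A⁻¹ * C := by rw [← hc]; simp
    have b : C * A⁻¹ = A * C := by 
      rw [mul_inv_eq_iff_eq_mul, mul_assoc, a, mul_inv_cancel_left]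
    simp only [mul_sub, sub_mul, ← Units.val_mul, a, b, neg_sub]
  have cx : C.1 * ψ x = ψ x * C.1 := by
    have := tt_conj C A
    rw [hc, tt_inv, e, eq_comm, Units.mul_inv_eq_iff_eq_mul] at this
    simpa [mul_add, add_mul] using this
  generalize A.1 - (A⁻¹).1 = D at *
  obtain ⟨y, hy⟩ : ∃ y, (D * ψ x) *ᵥ y ≠ 0 := by
    by_contra! hh
    have d1 : D * ψ x = 0 := mat_ext fun x => by rw [hh, zero_mulVec]
    obtain ⟨t, ht⟩ := H1.Sp4.exists_B h2 x0
    have := congrArg (fun X => D * X * D) (ψ_add_swap x t)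
    simp only [B_def, ht, one_smul, mul_one, dd, mul_add, add_mul, ← mul_assoc, d1,
      zero_mul] at this
    rw [mul_assoc, ← dx, d1, mul_zero, add_zero, eq_comm, smul_eq_zero] at this
    exact x0 (ψ_inj (this.resolve_left (four_ne h2)))
  have k0 : ∀ w, (D * ψ x) *ᵥ w ∈ LinearMap.ker (toLin' (ψ x)) := fun w => by
    rw [LinearMap.mem_ker, toLin'_apply, mulVec_mulVec, dx, ← mul_assoc, xx]; simp
  have k1 : ∀ w, D *ᵥ ((D * ψ x) *ᵥ w) = 0 := fun w => by
    rw [mulVec_mulVec, ← mul_assoc, dd, smul_mul_assoc, xx]; simp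
  obtain ⟨α, l, hl⟩ := H1.Sp4.span_two (H1.Sp4.finrank_ker_sing h2 x0 qx).le (a := ψ x *ᵥ y)
    (by rw [LinearMap.mem_ker, toLin'_apply, mulVec_mulVec, xx]; simp) (k0 y) hy
    (fun c e => hy (by rw [← mulVec_mulVec, e, mulVec_smul, k1, smul_zero])) (k0 (C.1 *ᵥ y))
  have α0 : α = 0 := by
    have := k1 (C.1 *ᵥ y)
    rw [hl, mulVec_add, mulVec_smul, mulVec_smul, k1, mulVec_mulVec] at this
    simpa [hy] using this
  have sy : ∀ u v, sympForm 2 F u ((D * ψ x) *ᵥ v) = sympForm 2 F v ((D * ψ x) *ᵥ u) := fun u v => by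
    rw [f_skew v, sk.mul (Adj.psi x), mul_neg, ← dx, neg_mulVec, H1.Sp4.f_neg', neg_neg]
  have b0 : sympForm 2 F y ((D * ψ x) *ᵥ y) ≠ 0 := fun c => hy (H1.Sp4.f_nd fun w => by
    obtain ⟨α, l, hl⟩ := H1.Sp4.span_two (H1.Sp4.finrank_ker_sing h2 x0 qx).le (a := ψ x *ᵥ y)
      (by rw [LinearMap.mem_ker, toLin'_apply, mulVec_mulVec, xx]; simp) (k0 y) hy
      (fun c e => hy (by rw [← mulVec_mulVec, e, mulVec_smul, k1, smul_zero])) (k0 w)
    have α0 : α = 0 := by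
      have := k1 w
      rw [hl, mulVec_add, mulVec_smul, mulVec_smul, k1, mulVec_mulVec] at this
      simpa [hy] using this
    rw [sy, hl, α0, zero_smul, zero_add, f_smul', c, mul_zero])
  rw [α0, zero_smul, zero_add] at hl
  have b1 := sy y (C.1 *ᵥ y)
  have b2 : sympForm 2 F (C.1 *ᵥ y) ((D * ψ x) *ᵥ C.1 *ᵥ y) = -sympForm 2 F y ((D * ψ x) *ᵥ y) := by
    rw [mulVec_mulVec, mul_assoc, ← cx, ← mul_assoc, ← neg_neg (D * C.1), ← cd, neg_mul,
      neg_mulVec, H1.Sp4.f_neg', mul_assoc, ← mulVec_mulVec, mem_sp.1 hC]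
  rw [hl, f_smul'] at b1 b2
  exact ⟨l, mul_right_cancel₀ b0 (by linear_combination -b2 - l * b1)⟩

theorem wp_of_comm (h2 : (2 : F) ≠ 0) {U J : GL I4 F} (hU : U ∈ spGL 2 F) (u3 : U ^ 3 = 1)
    (hJ : J.1 * tt U = tt U * J.1) (e : U * J * U⁻¹ * J⁻¹ * (U * J * U⁻¹ * J⁻¹) = -1) :
    wp U = 0 := by
  have e1 : U * U = U⁻¹ := eq_inv_of_mul_eq_one_left (by rw [← u3, pow_succ, pow_two])
  have a : U.1 * (tt U + 1) = tt U + 1 := by
    simp only [tt, mul_add, ← Units.val_mul, e1, mul_inv_cancel, Units.val_one, mul_one]; abel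
  have b : (U⁻¹).1 * (tt U + 1) = tt U + 1 := by rw [Units.inv_mul_eq_iff_eq_mul, a]
  have c : (J⁻¹).1 * (tt U + 1) = (tt U + 1) * (J⁻¹).1 := by
    rw [mul_add, add_mul, (Commute.units_inv_left hJ).eq]; simp
  have d : (U * J * U⁻¹ * J⁻¹).1 * (tt U + 1) = tt U + 1 := by
    simp only [Units.val_mul, mul_assoc, c]
    rw [← mul_assoc (U⁻¹).1, b, ← c, Units.mul_inv_cancel_left, a]
  have := congrArg (fun X : GL I4 F => X.1 * (tt U + 1)) e
  simp only [Units.val_mul _ (U * J * U⁻¹ * J⁻¹), mul_assoc _ _ (tt U + 1), d, Units.val_neg,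
    Units.val_one, neg_mul, one_mul] at this
  refine wp_of_sc h2 hU (c := -1) (smul_right_injective _ h2 ?_)
  linear_combination (norm := module) this

theorem B_sub_sub (a b c d : W F) :
    B (a - b) (c - d) = Q (a - d) + Q (b - c) - Q (a - c) - Q (b - d) := by
  simp only [Q_sub, map_sub, LinearMap.sub_apply]; ring

variable {p : ℕ} {ρ : Γ →* GW F} {N : Subgroup (GW F)}

namespace Cx

variable (h : Cx p ρ N)
include h

theorem not_real [Fintype F] (hF : Fintype.card F = 7) {s : Γ} (s7 : s ^ 7 = 1) (s1 : s ≠ 1)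
    {n : GW F} (hn : n ∈ Om F) : n * ρ s * n⁻¹ ≠ ρ s⁻¹ := fun e => by
  have := h.char
  have := Fact.mk h.prime
  obtain rfl : p = 7 := by
    obtain ⟨n, hp, hn⟩ := FiniteField.card F p
    exact (Nat.prime_dvd_prime_iff_eq hp (by norm_num)).1
      (hF ▸ hn ▸ dvd_pow_self p n.ne_zero)
  obtain ⟨A, a, a7⟩ := h.odd_lift (by decide) s7
  obtain ⟨C, c⟩ := mem_Om.1 hn
  have k := h.odd_unique (n := 7) (by decide) (h.lf_inv a) (e ▸ (c.mul a).mul c.inv)
    (by rw [inv_pow, a7, inv_one]) (by rw [conj_pow, a7]; simp)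
  have t := frob_trace h.ne2 a.1 1
  rw [pow_one, a7, ← hF, FiniteField.pow_card] at t
  have e1 := tt_eq h.two a.1
  rw [← t, show (1 : GL I4 F).1.trace / 2 = 2 by simp; field_simp [h.two]; norm_num] at e1
  have e2 : ψ (wp A) * A.1 = (A.1 - 1) * (A.1 - 1) := by
    have := congrArg (· * A.1) e1
    simp only [tt, add_mul, Units.inv_mul, smul_mul_assoc, one_mul, mul_sub, sub_mul,
      mul_one] at this ⊢
    linear_combination (norm := module) -this
  have x0 : wp A ≠ 0 := fun c => (h.ns s A a (by rw [← e2, c]; simp)).elim s1 (by simp)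
  have qx : Q (wp A) = 0 := by
    have := congrArg (· ^ 7) e2
    simp only [(show Commute (ψ (wp A)) A.1 from (comm_wp h.two a.1 rfl).symm).mul_pow,
      (Commute.refl _).mul_pow, sub_pow_char_of_commute _ (Commute.one_right A.1),
      ← Units.val_pow_eq_pow_val, a7, Units.val_one, one_pow, sub_self, mul_one, mul_zero] at this
    rw [pow_odd_of_sq (ψ_mul_self _) 3, smul_eq_zero] at this
    exact pow_eq_zero_iff (by norm_num) |>.1 (this.resolve_right fun c => x0 (ψ_inj c))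
  exact FiniteField.isSquare_neg_one_iff.1 (sq_of_real h.two a.1 c.1 x0 qx e1 k) (by rw [hF])

theorem cent {a b : Γ} (hS : Subgroup.closure {a, b} = ⊤) {i j : ℕ} (hi : Odd i) (hj : Odd j)
    (ha : a ^ i = 1) (hb : b ^ j = 1) {n : GW F} (hn : n ∈ Om F) (ea : n * ρ a * n⁻¹ = ρ a)
    (eb : n * ρ b * n⁻¹ = ρ b) : n = 1 := by
  obtain ⟨C, c⟩ := mem_Om.1 hn
  have k : ∀ (g : Γ) (i : ℕ), Odd i → g ^ i = 1 → n * ρ g * n⁻¹ = ρ g →
      ∃ A, Lf A (ρ g) ∧ A.1 * C.1 = C.1 * A.1 := fun g i hi hg e => by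
    obtain ⟨A, a, b⟩ := h.odd_lift hi hg
    exact ⟨A, a, congrArg Units.val (mul_inv_eq_iff_eq_mul.1 (h.odd_unique hi a
      (e ▸ (c.mul a).mul c.inv) b (by rw [conj_pow, b]; simp))).symm⟩
  obtain ⟨d, hd⟩ := h.schur hS (M := C.1) (by
    rintro g (rfl | rfl)
    exacts [k _ i hi ha ea, k _ j hj hb eb])
  exact c.unique ⟨c.1, fun x => by simp [hd]⟩

theorem fix_of_fix {u t t' : Γ} (hS : Subgroup.closure {t, u} = ⊤) (e : t * t = 1) (h1 : t ≠ 1)
    (u3 : u ^ 3 = 1) (ht : t' * u * t'⁻¹ = u⁻¹) {w : W F} (hw : ρ u w = w) : ρ t' w = w := by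
  obtain ⟨A, a, b⟩ := h.odd_lift (by decide) u3
  obtain ⟨c, rfl⟩ := a.fix_line h.two (h.wp_ne hS e h1 a) hw
  rw [map_smul, h.fix_wp_odd (by decide) a b ht]

theorem cocycle {I : Type*} [MulAction Γ I] {o₁ o₂ : I} (ho : o₁ ≠ o₂) {d : W F}
    (tr2 : ∀ i j, i ≠ j → ∃ γ : Γ, γ • o₁ = i ∧ γ • o₂ = j)
    (st : ∀ γ : Γ, γ • o₁ = o₁ → γ • o₂ = o₂ → ρ γ d = d) {t : Γ} (t1 : t • o₁ = o₂)
    (t2 : t • o₂ = o₁) (t3 : ρ t d = -d) (tri : ∀ k, k ≠ o₁ → k ≠ o₂ → ∃ u t : Γ, u • o₁ = o₂ ∧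
      u • o₂ = k ∧ u • k = o₁ ∧ t • o₁ = o₂ ∧ t • o₂ = o₁ ∧ t • k = k ∧ ∀ w, ρ u w = w → ρ t w = w) :
    ∃ y : I → W F, ∀ γ : Γ, ρ γ d = y (γ • o₁) - y (γ • o₂) := by
  classical
  choose! γ h1 h2 using tr2
  let D : I → I → W F := fun i j => if i = j then 0 else ρ (γ i j) d
  have e1 : ∀ g : Γ, D (g • o₁) (g • o₂) = ρ g d := fun g => by
    have : g • o₁ ≠ g • o₂ := fun e => ho (MulAction.injective g e)
    have k := st (g⁻¹ * γ (g • o₁) (g • o₂)) (by rw [mul_smul, h1 _ _ this, inv_smul_smul])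
      (by rw [mul_smul, h2 _ _ this, inv_smul_smul])
    simpa [D, this] using congrArg (ρ g) k
  have e2 : ∀ (g : Γ) i j, ρ g (D i j) = D (g • i) (g • j) := fun g i j => by
    by_cases c : i = j
    · simp [D, c]
    have := e1 (g * γ i j)
    rw [mul_smul, mul_smul, h1 i j c, h2 i j c] at this
    rw [this]; simp [D, c]
  have e3 : ∀ i j, D j i = -D i j := fun i j => by
    by_cases c : i = j
    · simp [D, c]
    have := e1 (γ i j * t)
    rw [mul_smul, mul_smul, t1, t2, h1 i j c, h2 i j c] at this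
    rw [this, map_mul, LinearEquiv.mul_apply, t3, map_neg]; simp [D, c]
  have e0 : ∀ i, D i i = 0 := fun i => by simp [D]
  have e4 : ∀ k, D o₁ o₂ + D o₂ k + D k o₁ = 0 := fun k => by
    by_cases c1 : k = o₁
    · rw [c1, e0, e3 o₁]; simp
    by_cases c2 : k = o₂
    · rw [c2, e0, e3 o₁]; simp
    obtain ⟨u, t, a1, a2, a3, b1, b2, b3, hw⟩ := tri k c1 c2
    have := hw (D o₁ o₂ + D o₂ k + D k o₁) (by
      simp only [map_add, e2, a1, a2, a3]; abel)
    simp only [map_add, e2, b1, b2, b3] at this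
    rw [e3 o₁ o₂, e3 k o₁, e3 o₂ k] at this
    refine smul_right_injective _ h.two ?_
    linear_combination (norm := module) -this
  refine ⟨fun i => D i o₁, fun g => ?_⟩
  have := congrArg (ρ g) (e4 (g⁻¹ • o₁))
  simp only [map_add, e2, smul_inv_smul, e1, map_zero] at this
  rw [e3 (g • o₁)] at this
  linear_combination (norm := module) this

end Cx

end Cfsg.Agent.O5
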